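import Cfsg.Agent.Lib.UMS.B2
import Cfsg.Agent.Lib.UMS.GEN
import Cfsg.Agent.Lib.LMS.B3

set_option autoImplicit false
set_option linter.unusedSectionVars false
set_option linter.unusedSimpArgs false

namespace UMS

open Subgroup H69 Cfsg Matrix U4S
open LMS (XX GX iL kk MM au tw Sg)
open scoped MatrixGroups commutatorElement

universe u
variable {G : Type*} [Group G] [Finite G] {F : Type u} [Field F] [CharP F 2] [Fintype F] [Hs F] {n : ℕ} [Ok n F]
  {ι ψ χ : XU n F →* G} {t : G} {E : Subgroup G}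

local notation "X" => XU n F
local notation "V" => VV n F
local notation "𝐪" => Nat.card (K0 F)
local notation "I" => Fin (n + 3)
local notation "Mx" => Matrix (Fin (n + 3)) (Fin (n + 3)) F

namespace B3

theorem r0 : (0 : I).rev = iL := by ext; simp [iL]
theorem rL : (iL : I).rev = 0 := by ext; simp [iL]
theorem n0L : (0 : I) ≠ iL := by
  intro h; have := congrArg Fin.val h; simp [iL] at this
theorem ee_ap (i j : I) : (ee i : V) j = if j = i then 1 else 0 := by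
  simp [ee, Pi.single_apply]
theorem e00 : (ee 0 : V) 0 = 1 := by rw [ee_ap, if_pos rfl]
theorem e0L : (ee 0 : V) iL = 0 := by rw [ee_ap, if_neg n0L.symm]
theorem eL0 : (ee iL : V) 0 = 0 := by rw [ee_ap, if_neg n0L]
theorem eLL : (ee iL : V) iL = 1 := by rw [ee_ap, if_pos rfl]
theorem b0 (u : V) : bt u (ee 0) = u iL := by rw [bt_ee, r0]
theorem bL (u : V) : bt u (ee iL) = u 0 := by rw [bt_ee, rL]
theorem b0' (u : V) : bt (ee 0) u = σ (u iL) := by rw [ee_bt, r0]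
theorem bL' (u : V) : bt (ee iL) u = σ (u 0) := by rw [ee_bt, rL]
theorem b00 : bt (ee 0 : V) (ee 0) = 0 := by rw [b0, e0L]
theorem ac_ee (x : X) (a j : I) : ac x (ee j) a = x.1.1 a j := by
  simp [ac, ee]
theorem one_ee (a j : I) : (1 : Mx) a j = (ee j : V) a := by
  rw [ee_ap, one_apply]
theorem two (a : F) : a + a = 0 := CharTwo.add_self_eq_zero a
theorem ac_inv (x : X) (v : V) : ac x⁻¹ (ac x v) = v := by rw [← ac_mul, inv_mul_cancel, ac_one]
theorem ac_inv' (x : X) (v : V) : ac x (ac x⁻¹ v) = v := by rw [← ac_mul, mul_inv_cancel, ac_one]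
theorem cv_ap (x : X) {j : I} (h : j ≠ 0) (k : j ≠ iL) : cv x j = ac x (ee iL) j := by
  rw [ac_ee]; simp [cv, h, k]
theorem cv0 (x : X) : cv x 0 = 0 := by simp [cv]
theorem cvL (x : X) : cv x iL = 0 := by simp [cv]

theorem q0 {x : X} (hx : x ∈ QQ n F) : ac x (ee 0) = ee 0 := by
  funext a
  rw [ac_ee, ← one_ee]
  refine mem_QQ.1 hx a 0 ?_
  by_cases h : a = 0
  · exact Or.inr h
  · exact Or.inl ⟨h, n0L⟩

theorem qL {x : X} (hx : x ∈ QQ n F) : ac x (ee iL) = ee iL + cv x + x.1.1 0 iL • ee 0 := by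
  funext a
  simp only [Pi.add_apply, Pi.smul_apply, smul_eq_mul]
  by_cases h : a = 0
  · subst h; rw [ac_ee, eL0, cv0, e00]; ring
  · by_cases k : a = iL
    · subst k
      rw [ac_ee, mem_QQ.1 hx iL iL (Or.inr rfl), one_apply_eq, eLL, cvL, e0L]; ring
    · rw [cv_ap x h k, ee_ap iL a, if_neg k, ee_ap 0 a, if_neg h]; ring

theorem q1 {x : X} (hx : x ∈ QQ n F) {v : V} (h : v iL = 0) : ∃ s : F, ac x v = v + s • ee 0 := by
  refine ⟨ac x v 0 + v 0, funext fun a => ?_⟩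
  simp only [Pi.add_apply, Pi.smul_apply, smul_eq_mul]
  by_cases k : a = 0
  · subst k; rw [e00]; linear_combination (-1 : F) * two (v 0)
  · rw [ee_ap 0 a, if_neg k, mul_zero, add_zero]
    have : ac x v a = ((1 : Mx) *ᵥ v) a := by
      change ∑ b, x.1.1 a b * v b = ∑ b, (1 : Mx) a b * v b
      refine Finset.sum_congr rfl fun b _ => ?_
      by_cases e : b = iL
      · rw [e, h, mul_zero, mul_zero]
      · rw [mem_QQ.1 hx a b (Or.inl ⟨k, e⟩)]
    rw [this, one_mulVec]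

theorem q2 {x : X} (hx : x ∈ QQ n F) {v : V} (h : v iL = 0) : ac x v = v + bt v (cv x) • ee 0 := by
  obtain ⟨s, hs⟩ := q1 hx h
  have e := bt_ac x v (ee iL)
  rw [hs, qL hx] at e
  simp only [bt_add_left, bt_add_right, bt_smul_left, bt_smul_right, b0, bL, b0', cvL, h, e00, e0L, map_zero,
    Pi.add_apply, Pi.smul_apply, smul_eq_mul] at e
  have : s = bt v (cv x) := by linear_combination e - two (bt v (cv x))
  rw [hs, this]

theorem qA {x : X} (hx : x ∈ QQ n F) (v : V) :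
    ac x v = v + (bt v (cv x) + v iL * x.1.1 0 iL) • ee 0 + v iL • cv x := by
  have h : (v - v iL • ee iL : V) iL = 0 := by
    simp only [Pi.sub_apply, Pi.smul_apply, smul_eq_mul, eLL]; ring
  have e : v = (v - v iL • ee iL) + v iL • ee iL := by abel
  have k : bt v (cv x) = bt (v - v iL • ee iL) (cv x) := by
    conv_lhs => rw [e]
    rw [bt_add_left, bt_smul_left, bL', cv0, map_zero, mul_zero, add_zero]
  conv_lhs => rw [e]
  rw [ac_add, ac_smul, q2 hx h, qL hx, ← k]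
  module

theorem qN {x : X} (hx : x ∈ QQ n F) : x.1.1 0 iL + σ (x.1.1 0 iL) = bt (cv x) (cv x) := by
  have e := bt_ac x (ee iL) (ee iL)
  rw [qL hx] at e
  simp only [bt_add_left, bt_add_right, bt_smul_left, bt_smul_right, b0, bL, b0', bL', cvL, cv0, e00, e0L, eL0, eLL,
    map_zero, Pi.add_apply, Pi.smul_apply, smul_eq_mul] at e
  linear_combination e - two (bt (cv x) (cv x))

theorem qext {x y : X} (hx : x ∈ QQ n F) (hy : y ∈ QQ n F) (h : cv x = cv y) (k : x.1.1 0 iL = y.1.1 0 iL) :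
    x = y := ac_ext fun v => by rw [qA hx, qA hy, h, k]

theorem qM {x y : X} (hx : x ∈ QQ n F) (hy : y ∈ QQ n F) : ac (x * y) (ee iL) =
    ee iL + (cv x + cv y) + (x.1.1 0 iL + y.1.1 0 iL + bt (cv y) (cv x)) • ee 0 := by
  rw [ac_mul, qL hy, ac_add, ac_add, ac_smul, q0 hx, qL hx, q2 hx (cvL y)]
  module

theorem qM0 {x y : X} (hx : x ∈ QQ n F) (hy : y ∈ QQ n F) :
    (x * y).1.1 0 iL = x.1.1 0 iL + y.1.1 0 iL + bt (cv y) (cv x) := by
  rw [← ac_ee, qM hx hy]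
  simp only [Pi.add_apply, Pi.smul_apply, smul_eq_mul, cv0, e00, eL0]; ring

theorem qiff {x : X} (h : ∀ v : V, v iL = 0 → ∃ a : F, ac x v = v + a • ee 0 ∧ (v = ee 0 → a = 0)) :
    x ∈ QQ n F := by
  have h0 : ac x (ee 0) = ee 0 := by
    obtain ⟨a, e, k⟩ := h (ee 0) e0L
    rw [e, k rfl, zero_smul, add_zero]
  have h1 : ∀ a b : I, a ≠ 0 → b ≠ iL → x.1.1 a b = (1 : Mx) a b := fun a b ha hb => by
    obtain ⟨s, e, -⟩ := h (ee b) (by rw [ee_ap, if_neg hb.symm])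
    rw [← ac_ee, e, one_ee]
    simp only [Pi.add_apply, Pi.smul_apply, smul_eq_mul]
    rw [ee_ap 0 a, if_neg ha, mul_zero, add_zero]
  refine mem_QQ.2 fun a b k => ?_
  rcases k with ⟨ha, hb⟩ | rfl
  · exact h1 a b ha hb
  · by_cases ha : a = 0
    · subst ha; rw [← ac_ee, h0, one_ee]
    · by_cases hb : a = iL
      · subst hb
        have e := bt_ac x (ee iL) (ee 0)
        rw [h0, b0, b0, ac_ee] at e
        rw [e, one_ee]
      · exact h1 a a ha hb

theorem ac_zz (c : K0 F) (v : V) : ac (zz c : X) v = v + ((c : F) * v iL) • ee 0 := by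
  rw [zz, ac_tc b00, b0]

theorem zzQ (c : K0 F) : (zz c : X) ∈ QQ n F :=
  qiff fun v h => ⟨0, by rw [ac_zz, h, mul_zero], fun _ => rfl⟩

theorem cv_eq {x : X} {w : V} (h : Mi w) {s : F} (k : ac x (ee iL) = ee iL + w + s • ee 0) : cv x = w := by
  funext j
  by_cases h0 : j = 0
  · rw [h0, cv0, h.1]
  · by_cases hL : j = iL
    · rw [hL, cvL, h.2]
    · rw [cv_ap x h0 hL, k]
      simp only [Pi.add_apply, Pi.smul_apply, smul_eq_mul]
      rw [ee_ap iL j, if_neg hL, ee_ap 0 j, if_neg h0]; ring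

theorem cv_zz (c : K0 F) : cv (zz c : X) = 0 :=
  cv_eq (s := (c : F) * (ee iL : V) iL) ⟨rfl, rfl⟩ (by rw [ac_zz, add_zero])

theorem zz0 (c : K0 F) : (zz c : X).1.1 0 iL = c := by
  rw [← ac_ee, ac_zz]
  simp only [Pi.add_apply, Pi.smul_apply, smul_eq_mul, e00, eL0, eLL]; ring

theorem bz (v : V) : bt (0 : V) v = 0 := by
  have := bt_smul_left (0 : F) (0 : V) v
  rwa [zero_smul, zero_mul] at this

theorem nQ {p : X} {a : F} (h : ac p (ee 0) = a • ee 0) : p ∈ 𝐍(QQ n F) := by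
  refine mem_normalizer_of_cj_le fun y hy => ?_
  obtain ⟨x, hx, rfl⟩ := mem_cj'.1 hy
  refine qiff fun v hv => ?_
  have k : ac p⁻¹ v iL = 0 := by
    have e := bt_ac p (ac p⁻¹ v) (ee 0)
    rw [ac_inv', h, bt_smul_right, b0, b0, hv, mul_zero] at e
    exact e.symm
  refine ⟨bt (ac p⁻¹ v) (cv x) * a, ?_, ?_⟩
  · rw [ac_mul, ac_mul, q2 hx k, ac_add, ac_smul, ac_inv', h, smul_smul]
  · rintro rfl
    have e : a • ac p⁻¹ (ee 0) = (ee 0 : V) := by rw [← ac_smul, ← h, ac_inv]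
    rw [mul_comm, ← bt_smul_left, e, b0', cvL, map_zero]

end B3

open B3

theorem mem_PP {x : X} : x ∈ PP n F ↔ ac x (ee 0) = ee 0 := by
  rw [PP, mem_St]; simp

theorem cv_mi (x : X) : Mi (cv x) := ⟨cv0 x, cvL x⟩

theorem cv_mul {x y : X} (hx : x ∈ QQ n F) (hy : y ∈ QQ n F) : cv (x * y) = cv x + cv y :=
  cv_eq ⟨by rw [Pi.add_apply, cv0, cv0, add_zero], by rw [Pi.add_apply, cvL, cvL, add_zero]⟩ (qM hx hy)

theorem cv_surj {w : V} (h : Mi w) : ∃ x ∈ QQ n F, cv x = w := by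
  obtain ⟨c, hc⟩ := tr_surj (⟨bt w w, mem_K0.2 (bt_symm w w).symm⟩ : K0 F)
  have hc' : c + σ c = bt w w := hc
  have hM : ∀ v : V, (1 + hm w (ee 0) + hm (ee 0) (w + c • ee 0)) *ᵥ v =
      v + v iL • w + (bt v w + σ c * v iL) • ee 0 := fun v => by
    rw [add_mulVec, add_mulVec, one_mulVec, hm_vec, hm_vec, bt_add_right, bt_smul_right, b0]
  have hd : (1 + hm w (ee 0) + hm (ee 0) (w + c • ee 0) : Mx).det = 1 := by
    have e : (1 + hm w (ee 0) + hm (ee 0) (w + c • ee 0) : Mx) =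
        (1 + hm w (ee 0)) * (1 + hm (ee 0) (w + c • ee 0)) := by
      rw [add_mul, mul_add, mul_add, hm_mul, b00, zero_smul]; simp only [one_mul, mul_one, add_zero]; abel
    have k1 : bt w (ee 0) = 0 := by rw [b0, h.2]
    have k2 : bt (ee 0) (w + c • ee 0) = 0 := by
      rw [bt_add_right, bt_smul_right, b00, b0', h.2, map_zero, mul_zero, add_zero]
    rw [e, det_mul, ← mx_hm k1, ← mx_hm k2, (mx _ : XX n F).2, (mx _ : XX n F).2, mul_one]
  have hv := mk_val hd fun u v => by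
    rw [hM, hM]
    simp only [bt_add_left, bt_add_right, bt_smul_left, bt_smul_right, b0, b0', h.2, e0L, map_zero, map_add, map_mul,
      sg_sg, ← bt_symm, Pi.add_apply, Pi.smul_apply, smul_eq_mul]
    linear_combination (-(u iL * σ (v iL))) * hc' + two (u iL * bt w v) + two (σ (v iL) * bt u w) +
      two (u iL * σ (v iL) * (c + σ c))
  have ha : ∀ v : V, ac (mk (1 + hm w (ee 0) + hm (ee 0) (w + c • ee 0)) : X) v =
      v + v iL • w + (bt v w + σ c * v iL) • ee 0 := fun v => by rw [ac, hv, hM]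
  refine ⟨mk (1 + hm w (ee 0) + hm (ee 0) (w + c • ee 0)), qiff fun v k => ⟨bt v w, ?_, ?_⟩, cv_eq h (s := bt (ee iL) w + σ c * 1) ?_⟩
  · rw [ha, k, zero_smul, mul_zero, add_zero, add_zero]
  · rintro rfl; rw [b0', h.2, map_zero]
  · rw [ha, eLL, one_smul]

theorem cv_ker {x : X} (hx : x ∈ QQ n F) : cv x = 0 ↔ x ∈ ZZ n F := by
  rw [mem_ZZ]
  constructor
  · intro h
    have e := qN hx
    rw [h, bz] at e
    have k : σ (x.1.1 0 iL) = x.1.1 0 iL := by linear_combination e - two (x.1.1 0 iL)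
    exact ⟨⟨_, mem_K0.2 k⟩, qext hx (zzQ _) (by rw [h, cv_zz]) (by rw [zz0])⟩
  · rintro ⟨c, rfl⟩; exact cv_zz c

theorem ac_QQ {x : X} (hx : x ∈ QQ n F) {v : V} (h : v iL = 0) : ac x v = v + bt v (cv x) • ee 0 := q2 hx h

theorem comm_QQ {x y : X} (hx : x ∈ QQ n F) (hy : y ∈ QQ n F) :
    ∃ c : K0 F, (c : F) = bt (cv x) (cv y) + σ (bt (cv x) (cv y)) ∧ x * y = y * x * zz c := by
  refine ⟨⟨bt (cv x) (cv y) + σ (bt (cv x) (cv y)), mem_K0.2 (by rw [map_add, sg_sg, add_comm])⟩, rfl, ?_⟩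
  refine qext (mul_mem hx hy) (mul_mem (mul_mem hy hx) (zzQ _)) ?_ ?_
  · rw [cv_mul (mul_mem hy hx) (zzQ _), cv_mul hx hy, cv_mul hy hx, cv_zz, add_zero, add_comm]
  · rw [qM0 (mul_mem hy hx) (zzQ _), qM0 hx hy, qM0 hy hx, cv_zz, bz, zz0, bt_symm (cv x) (cv y)]
    linear_combination (-1 : F) * two (bt (cv x) (cv y))

theorem sq_QQ {x : X} (hx : x ∈ QQ n F) : ∃ c : K0 F, (c : F) = bt (cv x) (cv x) ∧ x * x = zz c := by
  refine ⟨⟨bt (cv x) (cv x), mem_K0.2 (bt_symm _ _).symm⟩, rfl, ?_⟩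
  refine qext (mul_mem hx hx) (zzQ _) ?_ ?_
  · rw [cv_mul hx hx, cv_zz]; funext j; exact two _
  · rw [qM0 hx hx, zz0, two, zero_add]

theorem cv_cj {p x : X} (hp : p ∈ PP n F) (hx : x ∈ QQ n F) {j : I} (h : j ≠ 0) :
    cv (p * x * p⁻¹) j = ac p (cv x) j := by
  have h0 := mem_PP.1 hp
  by_cases k : j = iL
  · have e := bt_ac p (cv x) (ee 0)
    rw [h0, b0, b0, cvL] at e
    rw [k, cvL, e]
  · have e := bt_ac p (ac p⁻¹ (ee iL)) (ee 0)
    rw [ac_inv', h0, b0, b0, eLL] at e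
    rw [cv_ap _ h k, ac_mul, ac_mul, qA hx, ac_add, ac_add, ac_smul, ac_smul, ac_inv', h0, ← e]
    simp only [Pi.add_apply, Pi.smul_apply, smul_eq_mul]
    rw [ee_ap iL j, if_neg k, ee_ap 0 j, if_neg h]; ring

theorem sh_QQ {w : V} (h : Mi w) (k : bt w w = 0) : sh (ee 0) w ∈ QQ n F ∧ cv (sh (ee 0) w) = w := by
  have e : bt (ee 0) w = 0 := by rw [b0', h.2, map_zero]
  refine ⟨qiff fun v hv => ⟨bt v w, ?_, ?_⟩, cv_eq h (s := bt (ee iL) w) ?_⟩
  · rw [ac_sh b00 k e, b0, hv, zero_smul, add_zero]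
  · rintro rfl; exact e
  · rw [ac_sh b00 k e, b0, eLL, one_smul]; abel

theorem QQ_iff {x : X} : x ∈ QQ n F ↔ ∀ v : V, v iL = 0 → ∃ a : F, ac x v = v + a • ee 0 ∧ (v = ee 0 → a = 0) :=
  ⟨fun hx v h => ⟨_, q2 hx h, by rintro rfl; rw [b0', cvL, map_zero]⟩, qiff⟩

theorem QQ_le : QQ n F ≤ PP n F := fun _ hx => mem_PP.2 (q0 hx)

theorem PP_nQ : PP n F ≤ 𝐍(QQ n F) := fun _ hx => nQ (a := 1) (by rw [mem_PP.1 hx, one_smul])

theorem PP_cen {x : X} (hx : x ∈ PP n F) (c : K0 F) : x * zz c = zz c * x := by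
  have e := tc_cj (b00 (n := n) (F := F)) c x
  rw [mem_PP.1 hx] at e
  exact mul_inv_eq_iff_eq_mul.1 e

theorem B3.QU : QQ n F ≤ UU n F := fun x hx => mem_UU.2 fun i j h => mem_QQ.1 hx i j <| by
  rcases h.eq_or_lt with e | e
  · exact Or.inr e.symm
  · exact Or.inl ⟨(lt_of_le_of_lt (Fin.zero_le _) e).ne', (lt_of_lt_of_le e (Fin.le_last _)).ne⟩

theorem isP_QQ : IsPGroup 2 (QQ n F) := isP_UU.to_le B3.QU

theorem UU_le : UU n F ≤ PP n F := fun x hx => mem_PP.2 <| funext fun a => by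
  rw [ac_ee, ← one_ee]; exact mem_UU.1 hx a 0 (Fin.zero_le _)

theorem QQ_le_UU : QQ n F ≤ UU n F := B3.QU

theorem ZZ_le_QQ : ZZ n F ≤ QQ n F := fun x hx => by
  obtain ⟨c, rfl⟩ := mem_ZZ.1 hx; exact zzQ c

theorem cz_iff {x : X} {c : K0 F} (hc : c ≠ 0) : x * zz c = zz c * x ↔ ∃ a : F, nm a = 1 ∧ ac x (ee 0) = a • ee 0 := by
  have e := tc_cj (b00 (n := n) (F := F)) c x
  constructor
  · intro h
    have k : tc (ac x (ee 0)) c = zz c := by rw [← e]; exact mul_inv_eq_iff_eq_mul.2 h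
    have hu : bt (ac x (ee 0)) (ac x (ee 0)) = 0 := by rw [bt_ac, b00]
    have h1 := ac_tc hu c (ee iL)
    rw [k, ac_zz, eLL, mul_one, bL', add_right_inj] at h1
    have hc' : (c : F) ≠ 0 := fun q => hc (Subtype.ext q)
    have h2 : (ee 0 : V) = σ (ac x (ee 0) 0) • ac x (ee 0) := by
      rw [mul_smul] at h1
      exact smul_right_injective _ hc' h1
    have h3 : ac x (ee 0) 0 * σ (ac x (ee 0) 0) = 1 := by
      have := congrFun h2 0
      rw [e00, Pi.smul_apply, smul_eq_mul] at this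
      rw [mul_comm]; exact this.symm
    refine ⟨ac x (ee 0) 0, Subtype.ext h3, ?_⟩
    generalize ac x (ee 0) = u at h2 h3 ⊢
    rw [h2, smul_smul, h3, one_smul]
  · rintro ⟨a, ha, h⟩
    rw [h, tc_smul, ha, one_mul] at e
    exact mul_inv_eq_iff_eq_mul.1 e

theorem inv_PP {x : X} (x2 : P2 x) (c : x * zz (1 : K0 F) = zz (1 : K0 F) * x) : x ∈ PP n F := by
  obtain ⟨a, -, h⟩ := (cz_iff one_ne_zero).1 c
  obtain ⟨j, hj⟩ := x2
  have k : ∀ m : ℕ, ac (x ^ m) (ee 0) = a ^ m • ee 0 := fun m => by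
    induction m with
    | zero => rw [pow_zero, pow_zero, ac_one, one_smul]
    | succ m ih => rw [pow_succ', ac_mul, ih, ac_smul, h, smul_smul, pow_succ]
  have e := congrFun (k (2 ^ j)) 0
  rw [hj, ac_one, Pi.smul_apply, e00, smul_eq_mul, mul_one] at e
  have e1 : (a - 1) ^ 2 ^ j = 0 := by rw [sub_pow_char_pow, one_pow, ← e, sub_self]
  have e2 : a = 1 := sub_eq_zero.1 (pow_eq_zero_iff (by positivity) |>.1 e1)
  exact mem_PP.2 (by rw [h, e2, one_smul])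

theorem cz_nQ {x : X} {c : K0 F} (hc : c ≠ 0) (h : x * zz c = zz c * x) : x ∈ 𝐍(QQ n F) := by
  obtain ⟨a, -, k⟩ := (cz_iff hc).1 h
  exact nQ k

theorem PP_cc {x : X} (hx : x ∈ PP n F) (c : x ∈ center _) : x = 1 := by
  obtain ⟨a, ha⟩ := cen_iff.1 c
  have k : ∀ v : V, ac x v = a • v := fun v => by rw [ac, ha, smul_mulVec, one_mulVec]
  have e := congrFun (mem_PP.1 hx) 0
  rw [k, Pi.smul_apply, e00, smul_eq_mul, mul_one] at e
  exact ac_ext fun v => by rw [k, e, one_smul, ac_one]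

end UMS
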