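import Cfsg.Agent.Lib.UMS.B4
import Cfsg.Agent.Lib.UMS.B3
import Cfsg.Agent.Lib.LMS.B5
import Cfsg.Agent.S2692
import Cfsg.Agent.Lib.UMS.Au77

set_option autoImplicit false
set_option linter.unusedSectionVars false

namespace UMS

open Subgroup H69 Cfsg Matrix U4S
open LMS (XX GX iL kk MM au tw Sg)
open scoped MatrixGroups commutatorElement

universe u
variable {G : Type*} [Group G] [Finite G] {F : Type u} [Field F] [CharP F 2] [Fintype F] [Hs F] {n : ℕ} [Ok n F]
  {ι ψ χ : XU n F →* G} {t : G} {E : Subgroup G}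

local notation "X" => XU n F
local notation "V" => VV n F
local notation "𝐪" => Nat.card (K0 F)
local notation "I" => Fin (n + 3)
local notation "Mx" => Matrix (Fin (n + 3)) (Fin (n + 3)) F

namespace AU45

/-- the semilinear map -/
def T (g : GX n F) (φ : RingAut F) (v : V) : V := g.1 *ᵥ fun i => φ (v i)

theorem T_add (g : GX n F) (φ : RingAut F) (u v : V) : T g φ (u + v) = T g φ u + T g φ v := by
  unfold T
  rw [← mulVec_add]
  congr 1
  funext i
  exact map_add φ _ _

theorem T_sub (g : GX n F) (φ : RingAut F) (u v : V) : T g φ (u - v) = T g φ u - T g φ v :=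
  eq_sub_of_add_eq (by rw [← T_add, sub_add_cancel])

theorem T_smul (g : GX n F) (φ : RingAut F) (a : F) (v : V) : T g φ (a • v) = φ a • T g φ v := by
  unfold T
  rw [← mulVec_smul]
  congr 1
  funext i
  exact map_mul φ _ _

theorem T_T (g : GX n F) (φ : RingAut F) (v : V) : T g φ (fun i => φ.symm (((g⁻¹).1 *ᵥ v) i)) = v := by
  unfold T
  simp only [RingEquiv.apply_symm_apply]
  change g.1 *ᵥ ((g⁻¹).1 *ᵥ v) = v
  rw [mulVec_mulVec, Units.mul_inv, one_mulVec]

theorem T_surj (g : GX n F) (φ : RingAut F) : Function.Surjective (T g φ) := fun v => ⟨_, T_T g φ v⟩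

theorem T_inj (g : GX n F) (φ : RingAut F) : Function.Injective (T g φ) :=
  Finite.injective_iff_surjective.2 (T_surj g φ)

theorem bt_map (φ : RingAut F) (u v : V) : bt (fun i => φ (u i)) (fun i => φ (v i)) = φ (bt u v) := by
  unfold bt
  rw [map_sum]
  refine Finset.sum_congr rfl fun j _ => ?_
  rw [map_mul]
  exact congrArg _ (DFunLike.congr_fun (LMS.aut_comm' σ φ) _)

theorem bt_T {g : GX n F} (h : H12.ad g.1 * g.1 = 1) (φ : RingAut F) (u v : V) :
    bt (T g φ u) (T g φ v) = φ (bt u v) := by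
  unfold T
  rw [H12.bt_ad, mulVec_mulVec, h, one_mulVec, bt_map]

theorem ac_T {α : X →* X} {g : GX n F} {φ : RingAut F} (h : ∀ x, (α x).1 = au g φ false x.1) (x : X) (v : V) :
    ac (α x) (T g φ v) = T g φ (ac x v) := by
  unfold ac T
  rw [h, LMS.au_false, gc_val, fr_val, mulVec_mulVec, mul_assoc, Units.inv_mul, mul_one, ← mulVec_mulVec]
  congr 1
  funext i
  exact (RingHom.map_mulVec (φ : F →+* F) x.1.1 v i).symm

/-- the image of a subspace -/
def im (g : GX n F) (φ : RingAut F) (W : Submodule F V) : Submodule F V where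
  carrier := T g φ '' W
  add_mem' := by
    rintro _ _ ⟨u, hu, rfl⟩ ⟨v, hv, rfl⟩
    exact ⟨u + v, W.add_mem hu hv, T_add g φ u v⟩
  zero_mem' := ⟨0, W.zero_mem, by rw [← zero_smul F (0 : V), T_smul, map_zero, zero_smul, zero_smul]⟩
  smul_mem' := by
    rintro a _ ⟨u, hu, rfl⟩
    exact ⟨φ.symm a • u, W.smul_mem _ hu, by rw [T_smul, RingEquiv.apply_symm_apply]⟩

theorem mem_im (g : GX n F) (φ : RingAut F) (W : Submodule F V) (v : V) : T g φ v ∈ im g φ W ↔ v ∈ W :=
  (T_inj g φ).mem_set_image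

theorem rk_im (g : GX n F) (φ : RingAut F) (W : Submodule F V) :
    Module.finrank F (im g φ W) = Module.finrank F W := by
  have e : Nat.card (im g φ W) = Nat.card W := Nat.card_image_of_injective (T_inj g φ) (W : Set V)
  have e1 : Nat.card (im g φ W) = Nat.card F ^ Module.finrank F (im g φ W) := Module.natCard_eq_pow_finrank
  have e2 : Nat.card W = Nat.card F ^ Module.finrank F W := Module.natCard_eq_pow_finrank
  rw [e1, e2] at e
  exact Nat.pow_right_injective (Finite.one_lt_card (α := F)) e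

theorem bee (i j : I) : bt (ee i : V) (ee j) = if i = j.rev then 1 else 0 := by
  rw [H12.bt_ee_r, ee, Pi.single_apply]
  exact if_congr eq_comm rfl rfl

theorem is0 : Is (ee 0 : V) :=
  ⟨by rw [bee, if_neg H77.i0], fun e => by simpa [ee] using congrFun e 0⟩

end AU45

open AU45

theorem Au.comp {α β : X →* X} {φ φ' : RingAut F} (h : Au α φ) (k : Au β φ') : Au (α.comp β) (φ * φ') := by
  exact H77.au_comp h k

theorem Au.uniq {α : X →* X} {φ φ' : RingAut F} (h : Au α φ) (k : Au α φ') : φ = φ' := by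
  exact H77.au_uniq h k

theorem Au.bij {α : X →* X} {φ : RingAut F} (h : Au α φ) : Function.Bijective α := by
  exact H77.au_bij h

theorem Au.rk {α : X →* X} {φ : RingAut F} (h : Au α φ) (x : X) : rk (α x) = rk x := by
  obtain ⟨g, hg⟩ := h
  unfold UMS.rk
  rw [hg, LMS.rk_au]

theorem Au.form {α : X →* X} {φ : RingAut F} (h : Au α φ) : ∃ (g : GX n F) (μ : K0 F), μ ≠ 0 ∧
    (∀ x, (α x).1 = au g φ false x.1) ∧ ∀ u v : V, bt (g.1 *ᵥ fun i => φ (u i)) (g.1 *ᵥ fun i => φ (v i)) = μ * φ (bt u v) := by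
  obtain ⟨g, h1, h2⟩ := H77.au_unit h
  refine ⟨g, 1, one_ne_zero, h2, fun u v => ?_⟩
  rw [OneMemClass.coe_one, one_mul]
  exact bt_T h1 φ u v

theorem Au.isJ {α : X →* X} {φ : RingAut F} (h : Au α φ) {J : Subgroup X} (k : IsJ J) : IsJ (J.map α) := by
  obtain ⟨g, h1, h2⟩ := H77.au_unit h
  obtain ⟨W, w1, w2, w3⟩ := k.sub
  obtain ⟨J', j1, j2⟩ := isJ_of (W := im g φ W) (by
    rintro _ ⟨u, hu, rfl⟩ _ ⟨v, hv, rfl⟩
    rw [bt_T h1, w1 u hu v hv, map_zero]) ((rk_im g φ W).trans w2)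
  have e : J.map α = J' := by
    ext y
    obtain ⟨x, rfl⟩ := h.bij.2 y
    rw [Subgroup.mem_map_iff_mem h.bij.1, w3, j2]
    refine and_congr ⟨fun a v => ?_, fun a v => ?_⟩ ⟨fun a v b => ?_, fun a v b => ?_⟩
    · obtain ⟨v, rfl⟩ := T_surj g φ v
      rw [ac_T h2, ← T_sub, mem_im]
      exact a v
    · have := a (T g φ v)
      rwa [ac_T h2, ← T_sub, mem_im] at this
    · obtain ⟨v, rfl⟩ := T_surj g φ v
      rw [ac_T h2, a v fun u hu => ?_]
      have := b _ ((mem_im g φ W u).2 hu)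
      rwa [bt_T h1, map_eq_zero] at this
    · refine T_inj g φ ?_
      rw [← ac_T h2]
      refine a _ ?_
      rintro _ ⟨u, hu, rfl⟩
      rw [bt_T h1, b u hu, map_zero]
  rwa [e]

theorem cn_au (u : X) : Au (cn u) 1 := by
  exact H77.cn_au u

theorem Au.comm {α β : X →* X} (h : Au α 1) (k : Au β 1) : ∃ u : X, ∀ x, α (β x) = u * β (α x) * u⁻¹ := by
  exact H77.au_comm h k

theorem Au.two {α : X →* X} (h : Au α 1) {k : ℕ} (e : ∀ x, α^[2 ^ k] x = x) : ∃ u, P2 u ∧ α = cn u := by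
  obtain ⟨u, rfl⟩ := H77.au_two h e
  obtain ⟨y, p, hy⟩ := LMS.B5.odd_lift (MulAut.conj : X →* MulAut X) u ⟨k, MulEquiv.ext fun x => by
    have k' : ∀ m : ℕ, ((MulAut.conj u : MulAut X) ^ m) x = (cn u)^[m] x := fun m => by
      induction m with
      | zero => rfl
      | succ m ih => rw [pow_succ', MulAut.mul_apply, ih, Function.iterate_succ_apply']; rfl
    rw [k']; exact e x⟩
  refine ⟨y, p, ?_⟩
  unfold cn
  rw [hy]

theorem nc {α : X →* X} {φ : RingAut F} (h : Au α φ) (k : α (zz (1 : K0 F)) = zz (1 : K0 F))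
    (k' : ∀ e, α (sr 0 (Fin.rev 1) e) = sr 0 (Fin.rev 1) e) : φ = 1 := by
  obtain ⟨g, h1, h2⟩ := H77.au_unit h
  have n3 : 3 ≤ n := Ok.h3 F
  have i0 : Is (ee 0 : V) := is0
  have o1 : (1 : I).1 = 1 := by
    rw [Fin.val_one']; exact Nat.mod_eq_of_lt (by omega)
  have i1 : bt (ee 1 : V) (ee 1) = 0 := by
    rw [bee, if_neg]
    intro e
    have := congrArg Fin.val e
    rw [Fin.val_rev, o1] at this
    omega
  have i01 : bt (ee 0 : V) (ee 1) = 0 := by
    rw [bee, if_neg]
    intro e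
    have := congrArg Fin.val e
    rw [Fin.val_rev, o1, Fin.val_zero] at this
    omega
  have A : ∀ v : V, bt (T g φ v) (ee 0) • (ee 0 : V) = φ (bt v (ee 0)) • T g φ (ee 0) := fun v => by
    have := ac_T h2 (zz (1 : K0 F)) v
    rw [k, zz, H12.ac_tc i0.1, H12.ac_tc i0.1, T_add, T_smul, OneMemClass.coe_one, one_mul, one_mul] at this
    exact add_left_cancel this
  have a1 := A (ee (Fin.rev 0))
  rw [bee, if_pos rfl, map_one, one_smul] at a1
  set a := bt (T g φ (ee (Fin.rev 0))) (ee 0)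
  have a0 : a ≠ 0 := fun e => by
    rw [e, zero_smul] at a1
    refine i0.2 (T_inj g φ ?_)
    rw [← a1, ← zero_smul F (0 : V), T_smul, map_zero, zero_smul, zero_smul]
  have z1 : bt (ee (Fin.rev 1) : V) (ee 0) = 0 := by
    rw [bee, if_neg]
    intro e
    have := congrArg Fin.val (Fin.rev_injective e)
    rw [o1, Fin.val_zero] at this
    omega
  have a2 : bt (T g φ (ee (Fin.rev 1))) (ee 0) = 0 := by
    have := A (ee (Fin.rev 1))
    rw [z1, map_zero, zero_smul] at this
    exact (smul_eq_zero.1 this).resolve_right i0.2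
  have B : ∀ e : F, bt (T g φ (ee (Fin.rev 1))) (ee 1) * e = φ e * a := fun e => by
    have := ac_T h2 (sr 0 (Fin.rev 1) e) (ee (Fin.rev 1))
    have u0 : bt (e • ee 0 : V) (e • ee 0) = 0 := by rw [H12.bt_smul_l, H12.bt_smul_r, i0.1, mul_zero, mul_zero]
    have u1 : bt (e • ee 0 : V) (ee 1) = 0 := by rw [H12.bt_smul_l, i01, mul_zero]
    rw [k', sr, Fin.rev_rev, H12.ac_sh u0 i1 u1, H12.ac_sh u0 i1 u1, H12.bt_smul_r, H12.bt_smul_r, a2, z1,
      mul_zero, zero_smul, add_zero, add_zero, bee, if_pos rfl, one_smul, T_add, T_smul, ← a1,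
      smul_smul, smul_smul, add_right_inj] at this
    exact smul_left_injective F i0.2 this
  have b1 := B 1
  rw [mul_one, map_one, one_mul] at b1
  refine RingEquiv.ext fun e => mul_right_cancel₀ a0 ?_
  rw [← B e, b1, mul_comm]
  rfl

end UMS
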