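import Cfsg.Agent.Lib.UMS.AU
import Cfsg.Agent.Lib.UMS.AutP

set_option autoImplicit false
set_option linter.unusedSectionVars false

namespace UMS

open Subgroup H69 Cfsg Matrix U4S
open LMS (XX GX iL kk MM au tw Sg)
open scoped MatrixGroups commutatorElement

universe u
variable {G : Type*} [Group G] [Finite G] {F : Type u} [Field F] [CharP F 2] [Fintype F] [Hs F] {n : ℕ} [Ok n F]
  {ι ψ χ : XU n F →* G} {t : G} {E : Subgroup G}

local notation "X" => XU n F
local notation "V" => VV n F
local notation "𝐪" => Nat.card (K0 F)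
local notation "I" => Fin (n + 3)
local notation "Mx" => Matrix (Fin (n + 3)) (Fin (n + 3)) F

theorem aut_psu {Γ : Type*} [Group Γ] {f : X →* Γ} (e : Em f) (β : X → X)
    (h1 : ∀ x y, f (β (x * y)) = f (β x) * f (β y)) (h2 : ∀ y, ∃ x, f (β x) = f y) :
    ∃ α φ, Au α φ ∧ ∀ x, f (β x) = f (α x) :=
  AutP.aut e β h1 h2

end UMS
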