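import Cfsg.Agent.Lib.UMS.B1
import Cfsg.Agent.Lib.UMS.B33
import Cfsg.Agent.Lib.UMS.AutP
import Cfsg.Agent.Lib.UMS.H12b
import Cfsg.Agent.S0283
import Cfsg.Agent.S0780
import Cfsg.Agent.S2164

set_option autoImplicit false
set_option linter.unusedSectionVars false

namespace UMS

open Subgroup H69 Cfsg Matrix U4S
open LMS (XX GX iL kk MM au tw Sg)
open scoped MatrixGroups commutatorElement

universe u
variable {G : Type*} [Group G] [Finite G] {F : Type u} [Field F] [CharP F 2] [Fintype F] [Hs F] {n : ℕ} [Ok n F]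
  {ι ψ χ : XU n F →* G} {t : G} {E : Subgroup G}

local notation "X" => XU n F
local notation "V" => VV n F
local notation "𝐪" => Nat.card (K0 F)
local notation "I" => Fin (n + 3)
local notation "Mx" => Matrix (Fin (n + 3)) (Fin (n + 3)) F

theorem iso : ∃ (C : GX n F) (f : X ≃* SU (n + 3) F 𝐪), ∀ x : X, (f x).1 = gc C x.1 := by
  obtain ⟨q, _, C, e, rfl, -, -, h⟩ := B33.bridge (n := n) (F := F)
  exact ⟨C⁻¹, e, fun x => by rw [h x, AutP.gc_gc, inv_mul_cancel, AutP.gc_one]⟩

theorem cen_iff {x : X} : x ∈ center X ↔ ∃ a : F, x.1.1 = a • (1 : Mx) := B33.mem_center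

theorem simple_X : IsSimpleGroup (X ⧸ center X) := AutP.simple

theorem top_tc : closure {y : X | ∃ v c, bt v v = 0 ∧ y = tc v c} = ⊤ :=
  B33.top_tc fun v hv a => subset_closure ⟨v, a, hv.1, rfl⟩

theorem inv_cj {x y : X} (hx : x * x = 1) (hy : y * y = 1) (h : rk x = rk y) : ∃ z, z * x * z⁻¹ = y :=
  H12.inv_cj hx hy h

end UMS
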