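import Cfsg.Agent.Lib.UMS.B1b
import Cfsg.Agent.Lib.UMS.ISO
import Cfsg.Agent.Lib.LMS.B2
import Cfsg.Agent.Lib.UMS.B33b
import Cfsg.Agent.Lib.UMS.Au77

set_option autoImplicit false
set_option linter.unusedSectionVars false

namespace UMS

open Subgroup H69 Cfsg Matrix U4S
open LMS (XX GX iL kk MM au tw Sg)
open scoped MatrixGroups commutatorElement

universe u
variable {G : Type*} [Group G] [Finite G] {F : Type u} [Field F] [CharP F 2] [Fintype F] [Hs F] {n : ℕ} [Ok n F]
  {ι ψ χ : XU n F →* G} {t : G} {E : Subgroup G}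

local notation "X" => XU n F
local notation "V" => VV n F
local notation "𝐪" => Nat.card (K0 F)
local notation "I" => Fin (n + 3)
local notation "Mx" => Matrix (Fin (n + 3)) (Fin (n + 3)) F

theorem cen_odd : Odd (Nat.card (center X)) := H77.cen_odd

theorem cen_two {x : X} (h : x ∈ center _) (p : P2 x) : x = 1 := B33.cen_two h p

theorem pf_X : commutator X = ⊤ := B33.pf_X

theorem normal_X (N : Subgroup X) [N.Normal] : N ≤ center _ ∨ N = ⊤ := B33.normal_X N

theorem el_JD (d : ℕ) : El (JD n F d) := fun b hb =>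
  Subtype.ext (LMS.el_JJ d b.1 hb)

namespace B2

/-- hermitian matrices -/
def He (F : Type u) [Field F] [CharP F 2] [Hs F] (d : ℕ) : Type u :=
  {H : Fin d → Fin d → F // ∀ i j, H i j = σ (H j i)}

theorem card_He (d : ℕ) : Nat.card (He F d) = 𝐪 ^ d ^ 2 := by
  obtain ⟨ω, hω⟩ := (ex_om : ∃ ω : F, ω + σ ω = 1)
  have two : (2 : F) = 0 := CharTwo.two_eq_zero
  have key : Nat.card (He F d × He F d) = Nat.card (Fin d → Fin d → F) := by
    refine Nat.card_eq_of_bijective (fun p i j => p.1.1 i j + ω * p.2.1 i j) ⟨?_, fun M => ?_⟩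
    · rintro ⟨A, B⟩ ⟨A', B'⟩ e
      have e1 : ∀ i j, A.1 i j + ω * B.1 i j = A'.1 i j + ω * B'.1 i j := fun i j => congrFun (congrFun e i) j
      have e2 : ∀ i j, A.1 i j + σ ω * B.1 i j = A'.1 i j + σ ω * B'.1 i j := fun i j => by
        have := congrArg σ (e1 j i)
        rwa [map_add, map_add, map_mul, map_mul, ← A.2, ← B.2, ← A'.2, ← B'.2] at this
      have e3 : ∀ i j, B.1 i j = B'.1 i j := fun i j => by
        linear_combination e1 i j + e2 i j - (B.1 i j - B'.1 i j) * hω - (A.1 i j - A'.1 i j) * two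
      refine Prod.ext (Subtype.ext ?_) (Subtype.ext ?_)
      · funext i j
        have := e1 i j
        rw [e3] at this
        exact add_right_cancel this
      · funext i j; exact e3 i j
    · refine ⟨(⟨fun i j => σ ω * M i j + ω * σ (M j i), fun i j => ?_⟩,
        ⟨fun i j => M i j + σ (M j i), fun i j => ?_⟩), ?_⟩
      · simp only [map_add, map_mul, sg_sg]; ring
      · simp only [map_add, sg_sg]; ring
      · funext i j
        change σ ω * M i j + ω * σ (M j i) + ω * (M i j + σ (M j i)) = M i j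
        linear_combination M i j * hω + ω * σ (M j i) * two
  rw [Nat.card_prod, Nat.card_fun, Nat.card_fun, card_F (F := F), Nat.card_eq_fintype_card (α := Fin d),
    Fintype.card_fin] at key
  have : Nat.card (He F d) ^ 2 = (𝐪 ^ d ^ 2) ^ 2 := by rw [sq, key]; ring
  exact Nat.pow_left_injective two_ne_zero this

end B2

theorem card_JD {d : ℕ} (h : d ≤ kk n) : Nat.card (JD n F d) = 𝐪 ^ d ^ 2 := by
  have hd : 2 * d ≤ n + 3 := by unfold kk at h; omega
  have hd' : d ≤ n + 3 := by omega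
  rw [← B2.card_He (F := F) d]
  refine Nat.card_eq_of_bijective (fun x => ⟨fun i j => x.1.1.1 (Fin.castLE hd' i) (Fin.castLE hd' j).rev,
    fun i j => ?_⟩) ⟨fun x y e => ?_, fun H => ?_⟩
  · have e1 := H12.inv_val x.1
    rw [inv_eq_of_mul_eq_one_left (el_JD d x.1 x.2)] at e1
    have := congrFun (congrFun e1 (Fin.castLE hd' i)) (Fin.castLE hd' j).rev
    rw [H12.ad_apply, Fin.rev_rev] at this
    exact this
  · refine Subtype.ext (H12.xext ?_)
    ext i j
    by_cases k : i.1 < d ∧ j.rev.1 < d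
    · have := congrFun (congrFun (congrArg Subtype.val e) ⟨i.1, k.1⟩) ⟨j.rev.1, k.2⟩
      have a1 : Fin.castLE hd' ⟨i.1, k.1⟩ = i := rfl
      have a2 : (Fin.castLE hd' ⟨j.rev.1, k.2⟩).rev = j := Fin.rev_rev j
      simp only [a1, a2] at this
      exact this
    · rw [(mem_JD' h).1 x.2 i j k, (mem_JD' h).1 y.2 i j k]
  · let N : Mx := fun i j => if k : i.1 < d ∧ j.rev.1 < d then H.1 ⟨i.1, k.1⟩ ⟨j.rev.1, k.2⟩ else 0
    have hN : N * N = 0 := by
      ext i j
      rw [Matrix.mul_apply]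
      refine Finset.sum_eq_zero fun l _ => ?_
      by_cases k : l.1 < d
      · have : N i l = 0 := dif_neg fun q => by have := q.2; rw [Fin.val_rev] at this; omega
        rw [this, zero_mul]
      · have : N l j = 0 := dif_neg fun q => k q.1
        rw [this, mul_zero]
    have hA : H12.ad N = N := by
      ext i j
      rw [H12.ad_apply]
      by_cases k : i.1 < d ∧ j.rev.1 < d
      · have k' : j.rev.1 < d ∧ i.rev.rev.1 < d := ⟨k.2, by rw [Fin.rev_rev]; exact k.1⟩
        have a1 : N j.rev i.rev = H.1 ⟨j.rev.1, k.2⟩ ⟨i.1, k.1⟩ := by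
          refine (dif_pos k').trans ?_
          simp only [Fin.rev_rev]
        have a2 : N i j = H.1 ⟨i.1, k.1⟩ ⟨j.rev.1, k.2⟩ := dif_pos k
        rw [a1, a2, ← H.2]
      · have a1 : N j.rev i.rev = 0 := dif_neg fun q => k ⟨by have := q.2; rwa [Fin.rev_rev] at this, q.1⟩
        have a2 : N i j = 0 := dif_neg k
        rw [a1, a2, map_zero]
    have hv : (mk (1 + N) : X).1.1 = 1 + N := sa_val hN fun u v => by rw [H12.bt_ad, hA]
    refine ⟨⟨mk (1 + N), (mem_JD' h).2 fun i j k => ?_⟩, Subtype.ext ?_⟩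
    · have a2 : N i j = 0 := dif_neg k
      rw [hv, Matrix.add_apply, a2, add_zero]
    · funext i j
      change (mk (1 + N) : X).1.1 (Fin.castLE hd' i) (Fin.castLE hd' j).rev = H.1 i j
      have k : (Fin.castLE hd' i).1 < d ∧ (Fin.castLE hd' j).rev.rev.1 < d :=
        ⟨i.2, by rw [Fin.rev_rev]; exact j.2⟩
      have a1 : N (Fin.castLE hd' i) (Fin.castLE hd' j).rev = H.1 i j := by
        refine (dif_pos k).trans ?_
        simp only [Fin.rev_rev]
        rfl
      have a2 : Fin.castLE hd' i ≠ (Fin.castLE hd' j).rev := fun q => by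
        have := congrArg Fin.val q
        rw [Fin.val_rev] at this
        simp only [Fin.val_castLE] at this
        have := i.2; have := j.2; omega
      rw [hv, Matrix.add_apply, a1, Matrix.one_apply_ne a2, zero_add]

theorem JD_le (d : ℕ) : JD n F d ≤ UU n F := fun _ hx => LMS.JJ_le d hx

theorem UU_nJ (d : ℕ) : UU n F ≤ 𝐍(JD n F d) := fun _ hu =>
  mem_normalizer_iff.2 fun x => mem_normalizer_iff.1 (LMS.UU_nJ d hu) x.1

theorem ZZ_le_JD {d : ℕ} (h : 0 < d) (k : d < n + 3) : ZZ n F ≤ JD n F d := fun x hx => by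
  obtain ⟨c, rfl⟩ := mem_ZZ.1 hx
  change (zz c : X).1 ∈ LMS.JJ n F d
  rw [zz_val]
  exact LMS.RR_le_JJ h k (LMS.mem_RR.2 ⟨_, rfl⟩)

theorem isP_UU : IsPGroup 2 (UU n F) := B33.sylU.isP

theorem sylU : IsSylowIn 2 (UU n F) ⊤ := B33.sylU

theorem cen_U {x : X} (h : x ∈ UU n F) (c : ∀ u ∈ UU n F, u * x = x * u) : x ∈ ZZ n F := mem_ZZ.2 (B33.cen_U h c)

theorem RR_cen {x u : X} (h : x ∈ ZZ n F) (k : u ∈ UU n F) : u * x = x * u := by
  obtain ⟨c, rfl⟩ := mem_ZZ.1 h
  refine Subtype.ext (LMS.RR_cen (x := (zz c : X).1) ?_ k)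
  rw [zz_val]
  exact LMS.mem_RR.2 ⟨_, rfl⟩

theorem isJ_kk : IsJ (JD n F (kk n)) := ⟨1, (cj_one _).symm⟩

theorem IsJ.el {J : Subgroup X} (h : IsJ J) : El J := by
  obtain ⟨x, rfl⟩ := h
  rintro _ ⟨b, hb, rfl⟩
  rw [← map_mul, el_JD _ b hb, map_one]

theorem IsJ.card {J : Subgroup X} (h : IsJ J) : Nat.card J = 𝐪 ^ kk n ^ 2 := by
  obtain ⟨x, rfl⟩ := h
  rw [card_map_of_injective (MulAut.conj x).injective, card_JD le_rfl]

theorem IsJ.cj {J : Subgroup X} (h : IsJ J) (x : X) : IsJ (J ^ᶜ x) := by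
  obtain ⟨y, rfl⟩ := h
  exact ⟨x * y, cj_cj _ _ _⟩

theorem four_le_MM : 4 ≤ 𝐪 ^ kk n ^ 2 := by
  obtain ⟨f, hf, e⟩ := (q_pow : ∃ f, 0 < f ∧ 𝐪 = 2 ^ f)
  have h3 : 3 ≤ kk n := by have := Ok.h3 (n := n) (F := F); unfold kk; omega
  rw [e, ← pow_mul]
  calc 4 = 2 ^ 2 := rfl
    _ ≤ _ := Nat.pow_le_pow_right (by norm_num) (by nlinarith)

end UMS
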