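import Cfsg.Agent.Lib.UMS.B2
import Cfsg.Agent.Lib.UMS.WIT
import Cfsg.Agent.Lib.UMS.H12b
import Cfsg.Agent.Lib.UMS.Ln81

set_option autoImplicit false
set_option linter.unusedSectionVars false

namespace UMS

open Subgroup H69 Cfsg Matrix U4S
open LMS (XX GX iL kk MM au tw Sg)
open scoped MatrixGroups commutatorElement

universe u
variable {G : Type*} [Group G] [Finite G] {F : Type u} [Field F] [CharP F 2] [Fintype F] [Hs F] {n : ℕ} [Ok n F]
  {ι ψ χ : XU n F →* G} {t : G} {E : Subgroup G}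

local notation "X" => XU n F
local notation "V" => VV n F
local notation "𝐪" => Nat.card (K0 F)
local notation "I" => Fin (n + 3)
local notation "Mx" => Matrix (Fin (n + 3)) (Fin (n + 3)) F

namespace B2b

local notation "W0" => (LMS.LN.Sp (fun i : Fin (n + 3) => Fin.val i < kk n) : Submodule F (Fin (n + 3) → F))

/-- the condition defining `J(W)` -/
def PW (W : Submodule F V) (x : X) : Prop :=
  (∀ v, ac x v - v ∈ W) ∧ ∀ v, (∀ u ∈ W, bt v u = 0) → ac x v = v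

theorem base {x : X} : x ∈ JD n F (kk n) ↔ PW W0 x := by
  constructor
  · intro h
    obtain ⟨N, hN, e⟩ := L81.mem_J.1 h
    have k : ∀ v, ac x v = v + N *ᵥ v := fun v => by rw [ac, e, add_mulVec, one_mulVec]
    refine ⟨fun v => ?_, fun v hv => ?_⟩
    · rw [k, add_sub_cancel_left]; exact LMS.LN.Jm_mv hN.1 v
    · rw [k, H12.bt_nd' (x := N *ᵥ v) fun y => by rw [L81.bt_mv, hN.2]; exact hv _ (LMS.LN.Jm_mv hN.1 y), add_zero]
  · rintro ⟨h1, h2⟩
    refine (LMS.mem_JJ (x := x.1)).2 fun i j k => ?_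
    have e : x.1.1 i j = ac x (ee j) i := by rw [ac, ee, mulVec_single_one, col_apply]
    have e' : (1 : Mx) i j = (ee j : V) i := by rw [one_apply, ee, Pi.single_apply]
    rw [e, e']
    by_cases c : i.1 < kk n
    · rw [h2 _ fun u hu => L81.btW (L81.ee_W (by omega)) hu]
    · exact sub_eq_zero.1 (h1 (ee j) i c)

/-- the action as a linear equivalence -/
def eqv (x : X) : V ≃ₗ[F] V where
  toFun := ac x
  invFun := ac x⁻¹
  map_add' := H12.ac_add x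
  map_smul' := H12.ac_smul x
  left_inv := H12.ac_inv x
  right_inv := H12.ac_inv' x

theorem mem_map {W : Submodule F V} {x : X} {v : V} : v ∈ W.map (eqv x).toLinearMap ↔ ac x⁻¹ v ∈ W :=
  Submodule.mem_map_equiv _

theorem ac_sub (x : X) (u v : V) : ac x (u - v) = ac x u - ac x v := map_sub (eqv x) u v

theorem PW.cj {W W' : Submodule F V} {x y : X} (h : PW W y) (k : ∀ v, v ∈ W' ↔ ac x⁻¹ v ∈ W) : PW W' (x * y * x⁻¹) := by
  refine ⟨fun v => (k _).2 ?_, fun v hv => ?_⟩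
  · rw [ac_sub, H12.ac_mul, H12.ac_mul, H12.ac_inv]
    exact h.1 _
  · rw [H12.ac_mul, H12.ac_mul, h.2 _ fun u hu => ?_, H12.ac_inv']
    rw [← H12.bt_ac x, H12.ac_inv']
    exact hv _ ((k _).2 (by rwa [H12.ac_inv]))

theorem chr {W : Submodule F V} {x : X} (k : ∀ v, v ∈ W ↔ ac x⁻¹ v ∈ W0) (y : X) :
    y ∈ JD n F (kk n) ^ᶜ x ↔ PW W y := by
  rw [mem_cj, base]
  refine ⟨fun h => ?_, fun h => ?_⟩
  · have := h.cj k
    rwa [show x * (x⁻¹ * y * x) * x⁻¹ = y by group] at this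
  · have := h.cj (x := x⁻¹) (W' := W0) fun v => by rw [k, inv_inv, H12.ac_inv]
    rwa [inv_inv] at this

theorem rk0 : Module.finrank F W0 = kk n := by rw [LMS.LN.fin_Sp, LMS.LN.cW]

theorem into {W : Submodule F V} (h : ∀ u ∈ W, ∀ v ∈ W, bt u v = 0) : ∃ l : X, ∀ w ∈ W, ac l w ∈ W0 := by
  let b := Module.finBasis F W
  obtain ⟨h1, h2, l, c, -, e⟩ := H12.witt_ti (fun i => (b i : V)) (b.linearIndependent.map' W.subtype W.ker_subtype)
    fun i j => h _ (b i).2 _ (b j).2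
  refine ⟨l, fun w hw => ?_⟩
  have : w = ∑ i, b.repr ⟨w, hw⟩ i • (b i : V) := by
    have := congrArg Subtype.val (b.sum_repr ⟨w, hw⟩).symm
    rw [Submodule.coe_sum] at this
    exact this
  rw [this]
  change eqv l _ ∈ _
  rw [map_sum]
  refine sum_mem fun i _ => ?_
  rw [map_smul]
  refine Submodule.smul_mem _ _ ?_
  change ac l _ ∈ _
  rw [e]
  exact Submodule.smul_mem _ _ (L81.ee_W (by have := i.2; unfold kk; simp only [Fin.val_castLE]; omega))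

theorem sub' (x : X) : (∀ u ∈ (W0).map (eqv x).toLinearMap, ∀ v ∈ (W0).map (eqv x).toLinearMap, bt u v = 0) ∧
    Module.finrank F ((W0).map (eqv x).toLinearMap) = kk n :=
  ⟨fun u hu v hv => by rw [← H12.bt_ac x⁻¹]; exact L81.btW (mem_map.1 hu) (mem_map.1 hv),
    by rw [LinearEquiv.finrank_map_eq, rk0]⟩

theorem pw_tc {W : Submodule F V} {u : V} (hu : u ∈ W) (h : bt u u = 0) (c : K0 F) : PW W (tc u c) :=
  ⟨fun v => by rw [H12.ac_tc h, add_sub_cancel_left]; exact W.smul_mem _ hu,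
    fun v hv => by rw [H12.ac_tc h, hv u hu, mul_zero, zero_smul, add_zero]⟩

theorem pw_sh {W : Submodule F V} {u v : V} (hu : u ∈ W) (hv : v ∈ W) (h1 : bt u u = 0) (h2 : bt v v = 0)
    (h : bt u v = 0) : PW W (sh u v) :=
  ⟨fun y => by
      rw [H12.ac_sh h1 h2 h, add_assoc, add_sub_cancel_left]; exact add_mem (W.smul_mem _ hu) (W.smul_mem _ hv),
    fun y hy => by rw [H12.ac_sh h1 h2 h, hy u hu, hy v hv, zero_smul, zero_smul, add_zero, add_zero]⟩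

theorem nofix {x : X} (hx : x ∈ JD n F (kk n)) (c : ∀ y ∈ 𝐍(JD n F (kk n)), y * x = x * y) : x = 1 := by
  obtain ⟨a, rfl⟩ := mem_ZZ.1 (cen_U (JD_le _ hx) fun u hu => c u (UU_nJ _ hu))
  have k := L81.k3 F (n := n)
  have h0 : (ee 0 : V) ∈ W0 := L81.ee_W (by simp only [Fin.val_zero]; omega)
  have h1 : (ee 1 : V) ∈ W0 := L81.ee_W (by simp only [Fin.val_one]; omega)
  have hv := L81.ee_W' (F := F) (n := n) (i := 0) (by simp only [Fin.val_zero]; omega)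
  have b : bt (ee 1 : V) (ee (Fin.rev 0)) = 0 := by rw [L81.bt_ee, Fin.rev_rev, ee, Pi.single_eq_of_ne (by simp)]
  have s0 := L81.S_S b (L81.btW' hv hv) (L81.btW h1 h1) (L81.bt0 b)
  obtain ⟨ω, hω⟩ := L81.ex_ω (F := F)
  have f : (zz a : X).1.1 = 1 + (a : F) • hm (ee 0) (ee 0) := H12.tc_val (L81.btW h0 h0) a
  have hN := L81.hm_HJ h0 a.2
  have e := L81.cj_S (r := L81.el _ s0 (L81.S_ad _ _)) h1 s0 rfl hN f hω
  rw [c _ (L81.nJ_S h1 s0 rfl), mul_inv_cancel_right, f, add_right_inj, left_eq_add] at e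
  obtain ⟨s, -, e'⟩ := L81.S_eq0 h1 (L81.ee_ne 1) (add_mem (LMS.LN.Jm_mv hN.1 _) (Submodule.smul_mem _ _ h1)) e
  have e0 := congrFun e' 0
  rw [smul_mulVec, L81.hm_mv, L81.bt_ee] at e0
  have : (a : F) = 0 := by simpa [ee] using e0
  refine H12.xext ?_
  rw [f, this, zero_smul, add_zero]
  rfl

end B2b

theorem IsJ.nofix {J : Subgroup X} (h : IsJ J) {x : X} (hx : x ∈ J) (c : ∀ y ∈ 𝐍(J), y * x = x * y) : x = 1 := by
  obtain ⟨l, rfl⟩ := h
  have := B2b.nofix (mem_cj.1 hx) fun y hy => by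
    have k := c (l * y * l⁻¹) (by rw [← cj_normalizer]; exact mem_cj.2 (by rwa [show l⁻¹ * (l * y * l⁻¹) * l = y by group]))
    calc y * (l⁻¹ * x * l) = l⁻¹ * (l * y * l⁻¹ * x) * l := by group
      _ = _ := by rw [k]; group
  calc x = l * (l⁻¹ * x * l) * l⁻¹ := by group
    _ = 1 := by rw [this]; group

theorem uniqJ {J : Subgroup X} (h : IsJ J) (k : J ≤ UU n F) : J = JD n F (kk n) := by
  obtain ⟨l, rfl⟩ := h
  obtain ⟨h1, h2⟩ := B2b.sub' l
  have ch := B2b.chr (x := l) fun _ => B2b.mem_map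
  generalize Submodule.map (B2b.eqv l).toLinearMap _ = W at h1 h2 ch
  have e : W = LMS.LN.Sp fun i : I => i.1 < kk n := by
    refine Submodule.eq_of_le_of_finrank_eq (fun w hw i hi => ?_) (h2.trans B2b.rk0.symm)
    have m := (LMS.mem_UU (x := (tc w 1 : X).1)).1 (k ((ch _).2 (B2b.pw_tc hw (h1 w hw w hw) 1))) i i.rev (by
      rw [Fin.le_def, Fin.val_rev]; unfold kk at hi; omega)
    rw [H12.tc_val (h1 w hw w hw), Matrix.add_apply, add_eq_left] at m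
    simpa [hm, vecMulVec_apply] using m
  ext y
  rw [ch, e, B2b.base]

theorem isJ_of {W : Submodule F V} (h : ∀ u ∈ W, ∀ v ∈ W, bt u v = 0) (k : Module.finrank F W = kk n) :
    ∃ J : Subgroup X, IsJ J ∧ ∀ x, x ∈ J ↔ (∀ v, ac x v - v ∈ W) ∧ ∀ v, (∀ u ∈ W, bt v u = 0) → ac x v = v := by
  obtain ⟨l, hl⟩ := B2b.into h
  obtain ⟨-, h2⟩ := B2b.sub' l⁻¹
  have e : W = _ := Submodule.eq_of_le_of_finrank_eq
    (fun w hw => B2b.mem_map.2 (by rw [inv_inv]; exact hl w hw)) (k.trans h2.symm)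
  exact ⟨_, ⟨l⁻¹, rfl⟩, B2b.chr fun v => by rw [e]; exact B2b.mem_map⟩

theorem IsJ.sub {J : Subgroup X} (h : IsJ J) : ∃ W : Submodule F V, (∀ u ∈ W, ∀ v ∈ W, bt u v = 0) ∧
    Module.finrank F W = kk n ∧ ∀ x, x ∈ J ↔ (∀ v, ac x v - v ∈ W) ∧ ∀ v, (∀ u ∈ W, bt v u = 0) → ac x v = v := by
  obtain ⟨l, rfl⟩ := h
  exact ⟨_, (B2b.sub' l).1, (B2b.sub' l).2, B2b.chr fun _ => B2b.mem_map⟩

theorem tc_J {u v : V} (hu : bt u u = 0) (hv : bt v v = 0) (h : bt u v = 0) :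
    ∃ J : Subgroup X, IsJ J ∧ (∀ c, tc u c ∈ J) ∧ (∀ c, tc v c ∈ J) ∧ ∀ a : F, sh (a • u) v ∈ J := by
  obtain ⟨l, hl⟩ := B2b.into (W := Submodule.span F {u, v}) fun a ha b hb => by
    obtain ⟨a1, a2, rfl⟩ := Submodule.mem_span_pair.1 ha
    obtain ⟨b1, b2, rfl⟩ := Submodule.mem_span_pair.1 hb
    simp only [L81.bt_addl, L81.bt_addr, L81.bt_smull, L81.bt_smulr, hu, hv, h, L81.bt0 h, mul_zero, add_zero]
  have ch := B2b.chr (x := l⁻¹) fun _ => B2b.mem_map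
  have m1 := B2b.mem_map.2 (show ac l⁻¹⁻¹ u ∈ _ by rw [inv_inv]; exact hl u (Submodule.subset_span (by simp)))
  have m2 := B2b.mem_map.2 (show ac l⁻¹⁻¹ v ∈ _ by rw [inv_inv]; exact hl v (Submodule.subset_span (by simp)))
  refine ⟨_, ⟨l⁻¹, rfl⟩, fun c => (ch _).2 (B2b.pw_tc m1 hu c), fun c => (ch _).2 (B2b.pw_tc m2 hv c),
    fun a => (ch _).2 (B2b.pw_sh (Submodule.smul_mem _ a m1) m2 ?_ hv ?_)⟩
  · rw [L81.bt_smull, L81.bt_smulr, hu, mul_zero, mul_zero]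
  · rw [L81.bt_smull, h, mul_zero]

end UMS
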