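import Cfsg.Agent.Lib.UMS.B3
import Cfsg.Agent.Lib.UMS.WIT

set_option autoImplicit false
set_option linter.unusedSectionVars false

namespace UMS

open Subgroup H69 Cfsg Matrix U4S
open LMS (XX GX iL kk MM au tw Sg)
open scoped MatrixGroups commutatorElement

universe u
variable {G : Type*} [Group G] [Finite G] {F : Type u} [Field F] [CharP F 2] [Fintype F] [Hs F] {n : ℕ} [Ok n F]
  {ι ψ χ : XU n F →* G} {t : G} {E : Subgroup G}

local notation "X" => XU n F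
local notation "V" => VV n F
local notation "𝐪" => Nat.card (K0 F)
local notation "I" => Fin (n + 3)
local notation "Mx" => Matrix (Fin (n + 3)) (Fin (n + 3)) F

namespace B3b

theorem n0L : (0 : I) ≠ iL := Fin.last_pos.ne
theorem r0 : (0 : I).rev = iL := Fin.rev_zero _
theorem rL : (iL : I).rev = 0 := Fin.rev_last _
variable (n) in
theorem i1 (K : Type u) [Ok n K] : (1 : I) ≠ 0 ∧ (1 : I) ≠ iL ∧ (1 : I) ≠ (1 : I).rev ∧ (1 : I).rev ≠ 0 ∧
    (1 : I).rev ≠ iL ∧ (2 : I) ≠ 0 ∧ (2 : I) ≠ iL ∧ (2 : I) ≠ (2 : I).rev ∧ (2 : I) ≠ 1 ∧ (2 : I).rev ≠ 1 := by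
  have := Ok.h3 (n := n) K
  simp only [ne_eq, Fin.ext_iff, Fin.val_rev, Fin.val_one, Fin.val_two, Fin.val_zero, Fin.val_last]
  omega

theorem ee_ap (i j : I) : (ee i : V) j = if j = i then 1 else 0 := Pi.single_apply _ _ _
theorem ac_ee (x : X) (i j : I) : ac x (ee j) i = x.1.1 i j := by simp [ac, ee]
theorem bt0 (v : V) : bt v 0 = 0 := by simp [bt]
theorem b00 : bt (ee 0 : V) (ee 0) = 0 := by rw [bt_ee, r0, ee_ap, if_neg n0L.symm]
theorem b0 {v : V} (h : v iL = 0) : bt (ee 0) v = 0 := by rw [ee_bt, r0, h, map_zero]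
theorem b0' {v : V} (h : v iL = 0) : bt v (ee 0) = 0 := by rw [bt_ee, r0, h]
theorem tc0 (c : K0 F) : tc (0 : V) c = 1 := ac_ext fun v => by rw [ac_tc (bt0 _), smul_zero, add_zero, ac_one]
theorem two (v : V) : v + v = 0 := funext fun _ => CharTwo.add_self_eq_zero _

theorem mi_ee {j : I} (h0 : j ≠ 0) (hL : j ≠ iL) (a : F) : Mi (a • ee j : V) :=
  ⟨by simp [ee_ap, h0.symm], by simp [ee_ap, hL.symm]⟩

/-- the isotropic vectors span the middle -/
theorem span {P : V → Prop} (ad : ∀ u v, P u → P v → P (u + v)) (iso : ∀ w, Mi w → bt w w = 0 → P w) {w : V}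
    (h : Mi w) : P w := by
  obtain ⟨a1, a2, a3, a4, a5, -⟩ := i1 n F
  have p0 : P 0 := iso 0 ⟨rfl, rfl⟩ (bt0 _)
  have pe : ∀ (j : I) (a : F), j ≠ 0 → j ≠ iL → j ≠ j.rev → P (a • ee j) := fun j a h0 hL hr =>
    iso _ (mi_ee h0 hL a) (by rw [bt_smul_left, bt_smul_right, (is_ee hr).1, mul_zero, mul_zero])
  have e : w = ∑ j, w j • ee j := by
    ext i
    simp [ee_ap]
  rw [e]
  refine Finset.sum_induction _ P ad p0 fun j _ => ?_
  by_cases h0 : j = 0
  · rwa [h0, h.1, zero_smul]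
  by_cases hL : j = iL
  · rwa [hL, h.2, zero_smul]
  by_cases hr : j = j.rev
  swap
  · exact pe j _ h0 hL hr
  obtain ⟨b, hb⟩ := tr_surj (nm (w j))
  have j1 : j ≠ 1 := fun k => a3 (k ▸ hr)
  have j2 : j ≠ (1 : I).rev := fun k => j1 (by rw [hr, k, Fin.rev_rev])
  have k := ad _ _ (ad _ _ (iso (w j • ee j + (b • ee 1 + (1 : F) • ee (1 : I).rev)) ⟨by
      simp [ee_ap, Ne.symm h0, a1.symm, a4.symm], by simp [ee_ap, Ne.symm hL, a2.symm, a5.symm]⟩ (by
      simp only [bt_add_left, bt_add_right, bt_smul_left, bt_smul_right, bt_ee, ee_ap, Fin.rev_rev, ← hr, if_true,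
        Pi.add_apply, Pi.smul_apply, smul_eq_mul, if_neg j1, if_neg j2, if_neg j1.symm, if_neg j2.symm, if_neg a3, if_neg a3.symm, map_one]
      have : (nm (w j) : F) = w j * σ (w j) := rfl
      linear_combination hb + this + (w j * σ (w j)) * (CharTwo.two_eq_zero : (2 : F) = 0))) (pe 1 b a1 a2 a3))
    (pe (1 : I).rev 1 a4 a5 (by rw [Fin.rev_rev]; exact a3.symm))
  rwa [add_assoc _ (b • ee 1), add_assoc, two, add_zero] at k

theorem four {u v : V} (hu : bt u u = 0) (hv : bt v v = 0) (h : bt u v = 0) {a : F} {c : K0 F} (hc : a + σ a = c) :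
    tc (a • u + v) 1 * tc (u + v) 1 * (tc ((a + 1) • u + v) 1 * tc v 1) = tc u c := by
  have h' : bt v u = 0 := by rw [bt_symm, h, map_zero]
  have z : ∀ s : F, bt (s • u + v) (s • u + v) = 0 := fun s => by
    simp only [bt_add_left, bt_add_right, bt_smul_left, bt_smul_right, hu, hv, h, h', mul_zero, add_zero]
  have z1 := z 1
  rw [one_smul] at z1
  refine ac_ext fun x => ?_
  simp only [ac_mul, ac_tc (z _), ac_tc z1, ac_tc hv, ac_tc hu, bt_add_left, bt_add_right, bt_smul_left, bt_smul_right,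
    hu, hv, h, h', mul_zero, add_zero, ← hc, OneMemClass.coe_one, one_mul, map_add, map_one]
  ext i
  simp only [Pi.add_apply, Pi.smul_apply, smul_eq_mul]
  linear_combination (bt x u * (a * σ a + 1) * u i + bt x v * (a + 1) * u i + (σ a * bt x u + bt x u + 2 * bt x v) * v i) *
    (CharTwo.two_eq_zero : (2 : F) = 0)

theorem tc_PP {v : V} (h : bt v v = 0) (k : v iL = 0) (c : K0 F) : tc v c ∈ PP n F := tc_St h (b0 k) c

/-- `P` is transitive on the isotropic vectors of `e₀^⊥` outside `F e₀` -/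
theorem tr {v : V} (h : bt v v = 0) (k : v iL = 0) {j : I} (j0 : j ≠ 0) (hj : v j ≠ 0) :
    ∃ p ∈ PP n F, ac p (ee 1) = v := by
  obtain ⟨p, p0, p1⟩ := wit2 (u := ee 0) (v := v) ⟨b00, h, b0 k, LinearIndependent.pair_iff.2 fun a b e => by
    have e1 := congrFun e j
    simp only [Pi.add_apply, Pi.smul_apply, smul_eq_mul, ee_ap, if_neg j0, mul_zero, zero_add, Pi.zero_apply,
      mul_eq_zero, hj, or_false] at e1
    have e2 := congrFun e 0
    simp only [Pi.add_apply, Pi.smul_apply, smul_eq_mul, ee_ap, if_true, mul_one, e1, zero_mul, add_zero,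
      Pi.zero_apply] at e2
    exact ⟨e2, e1⟩⟩
  exact ⟨p, mem_PP.2 p0, p1⟩

theorem tr' {v : V} (h : bt v v = 0) (k : v iL = 0) {j : I} (j0 : j ≠ 0) (hj : v j ≠ 0) (c : K0 F) :
    ∃ p ∈ PP n F, tc v c = p * tc (ee 1) c * p⁻¹ := by
  obtain ⟨p, hp, e⟩ := tr h k j0 hj
  exact ⟨p, hp, by rw [tc_cj (is_ee (i1 n F).2.2.1).1, e]⟩

/-- a transvection as a product of four conjugates -/
theorem key {H : Subgroup X} (hH : ∀ p ∈ PP n F, ∀ r ∈ PP n F,
      p * tc (ee 1) 1 * p⁻¹ * (r * tc (ee 1) 1 * r⁻¹) ∈ H) {i j : I} (iL' : i ≠ iL) (ir : i ≠ i.rev)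
    (j0 : j ≠ 0) (jL : j ≠ iL) (jr : j ≠ j.rev) (ij : j ≠ i) (ij' : j.rev ≠ i) (c : K0 F) : tc (ee i) c ∈ H := by
  obtain ⟨a, ha⟩ := tr_surj c
  have hu := (is_ee (F := F) ir).1
  have hv := (is_ee (F := F) jr).1
  have h : bt (ee i : V) (ee j) = 0 := by rw [bt_ee, ee_ap, if_neg ij']
  have h' : bt (ee j : V) (ee i) = 0 := by rw [bt_symm, h, map_zero]
  have t : ∀ s : F, ∃ p ∈ PP n F, tc (s • ee i + ee j) 1 = p * tc (ee 1) 1 * p⁻¹ := fun s =>
    tr' (by simp only [bt_add_left, bt_add_right, bt_smul_left, bt_smul_right, hu, hv, h, h', mul_zero, add_zero])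
      (by simp [ee_ap, iL'.symm, jL.symm]) j0 (by simp [ee_ap, ij]) 1
  obtain ⟨p1, m1, e1⟩ := t a
  obtain ⟨p2, m2, e2⟩ := t 1
  obtain ⟨p3, m3, e3⟩ := t (a + 1)
  obtain ⟨p4, m4, e4⟩ := t 0
  rw [one_smul] at e2
  rw [zero_smul, zero_add] at e4
  rw [← four hu hv h ha, e1, e2, e3, e4]
  exact mul_mem (hH _ m1 _ m2) (hH _ m3 _ m4)

end B3b

open B3b

theorem PP_dec {p : X} (hp : p ∈ PP n F) : ∃ x ∈ QQ n F, ∃ l ∈ St {ee 0, ee iL}, p = x * l := by
  have p0 := mem_PP.1 hp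
  have bL : bt (ee iL : V) (ee iL) = 0 := by rw [bt_ee, rL, ee_ap, if_neg n0L]
  have uL : ∀ {y : X}, y ∈ PP n F → ac y (ee iL) iL = 1 := fun {y} hy => by
    have := bt_ac y (ee iL) (ee 0)
    rwa [mem_PP.1 hy, bt_ee, bt_ee, r0, ee_ap, if_pos rfl] at this
  obtain ⟨x, hx, e⟩ := cv_surj (cv_mi p)
  have xP := QQ_le hx
  obtain ⟨a, ha⟩ : ∃ a : F, ac p (ee iL) = ac x (ee iL) + a • ee 0 := ⟨ac p (ee iL) 0 - ac x (ee iL) 0, by
    ext j
    by_cases h0 : j = 0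
    · simp [h0, ee_ap]
    by_cases hL : j = iL
    · simp [hL, ee_ap, uL hp, uL xP, n0L.symm]
    have := congrFun e j
    simp only [cv, h0, hL, or_self, if_false] at this
    simp [ac_ee, ee_ap, h0, this]⟩
  have sa : σ a = a := by
    have := bt_ac p (ee iL) (ee iL)
    rw [ha, bt_add_left, bt_add_right, bt_add_right, bt_ac, bL] at this
    simp only [bt_smul_left, bt_smul_right, b00, bt_ee, ee_bt, r0, uL xP, map_one, mul_one, zero_add, mul_zero,
      add_zero, ee_ap, if_neg n0L.symm, map_zero, Pi.smul_apply, smul_eq_mul] at this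
    exact CharTwo.add_eq_zero.1 this
  have zQ : (zz ⟨a, sa⟩ : X) ∈ QQ n F := ZZ_le_QQ (mem_ZZ.2 ⟨_, rfl⟩)
  have k : ac (zz ⟨a, sa⟩ * x) (ee iL) = ac p (ee iL) := by
    rw [ac_mul, zz, ac_tc b00, bt_ee, r0, uL xP, mul_one, ha]
  refine ⟨_, mul_mem zQ hx, (zz ⟨a, sa⟩ * x)⁻¹ * p, mem_St.2 ?_, (mul_inv_cancel_left _ _).symm⟩
  rintro _ (rfl | rfl)
  · exact mem_PP.1 (mul_mem (inv_mem (QQ_le (mul_mem zQ hx))) hp)
  · rw [ac_mul, ← k, ← ac_mul, inv_mul_cancel, ac_one]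

theorem PP_gen : closure {y : X | ∃ v c, Is v ∧ v iL = 0 ∧ y = tc v c} = PP n F := by
  refine le_antisymm ((closure_le _).2 ?_) fun p hp => ?_
  · rintro _ ⟨v, c, h, k, rfl⟩
    exact tc_PP h.1 k c
  generalize hH : closure {y : X | ∃ v c, Is v ∧ v iL = 0 ∧ y = tc v c} = H
  have m : ∀ {v : V}, bt v v = 0 → v iL = 0 → ∀ c, tc v c ∈ H := fun {v} h k c => by
    by_cases v0 : v = 0
    · rw [v0, tc0]; exact one_mem _
    · exact hH ▸ subset_closure ⟨v, c, ⟨h, v0⟩, k, rfl⟩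
  have eL : (ee 0 : V) iL = 0 := by rw [ee_ap, if_neg n0L.symm]
  obtain ⟨x, hx, l, hl, rfl⟩ := PP_dec hp
  refine mul_mem ?_ ?_
  · obtain ⟨y, hy, yH, e⟩ := span (P := fun w => ∃ y ∈ QQ n F, y ∈ H ∧ cv y = w)
      (fun _ _ ⟨a, a1, a2, a3⟩ ⟨b, b1, b2, b3⟩ => ⟨a * b, mul_mem a1 b1, mul_mem a2 b2, by rw [cv_mul a1 b1, a3, b3]⟩)
      (fun w hw k => ⟨_, (sh_QQ hw k).1, by
        rw [sh_tc b00 k (b0 hw.2)]
        exact mul_mem (mul_mem (m (by rw [bt_add_left, bt_add_right, bt_add_right, b00, k, b0 hw.2, b0' hw.2]; simp)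
          (by rw [Pi.add_apply, eL, hw.2, add_zero]) 1) (m b00 eL 1)) (m k hw.2 1), (sh_QQ hw k).2⟩) (cv_mi x)
    obtain ⟨c, hc⟩ := mem_ZZ.1 ((cv_ker (mul_mem hx hy)).1 (by rw [cv_mul hx hy, e, two]))
    rw [eq_mul_inv_of_mul_eq hc]
    exact mul_mem (m b00 eL c) (inv_mem yH)
  · have h3 := Ok.h3 (n := n) F
    refine (closure_le _).2 ?_ (gen (x := l) (Finset.univ \ {0, iL}) (fun i hi => ?_) ?_ fun j hj => ?_)
    · rintro _ ⟨v, c, h, k, rfl⟩
      exact m h (k iL (by simp)) c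
    · simp only [Finset.mem_sdiff, Finset.mem_univ, Finset.mem_insert, Finset.mem_singleton, true_and, not_or] at hi ⊢
      exact ⟨fun e => hi.2 (by rw [← Fin.rev_rev i, e, r0]), fun e => hi.1 (by rw [← Fin.rev_rev i, e, rL])⟩
    · rw [Finset.card_univ_diff, Finset.card_pair n0L, Fintype.card_fin]
      omega
    · refine mem_St.1 hl _ ?_
      simp only [Finset.mem_sdiff, Finset.mem_univ, Finset.mem_insert, Finset.mem_singleton, true_and, not_not] at hj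
      rcases hj with rfl | rfl
      exacts [Or.inl rfl, Or.inr rfl]

theorem PP_gen1 : closure {y : X | ∃ p ∈ PP n F, ∃ c, y = p * tc (ee 1) c * p⁻¹} = PP n F := by
  obtain ⟨a1, a2, a3, a4, a5, -⟩ := i1 n F
  refine le_antisymm ((closure_le _).2 ?_) (PP_gen.ge.trans ((closure_le _).2 ?_))
  · rintro _ ⟨p, hp, c, rfl⟩
    exact mul_mem (mul_mem hp (tc_PP (is_ee a3).1 (by rw [ee_ap, if_neg a2.symm]) c)) (inv_mem hp)
  rintro _ ⟨v, c, h, k, rfl⟩
  by_cases e : ∀ j, j ≠ 0 → v j = 0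
  · have : v = v 0 • ee 0 := by
      ext j
      by_cases j0 : j = 0
      · simp [j0, ee_ap]
      · simp [ee_ap, j0, e j j0]
    rw [this, tc_smul]
    exact key (fun p hp r hr => mul_mem (subset_closure (by exact ⟨p, hp, 1, rfl⟩))
      (subset_closure (by exact ⟨r, hr, 1, rfl⟩))) n0L
      (r0 (n := n) ▸ n0L) a1 a2 a3 a1 a4 _
  · push Not at e
    obtain ⟨j, j0, hj⟩ := e
    obtain ⟨p, hp, e⟩ := tr' h.1 k j0 hj c
    exact subset_closure ⟨p, hp, c, e⟩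

theorem PP_pf : ⁅PP n F, PP n F⁆ = PP n F := by
  obtain ⟨a1, a2, a3, a4, a5, b1, b2, b3, b4, b5⟩ := i1 n F
  refine le_antisymm (commutator_le.2 fun a ha b hb =>
    mul_mem (mul_mem (mul_mem ha hb) (inv_mem ha)) (inv_mem hb)) (PP_gen1.ge.trans ((closure_le _).2 ?_))
  have tP : ∀ c, tc (ee 1) c ∈ PP n F := tc_PP (is_ee a3).1 (by rw [ee_ap, if_neg a2.symm])
  rintro _ ⟨p, hp, c, rfl⟩
  have k : tc (ee 1) c ∈ ⁅PP n F, PP n F⁆ := key (fun p hp r hr => by
    have := mul_mem (commutator_mem_commutator hp (tP 1)) (inv_mem (commutator_mem_commutator hr (tP 1)))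
    have s := inv_eq_of_mul_eq_one_left (tc_sq (is_ee (F := F) a3).1 1)
    rw [commutatorElement_def, commutatorElement_def] at this
    convert this using 1
    conv_lhs => rw [← s]
    conv_lhs => enter [1]; rw [s]
    group) a2 a3 b1 b2 b3 b4 b5 c
  have := mul_mem (commutator_mem_commutator hp (tP c)) k
  rwa [commutatorElement_def, inv_mul_cancel_right] at this

theorem core_PP {N : Subgroup X} (hN : IsPGroup 2 N) (h : N ≤ PP n F) (k : PP n F ≤ 𝐍(N)) : N ≤ QQ n F := by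
  have hU : N ≤ UU n F := (sylU.mono UU_le le_top).le_of_le_normalizer hN h (UU_le.trans k)
  intro x hx
  have x0 := mem_PP.1 (h hx)
  have mi : ∀ {w : V}, Mi w → ∃ a : F, ac x w = w + a • ee 0 := fun hw => span
    (P := fun w => ∃ a : F, ac x w = w + a • ee 0)
    (fun u v ⟨a, ha⟩ ⟨b, hb⟩ => ⟨a + b, by rw [ac_add, ha, hb, add_smul]; abel⟩) (fun w hw i => by
      by_cases e : ∀ j, j ≠ 0 → w j = 0
      · have : w = (0 : F) • ee 0 := by
          ext j
          by_cases j0 : j = 0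
          · simp [j0, hw.1]
          · simp [e j j0]
        exact ⟨0, by rw [this, ac_smul]; simp⟩
      push Not at e
      obtain ⟨j, j0, hj⟩ := e
      obtain ⟨p, hp, rfl⟩ := tr i hw.2 j0 hj
      have m := mem_UU.1 (hU (conj_mem_of_mem_normalizer' (k hp) hx))
      have e : ac (p⁻¹ * x * p) (ee 1) = ee 1 + (p⁻¹ * x * p).1.1 0 1 • ee 0 := by
        ext a
        by_cases a0 : a = 0
        · simp [a0, ee_ap, ac_ee]
        · rw [ac_ee, m a 1 (Fin.one_le_of_ne_zero a0)]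
          simp [ee_ap, a0, one_apply]
      refine ⟨(p⁻¹ * x * p).1.1 0 1, ?_⟩
      rw [← ac_mul, show x * p = p * (p⁻¹ * x * p) by group, ac_mul, e, ac_add, ac_smul, mem_PP.1 hp]) hw
  refine QQ_iff.2 fun v hv => ?_
  by_cases e : v = ee 0
  · exact ⟨0, by rw [e, x0, zero_smul, add_zero], fun _ => rfl⟩
  obtain ⟨a, ha⟩ := mi (w := v + v 0 • ee 0) ⟨by simp [ee_ap, CharTwo.add_self_eq_zero], by
    simp [ee_ap, hv, n0L.symm]⟩
  rw [ac_add, ac_smul, x0, add_right_comm] at ha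
  exact ⟨a, add_right_cancel ha, fun k => (e k).elim⟩

theorem St_pf {v : V} (h : Is v) : ⁅St {v}, St {v}⁆ = (St {v} : Subgroup X) := by
  obtain ⟨x, rfl⟩ := wit1 h
  rw [← St_cj, ← Subgroup.map_commutator]
  exact congrArg _ PP_pf

end UMS
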