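import Cfsg.Agent.Lib.UMS.B2
import Cfsg.Agent.Lib.UMS.B2b
import Cfsg.Agent.Lib.LMS.B4
import Cfsg.Agent.Lib.UMS.H12b

set_option autoImplicit false
set_option linter.unusedSectionVars false

namespace UMS

open Subgroup H69 Cfsg Matrix U4S
open LMS (XX GX iL kk MM au tw Sg)
open scoped MatrixGroups commutatorElement

universe u
variable {G : Type*} [Group G] [Finite G] {F : Type u} [Field F] [CharP F 2] [Fintype F] [Hs F] {n : ℕ} [Ok n F]
  {ι ψ χ : XU n F →* G} {t : G} {E : Subgroup G}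

local notation "X" => XU n F
local notation "V" => VV n F
local notation "𝐪" => Nat.card (K0 F)
local notation "I" => Fin (n + 3)
local notation "Mx" => Matrix (Fin (n + 3)) (Fin (n + 3)) F

theorem rk_cj (y x : X) : rk (y * x * y⁻¹) = rk x := by
  exact LMS.rk_cj y.1 x.1

theorem rk_tc {v : V} (h : Is v) {c : K0 F} (hc : c ≠ 0) : rk (tc v c) = 1 := by
  have h1 : (tc v c).1.1 - 1 = vecMulVec ((c : F) • v) fun j => σ (v j.rev) := by
    rw [H12.tc_val h.1, add_sub_cancel_left]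
    ext i j
    simp [hm, vecMulVec_apply, mul_assoc]
  have h2 : rk (tc v c) ≤ 1 := by
    change ((tc v c).1.1 - 1).rank ≤ 1
    rw [h1]
    exact rank_vecMulVec_le _ _
  have h3 : rk (tc v c) ≠ 0 := fun k => by
    have e : tc v c = 1 := Subtype.ext (LMS.rk_zero.1 k)
    exact hc (tc_cen h (by rw [e]; exact one_mem _))
  omega

theorem rk_zz {c : K0 F} (hc : c ≠ 0) : rk (zz c : X) = 1 := by
  exact rk_tc H12.is0 hc

theorem rk_zero {x : X} : rk x = 0 ↔ x = 1 := by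
  exact LMS.rk_zero.trans ⟨fun k => Subtype.ext k, fun k => congrArg Subtype.val k⟩

theorem rk_sq {x : X} (h : rk x ≤ 1) : x * x = 1 := by
  exact Subtype.ext (LMS.rk_sq h)

theorem rk_one {x : X} (h : rk x = 1) : ∃ v, Is v ∧ x = tc v 1 := by
  obtain ⟨w, w1, w2, w3⟩ := H12.inv_nf (rk_sq h.le)
  revert w
  rw [h]
  intro w w1 w2 w3
  refine ⟨w 0, ⟨w2 0 0, w1.ne_zero 0⟩, H12.xext ?_⟩
  rw [w3, H12.tc_val (w2 0 0), Fin.sum_univ_one]
  simp

theorem rk_le {x : X} (h : x * x = 1) : rk x ≤ kk n := by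
  exact LMS.rk_le (congrArg Subtype.val h)

theorem ex_rk {r : ℕ} (h : r ≤ kk n) : ∃ x ∈ JD n F (kk n), rk x = r := by
  have a : H12.ad (LMS.B4.NN n F r) = LMS.B4.NN n F r := by
    ext i j
    rw [H12.ad_apply, LMS.B4.NN_apply, LMS.B4.NN_apply, Fin.rev_rev]
    by_cases k : i = j.rev
    · subst k
      by_cases k' : (j.rev).1 < r <;> simp [k']
    · rw [if_neg fun e => k e.1.symm, if_neg fun e => k e.1, map_zero]
  have m : (LMS.B4.xr h : XX n F) ∈ XU n F := by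
    refine H12.mem_XU.2 ?_
    change H12.ad (1 + LMS.B4.NN n F r) * (1 + LMS.B4.NN n F r) = 1
    rw [H12.ad_add, H12.ad_one, a, add_mul, mul_add, mul_add, LMS.B4.NN_sq h, one_mul, one_mul, mul_one, add_zero,
      add_assoc, H12.mm, add_zero]
  exact ⟨⟨_, m⟩, LMS.B4.xr_J h, LMS.B4.xr_rk h⟩

theorem inv_J {x : X} (h : x * x = 1) : ∃ z, z * x * z⁻¹ ∈ JD n F (kk n) := by
  obtain ⟨y, hy, k⟩ := ex_rk (F := F) (rk_le h)
  obtain ⟨z, hz⟩ := H12.inv_cj h (el_JD _ y hy) k.symm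
  exact ⟨z, hz ▸ hy⟩

end UMS
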