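import Cfsg.Agent.Lib.UMS.B4
import Cfsg.Agent.Lib.UMS.B3
import Cfsg.Agent.Lib.UMS.H12b

set_option autoImplicit false
set_option linter.unusedSectionVars false

namespace UMS

open Subgroup H69 Cfsg Matrix U4S
open LMS (XX GX iL kk MM au tw Sg)
open scoped MatrixGroups commutatorElement

universe u
variable {G : Type*} [Group G] [Finite G] {F : Type u} [Field F] [CharP F 2] [Fintype F] [Hs F] {n : ℕ} [Ok n F]
  {ι ψ χ : XU n F →* G} {t : G} {E : Subgroup G}

local notation "X" => XU n F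
local notation "V" => VV n F
local notation "𝐪" => Nat.card (K0 F)
local notation "I" => Fin (n + 3)
local notation "Mx" => Matrix (Fin (n + 3)) (Fin (n + 3)) F

namespace B4b

theorem vv (v : V) : v + v = 0 := funext fun i => CharTwo.add_self_eq_zero (v i)

theorem gd_cj {u w : X} (h : Gd (cn (w * u * w⁻¹))) : Gd (cn u) := by
  obtain ⟨P, p1, p2, y, hy, y2, y1, x, hx⟩ := h
  refine ⟨P ^ᶜ w⁻¹, isPGroup_cj p1 _, fun p hp => ?_, w⁻¹ * y * w⁻¹⁻¹, ?_, ?_, ?_, w⁻¹ * x * w, ?_⟩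
  · have := p2 _ (mem_cj.1 hp)
    rw [cn_apply] at this ⊢
    calc u * p * u⁻¹ = w⁻¹ * (w * u * w⁻¹ * (w⁻¹⁻¹ * p * w⁻¹) * (w * u * w⁻¹)⁻¹) * w := by group
      _ = p := by rw [this]; group
  · rw [← cj_commutator]
    exact cj_mem _ hy
  · calc _ = w⁻¹ * (y * y) * w := by group
      _ = 1 := by rw [y2]; group
  · intro e
    apply y1
    calc y = w * (w⁻¹ * y * w⁻¹⁻¹) * w⁻¹ := by group
      _ = 1 := by rw [e]; group
  · rw [hx, cn_apply, cn_apply]; group

theorem sh_self {p : V} (hp : bt p p = 0) (a : F) (c : K0 F) (hc : a + σ a = c) : sh p (a • p) = tc p c := by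
  refine H12.xext ?_
  rw [sh_val hp (by rw [bt_smul_left, bt_smul_right, hp, mul_zero, mul_zero]) (by rw [bt_smul_right, hp, mul_zero]),
    tc_val hp, hm_smul_left, hm_smul_right, ← hc, add_smul]
  abel

theorem cm {p b d : V} (hp : bt p p = 0) (hb : bt b b = 0) (hd : bt d d = 0) (h1 : bt p b = 0) (h2 : bt p d = 0)
    (c : K0 F) (hc : bt d b + σ (bt d b) = c) : ⁅sh p b, sh p d⁆ = tc p c := by
  have h2' : bt d p = 0 := by rw [bt_symm, h2, map_zero]
  have e1 : ac (sh p b) p = p := by rw [ac_sh hp hb h1, h1, hp, zero_smul, zero_smul, add_zero, add_zero]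
  have e2 : ac (sh p d) p = p := by rw [ac_sh hp hd h2, h2, hp, zero_smul, zero_smul, add_zero, add_zero]
  rw [commutatorElement_def, sh_cj hp hd h2, e1, ac_sh hp hb h1, h2', zero_smul, add_zero,
    sh_add hp hd (by rw [bt_smul_left, bt_smul_right, hp, mul_zero, mul_zero]) h2
      (by rw [bt_smul_right, hp, mul_zero]) (by rw [bt_smul_right, h2', mul_zero]),
    sh_self hp _ c hc, tc_cj hp, e2]

theorem be (i j : I) : bt (ee i : V) (ee j) = if j.rev = i then 1 else 0 := by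
  rw [bt_ee, ee, Pi.single_apply]

theorem shU {i j : I} (h : i.1 + j.1 < n + 2) (hi : i.rev ≠ i) (hj : j.rev ≠ j) (a : F) :
    (sh (ee i) (a • ee j) : X) ∈ UU n F := by
  have h1 : i < j.rev := by rw [Fin.lt_def, Fin.val_rev]; omega
  have h2 : j < i.rev := by rw [Fin.lt_def, Fin.val_rev]; omega
  refine mem_UU.2 fun r s hs => ?_
  rw [sh_val (by rw [be, if_neg hi]) (by rw [bt_smul_left, bt_smul_right, be, if_neg hj, mul_zero, mul_zero])
    (by rw [bt_smul_right, be, if_neg h1.ne', mul_zero]), hm_smul_left, hm_smul_right, hm_ee, hm_ee,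
    Matrix.add_apply, Matrix.add_apply, Matrix.smul_apply, Matrix.smul_apply,
    single_apply_of_ne _ _ _ _ _ (by rintro ⟨rfl, rfl⟩; exact absurd h1 (not_lt.2 hs)),
    single_apply_of_ne _ _ _ _ _ (by rintro ⟨rfl, rfl⟩; exact absurd h2 (not_lt.2 hs)), smul_zero, smul_zero,
    add_zero, add_zero]

theorem nr (h3 : 3 ≤ n) {i : I} (h : i.1 ≤ 2) {j : I} (k : j.1 ≤ 2) : i.rev ≠ j := fun e => by
  have := congrArg Fin.val e
  rw [Fin.val_rev] at this
  omega

theorem iso0 {i : I} (h : i.1 ≤ 2) : bt (ee i : V) (ee i) = 0 := by rw [be, if_neg (nr (Ok.h3 (F := F)) h h)]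

theorem tcU {i : I} (h : i.1 < 2) (c : K0 F) : (tc (ee i) c : X) ∈ ⁅UU n F, UU n F⁆ := by
  have h3 : 3 ≤ n := Ok.h3 (F := F)
  obtain ⟨a, ha⟩ := tr_surj c
  have v2 : (2 : I).1 = 2 := rfl
  have n2 : (2 : I).rev ≠ 2 := nr h3 v2.le v2.le
  have n2' : (2 : I).rev.rev ≠ (2 : I).rev := by rw [Fin.rev_rev]; exact n2.symm
  have i2 : (2 : I) ≠ i := fun e => by rw [← e, v2] at h; omega
  rw [← cm (b := (1 : F) • ee (Fin.rev 2)) (d := a • ee 2) (iso0 h.le) (by rw [one_smul, be, if_neg n2'])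
    (by rw [bt_smul_left, bt_smul_right, iso0 v2.le, mul_zero, mul_zero])
    (by rw [one_smul, be, Fin.rev_rev, if_neg i2])
    (by rw [bt_smul_right, be, if_neg (nr h3 v2.le h.le), mul_zero]) c
    (by rw [one_smul, bt_smul_left, be, Fin.rev_rev, if_pos rfl, mul_one, ha])]
  exact commutator_mem_commutator (shU (by rw [Fin.val_rev, v2]; omega) (nr (Ok.h3 (F := F)) h.le h.le) n2' _)
    (shU (by rw [v2]; omega) (nr (Ok.h3 (F := F)) h.le h.le) n2 _)

theorem tc01 : (tc (ee 1) 1 : X) ≠ tc (ee 0) 1 := fun e => by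
  have k := congrArg (fun x => ac x (ee (Fin.rev 0)) 0) e
  have n0 : (Fin.rev 1 : I) ≠ Fin.rev 0 := fun h => by simpa using congrArg Fin.val (Fin.rev_injective h)
  simp only [ac_tc (iso0 (F := F) (i := (0 : I)) (by simp)), ac_tc (iso0 (F := F) (i := (1 : I)) (by simp)), be,
    if_neg n0, if_true, mul_zero, zero_smul, add_zero] at k
  simp [ee] at k

/-- `e0 + e1` -/
abbrev pp : V := ee 0 + ee 1
/-- `f0 + f1` -/
abbrev ff : V := ee (Fin.rev 0) + ee (Fin.rev 1)

theorem bp {i : I} (h : 2 * i.1 < n + 2) : bt (ee i : V) pp = 0 := by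
  have h3 : 3 ≤ n := Ok.h3 (F := F)
  rw [bt_add_right, be, be, if_neg, if_neg, add_zero] <;> intro e <;> have := congrArg Fin.val e <;>
    simp only [Fin.val_rev, Fin.val_zero, Fin.val_one] at this <;> omega

theorem bf (i : I) : bt (ee i : V) ff = if i.1 < 2 then 1 else 0 := by
  rw [bt_add_right, be, be, Fin.rev_rev, Fin.rev_rev]
  simp only [Fin.ext_iff, Fin.val_zero, Fin.val_one]
  split_ifs <;> first | omega | simp

theorem ppp : bt (pp : V) pp = 0 := by
  have h3 : 3 ≤ n := Ok.h3 (F := F)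
  rw [bt_add_left, bp (by simp), bp (by simp only [Fin.val_one]; omega), add_zero]

theorem ppf : bt (pp : V) ff = 0 := by
  rw [bt_add_left, bf, bf, if_pos (by simp), if_pos (by simp), CharTwo.add_self_eq_zero]

theorem fff : bt (ff : V) ff = 0 := by
  have h3 : 3 ≤ n := Ok.h3 (F := F)
  rw [bt_add_left, bf, bf, if_neg, if_neg, add_zero] <;> simp only [Fin.val_rev, Fin.val_zero, Fin.val_one] <;> omega

theorem app (a : F) : bt (a • pp : V) (a • pp) = 0 := by rw [bt_smul_left, bt_smul_right, ppp, mul_zero, mul_zero]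

theorem apf (a : F) : bt (a • pp : V) ff = 0 := by rw [bt_smul_left, ppf, mul_zero]

theorem acx (a : F) {i : I} (h : 2 * i.1 < n + 2) :
    ac (sh (a • pp) ff : X) (ee i) = ee i + if i.1 < 2 then a • pp else 0 := by
  rw [ac_sh (app a) fff (apf a), bt_smul_right, bp h, mul_zero, zero_smul, add_zero, bf]
  split_ifs
  · rw [one_smul]
  · rw [zero_smul]

theorem gd_z : Gd (cn (zz 1 : X)) := by
  have k : ∀ p ∈ UU n F, cn (zz 1 : X) p = p := fun p hp => by
    rw [cn_apply, ← RR_cen (mem_ZZ.2 ⟨1, rfl⟩) hp]; group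
  have i0 : bt (ee 0 : V) (ee 0) = 0 := iso0 (by simp)
  have i1 : bt (ee 1 : V) (ee 1) = 0 := iso0 (by simp)
  have c := tc_comm i0 i1 (by rw [be, if_neg (nr (Ok.h3 (F := F)) (by simp) (by simp))]) 1 1
  refine ⟨UU n F, sylU.isP, k, tc (ee 1) 1 * tc (ee 0) 1, mul_mem (tcU (by simp) _) (tcU (by simp) _), ?_,
    fun e => tc01 (F := F) (n := n) ?_, sh ((1 : F) • pp) ff, ?_⟩
  · rw [mul_assoc, ← mul_assoc (tc (ee 0) 1), c, mul_assoc, tc_sq i0, mul_one, tc_sq i1]
  · rw [eq_inv_of_mul_eq_one_left e, inv_eq_of_mul_eq_one_right (tc_sq i0 1)]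
  · have e := tc_cj i0 1 (sh ((1 : F) • pp) ff)
    rw [acx _ (by simp), if_pos (by simp), one_smul, pp, ← add_assoc, vv, zero_add] at e
    rw [← e, cn_apply, zz, one_smul]
    nth_rewrite 2 [← inv_eq_of_mul_eq_one_right (tc_sq i0 1)]
    group

theorem shQ {w : V} (hw : bt w w = 0) (h : bt (ee 0) w = 0) : sh (ee 0) w ∈ QQ n F := by
  refine QQ_iff.2 fun v hv => ⟨bt v w, ?_, fun e => by rw [e, h]⟩
  rw [ac_sh (iso0 (by simp)) hw h, bt_ee, Fin.rev_zero, hv, zero_smul, add_zero]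

theorem shQ' {g : X} {p w : V} (hg : ac g (ee 0) = p) (hw : bt w w = 0) (h : bt p w = 0) :
    sh p w ∈ QQ n F ^ᶜ g := by
  have e : ac g (ac g⁻¹ w) = w := by rw [← ac_mul, mul_inv_cancel, ac_one]
  have a1 : bt (ac g⁻¹ w) (ac g⁻¹ w) = 0 := by rw [bt_ac, hw]
  have a2 : bt (ee 0) (ac g⁻¹ w) = 0 := by rw [← bt_ac g, hg, e, h]
  rw [← hg, ← e, ← sh_cj (iso0 (by simp)) a1 a2]
  exact cj_mem g (shQ a1 a2)

theorem gd_std {u : X} {m : ℕ} (k : m + 2 ≤ n + 3) (k2 : 2 * (m + 2) ≤ n + 3)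
    (hu : u.1.1 = 1 + ∑ i : Fin (m + 2), hm (ee (Fin.castLE k i)) (ee (Fin.castLE k i))) : Gd (cn u) := by
  have h3 : 3 ≤ n := Ok.h3 (F := F)
  obtain ⟨ω, hω⟩ := ex_om (F := F)
  have lt : ∀ i : Fin (m + 2), 2 * (Fin.castLE k i).1 < n + 2 := fun i => by
    have := i.2
    rw [Fin.val_castLE]; omega
  have cj : ∀ x : X, (x * u * x⁻¹).1.1 = 1 + ∑ i : Fin (m + 2),
      hm (ac x (ee (Fin.castLE k i))) (ac x (ee (Fin.castLE k i))) := fun x => by
    rw [H12.mul_val, H12.mul_val, hu, mul_add, add_mul, H12.cj_one, Finset.mul_sum, Finset.sum_mul]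
    simp only [cj_hm]
  have c0 : Fin.castLE k 0 = 0 := rfl
  have c1 : Fin.castLE k (Fin.succ 0) = 1 := rfl
  have cx : ∀ a : F, (sh (a • pp) ff * u * (sh (a • pp) ff)⁻¹).1.1 = u.1.1 + (a + σ a) • hm pp pp := fun a => by
    rw [cj, hu, Fin.sum_univ_succ, Fin.sum_univ_succ, Fin.sum_univ_succ, Fin.sum_univ_succ]
    have n2 : ∀ j : Fin m, ac (sh (a • pp) ff : X) (ee (Fin.castLE k j.succ.succ)) = ee (Fin.castLE k j.succ.succ) :=
      fun j => by rw [acx a (lt _), if_neg (by simp only [Fin.val_castLE, Fin.val_succ]; omega), add_zero]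
    simp only [n2]
    rw [c0, c1, acx a (by simp), acx a (by simp only [Fin.val_one]; omega), if_pos (by simp), if_pos (by simp)]
    generalize (∑ i : Fin m, hm (ee (Fin.castLE k i.succ.succ) : V) (ee (Fin.castLE k i.succ.succ))) = S
    simp only [hm_add_left, hm_add_right, hm_smul_left, hm_smul_right]
    ext r s
    simp only [Matrix.add_apply, Matrix.smul_apply, smul_eq_mul]
    grind
  have up : ac u pp = pp := by
    have z : ∀ i : Fin (m + 2), bt (pp : V) (ee (Fin.castLE k i)) = 0 := fun i => by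
      rw [bt_symm, bp (lt i), map_zero]
    rw [ac, hu, add_mulVec, one_mulVec, Matrix.sum_mulVec]
    simp only [hm_vec, z, zero_smul, Finset.sum_const_zero, add_zero]
  have ip : Is (pp : V) := ⟨ppp, fun e => by simpa [ee] using congrFun e 0⟩
  obtain ⟨g, hg⟩ := wit1 ip
  have e0 : bt (ω • ee 0 : V) (ω • ee 0) = 0 := by
    rw [bt_smul_left, bt_smul_right, iso0 (by simp), mul_zero, mul_zero]
  have p0 : bt (pp : V) (ω • ee 0) = 0 := by rw [bt_smul_right, bt_symm, bp (by simp), map_zero, mul_zero]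
  have m1 : sh pp ff ∈ (QQ n F ^ᶜ g) ⊓ centralizer {u} := by
    refine ⟨shQ' hg fff ppf, mem_centralizer_singleton_iff.2 (mul_inv_eq_iff_eq_mul.1 (H12.xext ?_))⟩
    have := cx 1
    rwa [one_smul, map_one, CharTwo.add_self_eq_zero, zero_smul, add_zero] at this
  have m2 : sh pp (ω • ee 0) ∈ (QQ n F ^ᶜ g) ⊓ centralizer {u} := by
    refine ⟨shQ' hg e0 p0, mem_centralizer_singleton_iff.2 (mul_inv_eq_iff_eq_mul.1 (H12.xext ?_))⟩
    rw [cj, hu]
    refine congrArg _ (Finset.sum_congr rfl fun i _ => ?_)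
    have : ac (sh pp (ω • ee 0) : X) (ee (Fin.castLE k i)) = ee (Fin.castLE k i) := by
      rw [ac_sh ppp e0 p0, bp (lt i), bt_smul_right, be, if_neg, mul_zero, zero_smul, zero_smul, add_zero, add_zero]
      intro e
      have := lt i
      rw [← e, Fin.val_rev, Fin.val_zero] at this
      omega
    rw [this]
  refine ⟨(QQ n F ^ᶜ g) ⊓ centralizer {u}, (isPGroup_cj isP_QQ g).to_inf_left, fun p hp => ?_, tc pp 1, ?_,
    tc_sq ppp 1, fun e => one_ne_zero (tc_cen ip (e ▸ one_mem _)), sh (ω • pp) ff, ?_⟩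
  · rw [cn_apply, ← mem_centralizer_singleton_iff.1 hp.2]; group
  · rw [← cm ppp fff e0 ppf p0 1 (by rw [bt_smul_left, bf, if_pos (by simp), mul_one, hω]; rfl)]
    exact commutator_mem_commutator m1 m2
  · have e : sh (ω • pp) ff * u * (sh (ω • pp) ff)⁻¹ = tc pp 1 * u := H12.xext (by
      have z : hm (pp : V) pp * u.1.1 = hm pp pp := by
        have z : ∀ i : Fin (m + 2), bt (ee (Fin.castLE k i) : V) pp = 0 := fun i => bp (lt i)
        rw [hu, mul_add, mul_one, Finset.mul_sum]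
        simp only [hm_mul, z, zero_smul, Finset.sum_const_zero, add_zero]
      rw [cx, hω, H12.mul_val, tc_val ppp, add_mul, one_mul, smul_mul_assoc, z]
      rfl)
    rw [cn_apply, ← mul_inv_eq_iff_eq_mul.2 e]
    group

end B4b

open B4b

theorem gd_inn {u : X} (h : u * u = 1) (u1 : u ≠ 1) : Gd (cn u) := by
  obtain ⟨k, k2, l, hl⟩ := H12.inv_std h
  have a2 : rk u ≠ 0 := fun e => u1 (rk_zero.1 e)
  refine gd_cj (w := l) ?_
  generalize rk u = ρ at *
  obtain _ | _ | m := ρ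
  · exact (a2 rfl).elim
  · have : l * u * l⁻¹ = zz 1 := H12.xext (by
      rw [hl, zz, tc_val (iso0 (by simp)), Fin.sum_univ_succ, Fin.sum_univ_zero, add_zero]
      exact congrArg _ (one_smul _ _).symm)
    rw [this]
    exact gd_z
  · exact gd_std k k2 hl

theorem four_U : ∃ x ∈ ⁅UU n F, UU n F⁆, ∃ y ∈ ⁅UU n F, UU n F⁆, x * x = 1 ∧ y * y = 1 ∧ x * y = y * x ∧
    x ≠ 1 ∧ y ≠ 1 ∧ x ≠ y := by
  have i0 : bt (ee 0 : V) (ee 0) = 0 := iso0 (by simp)
  have i1 : bt (ee 1 : V) (ee 1) = 0 := iso0 (by simp)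
  refine ⟨tc (ee 1) 1, tcU (by simp) _, tc (ee 0) 1, tcU (by simp) _, tc_sq i1 1, tc_sq i0 1,
    (tc_comm i0 i1 (by rw [be, if_neg (nr (Ok.h3 (F := F)) (by simp) (by simp))]) 1 1).symm, fun e => ?_, fun e => ?_, tc01⟩
  · exact one_ne_zero (tc_cen (is_ee (nr (Ok.h3 (F := F)) (by simp) (by simp)).symm) (e ▸ one_mem _))
  · exact one_ne_zero (tc_cen (is_ee (nr (Ok.h3 (F := F)) (by simp) (by simp)).symm) (e ▸ one_mem _))

theorem zz_comm_U (c : K0 F) : (zz c : X) ∈ ⁅UU n F, UU n F⁆ := by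
  exact tcU (by simp) c

end UMS
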