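import Cfsg.Agent.Lib.UMS.B3b
import Cfsg.Agent.Lib.UMS.B6b

set_option autoImplicit false
set_option linter.unusedSectionVars false

namespace UMS

open Subgroup H69 Cfsg Matrix U4S
open LMS (XX GX iL kk MM au tw Sg)
open scoped MatrixGroups commutatorElement

universe u
variable {G : Type*} [Group G] [Finite G] {F : Type u} [Field F] [CharP F 2] [Fintype F] [Hs F] {n : ℕ} [Ok n F]
  {ι ψ χ : XU n F →* G} {t : G} {E : Subgroup G}

local notation "X" => XU n F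
local notation "V" => VV n F
local notation "𝐪" => Nat.card (K0 F)
local notation "I" => Fin (n + 3)
local notation "Mx" => Matrix (Fin (n + 3)) (Fin (n + 3)) F

namespace CE

theorem n0 : (0 : I) ≠ iL := Fin.last_pos.ne

theorem r0 : (0 : I).rev = iL := Fin.rev_zero _

theorem b00 : bt (ee 0 : V) (ee 0) = 0 := by
  rw [bt_ee, r0]; exact Pi.single_eq_of_ne n0.symm _

theorem zsq (c : K0 F) : (zz c : X) * zz c = 1 := tc_sq b00 c

theorem acz (c : K0 F) (u : V) : ac (zz c : X) u = u + ((c : F) * u iL) • ee 0 := by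
  rw [← r0, ← bt_ee u]; exact ac_tc b00 c u

theorem mi {a : I} (h0 : a ≠ 0) (hL : a ≠ iL) : Mi (ee a.rev : V) :=
  ⟨Pi.single_eq_of_ne (fun k => hL (by rw [← Fin.rev_rev a, ← k, r0])) _,
    Pi.single_eq_of_ne (fun k => h0 (Fin.rev_injective (by rw [← k, r0]))) _⟩

theorem e00 {a b : F} (h : a • (ee 0 : V) = b • ee 0) : a = b := by
  have := congrFun h 0
  simpa [ee] using this

theorem fin {a : G} {α : X →* X} (h : Act ι a α) {y : X} (key : ∀ M, α M = y * M * y⁻¹) :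
    ∃ k ∈ 𝐂(ι.range), a = k * ι y := by
  refine ⟨a * (ι y)⁻¹, mem_centralizer_iff.2 ?_, by rw [inv_mul_cancel_right]⟩
  rintro _ ⟨w, rfl⟩
  have := h (y⁻¹ * w * y)
  rw [key] at this
  simp only [map_mul, map_inv] at this
  calc ι w * (a * (ι y)⁻¹) = (ι y * ((ι y)⁻¹ * ι w * ι y) * (ι y)⁻¹) * (a * (ι y)⁻¹) := by group
    _ = a * (ι y)⁻¹ * ι w := by rw [← this]; group

theorem semi {α : X →* X} {g : GX n F} {φ : RingAut F} (h : ∀ x, (α x).1 = au g φ false x.1) (x : X) (v : V) :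
    ac (α x) (g.1 *ᵥ fun i => φ (v i)) = g.1 *ᵥ fun i => φ (ac x v i) := by
  unfold ac
  rw [h, LMS.au_false, gc_val, mulVec_mulVec, mul_assoc, Units.inv_mul, mul_one, ← mulVec_mulVec]
  congr 1
  funext i
  exact (RingHom.map_mulVec (φ : F →+* F) x.1.1 v i).symm

end CE

open CE

theorem cQb (e : Em ι) {a : G} (ha : a ∈ 𝐍(ι.range)) (h : Cn ι (ZZ n F) a)
    (k : ∀ x ∈ QQ n F, ∃ c, a * ι x * a⁻¹ = ι x * ι (zz c)) : ∃ x ∈ QQ n F, ∃ k ∈ 𝐂(ι.range), a = k * ι x := by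
  obtain ⟨α, φ, U, A⟩ := e.act ha
  obtain ⟨g, μ, -, hg, hb⟩ := U.form
  have fx : α (zz (1 : K0 F)) = zz (1 : K0 F) := A.fix' e (P2.of_sq (zsq _)) (h _ (mem_ZZ.2 ⟨1, rfl⟩))
  let s : V → V := fun v => g.1 *ᵥ fun i => φ (v i)
  have sa : ∀ (u v : V) (c : F), s (u + c • v) = s u + φ c • s v := fun u v c => by
    show g.1 *ᵥ _ = g.1 *ᵥ _ + φ c • g.1 *ᵥ _
    rw [← mulVec_smul, ← mulVec_add]
    congr 1
    funext i
    simp
  have z1 : ∀ v : V, φ (v iL) • s (ee 0) = s v iL • ee 0 := fun v => by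
    have := semi hg (zz (1 : K0 F)) v
    change ac _ (s v) = s _ at this
    rw [fx, acz, acz, sa] at this
    simpa using (add_left_cancel this).symm
  have eL : (ee iL : V) iL = 1 := Pi.single_eq_same _ _
  obtain ⟨l, hl⟩ : ∃ l : F, s (ee 0) = l • ee 0 := ⟨_, by simpa [eL] using z1 (ee iL)⟩
  have z2 : ∀ v : V, s v iL = φ (v iL) * l := fun v => by
    have := z1 v
    rw [hl, smul_smul] at this
    exact (e00 this).symm
  have l0 : l ≠ 0 := by
    rintro rfl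
    have : g.1 *ᵥ (fun i => φ ((ee 0 : V) i)) = 0 := by rw [zero_smul] at hl; exact hl
    have q := congrFun (congrArg (fun u => (g⁻¹).1 *ᵥ u) this) 0
    simp only [mulVec_mulVec, Units.inv_mul, one_mulVec, mulVec_zero] at q
    simp [ee] at q
  have z3 : ∀ v w : V, v iL = 0 → Mi w → bt (s v) w = φ (bt v w) * l := fun v w hv hw => by
    obtain ⟨x, hx, rfl⟩ := cv_surj hw
    obtain ⟨c, hc⟩ := k x hx
    rw [A, ← map_mul] at hc
    have p : P2 (α x) := by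
      obtain ⟨j, hj⟩ := P2.of_mem isP_QQ hx
      exact ⟨j, by rw [← map_pow, hj, map_one]⟩
    have q := e.inj2 p (P2.of_mem isP_QQ (mul_mem hx (ZZ_le_QQ (mem_ZZ.2 ⟨c, rfl⟩)))) hc
    have sv : s v iL = 0 := by rw [z2, hv, map_zero, zero_mul]
    have := semi hg x v
    change ac _ (s v) = s _ at this
    rw [q, ac_mul, acz, sv, mul_zero, zero_smul, add_zero, ac_QQ hx sv, ac_QQ hx hv, sa, hl, smul_smul] at this
    exact e00 (add_left_cancel this)
  have o0 : (1 : I) ≠ 0 := Fin.zero_ne_one.symm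
  have oL : (1 : I) ≠ iL := fun k => by
    have := congrArg Fin.val k
    simp at this
  have φ1 : φ = 1 := RingEquiv.ext fun c => by
    have m := mi (F := F) o0 oL
    have vL : (ee 1 : V) iL = 0 := Pi.single_eq_of_ne oL.symm _
    have b1 : bt (ee 1 : V) (ee (1 : I).rev) = 1 := by rw [bt_ee, Fin.rev_rev]; exact Pi.single_eq_same _ _
    have p := z3 _ _ vL m
    have q := z3 _ (σ c • ee (1 : I).rev) vL ⟨by rw [Pi.smul_apply, m.1, smul_zero], by rw [Pi.smul_apply, m.2, smul_zero]⟩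
    rw [bt_smul_right, bt_smul_right, p, b1, sg_sg, map_one, one_mul, mul_one] at q
    exact (mul_right_cancel₀ l0 q).symm
  subst φ1
  have sg : ∀ v : V, s v = g.1 *ᵥ v := fun v => rfl
  have hμ : (μ : F) = σ l * l := by
    have := hb (ee iL) (ee 0)
    change bt (s _) (s _) = _ at this
    rw [hl, bt_smul_right, bt_ee, bt_ee, r0, z2, eL] at this
    simpa using this.symm
  have col : ∀ a b : I, g.1 a b = s (ee b) a := fun a b => by
    rw [sg]; simp [ee]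
  have ent : ∀ a b : I, (a ≠ 0 ∧ b ≠ iL) ∨ a = b → (l⁻¹ • g.1) a b = (1 : Mx) a b := by
    intro a b hab
    have eb : (ee b : V) a = (1 : Mx) a b := by simp [ee, one_apply, Pi.single_apply]
    rw [Matrix.smul_apply, smul_eq_mul, col, inv_mul_eq_iff_eq_mul₀ l0, ← eb, mul_comm]
    by_cases hL : a = iL
    · rw [hL, z2]; rfl
    by_cases h0 : a = 0
    · obtain rfl : b = 0 := by
        rcases hab with q | q
        · exact absurd h0 q.1
        · rw [← q, h0]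
      rw [hl, Pi.smul_apply, smul_eq_mul, mul_comm]
    · have bL : b ≠ iL := by
        rcases hab with q | q
        · exact q.2
        · rw [← q]; exact hL
      have := z3 (ee b) _ (Pi.single_eq_of_ne bL.symm _) (mi h0 hL)
      rw [bt_ee, bt_ee, Fin.rev_rev] at this
      exact this
  have det : (l⁻¹ • g.1).det = 1 := by
    rw [det_of_isUpperTriangular]
    · exact Finset.prod_eq_one fun a _ => by rw [ent a a (Or.inr rfl), one_apply_eq]
    · intro a b hab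
      have hab' : b < a := hab
      rw [ent a b (Or.inl ⟨(lt_of_le_of_lt (Fin.zero_le b) hab').ne',
        (lt_of_lt_of_le hab' (Fin.le_last a)).ne⟩), one_apply_ne hab'.ne']
  have un : (⟨_, det⟩ : XX n F) ∈ XU n F := mem_XU.2 fun u v => by
    have := hb u v
    change bt (g.1 *ᵥ u) (g.1 *ᵥ v) = μ * bt u v at this
    have sl : σ l ≠ 0 := (map_ne_zero _).2 l0
    change bt ((l⁻¹ • g.1) *ᵥ u) ((l⁻¹ • g.1) *ᵥ v) = _
    rw [smul_mulVec, smul_mulVec, bt_smul_left, bt_smul_right, this, hμ, map_inv₀]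
    field_simp
  refine ⟨⟨_, un⟩, mem_QQ.2 ent, fin A fun M => ?_⟩
  rw [eq_mul_inv_iff_mul_eq]
  apply Subtype.ext
  apply Subtype.ext
  change (α M).1.1 * (l⁻¹ • g.1) = (l⁻¹ • g.1) * M.1.1
  rw [hg, LMS.au_false, show fr (1 : RingAut F) M.1 = M.1 from Subtype.ext (Matrix.ext fun _ _ => rfl),
    gc_val, Matrix.mul_smul, Matrix.smul_mul, mul_assoc, Units.inv_mul, mul_one]

theorem cQ (e : Em ι) {a : G} (ha : a ∈ 𝐍(ι.range)) (h : Cn ι (QQ n F) a) :
    ∃ c, ∃ k ∈ 𝐂(ι.range), a = k * ι (zz c) := by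
  obtain ⟨x, hx, k, hk, rfl⟩ := cQb e ha (fun y hy => h y (ZZ_le_QQ hy)) fun y hy =>
    ⟨0, by rw [h y hy, show (zz 0 : X) = 1 from tc_zero _, map_one, mul_one, mul_inv_cancel_right]⟩
  have tr : ∀ w : V, Mi w → bt (cv x) w + σ (bt (cv x) w) = 0 := fun w hw => by
    obtain ⟨y, hy, rfl⟩ := cv_surj hw
    have cm : x * y = y * x := e.comm2 (P2.of_mem isP_QQ hx) (by
      have := h y hy
      have hk' := mem_centralizer_iff.1 hk _ ⟨y, rfl⟩
      rw [← mul_assoc, hk', mul_assoc, mul_assoc] at this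
      exact mul_left_cancel this)
    obtain ⟨c, hc, q⟩ := comm_QQ hx hy
    rw [cm, left_eq_mul, ← tc_zero (ee 0)] at q
    rw [← hc, tc_inj (is_ee (by rw [r0]; exact n0)) q]
    rfl
  obtain ⟨c, rfl⟩ := mem_ZZ.1 ((cv_ker hx).1 (funext fun j => by
    by_cases h0 : j = 0
    · rw [h0]; exact (cv_mi x).1
    by_cases hL : j = iL
    · rw [hL]; exact (cv_mi x).2
    obtain ⟨ω, hω⟩ := ex_om (F := F)
    have m := mi (F := F) h0 hL
    have p := tr _ m
    have q := tr (ω • ee j.rev) ⟨by rw [Pi.smul_apply, m.1, smul_zero], by rw [Pi.smul_apply, m.2, smul_zero]⟩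
    rw [bt_smul_right, map_mul, sg_sg] at q
    rw [bt_ee, Fin.rev_rev] at p q
    have two : (2 : F) = 0 := CharTwo.two_eq_zero
    show cv x j = 0
    linear_combination q - ω * p - cv x j * hω + (ω * cv x j) * two))
  exact ⟨c, k, hk, rfl⟩

theorem cP (e : Em ι) {a : G} (ha : a ∈ 𝐍(ι.range)) {v : V} (hv : Is v) (h : Cn ι (St {v}) a) :
    ∃ c, ∃ k ∈ 𝐂(ι.range), a = k * ι (tc v c) := by
  obtain ⟨x, rfl⟩ := wit1 hv
  have nx : ι x ∈ 𝐍(ι.range) := le_normalizer ⟨x, rfl⟩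
  obtain ⟨c, k, hk, q⟩ := cQ e (a := (ι x)⁻¹ * a * ι x) (mul_mem (mul_mem (inv_mem nx) ha) nx) fun y hy => by
    have m : x * y * x⁻¹ ∈ St {ac x (ee 0)} := mem_St.2 (by
      rintro _ rfl
      rw [ac_mul, ac_mul, ← ac_mul x⁻¹, inv_mul_cancel, ac_one, mem_PP.1 (QQ_le hy)])
    have := h _ m
    simp only [map_mul, map_inv] at this
    calc _ = (ι x)⁻¹ * (a * (ι x * ι y * (ι x)⁻¹)) * ι x := by group
      _ = _ := by rw [this]; group
  refine ⟨c, k, hk, ?_⟩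
  have hk' := mem_centralizer_iff.1 hk _ ⟨x, rfl⟩
  rw [← tc_cj b00, map_mul, map_mul, map_inv, ← mul_assoc, ← mul_assoc, ← hk', mul_assoc (ι x)]
  change a = ι x * (k * ι (zz c)) * (ι x)⁻¹
  rw [← q]; group

theorem oddQ (e : Em ι) {R : Subgroup G} (o : Odd (Nat.card R)) (h : R ≤ 𝐍(ι.range))
    (c : ∀ r ∈ R, r * ι (zz (1 : K0 F)) = ι (zz (1 : K0 F)) * r) (k : ∀ x ∈ QQ n F, ι x ∈ 𝐍(R)) : ∀ r ∈ R, Cn ι (QQ n F) r := by
  have od : ∀ r ∈ R, Odd (orderOf r) := fun r hr =>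
    Odd.of_dvd_nat o (R.orderOf_dvd_natCard hr)
  have cmR : ∀ r ∈ R, ∀ x ∈ QQ n F, r * ι x * r⁻¹ * (ι x)⁻¹ ∈ R := fun r hr x hx => by
    have := mul_mem hr ((mem_normalizer_iff.1 (k x hx) _).1 (inv_mem hr))
    simpa only [mul_assoc] using this
  have s1 : ∀ w ∈ R, w ∈ ι.range → w ∈ 𝐂(ι.range) := by
    rintro _ hw ⟨y, rfl⟩
    have c1 : zz (1 : K0 F) * y = y * zz (1 : K0 F) := e.comm2 (P2.of_sq (zsq _)) (c _ hw).symm
    have nQ := cz_nQ one_ne_zero c1.symm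
    have cn : Cn ι (QQ n F) (ι y) := fun x hx => by
      have m : y * x * y⁻¹ * x⁻¹ ∈ QQ n F :=
        mul_mem ((mem_normalizer_iff.1 nQ x).1 hx) (inv_mem hx)
      obtain ⟨j, hj⟩ := P2.of_mem isP_QQ m
      have p : P2 (ι y * ι x * (ι y)⁻¹ * (ι x)⁻¹) := ⟨j, by
        rw [← map_inv, ← map_inv, ← map_mul, ← map_mul, ← map_mul, ← map_pow, hj, map_one]⟩
      have := p.eq_one (od _ (cmR _ hw x hx))
      rwa [mul_inv_eq_one, mul_inv_eq_iff_eq_mul] at this
    obtain ⟨c', k', hk', ey⟩ := cQ e (h hw) cn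
    have hc := mem_centralizer_iff.1 hk' _ ⟨zz c', rfl⟩
    have sq : ι y * ι y = k' * k' := by
      rw [ey, mul_assoc, ← mul_assoc (ι _), hc, mul_assoc, ← map_mul, zsq, map_one, mul_one]
    obtain ⟨m, hm⟩ := od _ hw
    have : ι y = (ι y * ι y) ^ (m + 1) := by
      rw [← pow_two, ← pow_mul, mul_add, mul_one, show 2 * m + 2 = (2 * m + 1) + 1 from rfl, ← hm,
        pow_succ, pow_orderOf_eq_one, one_mul]
    rw [this, sq]
    exact pow_mem (mul_mem hk' hk') _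
  intro r hr x hx
  have m1 := cmR r hr x hx
  have m2 : r * ι x * r⁻¹ * (ι x)⁻¹ ∈ ι.range :=
    mul_mem ((mem_normalizer_iff.1 (h hr) _).1 ⟨x, rfl⟩) (inv_mem ⟨x, rfl⟩)
  have cz : Commute (r * ι x * r⁻¹ * (ι x)⁻¹) (ι x) :=
    (mem_centralizer_iff.1 (s1 _ m1 m2) _ ⟨x, rfl⟩).symm
  obtain ⟨j, hj⟩ := P2.of_mem isP_QQ hx
  have hj' : ι x ^ 2 ^ j = 1 := by rw [← map_pow, hj, map_one]
  have p : P2 (r * ι x * r⁻¹ * (ι x)⁻¹) := ⟨j, by
    have := cz.mul_pow (2 ^ j)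
    rw [inv_mul_cancel_right, conj_pow, hj', mul_one, mul_one, mul_inv_cancel] at this
    exact this.symm⟩
  have := p.eq_one (od _ m1)
  rwa [mul_inv_eq_one, mul_inv_eq_iff_eq_mul] at this

end UMS
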