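import Cfsg.Agent.Lib.UMS.B4
import Cfsg.Agent.Lib.UMS.AU
import Cfsg.Agent.Lib.UMS.Au77
import Cfsg.Agent.Lib.UMS.H12b

set_option autoImplicit false
set_option linter.unusedSectionVars false

namespace UMS

open Subgroup H69 Cfsg Matrix U4S
open LMS (XX GX iL kk MM au tw Sg)
open scoped MatrixGroups commutatorElement

universe u
variable {G : Type*} [Group G] [Finite G] {F : Type u} [Field F] [CharP F 2] [Fintype F] [Hs F] {n : ℕ} [Ok n F]
  {ι ψ χ : XU n F →* G} {t : G} {E : Subgroup G}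

local notation "X" => XU n F
local notation "V" => VV n F
local notation "𝐪" => Nat.card (K0 F)
local notation "I" => Fin (n + 3)
local notation "Mx" => Matrix (Fin (n + 3)) (Fin (n + 3)) F

namespace CM
open H12 (ad)

theorem vv (v : V) : v + v = 0 := by rw [← two_smul F, CharTwo.two_eq_zero, zero_smul]

theorem hm0 {u p : V} (hu : u ≠ 0) (h : hm u p = 0) : p = 0 := bt_nd fun y => by
  have := hm_vec u p y
  rw [h, zero_mulVec] at this
  exact (smul_eq_zero.1 this.symm).resolve_right hu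

theorem ex1 {u : V} (hu : u ≠ 0) : ∃ y : V, bt y u = 1 := by
  obtain ⟨y, hy⟩ : ∃ y : V, bt y u ≠ 0 := not_forall.1 fun k => hu (bt_nd k)
  exact ⟨(bt y u)⁻¹ • y, by rw [bt_smul_left, inv_mul_cancel₀ hy]⟩

theorem cjh (M : Mx) (u v : V) : M * hm u v * ad M = hm (M *ᵥ u) (M *ᵥ v) := by rw [H12.mul_hm, H12.hm_mul_ad]

/-- the automorphism is induced by a unitary matrix that is an involution on `W` -/
theorem exM {J : Subgroup X} {W : Submodule F V} (w1 : ∀ u ∈ W, ∀ v ∈ W, bt u v = 0) (w0 : ∃ u ∈ W, u ≠ 0)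
    (tJ : ∀ u ∈ W, ∀ v ∈ W, sh u v ∈ J) (Jt : ∀ x ∈ J, ∀ v, ac x v - v ∈ W) {α : X →* X} (a : Au α 1)
    (h : ∀ x ∈ J, α x ∈ J) (h2 : ∀ x ∈ J, α (α x) = x) : ∃ M : Mx, M * ad M = 1 ∧
      (∀ x, (α x).1.1 = M * x.1.1 * ad M) ∧ (∀ v ∈ W, M *ᵥ v ∈ W) ∧ ∀ v ∈ W, M *ᵥ (M *ᵥ v) = v := by
  obtain ⟨g, g1, g2⟩ := H77.au_unit a
  have g3 : ∀ x, (α x).1.1 = g.1 * x.1.1 * ad g.1 := fun x => by rw [g2, H77.au1, gc_val, H77.ad_inv g1]
  have g4 : g.1 * ad g.1 = 1 := mul_eq_one_comm.1 g1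
  generalize g.1 = A at g1 g3 g4
  obtain ⟨ω, hω⟩ := ex_om (F := F)
  have sv : ∀ u ∈ W, ∀ v ∈ W, (sh u v).1.1 = 1 + hm u v + hm v u := fun u hu v hv =>
    sh_val (w1 u hu u hu) (w1 v hv v hv) (w1 u hu v hv)
  have hw : ∀ u : V, hm u (ω • u) + hm (ω • u) u = hm u u := fun u => by
    rw [hm_smul_left, hm_smul_right, ← add_smul, add_comm (σ ω), hω, one_smul]
  have av : ∀ u ∈ W, ∀ v ∈ W, (α (sh u v)).1.1 = 1 + hm (A *ᵥ u) (A *ᵥ v) + hm (A *ᵥ v) (A *ᵥ u) :=
    fun u hu v hv => by rw [g3, sv u hu v hv, mul_add, mul_add, add_mul, add_mul, mul_one, g4, cjh, cjh]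
  have AW : ∀ u ∈ W, A *ᵥ u ∈ W := fun u hu => by
    by_cases k : A *ᵥ u = 0
    · rw [k]; exact zero_mem _
    obtain ⟨y, hy⟩ := ex1 k
    have := Jt _ (h _ (tJ u hu _ (W.smul_mem ω hu))) y
    rwa [ac, av u hu _ (W.smul_mem ω hu), mulVec_smul, add_assoc, hw, add_mulVec, one_mulVec, hm_vec, hy, one_smul,
      add_sub_cancel_left] at this
  have aa : ∀ u ∈ W, ∀ v ∈ W, hm (A *ᵥ (A *ᵥ u)) (A *ᵥ (A *ᵥ v)) + hm (A *ᵥ (A *ᵥ v)) (A *ᵥ (A *ᵥ u)) =
      hm u v + hm v u := fun u hu v hv => by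
    have : (α (α (sh u v))).1.1 = (sh u v).1.1 := by rw [h2 _ (tJ u hu v hv)]
    rwa [g3, av u hu v hv, mul_add, mul_add, add_mul, add_mul, mul_one, g4, cjh, cjh, sv u hu v hv, add_assoc,
      add_assoc, add_right_inj] at this
  obtain ⟨u, hu, u0⟩ := w0
  have a1 := aa u hu _ (W.smul_mem ω hu)
  rw [mulVec_smul, mulVec_smul, hw, hw] at a1
  obtain ⟨y, hy⟩ := ex1 u0
  have a2 := congrArg (· *ᵥ y) a1
  simp only [hm_vec, hy, one_smul] at a2
  obtain ⟨e, he⟩ : ∃ e, e = bt y (A *ᵥ (A *ᵥ u)) := ⟨_, rfl⟩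
  rw [← he] at a2
  have e1 : σ e * 1 * e = 1 := by
    have := congrArg (bt y) a2
    rwa [bt_smul_right, hy, ← he, ← mul_one (σ e)] at this
  rw [mul_one] at e1
  have a3 : ∀ v ∈ W, e • A *ᵥ (A *ᵥ v) = v := fun v hv => by
    have k : ∀ c : F, hm u (c • (e • A *ᵥ (A *ᵥ v) + v)) + hm (c • (e • A *ᵥ (A *ᵥ v) + v)) u = 0 := fun c => by
      have := aa u hu _ (W.smul_mem c hv)
      rw [mulVec_smul, mulVec_smul] at this
      rw [smul_add, hm_add_left, hm_add_right, add_add_add_comm, ← this]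
      nth_rewrite 1 [← a2]
      nth_rewrite 2 [← a2]
      simp only [hm_smul_left, hm_smul_right, smul_smul]
      rw [show σ (c * e) * e = σ c by rw [map_mul, mul_assoc, e1, mul_one],
        show σ e * (c * e) = c by rw [mul_left_comm, e1, mul_one]]
      exact H12.mm _
    have k1 := k 1
    have k2 := k ω
    rw [one_smul, add_eq_zero_iff_eq_neg] at k1
    rw [hm_smul_left, hm_smul_right, ← neg_neg (hm _ u), ← k1, smul_neg, ← neg_smul, ← add_smul, CharTwo.neg_eq,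
      add_comm (σ ω), hω, one_smul] at k2
    have := hm0 u0 k2
    rwa [← vv v, add_left_inj] at this
  obtain ⟨b, hb⟩ := H12.ex_sqrt e
  have b1 : b * σ b = 1 := H12.sq_inj (by
    rw [mul_mul_mul_comm, ← map_mul, hb, mul_comm, e1, mul_one])
  have sc : ∀ N : Mx, b • A * N * ad (b • A) = A * N * ad A := fun N => by
    rw [H12.ad_smul, smul_mul_assoc, smul_mul_assoc, mul_smul_comm, smul_smul, b1, one_smul]
  refine ⟨b • A, by simpa [g4] using sc 1, fun x => by rw [sc, g3], fun v hv => ?_, fun v hv => ?_⟩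
  · rw [smul_mulVec]; exact W.smul_mem _ (AW v hv)
  · rw [smul_mulVec, smul_mulVec, mulVec_smul, smul_smul, hb, a3 v hv]

end CM

theorem cm_lin {J C : Subgroup X} (hJ : IsJ J) {α : X →* X} (a : Au α 1) (h : ∀ x ∈ J, α x ∈ J)
    (h2 : ∀ x ∈ J, α (α x) = x) (hC : ∀ y, y ∈ C ↔ ∃ x ∈ J, y = x * α x) :
    (C = ⊥ ∨ 𝐪 ^ (2 * kk n - 2) ≤ Nat.card C) ∧ (Nat.card C = 𝐪 ^ (2 * kk n - 2) → R1 C) := by
  obtain ⟨W, w1, w2, w3⟩ := hJ.sub
  have k3 : 3 ≤ kk n := by have := Ok.h3 (n := n) (F := F); unfold kk; omega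
  have q2 : 2 ≤ 𝐪 := Finite.one_lt_card
  have tJ : ∀ u ∈ W, ∀ v ∈ W, sh u v ∈ J := fun u hu v hv => (w3 _).2 ⟨fun y => by
      rw [ac_sh (w1 u hu u hu) (w1 v hv v hv) (w1 u hu v hv), add_assoc, add_sub_cancel_left]
      exact add_mem (W.smul_mem _ hu) (W.smul_mem _ hv), fun y hy => by
      rw [ac_sh (w1 u hu u hu) (w1 v hv v hv) (w1 u hu v hv), hy u hu, hy v hv, zero_smul, zero_smul, add_zero,
        add_zero]⟩
  obtain ⟨M, m1, m2, m3, m4⟩ := CM.exM w1 (W.exists_mem_ne_zero_of_ne_bot (by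
    rintro rfl
    rw [finrank_bot] at w2
    omega)) tJ (fun x hx => ((w3 x).1 hx).1) a h h2
  have sv : ∀ u ∈ W, ∀ v ∈ W, (sh u v).1.1 = 1 + hm u v + hm v u := fun u hu v hv =>
    sh_val (w1 u hu u hu) (w1 v hv v hv) (w1 u hu v hv)
  have as : ∀ u ∈ W, ∀ v ∈ W, α (sh u v) = sh (M *ᵥ u) (M *ᵥ v) := fun u hu v hv => H12.xext (by
    rw [m2, sv u hu v hv, sv _ (m3 u hu) _ (m3 v hv), mul_add, mul_add, add_mul, add_mul, mul_one, m1, CM.cjh, CM.cjh])
  by_cases k : ∀ w ∈ W, M *ᵥ w = w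
  · have e : C = ⊥ := eq_bot_iff.2 fun y hy => by
      obtain ⟨x, hx, rfl⟩ := (hC y).1 hy
      have x2 := hJ.el x hx
      have e1 : M * (x.1.1 - 1) = x.1.1 - 1 := Matrix.ext_of_mulVec_single fun i => by
        rw [← mulVec_mulVec]
        refine k _ ?_
        rw [sub_mulVec, one_mulVec]
        exact ((w3 x).1 hx).1 _
      have e2 : H12.ad (x.1.1 - 1) = x.1.1 - 1 := by
        rw [sub_eq_add_neg, neg_eq_of_add_eq_zero_left (H12.mm (1 : Mx)), H12.ad_add, H12.ad_one, ← H12.inv_val,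
          inv_eq_of_mul_eq_one_right x2]
      have e3 : (x.1.1 - 1) * H12.ad M = x.1.1 - 1 := by
        rw [← e2, ← H12.ad_mul, e1]
      have e4 : α x = x := H12.xext (by
        rw [m2, ← sub_add_cancel x.1.1 1, mul_add, add_mul, e1, e3, mul_one, m1])
      rw [e4, x2]
      exact one_mem _
    refine ⟨Or.inl e, fun c => ?_⟩
    rw [e, card_bot] at c
    have := Nat.one_lt_pow (by omega : 2 * kk n - 2 ≠ 0) q2
    omega
  push Not at k
  obtain ⟨w, hw, k⟩ := k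
  obtain ⟨u, eu⟩ : ∃ u, u = M *ᵥ w + w := ⟨_, rfl⟩
  have hu : u ∈ W := eu ▸ add_mem (m3 w hw) hw
  have Mw : M *ᵥ w = w + u := by rw [eu, add_comm (M *ᵥ w), ← add_assoc, CM.vv, zero_add]
  have u0 : u ≠ 0 := fun e => k (by rw [Mw, e, add_zero])
  have Mu : M *ᵥ u = u := by rw [eu, mulVec_add, m4 w hw, add_comm w]
  obtain ⟨y0, h0⟩ := CM.ex1 u0
  have bM : ∀ y v : V, bt (H12.ad M *ᵥ y) v = bt y (M *ᵥ v) := fun y v => by rw [H12.bt_ad, H12.ad_ad]
  obtain ⟨y2, p1, p2⟩ : ∃ y : V, bt y w = 1 ∧ bt y u = 0 :=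
    ⟨H12.ad M *ᵥ y0 + y0, by rw [bt_add_left, bM, ← bt_add_right, ← eu, h0],
      by rw [bt_add_left, bM, Mu, CharTwo.add_self_eq_zero]⟩
  obtain ⟨y1, p3, p4⟩ : ∃ y : V, bt y w = 0 ∧ bt y u = 1 :=
    ⟨y0 + bt y0 w • y2, by rw [bt_add_left, bt_smul_left, p1, mul_one, CharTwo.add_self_eq_zero],
      by rw [bt_add_left, bt_smul_left, p2, mul_zero, add_zero, h0]⟩
  have fv : ∀ p ∈ W, ∀ y, ac (sh w p * α (sh w p)) y =
      y + (bt y p • w + bt y w • p) + (bt y (M *ᵥ p) • (w + u) + bt y (w + u) • M *ᵥ p) := fun p hp y => by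
    have wu := add_mem hw hu
    have Mp := m3 p hp
    rw [ac_mul, as w hw p hp, Mw, ac_sh (w1 _ wu _ wu) (w1 _ Mp _ Mp) (w1 _ wu _ Mp),
      ac_sh (w1 _ hw _ hw) (w1 _ hp _ hp) (w1 _ hw _ hp)]
    simp only [bt_add_left y, bt_add_left (y + _), bt_smul_left, w1 _ wu _ hp, w1 _ wu _ hw, w1 _ Mp _ hp, w1 _ Mp _ hw,
      mul_zero, add_zero]
    abel
  let f : Multiplicative W →* X := MonoidHom.mk' (fun p => sh w p.toAdd.1 * α (sh w p.toAdd.1)) fun p p' => by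
    have hp := p.toAdd.2
    have hp' := p'.toAdd.2
    change sh w (p.toAdd.1 + p'.toAdd.1) * α (sh w (p.toAdd.1 + p'.toAdd.1)) = _
    rw [sh_add (w1 _ hw _ hw) (w1 _ hp _ hp) (w1 _ hp' _ hp') (w1 _ hw _ hp) (w1 _ hw _ hp') (w1 _ hp _ hp'), map_mul,
      mul_assoc, ← mul_assoc (sh w p'.toAdd.1), hJ.el.comm (tJ _ hw _ hp') (h _ (tJ _ hw _ hp)), mul_assoc, mul_assoc]
  have fC : f.range ≤ C := by
    rintro _ ⟨p, rfl⟩
    exact (hC _).2 ⟨_, tJ _ hw _ p.toAdd.2, rfl⟩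
  have ck : Nat.card f.ker ≤ 𝐪 ^ 2 := by
    have key : ∀ p : f.ker, ∃ c : K0 F × K0 F, p.1.toAdd.1 = (c.1 : F) • w + (c.2 : F) • u := fun p => by
      have hp := p.1.toAdd.2
      have e : sh w p.1.toAdd.1 * α (sh w p.1.toAdd.1) = 1 := p.2
      generalize p.1.toAdd.1 = x at hp e
      have e1 := fv x hp y1
      rw [e, ac_one, bt_add_right, p3, p4, zero_smul, add_zero, zero_add, one_smul, add_assoc, left_eq_add] at e1
      obtain ⟨r, hr⟩ : ∃ r, r = bt y1 x := ⟨_, rfl⟩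
      obtain ⟨s, hs⟩ : ∃ s, s = bt y1 (M *ᵥ x) := ⟨_, rfl⟩
      rw [← hr, ← hs] at e1
      have e2 : M *ᵥ x = r • w + s • (w + u) := by
        rw [← add_assoc, ← CM.vv (M *ᵥ x), add_left_inj] at e1
        exact e1.symm
      have e3 : x = (r + s) • w + r • u := by
        rw [← m4 x hp, e2, mulVec_add, mulVec_smul, mulVec_smul, mulVec_add, Mw, Mu, add_assoc w, CM.vv, add_zero]
        module
      have r1 : σ r = r := by
        nth_rewrite 2 [hr]
        rw [e3, bt_add_right, bt_smul_right, bt_smul_right, p3, p4, mul_zero, zero_add, mul_one]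
      have s1 : σ s = s := by
        nth_rewrite 2 [hs]
        rw [e2, bt_add_right, bt_smul_right, bt_smul_right, bt_add_right, p3, p4, mul_zero, zero_add, zero_add, mul_one]
      exact ⟨(⟨r + s, add_mem (mem_K0.2 r1) (mem_K0.2 s1)⟩, ⟨r, mem_K0.2 r1⟩), e3⟩
    choose c hc using key
    rw [sq, ← Nat.card_prod]
    exact Nat.card_le_card_of_injective c fun p p' e =>
      Subtype.ext (Multiplicative.toAdd.injective (Subtype.ext (by rw [hc, hc, e])))
  have cw : Nat.card (Multiplicative W) = 𝐪 ^ 2 * 𝐪 ^ (2 * kk n - 2) := by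
    rw [← pow_add, show 2 + (2 * kk n - 2) = 2 * kk n by omega, pow_mul, ← card_F, ← w2]
    exact (Module.natCard_eq_pow_finrank (K := F) : Nat.card W = _)
  have cr : 𝐪 ^ (2 * kk n - 2) ≤ Nat.card f.range := by
    have := f.ker.card_mul_index
    rw [index_ker, cw] at this
    exact Nat.le_of_mul_le_mul_left (this.ge.trans (Nat.mul_le_mul_right _ ck)) (by positivity)
  refine ⟨Or.inr (cr.trans (card_le_of_le fC)), fun c => ?_⟩
  have eC : f.range = C := eq_of_le_of_card_ge fC (c.le.trans cr)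
  have iu : Is u := ⟨w1 _ hu _ hu, u0⟩
  let z : Multiplicative (K0 F) →* X := MonoidHom.mk' (fun c => tc u c.toAdd) fun c c' => (tc_mul iu.1 _ _).symm
  refine ⟨z.range, ?_, fun x => ⟨?_, fun ⟨hx, rx⟩ => ?_⟩⟩
  · rw [← Nat.card_congr (MonoidHom.ofInjective (f := z) fun c c' e =>
      Multiplicative.toAdd.injective (tc_inj iu e)).toEquiv]
    rfl
  · rintro ⟨c, rfl⟩
    change tc u c.toAdd ∈ C ∧ rk (tc u c.toAdd) ≤ 1
    obtain ⟨b, hb⟩ := tr_surj c.toAdd
    refine ⟨(hC _).2 ⟨_, tJ _ hw _ (W.smul_mem b hu), ac_ext fun y => ?_⟩, ?_⟩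
    · rw [fv _ (W.smul_mem b hu), ac_tc iu.1, mulVec_smul, Mu, bt_smul_right, bt_add_right, ← hb]
      have e2 : ∀ x : V, (2 : F) • x = 0 := fun x => by rw [CharTwo.two_eq_zero, zero_smul]
      linear_combination (norm := module) -(σ b * bt y u) • e2 w - (bt y w * b) • e2 u
    · by_cases e : c.toAdd = 0
      · rw [e, tc_zero, rk_zero.2 rfl]; exact zero_le_one
      · exact (rk_tc iu e).le
  · rcases Nat.le_one_iff_eq_zero_or_eq_one.1 rx with r | r
    · rw [rk_zero.1 r]; exact one_mem _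
    obtain ⟨v, iv, rfl⟩ := rk_one r
    have fx : α (tc v 1) = tc v 1 := by
      obtain ⟨j, hj, e⟩ := (hC _).1 hx
      rw [e, map_mul, h2 j hj, hJ.el.comm (h j hj) hj]
    obtain ⟨p, hp⟩ : tc v 1 ∈ f.range := eC ▸ hx
    have hp' : sh w p.toAdd.1 * α (sh w p.toAdd.1) = tc v 1 := hp
    have e0 : ∀ y, bt y w = 0 → bt y u = 0 → bt y v • v = bt y p.toAdd.1 • w + bt y (M *ᵥ p.toAdd.1) • (w + u) :=
      fun y a1 a2 => by
        have := fv _ p.toAdd.2 y
        rwa [hp', ac_tc iv.1, bt_add_right y w u, a1, a2, add_zero, zero_smul, zero_smul, add_zero, add_zero, add_assoc,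
          add_right_inj, OneMemClass.coe_one, one_mul] at this
    obtain ⟨s, r, rfl⟩ : ∃ s r : F, v = s • w + r • u := by
      by_cases k : ∀ y, bt y w = 0 → bt y u = 0 → bt y v = 0
      · refine ⟨σ (bt y2 v), σ (bt y1 v), ?_⟩
        rw [← sub_eq_zero, sub_eq_add_neg, neg_eq_of_add_eq_zero_left (CM.vv _)]
        refine bt_nd fun y => ?_
        have := k (y + bt y w • y2 + bt y u • y1)
          (by simp only [bt_add_left, bt_smul_left, p1, p3, mul_one, mul_zero, add_zero, CharTwo.add_self_eq_zero])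
          (by simp only [bt_add_left, bt_smul_left, p2, p4, mul_one, mul_zero, add_zero, CharTwo.add_self_eq_zero])
        simp only [bt_add_left, bt_smul_left] at this
        simp only [bt_add_right, bt_smul_right, sg_sg]
        linear_combination this
      · push Not at k
        obtain ⟨y, a1, a2, a3⟩ := k
        have := congrArg ((bt y v)⁻¹ • ·) (e0 y a1 a2)
        simp only [inv_smul_smul₀ a3] at this
        exact ⟨(bt y v)⁻¹ * (bt y p.toAdd.1 + bt y (M *ᵥ p.toAdd.1)), (bt y v)⁻¹ * bt y (M *ᵥ p.toAdd.1),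
          this.trans (by module)⟩
    have e1 := congrArg (fun x : X => x.1.1 *ᵥ y2) fx
    simp only [m2, tc_val iv.1, OneMemClass.coe_one, one_smul, mul_add, add_mul, mul_one, m1, CM.cjh, add_mulVec, hm_vec,
      mulVec_add, mulVec_smul, Mw, Mu, bt_add_right, bt_smul_right, p1, p2, mul_zero, add_zero, add_right_inj] at e1
    have e2 : (σ s * s) • u = 0 := by linear_combination (norm := module) e1
    have s0 : s = 0 := by
      rcases mul_eq_zero.1 ((smul_eq_zero.1 e2).resolve_right u0) with e | e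
      exacts [(map_eq_zero σ).1 e, e]
    rw [s0, zero_smul, zero_add, tc_smul]
    exact ⟨Multiplicative.ofAdd _, rfl⟩

end UMS
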