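import Cfsg.Agent.Lib.UMS.B4
import Cfsg.Agent.Lib.UMS.AU
import Cfsg.Agent.Lib.UMS.Au77

set_option autoImplicit false
set_option linter.unusedSectionVars false

namespace UMS

open Subgroup H69 Cfsg Matrix U4S
open LMS (XX GX iL kk MM au tw Sg)
open scoped MatrixGroups commutatorElement

universe u
variable {G : Type*} [Group G] [Finite G] {F : Type u} [Field F] [CharP F 2] [Fintype F] [Hs F] {n : ℕ} [Ok n F]
  {ι ψ χ : XU n F →* G} {t : G} {E : Subgroup G}

local notation "X" => XU n F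
local notation "V" => VV n F
local notation "𝐪" => Nat.card (K0 F)
local notation "I" => Fin (n + 3)
local notation "Mx" => Matrix (Fin (n + 3)) (Fin (n + 3)) F

namespace CMG

/-- the semilinear map -/
def sm (g : GX n F) (v : V) : V := g.1 *ᵥ fun i => σ (v i)

variable {g : GX n F} {α : XU n F →* XU n F} {W : Submodule F (VV n F)} {J : Subgroup (XU n F)}

theorem sm_add (u v : V) : sm g (u + v) = sm g u + sm g v := by
  unfold sm; rw [← mulVec_add]; congr 1; funext i; simp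

theorem sm_smul (a : F) (u : V) : sm g (a • u) = σ a • sm g u := by
  unfold sm; rw [← mulVec_smul]; congr 1; funext i; simp

theorem sm_zero : sm g (0 : V) = 0 := by
  simpa using sm_smul (g := g) 0 (0 : V)

theorem bt_sm (hg : H12.ad g.1 * g.1 = 1) (u v : V) : bt (sm g u) (sm g v) = σ (bt u v) := by
  unfold sm
  rw [H12.bt_ad, mulVec_mulVec, hg, one_mulVec]
  simp [bt, map_sum]

theorem bt_sm0 (hg : H12.ad g.1 * g.1 = 1) {u v : V} (h : bt u v = 0) : bt (sm g u) (sm g v) = 0 := by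
  rw [bt_sm hg, h, map_zero]

theorem rh_hm (hg : H12.ad g.1 * g.1 = 1) (u v : V) : H77.rh g σ (hm u v) = hm (sm g u) (sm g v) := by
  change g.1 * (hm u v).map σ * (g⁻¹).1 = _
  rw [H77.ad_inv hg, show (hm u v).map σ = hm (fun i => σ (u i)) (fun i => σ (v i)) from ?_, H12.mul_hm,
    H12.hm_mul_ad]
  · rfl
  · ext i j; simp [hm, vecMulVec_apply]

theorem al_sh (hg : H12.ad g.1 * g.1 = 1) (ha : ∀ x, (α x).1 = au g σ false x.1) {u v : V} (hu : bt u u = 0)
    (hv : bt v v = 0) (h : bt u v = 0) : α (sh u v) = sh (sm g u) (sm g v) := by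
  apply H12.xext
  have e : (α (sh u v)).1.1 = H77.rh g σ (sh u v).1.1 := congrArg Subtype.val (ha _)
  rw [e, sh_val hu hv h, sh_val (bt_sm0 hg hu) (bt_sm0 hg hv) (bt_sm0 hg h), map_add, map_add, map_one, rh_hm hg,
    rh_hm hg]

theorem al_tc (hg : H12.ad g.1 * g.1 = 1) (ha : ∀ x, (α x).1 = au g σ false x.1) {u : V} (hu : bt u u = 0) :
    α (tc u 1) = tc (sm g u) 1 := by
  apply H12.xext
  have e : (α (tc u 1)).1.1 = H77.rh g σ (tc u 1).1.1 := congrArg Subtype.val (ha _)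
  rw [e, tc_val hu, tc_val (bt_sm0 hg hu), OneMemClass.coe_one, one_smul, one_smul, map_add, map_one, rh_hm hg]

theorem ex_y {v : V} (h : v ≠ 0) : ∃ y, bt y v ≠ 0 := by
  by_contra k
  push Not at k
  exact h (bt_nd k)

/-- the data -/
structure Dt (g : GX n F) (α : XU n F →* XU n F) (W : Submodule F (VV n F)) (J : Subgroup (XU n F)) : Prop where
  hg : H12.ad g.1 * g.1 = 1
  ha : ∀ x, (α x).1 = au g σ false x.1
  iso : ∀ u ∈ W, ∀ v ∈ W, bt u v = 0
  mem : ∀ x, x ∈ J ↔ (∀ v, ac x v - v ∈ W) ∧ ∀ v, (∀ u ∈ W, bt v u = 0) → ac x v = v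
  h1 : ∀ x ∈ J, α x ∈ J
  h2 : ∀ x ∈ J, α (α x) = x

theorem Dt.shJ (d : Dt g α W J) {u v : V} (hu : u ∈ W) (hv : v ∈ W) : sh u v ∈ J := by
  refine (d.mem _).2 ⟨fun y => ?_, fun y hy => ?_⟩ <;> rw [ac_sh (d.iso u hu u hu) (d.iso v hv v hv) (d.iso u hu v hv)]
  · rw [add_assoc, add_sub_cancel_left]
    exact W.add_mem (W.smul_mem _ hu) (W.smul_mem _ hv)
  · rw [hy u hu, hy v hv, zero_smul, zero_smul, add_zero, add_zero]

theorem Dt.tcJ (d : Dt g α W J) {u : V} (hu : u ∈ W) : tc u 1 ∈ J := by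
  refine (d.mem _).2 ⟨fun y => ?_, fun y hy => ?_⟩ <;> rw [ac_tc (d.iso u hu u hu)]
  · rw [add_sub_cancel_left]
    exact W.smul_mem _ hu
  · rw [hy u hu, mul_zero, zero_smul, add_zero]

theorem Dt.sW (d : Dt g α W J) {w : V} (hw : w ∈ W) : sm g w ∈ W := by
  by_cases h : sm g w = 0
  · rw [h]; exact W.zero_mem
  obtain ⟨y, hy⟩ := ex_y h
  have := ((d.mem _).1 (d.h1 _ (d.tcJ hw))).1 y
  rwa [al_tc d.hg d.ha (d.iso w hw w hw), ac_tc (bt_sm0 d.hg (d.iso w hw w hw)), add_sub_cancel_left,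
    OneMemClass.coe_one, one_mul, W.smul_mem_iff hy] at this

theorem Dt.al (d : Dt g α W J) {u v : V} (hu : u ∈ W) (hv : v ∈ W) : α (sh u v) = sh (sm g u) (sm g v) :=
  al_sh d.hg d.ha (d.iso u hu u hu) (d.iso v hv v hv) (d.iso u hu v hv)

theorem Dt.val (d : Dt g α W J) {u v : V} (hu : u ∈ W) (hv : v ∈ W) : (sh u v).1.1 = 1 + hm u v + hm v u :=
  sh_val (d.iso u hu u hu) (d.iso v hv v hv) (d.iso u hu v hv)

theorem Dt.key (d : Dt g α W J) {u v : V} (hu : u ∈ W) (hv : v ∈ W) :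
    hm (sm g (sm g u)) (sm g (sm g v)) = hm u v := by
  have two := CharTwo.two_eq_zero (R := F)
  obtain ⟨ω, hω⟩ := ex_om (F := F)
  have e : ∀ a : F, 1 + a • hm (sm g (sm g u)) (sm g (sm g v)) + σ a • hm (sm g (sm g v)) (sm g (sm g u)) =
      1 + a • hm u v + σ a • hm v u := by
    intro a
    have hau := W.smul_mem a hu
    have k := d.h2 _ (d.shJ hau hv)
    rw [d.al hau hv, d.al (d.sW hau) (d.sW hv)] at k
    have k' : (sh (sm g (sm g (a • u))) (sm g (sm g v))).1.1 = (sh (a • u) v).1.1 := by rw [k]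
    rwa [d.val (d.sW (d.sW hau)) (d.sW (d.sW hv)), d.val hau hv, sm_smul, sm_smul, sg_sg, hm_smul_left,
      hm_smul_left, hm_smul_right, hm_smul_right] at k'
  ext i j
  have e1 := congrFun (congrFun (e 1) i) j
  have e2 := congrFun (congrFun (e ω) i) j
  simp only [Matrix.add_apply, Matrix.smul_apply, smul_eq_mul, map_one] at e1 e2
  linear_combination e2 - σ ω * e1 - (hm (sm g (sm g u)) (sm g (sm g v)) i j - hm u v i j) * hω +
    σ ω * (hm (sm g (sm g u)) (sm g (sm g v)) i j - hm u v i j) * two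

theorem Dt.ss (d : Dt g α W J) {u : V} (hu : u ∈ W) : sm g (sm g u) = u := by
  have two := CharTwo.two_eq_zero (R := F)
  by_cases h0 : u = 0
  · rw [h0, sm_zero, sm_zero]
  obtain ⟨y, hy⟩ := ex_y h0
  obtain ⟨μ, hμ⟩ : ∃ μ : F, ∀ w ∈ W, w = μ • sm g (sm g w) := by
    refine ⟨(bt y u)⁻¹ * bt y (sm g (sm g u)), fun w hw => ?_⟩
    have k := congrArg (· *ᵥ y) (d.key hw hu)
    simp only [hm_vec] at k
    rw [mul_smul, k, inv_smul_smul₀ hy]
  have p0 : sm g u ≠ 0 := fun h => h0 (by rw [hμ u hu, h, sm_zero, smul_zero])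
  have e1 := hμ _ (d.sW hu)
  have e2 : sm g u = σ μ • sm g (sm g (sm g u)) := by rw [← sm_smul, ← hμ u hu]
  have p1 : sm g (sm g (sm g u)) ≠ 0 := fun h => p0 (by rw [e1, h, smul_zero])
  have m1 : μ = σ μ := smul_left_injective F p1 (e1.symm.trans e2)
  have k : hm u u = (μ * μ) • hm u u := by
    conv_lhs => rw [hμ u hu, hm_smul_left, hm_smul_right, d.key hu hu, ← m1, smul_smul]
  have k' := congrArg (· *ᵥ y) k
  simp only [smul_mulVec, hm_vec] at k'
  have m2 : μ * μ = 1 := smul_left_injective F (smul_ne_zero hy h0) (k'.symm.trans (one_smul _ _).symm)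
  have m3 : μ = 1 := by
    have : (μ - 1) * (μ - 1) = 0 := by linear_combination m2 + (1 - μ) * two
    exact sub_eq_zero.1 (mul_self_eq_zero.1 this)
  have := hμ u hu
  rw [m3, one_smul] at this
  exact this.symm

theorem Dt.span (d : Dt g α W J) : Submodule.span F {w | w ∈ W ∧ sm g w = w} = W := by
  have two := CharTwo.two_eq_zero (R := F)
  refine le_antisymm (Submodule.span_le.2 fun w hw => hw.1) fun w hw => ?_
  obtain ⟨ω, hω⟩ := ex_om (F := F)
  have f : ∀ v ∈ W, v + sm g v ∈ Submodule.span F {w | w ∈ W ∧ sm g w = w} := fun v hv =>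
    Submodule.subset_span ⟨W.add_mem hv (d.sW hv), by rw [sm_add, d.ss hv, add_comm]⟩
  have := Submodule.add_mem _ (f _ (W.smul_mem ω hw)) (Submodule.smul_mem _ (σ ω) (f w hw))
  convert this using 1
  rw [sm_smul]
  ext i
  simp only [Pi.add_apply, Pi.smul_apply, smul_eq_mul]
  linear_combination (-w i) * hω - σ ω * sm g w i * two

theorem Dt.shC (d : Dt g α W J) {C : Subgroup X} (hC : ∀ y, y ∈ C ↔ ∃ x ∈ J, y = x * α x) {u v : V} (hu : u ∈ W)
    (hv : v ∈ W) (su : sm g u = u) (sv : sm g v = v) : sh u v ∈ C := by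
  obtain ⟨ω, hω⟩ := ex_om (F := F)
  have h1 := W.smul_mem ω hv
  have h2 := W.smul_mem (σ ω) hv
  refine (hC _).2 ⟨sh u (ω • v), d.shJ hu h1, ?_⟩
  rw [d.al hu h1, su, sm_smul, sv, ← sh_add (d.iso _ hu _ hu) (d.iso _ h1 _ h1) (d.iso _ h2 _ h2) (d.iso _ hu _ h1)
    (d.iso _ hu _ h2) (d.iso _ h1 _ h2), ← add_smul, hω, one_smul]

theorem Dt.cnt (d : Dt g α W J) {C : Subgroup X} (hC : ∀ y, y ∈ C ↔ ∃ x ∈ J, y = x * α x) {k : ℕ} (hk : 3 ≤ k)
    (w : Fin k → V) (hw : ∀ i, w i ∈ W ∧ sm g (w i) = w i) (li : LinearIndependent F w) : 𝐪 ^ k ≤ Nat.card C := by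
  classical
  obtain ⟨m, rfl⟩ : ∃ m, k = m + 3 := ⟨k - 3, by omega⟩
  let y : (Fin (m + 3) → K0 F) → V := fun c => ∑ j : Fin (m + 2), (c j.succ : F) • w j.succ
  have yW : ∀ c, y c ∈ W ∧ sm g (y c) = y c := fun c => by
    refine Finset.sum_induction _ (fun v => v ∈ W ∧ sm g v = v)
      (fun a b ha hb => ⟨W.add_mem ha.1 hb.1, by rw [sm_add, ha.2, hb.2]⟩) ⟨W.zero_mem, sm_zero⟩ fun j _ => ?_
    exact ⟨W.smul_mem _ (hw _).1, by rw [sm_smul, (hw _).2, mem_K0.1 (c _).2]⟩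
  have cW : ∀ c : K0 F, (c : F) • w 1 ∈ W ∧ sm g ((c : F) • w 1) = (c : F) • w 1 := fun c =>
    ⟨W.smul_mem _ (hw _).1, by rw [sm_smul, (hw _).2, mem_K0.1 c.2]⟩
  let f : (Fin (m + 3) → K0 F) → C := fun c => ⟨sh (w 0) (y c) * sh ((c 0 : F) • w 1) (w 2),
    mul_mem (d.shC hC (hw 0).1 (yW c).1 (hw 0).2 (yW c).2) (d.shC hC (cW _).1 (hw 2).1 (cW _).2 (hw 2).2)⟩
  have act : ∀ c v, ac (f c).1 v = v + (bt v (y c) • w 0 + ∑ j : Fin (m + 2), (bt v (w 0) * c j.succ) • w j.succ +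
      (bt v (w 2) * c 0) • w 1 + (c 0 * bt v (w 1)) • w 2) := by
    intro c v
    have i1 := d.iso _ (hw 0).1 _ (hw 0).1
    have i2 := d.iso _ (yW c).1 _ (yW c).1
    have i3 := d.iso _ (hw 0).1 _ (yW c).1
    have fx : ∀ z ∈ W, ac (sh (w 0) (y c)) z = z := fun z hz => by
      rw [ac_sh i1 i2 i3, d.iso _ hz _ (yW c).1, d.iso _ hz _ (hw 0).1, zero_smul, zero_smul, add_zero, add_zero]
    change ac (sh (w 0) (y c) * sh ((c 0 : F) • w 1) (w 2)) v = _
    rw [ac_mul, ac_sh (d.iso _ (cW _).1 _ (cW _).1) (d.iso _ (hw 2).1 _ (hw 2).1) (d.iso _ (cW _).1 _ (hw 2).1),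
      ac_add, ac_add, fx _ (W.smul_mem _ (cW _).1), fx _ (W.smul_mem _ (hw 2).1), ac_sh i1 i2 i3, bt_smul_right,
      mem_K0.1 (c 0).2, smul_smul]
    simp only [y, Finset.smul_sum, smul_smul, add_assoc]
  have ne : ∀ i, w i ≠ 0 := li.ne_zero
  have inj : Function.Injective f := by
    intro c c' e
    have co : ∀ (c : Fin (m + 3) → K0 F) (v : V), ∃ l : Fin (m + 3) → F, ac (f c).1 v = v + ∑ i, l i • w i ∧
        l 0 = bt v (y c) ∧ l 1 = bt v (w 0) * c 1 + bt v (w 2) * c 0 := by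
      intro c v
      refine ⟨Fin.cons (bt v (y c)) fun j => bt v (w 0) * c j.succ + (if j = 0 then bt v (w 2) * c 0 else 0) +
        (if j = 1 then c 0 * bt v (w 1) else 0), ?_, rfl, ?_⟩
      · rw [act, Fin.sum_univ_succ (n := m + 2)]
        simp only [Fin.cons_zero, Fin.cons_succ, add_smul, Finset.sum_add_distrib, ite_smul, zero_smul,
          Finset.sum_ite_eq', Finset.mem_univ, if_true, add_assoc]
        rfl
      · change bt v (w 0) * c 1 + (if (0 : Fin (m + 2)) = 0 then bt v (w 2) * c 0 else 0) +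
          (if (0 : Fin (m + 2)) = 1 then c 0 * bt v (w 1) else 0) = _
        rw [if_pos rfl, if_neg (by simp), add_zero]
    have cmp : ∀ v, bt v (y c) = bt v (y c') ∧
        bt v (w 0) * c 1 + bt v (w 2) * c 0 = bt v (w 0) * c' 1 + bt v (w 2) * c' 0 := by
      intro v
      obtain ⟨l, a1, a2, a3⟩ := co c v
      obtain ⟨l', b1, b2, b3⟩ := co c' v
      rw [e, b1, add_right_inj] at a1
      have := (Fintype.linearIndependent_iffₛ.1 li) l' l a1
      exact ⟨by rw [← a2, ← b2, this 0], by rw [← a3, ← b3, this 1]⟩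
    have hy : y c = y c' := by
      have : y c + (-1 : F) • y c' = 0 := bt_nd fun v => by
        rw [bt_add_right, bt_smul_right, (cmp v).1, map_neg, map_one]; ring
      rwa [neg_one_smul, ← sub_eq_add_neg, sub_eq_zero] at this
    have hs : ∀ j : Fin (m + 2), c j.succ = c' j.succ := fun j => Subtype.ext
      ((Fintype.linearIndependent_iffₛ.1 (li.comp Fin.succ (Fin.succ_injective _)))
        (fun j => (c j.succ : F)) (fun j => (c' j.succ : F)) hy j)
    have h0 : c 0 = c' 0 := by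
      obtain ⟨v, hv⟩ := ex_y (ne 2)
      have k := (cmp v).2
      rw [show c 1 = c' 1 from hs 0, add_right_inj] at k
      exact Subtype.ext (mul_left_cancel₀ hv k)
    exact funext (Fin.cases h0 hs)
  have := Nat.card_le_card_of_injective f inj
  rwa [Nat.card_fun, Nat.card_eq_fintype_card (α := Fin (m + 3)), Fintype.card_fin] at this

end CMG

theorem cm_gr {J C : Subgroup X} (hJ : IsJ J) {α : X →* X} (a : Au α σ) (h : ∀ x ∈ J, α x ∈ J)
    (h2 : ∀ x ∈ J, α (α x) = x) (hC : ∀ y, y ∈ C ↔ ∃ x ∈ J, y = x * α x) : 𝐪 ^ kk n ≤ Nat.card C := by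
  obtain ⟨g, hg, ha⟩ := H77.au_unit a
  obtain ⟨W, iso, hk, mem⟩ := hJ.sub
  have d : CMG.Dt g α W J := ⟨hg, ha, iso, mem, h, h2⟩
  obtain ⟨w, hw, -, li⟩ := Submodule.exists_fun_fin_finrank_span_eq F {w | w ∈ W ∧ CMG.sm g w = w}
  have e : Module.finrank F (Submodule.span F {w | w ∈ W ∧ CMG.sm g w = w}) = kk n := by rw [d.span, hk]
  rw [← e]
  exact d.cnt hC (by rw [e]; have := Ok.h3 (n := n) (F := F); unfold kk; omega) w hw li

end UMS
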