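import Cfsg.Agent.Lib.UMS.LIN
import Cfsg.Agent.Lib.UMS.Defs2
import Cfsg.Agent.Lib.UMS.B3b
import Cfsg.Agent.Lib.UMS.B6
import Cfsg.Agent.Lib.UMS.HX

set_option autoImplicit false
set_option linter.unusedSectionVars false

namespace UMS

open Subgroup H69 Cfsg Matrix U4S
open LMS (XX GX iL kk MM au tw Sg)
open scoped MatrixGroups commutatorElement

universe u
variable {G : Type*} [Group G] [Finite G] {F : Type u} [Field F] [CharP F 2] [Fintype F] [Hs F] {n : ℕ} [Ok n F]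
  {ι ψ χ : XU n F →* G} {t : G} {E : Subgroup G}

local notation "X" => XU n F
local notation "V" => VV n F
local notation "𝐪" => Nat.card (K0 F)
local notation "I" => Fin (n + 3)
local notation "Mx" => Matrix (Fin (n + 3)) (Fin (n + 3)) F

namespace DEL

theorem all4 (h4 : Nat.card F = 4) {ω : F} (h0 : ω ≠ 0) (h1 : ω ≠ 1) (b : F) :
    b = 0 ∨ b = 1 ∨ b = ω ∨ b = ω + 1 := by
  classical
  have h2 : ω + 1 ≠ 0 := fun e => h1 (CharTwo.add_eq_zero.1 e)
  have : ({0, 1, ω, ω + 1} : Finset F) = Finset.univ := Finset.eq_univ_of_card _ (by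
    rw [← Nat.card_eq_fintype_card, h4, Finset.card_insert_of_notMem (by simp [h0.symm, h2.symm]),
      Finset.card_insert_of_notMem (by simp [h1.symm, h0]), Finset.card_insert_of_notMem (by simp),
      Finset.card_singleton])
  have hb : b ∈ ({0, 1, ω, ω + 1} : Finset F) := this ▸ Finset.mem_univ b
  simpa using hb

theorem mi_add {v w : V} (hv : Mi v) (hw : Mi w) : Mi (v + w) :=
  ⟨by rw [Pi.add_apply, hv.1, hw.1, add_zero], by rw [Pi.add_apply, hv.2, hw.2, add_zero]⟩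

theorem mi_smul (a : F) {w : V} (hw : Mi w) : Mi (a • w) :=
  ⟨by rw [Pi.smul_apply, hw.1, smul_zero], by rw [Pi.smul_apply, hw.2, smul_zero]⟩

theorem two {v w : V} : v + w = 0 ↔ v = w :=
  ⟨fun h => by rw [← add_left_inj w, h, B3b.two], fun h => by rw [h, B3b.two]⟩

/-- the action on `Q / Z` -/
theorem ex (e : Em ι) {g : G} (k : Nz ι g) : ∃ δ : V → V,
    (∀ x ∈ QQ n F, ∃ x' ∈ QQ n F, g * ι x * g⁻¹ = ι x') ∧
    (∀ x ∈ QQ n F, ∀ x' ∈ QQ n F, g * ι x * g⁻¹ = ι x' → δ (cv x) = cv x') ∧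
    (∀ u v, Mi u → Mi v → δ u = δ v → u = v) ∧ ∀ w, Mi w → ∃ u, Mi u ∧ δ u = w := by
  have inj : ∀ x ∈ QQ n F, ∀ y ∈ QQ n F, ι x = ι y → x = y := fun x hx y hy h =>
    e.inj2 (P2.of_mem isP_QQ hx) (P2.of_mem isP_QQ hy) h
  have h1 : ∀ x ∈ QQ n F, ∃ x' ∈ QQ n F, g * ι x * g⁻¹ = ι x' := fun x hx => by
    obtain ⟨x', hx', e'⟩ := (mem_normalizer_iff.1 k.nQ _).1 (mem_map_of_mem ι hx)
    exact ⟨x', hx', e'.symm⟩
  have h2 : ∀ x' ∈ QQ n F, ∃ x ∈ QQ n F, g * ι x * g⁻¹ = ι x' := fun x' hx => by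
    obtain ⟨x, hx', e'⟩ := (mem_normalizer_iff.1 (inv_mem k.nQ) _).1 (mem_map_of_mem ι hx)
    exact ⟨x, hx', by rw [e']; group⟩
  have wd : ∀ x ∈ QQ n F, ∀ x' ∈ QQ n F, g * ι x * g⁻¹ = ι x' → ∀ y ∈ QQ n F, ∀ y' ∈ QQ n F,
      g * ι y * g⁻¹ = ι y' → (cv x = cv y ↔ cv x' = cv y') := fun x hx x' hx' ex y hy y' hy' ey => by
    have m : g * ι (x * y) * g⁻¹ = ι (x' * y') := by rw [map_mul, map_mul, ← ex, ← ey]; group
    rw [← two, ← two (v := cv x'), ← cv_mul hx hy, ← cv_mul hx' hy', cv_ker (mul_mem hx hy), cv_ker (mul_mem hx' hy')]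
    refine ⟨fun h => ?_, fun h => ?_⟩
    · rw [k.cZ _ h, mul_inv_cancel_right] at m
      exact inj _ (mul_mem hx hy) _ (mul_mem hx' hy') m ▸ h
    · rw [← mul_inv_cancel_right (ι (x' * y')) g, ← k.cZ _ h, mul_left_inj, mul_right_inj] at m
      exact (inj _ (mul_mem hx hy) _ (mul_mem hx' hy') m).symm ▸ h
  choose! s hs using fun w : V => cv_surj (w := w)
  choose! γ hγ using h1
  have key : ∀ x ∈ QQ n F, ∀ x' ∈ QQ n F, g * ι x * g⁻¹ = ι x' → cv (γ (s (cv x))) = cv x' := fun x hx x' hx' ex =>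
    (wd _ (hs _ (cv_mi x)).1 _ (hγ _ (hs _ (cv_mi x)).1).1 (hγ _ (hs _ (cv_mi x)).1).2 x hx x' hx' ex).1
      (hs _ (cv_mi x)).2
  refine ⟨fun w => cv (γ (s w)), fun x hx => ⟨_, hγ x hx⟩, key, fun u v hu hv h => ?_, fun w hw => ?_⟩
  · rw [← (hs u hu).2, ← (hs v hv).2]
    exact (wd _ (hs u hu).1 _ (hγ _ (hs u hu).1).1 (hγ _ (hs u hu).1).2 _ (hs v hv).1 _ (hγ _ (hs v hv).1).1
      (hγ _ (hs v hv).1).2).2 h
  · obtain ⟨x, hx, ex⟩ := h2 _ (hs w hw).1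
    exact ⟨cv x, cv_mi x, (key x hx _ (hs w hw).1 ex).trans (hs w hw).2⟩

end DEL

theorem del (e : Em ι) (h4 : Nat.card F = 4) {g : G} (k : Nz ι g) : ∃ δ φ, Dl ι g δ φ := by
  obtain ⟨δ, h1, key, inj, sur⟩ := DEL.ex e k
  have lift : ∀ w, Mi w → ∃ x ∈ QQ n F, ∃ x' ∈ QQ n F, g * ι x * g⁻¹ = ι x' ∧ cv x = w ∧ cv x' = δ w := fun w hw => by
    obtain ⟨x, hx, rfl⟩ := cv_surj hw
    obtain ⟨x', hx', ex⟩ := h1 x hx
    exact ⟨x, hx, x', hx', ex, rfl, (key x hx x' hx' ex).symm⟩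
  have mi : ∀ w, Mi w → Mi (δ w) := fun w hw => by
    obtain ⟨x, -, x', -, -, -, e2⟩ := lift w hw
    exact e2 ▸ cv_mi x'
  have add : ∀ v w, Mi v → Mi w → δ (v + w) = δ v + δ w := fun v w hv hw => by
    obtain ⟨x, hx, x', hx', ex, rfl, e2⟩ := lift v hv
    obtain ⟨y, hy, y', hy', ey, rfl, e3⟩ := lift w hw
    rw [← e2, ← e3, ← cv_mul hx hy, ← cv_mul hx' hy']
    exact key _ (mul_mem hx hy) _ (mul_mem hx' hy') (by rw [map_mul, map_mul, ← ex, ← ey]; group)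
  have nrm : ∀ w, Mi w → bt (δ w) (δ w) = bt w w := fun w hw => by
    obtain ⟨x, hx, x', hx', ex, rfl, e2⟩ := lift w hw
    obtain ⟨c, hc, ec⟩ := sq_QQ hx
    obtain ⟨c', hc', ec'⟩ := sq_QQ hx'
    have m : g * ι (x * x) * g⁻¹ = ι (x' * x') := by rw [map_mul, map_mul, ← ex]; group
    rw [ec, ec', k.cZ _ (mem_ZZ.2 ⟨c, rfl⟩), mul_inv_cancel_right] at m
    have := e.inj2 (P2.of_mem isP_QQ (B3.zzQ c)) (P2.of_mem isP_QQ (B3.zzQ c')) m
    rw [← e2, ← hc, ← hc', ← B3.zz0 (n := n) c, ← B3.zz0 (n := n) c', this]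
  have tr : ∀ v w, Mi v → Mi w → bt (δ v) (δ w) + σ (bt (δ v) (δ w)) = bt v w + σ (bt v w) := fun v w hv hw => by
    have := nrm _ (DEL.mi_add hv hw)
    rw [add v w hv hw] at this
    simp only [bt_add_left, bt_add_right, nrm v hv, nrm w hw, bt_symm (δ v) (δ w), bt_symm v w] at this
    linear_combination this
  obtain ⟨ω, hω⟩ := ex_om (F := F)
  have ω0 : ω ≠ 0 := by rintro rfl; simp at hω
  have ω1 : ω ≠ 1 := by rintro rfl; rw [map_one, CharTwo.add_self_eq_zero] at hω; exact zero_ne_one hω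
  have t2 := CharTwo.two_eq_zero (R := F)
  choose! ε hε using sur
  have εδ : ∀ u, Mi u → ε (δ u) = u := fun u hu => inj _ _ (hε _ (mi u hu)).1 hu (hε _ (mi u hu)).2
  obtain ⟨a, ha⟩ := lin (fun w => δ (ω • ε w)) (fun w hw => mi _ (DEL.mi_smul _ (hε w hw).1))
    (fun v w hv hw => by
      have : ε (v + w) = ε v + ε w := by
        rw [← εδ _ (DEL.mi_add (hε v hv).1 (hε w hw).1), add _ _ (hε v hv).1 (hε w hw).1, (hε v hv).2, (hε w hw).2]
      rw [this, smul_add, add _ _ (DEL.mi_smul _ (hε v hv).1) (DEL.mi_smul _ (hε w hw).1)])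
    (fun v w hv hw iv => by
      have hp := B3b.tc_PP iv hv.2 1
      obtain ⟨p, hp0, ep⟩ := (mem_normalizer_iff.1 (inv_mem k.nP) _).1 (mem_map_of_mem ι hp)
      let π : V → V := fun u j => if j = 0 then 0 else ac p u j
      have hπ : ∀ u, Mi u → Mi (π u) ∧ δ (π u) = δ u + bt (δ u) v • v := fun u hu => by
        obtain ⟨x, hx, x', hx', ex, rfl, e2⟩ := lift u hu
        have c1 : cv (p * x * p⁻¹) = π (cv x) := funext fun j => by
          by_cases j0 : j = 0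
          · simp only [π, j0, if_true]; exact (cv_mi _).1
          · simp only [π, if_neg j0]; exact cv_cj hp0 hx j0
        refine ⟨c1 ▸ cv_mi _, ?_⟩
        rw [← c1, key _ ((mem_normalizer_iff.1 (PP_nQ hp0) _).1 hx) _ ((mem_normalizer_iff.1 (PP_nQ hp) _).1 hx')
          (by simp only [map_mul, map_inv]; rw [ep, ← ex]; group), ← e2]
        funext j
        by_cases j0 : j = 0
        · rw [j0, (cv_mi _).1, (DEL.mi_add (cv_mi x') (DEL.mi_smul _ hv)).1]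
        · rw [cv_cj hp hx' j0, H12.ac_tc iv, OneMemClass.coe_one, one_mul]
      have πs : ∀ u, π (ω • u) = ω • π u := fun u => funext fun j => by
        simp only [π, Pi.smul_apply, ac_smul]
        split_ifs <;> simp
      have := hπ _ (hε w hw).1
      rw [(hε w hw).2] at this
      rw [← this.2, εδ _ this.1, ← πs, (hπ _ (DEL.mi_smul _ (hε w hw).1)).2])
  have hδ : ∀ u, Mi u → δ (ω • u) = a • δ u := fun u hu => by rw [← ha _ (mi u hu), εδ u hu]
  have m0 : Mi (0 : V) := ⟨rfl, rfl⟩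
  have δ0 : δ 0 = 0 := by simpa using add 0 0 m0 m0
  obtain ⟨i1, i2, -⟩ := B3b.i1 n F
  have m1 : Mi (ee 1 : V) := by simpa using B3b.mi_ee (F := F) i1 i2 1
  have e1 : (ee 1 : V) 1 = 1 := by rw [B3.ee_ap, if_pos rfl]
  have a0 : a ≠ 0 := by
    rintro rfl
    have := congrFun (inj _ _ (DEL.mi_smul ω m1) m0 (by rw [hδ _ m1, zero_smul, δ0])) 1
    rw [Pi.smul_apply, e1, smul_eq_mul, mul_one] at this
    exact ω0 this
  have a1 : a ≠ 1 := by
    rintro rfl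
    have := congrFun (inj _ _ (DEL.mi_smul ω m1) m1 (by rw [hδ _ m1, one_smul])) 1
    rw [Pi.smul_apply, e1, smul_eq_mul, mul_one] at this
    exact ω1 this
  obtain ⟨φ, ph, hφ⟩ : ∃ φ : RingAut F, (φ = 1 ∨ φ = σ) ∧ φ ω = a := by
    rcases DEL.all4 h4 ω0 ω1 a with h | h | h | h
    exacts [absurd h a0, absurd h a1, ⟨1, Or.inl rfl, h.symm⟩,
      ⟨σ, Or.inr rfl, by rw [h]; linear_combination hω - ω * t2⟩]
  have smul : ∀ (b : F) w, Mi w → δ (b • w) = φ b • δ w := fun b w hw => by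
    rcases DEL.all4 h4 ω0 ω1 b with rfl | rfl | rfl | rfl
    · rw [zero_smul, δ0, map_zero, zero_smul]
    · rw [one_smul, map_one, one_smul]
    · rw [hδ w hw, hφ]
    · rw [add_smul, one_smul, add _ _ (DEL.mi_smul _ hw) hw, hδ w hw, map_add, map_one, hφ, add_smul, one_smul]
  refine ⟨δ, φ, ph, mi, add, smul, fun v w hv hw => ?_, fun x hx => ?_⟩
  · have k1 := tr v w hv hw
    have k2 := tr _ w (DEL.mi_smul ω hv) hw
    rw [smul ω v hv, bt_smul_left, bt_smul_left, map_mul, map_mul] at k2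
    rcases ph with rfl | rfl
    · change ω * _ + σ ω * _ = _ at k2
      change _ = bt v w
      linear_combination k2 + σ ω * k1 - (bt (δ v) (δ w) - bt v w) * hω -
        (σ ω * σ (bt (δ v) (δ w)) - σ ω * σ (bt v w)) * t2
    · rw [sg_sg] at k2
      linear_combination k2 + ω * k1 - (bt (δ v) (δ w) - σ (bt v w)) * hω -
        (ω * σ (bt (δ v) (δ w)) - ω * bt v w) * t2
  · obtain ⟨x', hx', ex⟩ := h1 x hx
    exact ⟨x', hx', ex, (key x hx x' hx' ex).symm⟩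

end UMS
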