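import Cfsg.Agent.Lib.UMS.B3
import Cfsg.Agent.Lib.UMS.B6

/-! An element centralising `Z` and `Q / Z` that translates `t`. -/

set_option autoImplicit false
set_option linter.unusedSectionVars false

namespace UMS

open Subgroup H69 Cfsg Matrix U4S
open LMS (XX GX iL kk MM au tw Sg)
open scoped MatrixGroups commutatorElement

universe u
variable {G : Type*} [Group G] [Finite G] {F : Type u} [Field F] [CharP F 2] [Fintype F] [Hs F] {n : ℕ} [Ok n F]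
  {ι ψ χ : XU n F →* G} {t : G} {E : Subgroup G}

local notation "X" => XU n F
local notation "V" => VV n F
local notation "𝐪" => Nat.card (K0 F)
local notation "I" => Fin (n + 3)
local notation "Mx" => Matrix (Fin (n + 3)) (Fin (n + 3)) F

namespace S670

local notation "Q" => QQ n F

/-- the trace form -/
def Tr (u v : V) : K0 F := ⟨bt u v + σ (bt u v), by rw [mem_K0, map_add, sg_sg, add_comm]⟩

theorem Tr_l (a : K0 F) (u v : V) : Tr ((a : F) • u) v = a * Tr u v := by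
  refine Subtype.ext ?_
  change bt _ _ + σ (bt _ _) = (a : F) * (bt u v + σ (bt u v))
  rw [bt_smul_left, map_mul, mem_K0.1 a.2, mul_add]

theorem Tr_r (a : K0 F) (u v : V) : Tr u ((a : F) • v) = a * Tr u v := by
  refine Subtype.ext ?_
  change bt _ _ + σ (bt _ _) = (a : F) * (bt u v + σ (bt u v))
  rw [bt_smul_right, mem_K0.1 a.2, map_mul, mem_K0.1 a.2, mul_add]

theorem Tr_nd {u v : V} (hu : Mi u) (hv : Mi v) (h : ∀ w, Mi w → Tr u w = Tr v w) : u = v := by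
  obtain ⟨ω, hω⟩ := ex_om (F := F)
  funext j
  by_cases j0 : j = 0
  · rw [j0, hu.1, hv.1]
  by_cases jL : j = iL
  · rw [jL, hu.2, hv.2]
  have m : ∀ a : F, Mi (a • ee j.rev : V) := fun a => by
    have a1 : (0 : I) ≠ j.rev := fun k => jL (by rw [← Fin.rev_rev j, ← k]; rfl)
    have a2 : (iL : I) ≠ j.rev := fun k => j0 (by rw [← Fin.rev_rev j, ← k]; exact Fin.rev_last _)
    exact ⟨by simp [ee, Pi.single_eq_of_ne a1], by simp [ee, Pi.single_eq_of_ne a2]⟩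
  have k : ∀ a : F, σ a * u j + a * σ (u j) = σ a * v j + a * σ (v j) := fun a => by
    have := congrArg Subtype.val (h _ (m a))
    change bt _ _ + σ (bt _ _) = bt _ _ + σ (bt _ _) at this
    rwa [bt_smul_right, bt_smul_right, bt_ee, bt_ee, Fin.rev_rev, map_mul, map_mul, sg_sg] at this
  have k1 := k 1
  have k2 := k ω
  rw [map_one] at k1
  have two : (2 : F) = 0 := CharTwo.two_eq_zero
  linear_combination k2 + ω * k1 - (u j - v j) * hω - ω * (σ (u j) - σ (v j)) * two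

theorem ex_Tr : ∃ x ∈ Q, ∃ v : V, Mi v ∧ Tr (cv x) v = 1 := by
  obtain ⟨ω, hω⟩ := ex_om (F := F)
  obtain ⟨l, l0, lL⟩ := LMS.ex_third (0 : I) iL
  have a1 : (0 : I) ≠ l.rev := fun k => lL (by rw [← Fin.rev_rev l, ← k]; rfl)
  have a2 : (iL : I) ≠ l.rev := fun k => l0 (by rw [← Fin.rev_rev l, ← k]; exact Fin.rev_last _)
  obtain ⟨x, hx, e⟩ := cv_surj (w := (ee l : V)) ⟨Pi.single_eq_of_ne l0.symm _, Pi.single_eq_of_ne lL.symm _⟩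
  refine ⟨x, hx, ω • ee l.rev, ⟨by simp [ee, Pi.single_eq_of_ne a1], by simp [ee, Pi.single_eq_of_ne a2]⟩,
    Subtype.ext ?_⟩
  change bt _ _ + σ (bt _ _) = 1
  rw [e, bt_smul_right, bt_ee, Fin.rev_rev, ee, Pi.single_eq_same, mul_one, sg_sg, add_comm, hω]

theorem mi_smul {v : V} (h : Mi v) (a : F) : Mi (a • v) :=
  ⟨by rw [Pi.smul_apply, h.1, smul_zero], by rw [Pi.smul_apply, h.2, smul_zero]⟩

theorem e0 : Is (ee 0 : V) := is_ee (by simp [Fin.ext_iff])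

theorem zz_sq (a : K0 F) : (zz a : X) * zz a = 1 := tc_sq e0.1 a
theorem zz_mul (a b : K0 F) : (zz a : X) * zz b = zz (a + b) := tc_mul e0.1 a b
theorem zz_zero : (zz 0 : X) = 1 := tc_zero _

/-- the commutator form -/
def Bf (x w : X) : K0 F := Tr (cv x) (cv w)

theorem z_inj (e : Em ι) {a b : K0 F} (h : ι (zz a) = ι (zz b)) : a = b :=
  tc_inj e0 (e.inj2 (P2.of_sq (zz_sq _)) (P2.of_sq (zz_sq _)) h)

theorem i_comm {x w : X} (hx : x ∈ Q) (hw : w ∈ Q) : ι (zz (Bf x w)) = (ι w * ι x)⁻¹ * (ι x * ι w) := by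
  obtain ⟨c, h1, h2⟩ := comm_QQ hx hw
  have : c = Bf x w := Subtype.ext h1
  rw [← map_mul, ← map_mul, h2, map_mul _ (w * x), inv_mul_cancel_left, this]

theorem form {g : G} {x w x' w' : X} (hx : x ∈ Q) (hw : w ∈ Q) (hx' : x' ∈ Q) (hw' : w' ∈ Q)
    (h1 : g * ι x * g⁻¹ = ι x') (h2 : g * ι w * g⁻¹ = ι w') :
    g * ι (zz (Bf x w)) * g⁻¹ = ι (zz (Bf x' w')) := by
  rw [i_comm hx hw, i_comm hx' hw', ← h1, ← h2]; group

theorem exQ {g : G} (hg : g ∈ 𝐍((Q).map ι)) {x : X} (hx : x ∈ Q) : ∃ x' ∈ Q, g * ι x * g⁻¹ = ι x' := by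
  obtain ⟨x', h1, h2⟩ := (mem_normalizer_iff.1 hg _).1 (mem_map_of_mem ι hx)
  exact ⟨x', h1, h2.symm⟩

theorem L0 : (0 : I) ≠ iL := Fin.last_pos.ne

/-- a diagonal -/
def dd (n : ℕ) (μ : K0 F) : Fin (n + 3) → F := Pi.mulSingle 0 (μ : F) * Pi.mulSingle iL (μ : F)⁻¹

theorem dd_0 (μ : K0 F) : dd n μ 0 = μ := by simp [dd, Pi.mulSingle_eq_of_ne (L0 (n := n))]
theorem dd_L (μ : K0 F) : dd n μ iL = (μ : F)⁻¹ := by simp [dd, Pi.mulSingle_eq_of_ne (L0 (n := n)).symm]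
theorem dd_m (μ : K0 F) {l : I} (l0 : l ≠ 0) (lL : l ≠ iL) : dd n μ l = 1 := by
  simp [dd, Pi.mulSingle_eq_of_ne l0, Pi.mulSingle_eq_of_ne lL]

theorem dd_ok {μ : K0 F} (h : μ ≠ 0) : Dd (dd n μ) := by
  have h' : (μ : F) ≠ 0 := fun k => h (Subtype.ext k)
  refine ⟨fun i => ?_, ?_⟩
  · by_cases i0 : i = 0
    · rw [i0, dd_0, show (0 : I).rev = iL from rfl, dd_L, map_inv₀, mem_K0.1 μ.2, mul_inv_cancel₀ h']
    by_cases iL' : i = iL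
    · rw [iL', dd_L, show (iL : I).rev = 0 from Fin.rev_last _, dd_0, mem_K0.1 μ.2, inv_mul_cancel₀ h']
    have a1 : i.rev ≠ 0 := fun k => iL' (by rw [← Fin.rev_rev i, k]; rfl)
    have a2 : i.rev ≠ iL := fun k => i0 (by rw [← Fin.rev_rev i, k]; exact Fin.rev_last _)
    rw [dd_m μ i0 iL', dd_m μ a1 a2, map_one, mul_one]
  · simp only [dd, Pi.mul_apply, Finset.prod_mul_distrib, Finset.prod_pi_mulSingle', Finset.mem_univ, if_true]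
    exact mul_inv_cancel₀ h'

theorem dd_ne {μ : K0 F} (h : μ ≠ 0) (j : I) : dd n μ j ≠ 0 :=
  left_ne_zero_of_mul_eq_one ((dd_ok h).1 j)

/-- the torus element that is scalar on `Q / Z` -/
noncomputable def hh (μ : K0 F) : X := dgu (dd n μ)

theorem hh_val {μ : K0 F} (h0 : μ ≠ 0) (x : X) (i j : I) :
    (hh μ * x * (hh μ)⁻¹).1.1 i j = dd n μ i * x.1.1 i j * (dd n μ j)⁻¹ := by
  have h : (hh μ * x * (hh μ)⁻¹).1.1 * (hh μ : X).1.1 = (hh μ : X).1.1 * x.1.1 :=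
    congrArg (fun y : X => y.1.1) (inv_mul_cancel_right (hh μ * x) (hh μ))
  have e : (hh μ : X).1.1 = diagonal (dd n μ) := dgu_val (dd_ok h0)
  have h2 := congrFun (congrFun h i) j
  rw [e, mul_diagonal, diagonal_mul] at h2
  rw [← h2, mul_inv_cancel_right₀ (dd_ne h0 j)]

theorem hh_Q {μ : K0 F} (h0 : μ ≠ 0) {x : X} (hx : x ∈ Q) : hh μ * x * (hh μ)⁻¹ ∈ Q := by
  refine mem_QQ.2 fun a b hab => ?_
  rw [hh_val h0, mem_QQ.1 hx a b hab]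
  by_cases e : a = b
  · rw [e, one_apply_eq, mul_one, mul_inv_cancel₀ (dd_ne h0 b)]
  · rw [one_apply_ne e, mul_zero, zero_mul]

theorem hh_cv {μ : K0 F} (h0 : μ ≠ 0) (x : X) : cv (hh μ * x * (hh μ)⁻¹) = (μ : F) • cv x := by
  funext j
  rw [Pi.smul_apply, cv, cv]
  split_ifs with k
  · rw [smul_zero]
  · rw [not_or] at k
    rw [hh_val h0, dd_L, dd_m μ k.1 k.2, inv_inv, one_mul, mul_comm, smul_eq_mul]

theorem hh_Bf {μ : K0 F} (h0 : μ ≠ 0) (x w : X) : Bf (hh μ * x * (hh μ)⁻¹) w = μ * Bf x w := by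
  rw [Bf, hh_cv h0, Tr_l, Bf]

theorem hh_z {μ : K0 F} (h0 : μ ≠ 0) (a : K0 F) : (hh μ : X) * zz a * (hh μ)⁻¹ = zz (μ * μ * a) := by
  have : nm (μ : F) = μ * μ := Subtype.ext (by
    change (μ : F) * σ (μ : F) = μ * μ
    rw [mem_K0.1 μ.2])
  rw [zz, tc_cj e0.1, hh, ac_dgu (dd_ok h0), dd_0, tc_smul, this, zz]

theorem Q_eq {x y : X} (hx : x ∈ Q) (hy : y ∈ Q) (h : cv y = cv x) : ∃ e, y = x * zz e := by
  have k := mul_mem (inv_mem hx) hy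
  have k2 := cv_mul hx k
  rw [mul_inv_cancel_left, h, left_eq_add] at k2
  obtain ⟨e, he⟩ := mem_ZZ.1 ((cv_ker k).1 k2)
  exact ⟨e, by rw [← he, mul_inv_cancel_left]⟩

theorem ex_k {g : G} (hg : g ∈ 𝐍((Q).map ι)) {μ : K0 F} (h0 : μ ≠ 0) {x : X} (hx : x ∈ Q) :
    ∃ x' ∈ Q, g * ι (hh μ) * g⁻¹ * ι x * (g * ι (hh μ) * g⁻¹)⁻¹ = ι x' := by
  obtain ⟨x1, a1, b1⟩ := exQ (inv_mem hg) hx
  obtain ⟨x2, a2, b2⟩ := exQ hg (hh_Q h0 a1)
  refine ⟨x2, a2, ?_⟩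
  rw [← b2, map_mul, map_mul, map_inv, ← b1]; group

/-- conjugates of `hh μ` under `N(Q)` act as scalars on `Q/Z` -/
theorem scalar (em : Em ι) {g : G} (hg : g ∈ 𝐍((Q).map ι)) {μ : K0 F} (h0 : μ ≠ 0) (hμ : μ ≠ 1) :
    ∃ ν : K0 F, ν ≠ 0 ∧ ν ≠ 1 ∧
    ∀ x x' : X, x ∈ Q → x' ∈ Q → g * ι (hh μ) * g⁻¹ * ι x * (g * ι (hh μ) * g⁻¹)⁻¹ = ι x' →
      ∀ w : X, w ∈ Q → Bf x' w = ν * Bf x w := by
  have k : ∀ x x' : X, x ∈ Q → x' ∈ Q → g * ι (hh μ) * g⁻¹ * ι x * (g * ι (hh μ) * g⁻¹)⁻¹ = ι x' →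
      ∀ w : X, w ∈ Q → ∃ e, g⁻¹ * ι (zz (Bf x w)) * g⁻¹⁻¹ = ι (zz e) ∧
        g⁻¹ * ι (zz (Bf x' w)) * g⁻¹⁻¹ = ι (zz (μ * e)) := fun x x' hx hx' e w hw => by
    obtain ⟨x1, a1, b1⟩ := exQ (inv_mem hg) hx
    obtain ⟨w1, a2, b2⟩ := exQ (inv_mem hg) hw
    have b3 : g⁻¹ * ι x' * g⁻¹⁻¹ = ι (hh μ * x1 * (hh μ)⁻¹) := by
      rw [map_mul, map_mul, map_inv, ← b1, ← e]; group
    refine ⟨_, form hx hw a1 a2 b1 b2, ?_⟩
    rw [form hx' hw (hh_Q h0 a1) a2 b3 b2, hh_Bf h0]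
  obtain ⟨x0, hx0, v, hv, hT⟩ := ex_Tr (n := n) (F := F)
  obtain ⟨y, hy, e⟩ := ex_k hg h0 hx0
  have k1 : ∀ a, ∃ e, g⁻¹ * ι (zz a) * g⁻¹⁻¹ = ι (zz e) ∧
      g⁻¹ * ι (zz (Tr (cv y) v * a)) * g⁻¹⁻¹ = ι (zz (μ * e)) := fun a => by
    obtain ⟨w, hw, ew⟩ := cv_surj (mi_smul hv (a : F))
    have := k _ _ hx0 hy e w hw
    rwa [Bf, Bf, ew, Tr_r, Tr_r, hT, mul_one, mul_comm a] at this
  obtain ⟨e1, c1, c2⟩ := k1 1
  have he1 : e1 ≠ 0 := fun h0 => by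
    rw [h0, zz_zero, map_one, conj_eq_one_iff, ← map_one ι, ← zz_zero] at c1
    exact one_ne_zero (z_inj em c1)
  refine ⟨Tr (cv y) v, fun h1 => ?_, fun h1 => ?_, fun x x' hx hx' e w hw => ?_⟩
  · rw [h1, zero_mul, zz_zero, map_one, mul_one, mul_inv_cancel, ← map_one ι, ← zz_zero] at c2
    exact mul_ne_zero h0 he1 (z_inj em c2).symm
  · rw [h1, one_mul, c1] at c2
    exact hμ (mul_right_cancel₀ he1 ((z_inj em c2).symm.trans (one_mul _).symm))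
  · obtain ⟨d, d1, d2⟩ := k x x' hx hx' e w hw
    obtain ⟨d', d1', d2'⟩ := k1 (Bf x w)
    rw [z_inj em (d1.symm.trans d1'), ← d2', mul_left_inj, mul_right_inj] at d2
    exact z_inj em d2

theorem ex_mu (h4 : 4 ≤ 𝐪) : ∃ μ : K0 F, μ ≠ 0 ∧ μ ≠ 1 := by
  classical
  have : 1 < Nat.card (K0 F)ˣ := by rw [Nat.card_units]; omega
  haveI := Finite.one_lt_card_iff_nontrivial.1 this
  obtain ⟨μ, hμ⟩ := exists_ne (1 : (K0 F)ˣ)
  exact ⟨μ, μ.ne_zero, fun k => hμ (Units.ext k)⟩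

theorem core (h : C1 ι t) (h4 : 4 ≤ 𝐪) {g : G} {c : K0 F} (hc : c ≠ 0)
    (e : g * t * g⁻¹ = t * ι (zz c)) (hg : g ∈ 𝐍((Q).map ι)) : ∃ c' y, c' ≠ 0 ∧ D1 ι t c' y := by
  obtain ⟨μ, h0, hμ⟩ := ex_mu h4
  obtain ⟨ν, n0, hν, ks⟩ := scalar h.em hg h0 hμ
  have n1 : ν⁻¹ ≠ 0 := inv_ne_zero n0
  set κ := g * ι (hh μ) * g⁻¹ with hκ
  set y := ι (hh ν⁻¹) * κ with hy
  have k1 : ∀ x ∈ Q, ∃ x' ∈ Q, y * ι x * y⁻¹ = ι x' ∧ cv x' = cv x := fun x hx => by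
    obtain ⟨x', a, b⟩ := ex_k hg h0 hx
    refine ⟨_, hh_Q n1 a, ?_, Tr_nd (cv_mi _) (cv_mi _) fun v hv => ?_⟩
    · rw [map_mul, map_mul, map_inv, ← b, hy, hκ]; group
    · obtain ⟨w, hw, rfl⟩ := cv_surj hv
      have := ks x x' hx a b w hw
      change Bf _ w = Bf x w
      rw [hh_Bf n1, this, inv_mul_cancel_left₀ n0]
  have k2 : ∀ a, y * ι (zz a) * y⁻¹ = ι (zz a) := fun a => by
    obtain ⟨x0, hx0, v, hv, hT⟩ := ex_Tr (n := n) (F := F)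
    obtain ⟨w0, hw0, ew⟩ := cv_surj (mi_smul hv (a : F))
    obtain ⟨x, a1, b1, c1⟩ := k1 _ hx0
    obtain ⟨w, a2, b2, c2⟩ := k1 _ hw0
    have := form hx0 hw0 a1 a2 b1 b2
    rwa [Bf, Bf, c1, c2, ew, Tr_r, hT, mul_one] at this
  have a1 : κ * (t * ι (zz c)) * κ⁻¹ = t * ι (zz c) := by
    rw [← e, hκ, conj_mul, ← h.tc, ← conj_mul]; group
  have a2 : y * (t * ι (zz c)) * y⁻¹ = t * ι (zz (ν⁻¹ * ν⁻¹ * c)) := by
    rw [show y * (t * ι (zz c)) * y⁻¹ = ι (hh ν⁻¹) * (κ * (t * ι (zz c)) * κ⁻¹) * (ι (hh ν⁻¹))⁻¹ by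
      rw [hy]; group, a1, ← hh_z n1, map_mul, map_mul, map_inv, ← mul_assoc, ← h.tc]
    group
  refine ⟨ν⁻¹ * ν⁻¹ * c + c, y, fun h0 => hν ?_, fun x hx => ?_, fun x hx => ?_, ?_⟩
  · have h2 : ν⁻¹ * ν⁻¹ * c = 1 * c := by
      rw [one_mul, ← add_zero (ν⁻¹ * ν⁻¹ * c), ← k0_add c, ← add_assoc, h0, zero_add]
    have h1 := mul_right_cancel₀ hc h2
    have h3 : (-1 : K0 F) = 1 := neg_eq_of_add_eq_zero_left (k0_add 1)
    rw [mul_self_eq_one_iff, h3, or_self, inv_eq_one] at h1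
    exact h1
  · obtain ⟨a, rfl⟩ := mem_ZZ.1 hx
    exact mul_inv_eq_iff_eq_mul.1 (k2 a)
  · obtain ⟨x', a, b, d⟩ := k1 x hx
    obtain ⟨a', rfl⟩ := Q_eq hx a d
    exact ⟨a', by rw [b, map_mul]⟩
  · rw [← zz_mul, map_mul, ← mul_assoc, ← a2, ← k2 c, conj_mul, k2 c, mul_assoc t, ← map_mul, zz_sq, map_one,
      mul_one]

end S670

end UMS
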