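import Cfsg.Agent.Lib.UMS.Defs2
import Cfsg.Agent.Lib.UMS.B3b
import Cfsg.Agent.Lib.UMS.B6
import Cfsg.Agent.Lib.UMS.B4
import Cfsg.Agent.Lib.UMS.S670

set_option autoImplicit false
set_option linter.unusedSectionVars false

namespace UMS

open Subgroup H69 Cfsg Matrix U4S
open LMS (XX GX iL kk MM au tw Sg)
open scoped MatrixGroups commutatorElement

universe u
variable {G : Type*} [Group G] [Finite G] {F : Type u} [Field F] [CharP F 2] [Fintype F] [Hs F] {n : ℕ} [Ok n F]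
  {ι ψ χ : XU n F →* G} {t : G} {E : Subgroup G}

local notation "X" => XU n F
local notation "V" => VV n F
local notation "𝐪" => Nat.card (K0 F)
local notation "I" => Fin (n + 3)
local notation "Mx" => Matrix (Fin (n + 3)) (Fin (n + 3)) F

namespace FIB

local notation "Q" => QQ n F

theorem p2Q {x : X} (h : x ∈ Q) : P2 x := by
  obtain ⟨k, hk⟩ := (isP_QQ (n := n) (F := F)) ⟨x, h⟩
  exact ⟨k, congrArg Subtype.val hk⟩

theorem mi_add {u v : V} (hu : Mi u) (hv : Mi v) : Mi (u + v) :=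
  ⟨by rw [Pi.add_apply, hu.1, hv.1, add_zero], by rw [Pi.add_apply, hu.2, hv.2, add_zero]⟩

theorem tr_z {a : F} (h : ∀ c : F, c * a + σ (c * a) = 0) : a = 0 := by
  by_contra ne
  obtain ⟨w, hw⟩ := ex_om (F := F)
  have k := h (w * a⁻¹)
  rw [inv_mul_cancel_right₀ ne, hw] at k
  exact one_ne_zero k

theorem s0 {a : F} (h : a ≠ 0) : σ a ≠ 0 := fun e => h ((map_eq_zero_iff _ (σ : RingAut F).injective).1 e)

theorem rv0 {j : I} (h : j ≠ iL) : j.rev ≠ 0 := fun e => h (by rw [← Fin.rev_rev j, e, B3.r0])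
theorem rvL {j : I} (h : j ≠ 0) : j.rev ≠ iL := fun e => h (by rw [← Fin.rev_rev j, e, B3.rL])

theorem mi1 {j : I} (h0 : j ≠ 0) (hL : j ≠ iL) : Mi (ee j.rev : V) := by
  simpa using B3b.mi_ee (n := n) (rv0 hL) (rvL h0) (1 : F)

theorem nd {z : V} (hz : Mi z) (h : ∀ w, Mi w → bt z w = 0) : z = 0 := by
  funext i
  by_cases h0 : i = 0
  · rw [h0]; exact hz.1
  by_cases hL : i = iL
  · rw [hL]; exact hz.2
  have := h _ (mi1 h0 hL)
  rwa [bt_ee, Fin.rev_rev] at this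

theorem idx {u : V} (hu : Mi u) (h : u ≠ 0) : ∃ j, j ≠ 0 ∧ j ≠ iL ∧ u j ≠ 0 := by
  obtain ⟨j, hj⟩ := Function.ne_iff.1 h
  exact ⟨j, fun e => hj (e ▸ hu.1), fun e => hj (e ▸ hu.2), hj⟩

theorem mult {u z : V} (hu : Mi u) (u0 : u ≠ 0) (hz : Mi z) (h : ∀ w, Mi w → bt w u = 0 → bt w z = 0) :
    ∃ b : F, z = b • u := by
  obtain ⟨j, j0, jL, hj⟩ := idx hu u0
  refine ⟨z j * (u j)⁻¹, ?_⟩
  have : z + (z j * (u j)⁻¹) • u = 0 := nd (mi_add hz (S670.mi_smul hu _)) fun w hw => by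
    have b0 : bt (w + (bt w u * (σ (u j))⁻¹) • ee j.rev) u = 0 := by
      rw [bt_add_left, bt_smul_left, ee_bt, Fin.rev_rev, inv_mul_cancel_right₀ (s0 hj), B3.two]
    have b1 := h _ (mi_add hw (S670.mi_smul (mi1 j0 jL) _)) b0
    rw [bt_add_left, bt_smul_left, ee_bt, Fin.rev_rev] at b1
    rw [bt_symm, bt_add_right, bt_smul_right, map_mul, map_inv₀, ← map_zero (σ : RingAut F), ← b1]
    congr 1
    ring
  calc z = z + (z j * (u j)⁻¹) • u + (z j * (u j)⁻¹) • u := by rw [add_assoc, B3b.two, add_zero]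
    _ = _ := by rw [this, zero_add]

theorem cv_p {p x : X} (hp : p ∈ PP n F) (hx : x ∈ Q) : ∃ s : F, ac p (cv x) = cv (p * x * p⁻¹) + s • ee 0 := by
  refine ⟨ac p (cv x) 0, funext fun j => ?_⟩
  by_cases h : j = 0
  · simp [h, B3.cv0, B3.e00]
  · simp [cv_cj hp hx h, B3.ee_ap, h]

theorem cmT {y : X} (hy : y ∈ Q) {v : V} (i : bt v v = 0) (hv : v iL = 0) (h : bt (cv y) v = 0) :
    y * tc v 1 = tc v 1 * y := by
  rw [← mul_inv_eq_iff_eq_mul, tc_cj i, ac_QQ hy hv, bt_symm, h, map_zero, zero_smul, add_zero]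

theorem sep {w w' : V} (i : bt w w = 0) (i' : bt w' w' = 0) (l : w iL = 0) (l' : w' iL = 0) {j : I} (j0 : j ≠ 0)
    (hj : w j ≠ 0) {c c' : K0 F} (h : (tc w 1 * zz c : X) = tc w' 1 * zz c') : c = c' := by
  have H : ∀ s : V, ((c : F) * s iL) • (ee 0 : V) + bt s w • w = ((c' : F) * s iL) • ee 0 + bt s w' • w' := fun s => by
    have := congrArg (fun x => ac x s) h
    simp only [ac_mul, B3.ac_zz, ac_tc i, ac_tc i', bt_add_left, bt_smul_left, B3b.b0 l, B3b.b0 l', mul_zero, add_zero,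
      OneMemClass.coe_one, one_mul, add_assoc, add_right_inj] at this
    exact this
  have z : (ee j.rev : V) iL = 0 := by rw [B3.ee_ap, if_neg (rvL j0).symm]
  have h1 := H (ee j.rev)
  rw [z, mul_zero, mul_zero, add_right_inj, ee_bt, ee_bt, Fin.rev_rev] at h1
  have hj' : w' j ≠ 0 := fun e => by
    have := congrFun h1 j
    rw [Pi.smul_apply, Pi.smul_apply, e, smul_zero, smul_eq_mul] at this
    exact mul_ne_zero (s0 hj) hj this
  set s : V := ee iL + (bt (ee iL) w * (σ (w j))⁻¹) • ee j.rev with hs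
  have b0 : bt s w = 0 := by
    rw [hs, bt_add_left, bt_smul_left, ee_bt w j.rev, Fin.rev_rev, inv_mul_cancel_right₀ (s0 hj), B3.two]
  have b1 : bt s w' = 0 := by
    have := congrArg (bt s) h1
    rw [bt_smul_right, bt_smul_right, b0, mul_zero] at this
    exact (mul_eq_zero.1 this.symm).resolve_left (s0 (s0 hj'))
  have sL : s iL = 1 := by rw [hs, Pi.add_apply, Pi.smul_apply, z, smul_zero, add_zero, B3.eLL]
  have := congrFun (H s) 0
  simp only [b0, b1, sL, zero_smul, add_zero, mul_one, Pi.smul_apply, B3.e00, smul_eq_mul] at this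
  exact Subtype.ext this

variable {g : G} {δ : VV n F → VV n F} {φ : RingAut F}

theorem key (e : Em ι) (d : Dl ι g δ φ) {x x' : X} (hx : x ∈ Q) (hx' : x' ∈ Q) (h : g * ι x * g⁻¹ = ι x') :
    cv x' = δ (cv x) := by
  obtain ⟨y, hy, e1, e2⟩ := d.act x hx
  rw [← e.inj2 (p2Q hy) (p2Q hx') (e1.symm.trans h), e2]

theorem back (k : Nz ι g) {x' : X} (hx' : x' ∈ Q) : ∃ x ∈ Q, g * ι x * g⁻¹ = ι x' := by
  obtain ⟨x, hx, e⟩ := S670.exQ (inv_mem k.nQ) hx'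
  exact ⟨x, hx, by rw [← e]; group⟩

theorem iso0 (d : Dl ι g δ φ) {v : V} (hv : Is v) (hm : Mi v) : bt (δ v) (δ v) = 0 := by
  rw [d.iso v v hm hm, hv.1, map_zero]

theorem ne0 (d : Dl ι g δ φ) {v : V} (hv : Is v) (hm : Mi v) : δ v ≠ 0 := fun e => hv.2 (nd hm fun w hw => by
  have := d.iso v w hm hw
  rw [e, B3.bz] at this
  exact (map_eq_zero_iff _ φ.injective).1 this.symm)

theorem isoa {u : V} (i : bt u u = 0) (l : u iL = 0) (a : F) : bt (u + a • ee 0) (u + a • ee 0) = 0 := by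
  simp only [bt_add_left, bt_add_right, bt_smul_left, bt_smul_right, i, B3b.b0 l, B3b.b0' l, B3b.b00, mul_zero, add_zero]

theorem la {u : V} (l : u iL = 0) (a : F) : (u + a • ee 0 : V) iL = 0 := by
  rw [Pi.add_apply, l, Pi.smul_apply, B3.e0L, smul_zero, add_zero]

end FIB

open FIB in
theorem fib (e : Em ι) (h4 : Nat.card F = 4) {g : G} (k : Nz ι g) {δ : V → V} {φ : RingAut F} (d : Dl ι g δ φ)
    {v : V} (hv : Is v) (hm : Mi v) : ∃ (a : F) (c : K0 F), g * ι (tc v 1) * g⁻¹ = ι (tc (δ v + a • ee 0) 1 * zz c) := by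
  have hp : (tc v 1 : X) ∈ PP n F := B3b.tc_PP hv.1 hm.2 1
  obtain ⟨p, hp', ep⟩ := (mem_normalizer_iff.1 k.nP _).1 (mem_map_of_mem ι hp)
  have i := iso0 d hv hm
  have mu := d.mi v hm
  have hT : (tc (δ v) 1 : X) ∈ PP n F := B3b.tc_PP i mu.2 1
  have A : ∀ w, Mi w → ∃ s : F, ac p w = ac (tc (δ v) 1) w + s • ee 0 := fun w hw => by
    obtain ⟨x', hx', rfl⟩ := cv_surj hw
    obtain ⟨x, hx, ex⟩ := back k hx'
    have n1 : tc v 1 * x * (tc v 1)⁻¹ ∈ QQ n F := (mem_normalizer_iff.1 (PP_nQ hp) _).1 hx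
    have n2 : p * x' * p⁻¹ ∈ QQ n F := (mem_normalizer_iff.1 (PP_nQ hp') _).1 hx'
    have k1 := key e d n1 n2 (by simp only [map_mul, map_inv, ep, ← ex]; group)
    have c1 : cv (tc v 1 * x * (tc v 1)⁻¹) = cv x + bt (cv x) v • v := by
      funext j
      by_cases h : j = 0
      · simp [h, B3.cv0, hm.1]
      · simp [cv_cj hp hx h, ac_tc hv.1]
    obtain ⟨s, hs⟩ := cv_p hp' hx'
    refine ⟨s, ?_⟩
    rw [hs, k1, c1, d.add _ _ (cv_mi x) (S670.mi_smul hm _), d.smul _ _ hm, ← d.iso _ _ (cv_mi x) hm,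
      ← key e d hx hx' ex, ac_tc i, OneMemClass.coe_one, one_mul]
  have xQ : tc (δ v) 1 * p ∈ QQ n F := QQ_iff.2 fun w hw => by
    by_cases w0 : w = ee 0
    · exact ⟨0, by rw [w0, mem_PP.1 (mul_mem hT hp'), zero_smul, add_zero], fun _ => rfl⟩
    have m : Mi (w + w 0 • ee 0) := ⟨by simp [B3.e00, B3.two], la hw _⟩
    obtain ⟨s, hs⟩ := A _ m
    refine ⟨s, ?_, fun h => absurd h w0⟩
    rw [ac_add, ac_add, ac_smul, ac_smul, mem_PP.1 hp', mem_PP.1 hT, add_right_comm, add_left_inj] at hs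
    rw [ac_mul, hs, ac_add, ac_smul, mem_PP.1 hT, ← ac_mul, tc_sq i, ac_one]
  have C : ∀ w, Mi w → bt w (δ v) = 0 → bt w (cv (tc (δ v) 1 * p)) + σ (bt w (cv (tc (δ v) 1 * p))) = 0 :=
    fun w hw h0 => by
      obtain ⟨y', hy', rfl⟩ := cv_surj hw
      obtain ⟨y, hy, ey⟩ := back k hy'
      have b : bt (cv y) v = 0 := by
        rw [key e d hy hy' ey, d.iso _ _ (cv_mi y) hm] at h0
        exact (map_eq_zero_iff _ φ.injective).1 h0
      have c1 := congrArg ι (cmT hy hv.1 hm.2 b)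
      have c2 : y' * p = p * y' := e.comm2 (p2Q hy') (by
        rw [map_mul, map_mul] at c1
        rw [← ey, ep]
        calc _ = g * (ι y * ι (tc v 1)) * g⁻¹ := by group
          _ = _ := by rw [c1]; group)
      have c3 := cmT hy' i mu.2 h0
      obtain ⟨c, hc, ec⟩ := comm_QQ hy' xQ
      rw [← mul_assoc, c3, mul_assoc, c2, ← mul_assoc, left_eq_mul, ← S670.zz_zero] at ec
      rw [← hc, tc_inj S670.e0 ec]
      rfl
  obtain ⟨b, hb⟩ := mult mu (ne0 d hv hm) (cv_mi (tc (δ v) 1 * p)) fun w hw h0 => tr_z fun c => by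
    have := C _ (S670.mi_smul hw c) (by rw [bt_smul_left, h0, mul_zero])
    rwa [bt_smul_left] at this
  have ib : bt (b • δ v) (b • δ v) = 0 := by rw [bt_smul_left, bt_smul_right, i, mul_zero, mul_zero]
  obtain ⟨sQ, cs⟩ := sh_QQ (S670.mi_smul mu b) ib
  obtain ⟨c, hc⟩ := S670.Q_eq sQ xQ (hb.trans cs.symm)
  have ia : bt (σ b • ee 0 : V) (σ b • ee 0) = 0 := by rw [bt_smul_left, bt_smul_right, B3b.b00, mul_zero, mul_zero]
  have ja : bt (σ b • ee 0 : V) (δ v) = 0 := by rw [bt_smul_left, B3b.b0 mu.2, mul_zero]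
  have st := sh_tc ia i ja
  rw [sh_smul, sg_sg, add_comm (σ b • ee 0 : V)] at st
  refine ⟨σ b, nm (σ b) * 1 + c, ?_⟩
  rw [← ep]
  congr 1
  have c1 : (tc (δ v) 1 : X) * tc (δ v + σ b • ee 0) 1 = tc (δ v + σ b • ee 0) 1 * tc (δ v) 1 :=
    tc_comm i (isoa i mu.2 _) (by rw [bt_add_right, i, bt_smul_right, B3b.b0' mu.2, mul_zero, add_zero]) 1 1
  have c2 : (tc (σ b • ee 0) 1 : X) * tc (δ v) 1 = tc (δ v) 1 * tc (σ b • ee 0) 1 := tc_comm ia i ja 1 1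
  calc p = tc (δ v) 1 * (tc (δ v) 1 * p) := by rw [← mul_assoc, tc_sq i, one_mul]
    _ = tc (δ v + σ b • ee 0) 1 * ((tc (δ v) 1 * tc (δ v) 1) * (tc (σ b • ee 0) 1 * zz c)) := by
      rw [hc, st, mul_assoc (tc (δ v + _) 1), c2, ← mul_assoc, ← mul_assoc, c1]; simp only [mul_assoc]
    _ = _ := by rw [tc_sq i, one_mul, tc_smul, ← S670.zz_mul]; rfl

open FIB in
theorem fib2 (e : Em ι) (h4 : Nat.card F = 4) {g : G} (k : Nz ι g) {δ : V → V} {φ : RingAut F} (d : Dl ι g δ φ) :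
    ∃ c : K0 F, ∀ v, Is v → Mi v → ∃ a : F, g * ι (tc v 1) * g⁻¹ = ι (tc (δ v + a • ee 0) 1 * zz c) := by
  obtain ⟨i0, iL', ir, -⟩ := B3b.i1 n F
  have m1 : Mi (ee 1 : V) := by simpa using B3b.mi_ee (n := n) i0 iL' (1 : F)
  have s1 : Is (ee 1 : V) := is_ee ir
  obtain ⟨a1, c, e1⟩ := fib e h4 k d s1 m1
  refine ⟨c, fun v hv hm => ?_⟩
  obtain ⟨a, c', e2⟩ := fib e h4 k d hv hm
  obtain ⟨j, j0, -, hj⟩ := idx hm hv.2
  obtain ⟨p, hp, ep⟩ := B3b.tr' hv.1 hm.2 j0 hj 1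
  obtain ⟨r, hr, er⟩ := (mem_normalizer_iff.1 k.nP _).1 (mem_map_of_mem ι hp)
  have i1 := isoa (iso0 d s1 m1) (d.mi _ m1).2 a1
  have l1 := la (d.mi _ m1).2 a1
  have i2 := isoa (iso0 d hv hm) (d.mi _ hm).2 a
  have l2 := la (d.mi _ hm).2 a
  have i3 : bt (ac r (δ (ee 1) + a1 • ee 0)) (ac r (δ (ee 1) + a1 • ee 0)) = 0 := by rw [bt_ac, i1]
  have l3 : ac r (δ (ee 1) + a1 • ee 0) iL = 0 := by
    have := bt_ac r (δ (ee 1) + a1 • ee 0) (ee 0)
    rwa [mem_PP.1 hr, B3.b0, B3.b0, l1] at this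
  have pp : ∀ (w : V) (x : K0 F), bt w w = 0 → w iL = 0 → P2 (tc w 1 * zz x : X) := fun w x i l => P2.of_sq (by
    rw [mul_assoc, ← mul_assoc (zz x), ← PP_cen (B3b.tc_PP i l 1), mul_assoc, S670.zz_sq, mul_one, tc_sq i])
  have q : (tc (δ v + a • ee 0) 1 * zz c' : X) = tc (ac r (δ (ee 1) + a1 • ee 0)) 1 * zz c :=
    e.inj2 (pp _ _ i2 l2) (pp _ _ i3 l3) (by
      rw [← e2, ← tc_cj i1, mul_assoc (r * _), PP_cen (inv_mem hr), ← mul_assoc, mul_assoc r, map_mul, map_mul, map_inv,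
        ← e1, er, ep, map_mul, map_mul, map_inv]
      group)
  obtain ⟨l, l0, -, hl⟩ := idx (d.mi _ hm) (ne0 d hv hm)
  have := sep i2 i3 l2 l3 l0 (by simpa [B3.ee_ap, l0] using hl) q
  exact ⟨a, this ▸ e2⟩

end UMS
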