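import Cfsg.Agent.Lib.UMS.B4b
import Cfsg.Agent.Lib.UMS.AU
import Cfsg.Agent.Lib.UMS.B33
import Cfsg.Agent.Lib.LMS.NFb
import Cfsg.Agent.Lib.LMS.NFa
import Cfsg.Agent.Lib.LMS.HF

set_option autoImplicit false
set_option linter.unusedSectionVars false

namespace UMS

open Subgroup H69 Cfsg Matrix U4S
open LMS (XX GX iL kk MM au tw Sg)
open scoped MatrixGroups commutatorElement

universe u
variable {G : Type*} [Group G] [Finite G] {F : Type u} [Field F] [CharP F 2] [Fintype F] [Hs F] {n : ℕ} [Ok n F]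
  {ι ψ χ : XU n F →* G} {t : G} {E : Subgroup G}

local notation "X" => XU n F
local notation "V" => VV n F
local notation "𝐪" => Nat.card (K0 F)
local notation "I" => Fin (n + 3)
local notation "Mx" => Matrix (Fin (n + 3)) (Fin (n + 3)) F
local notation "𝐰" => Subtype.val (pmL Fin.revPerm : XX n F)

namespace GD

open LMS.NFa (map_mul' map_map' map_one')

theorem σσ (a : F) : σ (σ a) = a := Hs.sg.2 a

theorem wσ : (𝐰).map (σ : RingAut F) = 𝐰 := by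
  ext i j
  rw [map_apply, B33.w_apply, apply_ite σ, map_one, map_zero]

theorem alt_cong {S : Mx} (h : Sᵀ = S) (A : GX n F) : (∀ i, (A.1ᵀ * S * A.1) i i = 0) ↔ ∀ i, S i i = 0 := by
  have key : ∀ {S : Mx}, Sᵀ = S → ∀ A : Mx, (∀ i, S i i = 0) → ∀ i, (Aᵀ * S * A) i i = 0 := fun {S} h A k i => by
    have := (LMS.NFb.alt h).2 k (A *ᵥ Pi.single i 1)
    rw [toBilin'_apply', mulVec_mulVec, dotProduct_comm, dotProduct_mulVec, ← mulVec_transpose, mulVec_mulVec,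
      dotProduct_single, mul_one, mulVec_single_one, ← mul_assoc] at this
    exact this
  refine ⟨fun k i => ?_, key h A.1⟩
  have := key (S := A.1ᵀ * S * A.1) (by rw [transpose_mul, transpose_mul, transpose_transpose, h, mul_assoc])
    (A⁻¹).1 k i
  rwa [mul_assoc, mul_assoc, Units.mul_inv, mul_one, ← mul_assoc, ← transpose_mul, Units.mul_inv, transpose_one,
    one_mul] at this

theorem gram (g : GX n F) (hg : g.1 * g.1.map σ = 1) (sg : (𝐰 * g.1)ᵀ = 𝐰 * g.1) :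
    ∃ (D : GX n F) (H : GL (Fin (n + 3)) (K0 F)), g.1 * D.1.map σ = D.1 ∧ H.1ᵀ = H.1 ∧
      H.1.map (K0 F).subtype = D.1ᵀ * 𝐰 * D.1.map σ ∧ ((∀ i, H.1 i i = 0) ↔ ∀ i, (𝐰 * g.1) i i = 0) := by
  obtain ⟨D, hD⟩ := LMS.hil Hs.sg g hg
  obtain ⟨D', e', -⟩ := h9_fr (σ : RingAut F) D
  have e1 : D.1ᵀ * 𝐰 * D.1.map σ = D'.1ᵀ * (𝐰 * g.1) * D'.1 := by
    rw [e', ← sg, transpose_mul 𝐰, LMS.NFb.w_sym, ← mul_assoc, ← transpose_mul, hD]
  have e2 : (D.1ᵀ * 𝐰 * D.1.map σ).map σ = D.1ᵀ * 𝐰 * D.1.map σ := by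
    rw [map_mul', map_mul', map_map' σσ, wσ, e1, e', transpose_map, mul_assoc, mul_assoc, mul_assoc, hD]
  have e3 : (D.1ᵀ * 𝐰 * D.1.map σ)ᵀ = D.1ᵀ * 𝐰 * D.1.map σ := by
    rw [e1, transpose_mul, transpose_mul, transpose_transpose, sg, mul_assoc D'.1ᵀ]
  let H : Matrix I I (K0 F) := fun i j => ⟨(D.1ᵀ * 𝐰 * D.1.map σ) i j, congrFun (congrFun e2 i) j⟩
  have eH : H.map (K0 F).subtype = D.1ᵀ * 𝐰 * D.1.map σ := rfl
  have d : H.det ≠ 0 := fun d => by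
    have := congrArg (K0 F).subtype d
    rw [RingHom.map_det, RingHom.mapMatrix_apply, eH, map_zero, ← e', det_mul, det_mul, det_transpose,
      (pmL Fin.revPerm : XX n F).2, mul_one] at this
    exact mul_ne_zero D.det_ne_zero D'.det_ne_zero this
  refine ⟨D, Matrix.GeneralLinearGroup.mkOfDetNeZero H d, hD,
    Matrix.ext fun i j => Subtype.ext (congrFun (congrFun e3 i) j), eH, ?_⟩
  rw [← alt_cong sg D', ← e1]
  exact forall_congr' fun i => Subtype.ext_iff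

theorem key (g g0 : GX n F) (hg : g.1 * g.1.map σ = 1) (sg : (𝐰 * g.1)ᵀ = 𝐰 * g.1)
    (hg0 : g0.1 * g0.1.map σ = 1) (sg0 : (𝐰 * g0.1)ᵀ = 𝐰 * g0.1)
    (ha : (∀ i, (𝐰 * g0.1) i i = 0) ↔ ∀ i, (𝐰 * g.1) i i = 0) :
    ∃ C : GX n F, C.1ᵀ * 𝐰 * C.1.map σ = 𝐰 ∧ g.1 * C.1.map σ = C.1 * g0.1 := by
  haveI : Fintype (K0 F) := Fintype.ofFinite _
  obtain ⟨D, H, h1, h2, h3, h4⟩ := gram g hg sg
  obtain ⟨D0, H0, k1, k2, k3, k4⟩ := gram g0 hg0 sg0
  obtain ⟨E, hE⟩ := LMS.NFb.cong H0 H k2 h2 (k4.trans (ha.trans h4.symm))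
  obtain ⟨E', eE⟩ : ∃ E' : GX n F, E'.1 = (E.1.map (K0 F).subtype)ᵀ :=
    ⟨LMS.NFb.tr (Matrix.GeneralLinearGroup.map (K0 F).subtype E), rfl⟩
  have Eσ : E'.1.map σ = E'.1 := by
    rw [eE]; ext i j; exact (E.1 j i).2
  have e : D0.1ᵀ * 𝐰 * D0.1.map σ = E'.1ᵀ * (D.1ᵀ * 𝐰 * D.1.map σ) * E'.1 := by
    rw [← k3, ← h3, hE, Matrix.map_mul, Matrix.map_mul, eE, transpose_transpose, transpose_map]
  have i1 : D0.1.map σ * (D0⁻¹).1.map σ = 1 := by rw [← map_mul', Units.mul_inv, map_one']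
  have i2 : (D0⁻¹).1.map σ = (D0⁻¹).1 * g0.1 := by
    calc _ = (D0⁻¹).1 * (g0.1 * D0.1.map σ) * (D0⁻¹).1.map σ := by rw [k1, Units.inv_mul, one_mul]
      _ = _ := by rw [mul_assoc, mul_assoc, i1, mul_one]
  refine ⟨D * E' * D0⁻¹, ?_, ?_⟩
  · rw [Units.val_mul, Units.val_mul, map_mul', map_mul', Eσ, transpose_mul, transpose_mul]
    calc _ = (D0⁻¹).1ᵀ * (E'.1ᵀ * (D.1ᵀ * 𝐰 * D.1.map σ) * E'.1) * (D0⁻¹).1.map σ := by simp only [mul_assoc]
      _ = _ := by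
        rw [← e, mul_assoc, mul_assoc, i1, mul_one, ← mul_assoc, ← transpose_mul, Units.mul_inv, transpose_one,
          one_mul]
  · rw [Units.val_mul, Units.val_mul, map_mul', map_mul', Eσ, ← mul_assoc, ← mul_assoc, h1, i2, ← mul_assoc]

theorem bt_un {C : Mx} (h : Cᵀ * 𝐰 * C.map σ = 𝐰) (u v : V) : bt (C *ᵥ u) (C *ᵥ v) = bt u v := by
  rw [B33.bt_mul, h, B33.bt_eq]

theorem beta {C : GX n F} (h : C.1ᵀ * 𝐰 * C.1.map σ = 𝐰) : ∃ β : X →* X, Au β 1 ∧ ∀ x, (β x).1 = gc C x.1 := by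
  refine ⟨((gc C).toMonoidHom.comp (XU n F).subtype).codRestrict _ fun x => mem_XU.2 fun u v => ?_,
    ⟨C, fun x => by rw [LMS.au_false, fr_one]; rfl⟩, fun _ => rfl⟩
  change bt ((C.1 * x.1.1 * (C⁻¹).1) *ᵥ u) ((C.1 * x.1.1 * (C⁻¹).1) *ᵥ v) = _
  rw [← mulVec_mulVec, ← mulVec_mulVec, ← mulVec_mulVec, ← mulVec_mulVec, bt_un h, mem_XU.1 x.2, ← bt_un h,
    mulVec_mulVec, mulVec_mulVec, Units.mul_inv, one_mulVec, one_mulVec]

theorem norm {α : X →* X} (o : Ou α) : ∃ g : GX n F, (∀ x, (α x).1 = gc g (fr σ x.1)) ∧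
    g.1 * g.1.map σ = 1 ∧ (𝐰 * g.1)ᵀ = 𝐰 * g.1 := by
  have hn : 2 ≤ n + 3 := by omega
  obtain ⟨g0, μ, μ0, h1, h2⟩ := o.1.form
  obtain ⟨a, ha⟩ := nm_surj μ
  have a0 : a ≠ 0 := fun e => μ0 (ha ▸ nm_zero.2 e)
  obtain ⟨g, e, -, k⟩ := h9_smul (inv_ne_zero a0) g0
  have hα : ∀ x, (α x).1 = gc g (fr σ x.1) := fun x => by rw [h1, LMS.au_false, k]
  have un : g.1ᵀ * 𝐰 * g.1.map σ = 𝐰 := B33.ext_form fun u v => by
    have := h2 (fun i => σ (u i)) (fun i => σ (v i))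
    simp only [σσ] at this
    have e2 : σ (bt (fun i => σ (u i)) (fun i => σ (v i)) : F) = bt u v := by
      simp only [bt, map_sum, map_mul, σσ]
    rw [← B33.bt_mul, ← B33.bt_eq, e, smul_mulVec, smul_mulVec, bt_smul_left, bt_smul_right, this, e2, ← ha,
      map_inv₀]
    change a⁻¹ * ((σ a)⁻¹ * (a * σ a * _)) = _
    have : σ a ≠ 0 := (map_ne_zero σ).2 a0
    field_simp
  obtain ⟨g1, e1, k1⟩ := h9_fr (σ : RingAut F) g
  have un1 : g1.1ᵀ * 𝐰 * g1.1.map σ = 𝐰 := by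
    have := congrArg (·.map (σ : RingAut F)) un
    simp only [map_mul', wσ, transpose_map] at this
    rwa [e1]
  have d : (g.1 * g1.1).det = 1 := by
    have := congrArg det un
    rwa [det_mul, det_mul, det_transpose, (pmL Fin.revPerm : XX n F).2, mul_one, ← e1, ← det_mul] at this
  have m : (⟨g.1 * g1.1, d⟩ : XX n F) ∈ XU n F := mem_XU.2 fun u v => by
    change bt ((g.1 * g1.1) *ᵥ u) ((g.1 * g1.1) *ᵥ v) = _
    rw [← mulVec_mulVec, ← mulVec_mulVec, bt_un un, bt_un un1]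
  obtain ⟨c, hc⟩ := cen_iff.1 (show (⟨_, m⟩ : X) ∈ center X from mem_center_iff.2 fun x => by
    have e3 := congrArg Subtype.val (o.2 x)
    rw [hα, hα, k1, fr_fr, ← gc_mul, show (σ : RingAut F) * σ = 1 from RingEquiv.ext σσ, fr_one] at e3
    have e4 : g.1 * g1.1 * x.1.1 * ((g * g1)⁻¹).1 = x.1.1 := congrArg Subtype.val e3
    refine Subtype.ext (Subtype.ext ?_)
    change x.1.1 * (g.1 * g1.1) = g.1 * g1.1 * x.1.1
    conv_lhs => rw [← e4, ← Units.val_mul, mul_assoc, Units.inv_mul, mul_one, Units.val_mul])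
  change g.1 * g1.1 = _ at hc
  rw [e1] at hc
  have hcc : σ c = c := by
    have e := congrArg (·.map (σ : RingAut F)) hc
    simp only [map_mul', map_map' σσ, LMS.NFa.map_smul', map_one'] at e
    refine h9_ne hn (g := g) ?_
    calc σ c • g.1 = g.1 * (g.1.map σ * g.1) := by rw [e, mul_smul_comm, mul_one]
      _ = c • g.1 := by rw [← mul_assoc, hc, smul_mul_assoc, one_mul]
  have c1 : c = 1 := by
    have := mem_XU.1 m (ee 0) (ee iL)
    change bt ((g.1 * g1.1) *ᵥ _) ((g.1 * g1.1) *ᵥ _) = _ at this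
    rw [e1, hc, smul_mulVec, smul_mulVec, one_mulVec, one_mulVec, bt_smul_left, bt_smul_right, hcc, bt_ee,
      Fin.rev_last, ee, Pi.single_eq_same, mul_one] at this
    exact (mul_self_eq_one_iff.1 this).elim id fun e => by rw [e, CharTwo.neg_eq]
  rw [c1, one_smul] at hc
  refine ⟨g, hα, hc, ?_⟩
  rw [transpose_mul, LMS.NFb.w_sym]
  conv_rhs => rw [← un, mul_assoc, mul_eq_one_comm.1 hc, mul_one]

theorem fin {α : X →* X} {g g0 C : GX n F} (hα : ∀ x, (α x).1 = gc g (fr σ x.1))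
    (h : g.1 * C.1.map σ = C.1 * g0.1) (x : XX n F) : gc g (fr σ (gc C x)) = gc C (gc g0 (fr σ x)) := by
  obtain ⟨C1, e1, k1⟩ := h9_fr (σ : RingAut F) C
  rw [k1, ← gc_mul, ← gc_mul, show g * C1 = C * g0 from Units.ext (by rw [Units.val_mul, e1]; exact h)]

end GD

theorem nfO {α : X →* X} (o : Ou α) : ∃ β : X →* X, Au β 1 ∧
    ((∀ x y : X, y.1 = fr σ x.1 → α (β x) = β y) ∨
      (Odd n ∧ ∀ x y : X, y.1 = fr σ x.1 → α (β x) = β (zz (1 : K0 F) * y * zz (1 : K0 F)))) := by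
  obtain ⟨g, hα, h1, h2⟩ := GD.norm o
  by_cases ha : (∀ i, (𝐰 * (1 : GX n F).1) i i = 0) ↔ ∀ i, (𝐰 * g.1) i i = 0
  · obtain ⟨C, k1, k2⟩ := GD.key g 1 h1 h2 (by rw [Units.val_one, one_mul, LMS.NFa.map_one'])
      (by rw [Units.val_one, mul_one, LMS.NFb.w_sym]) ha
    obtain ⟨β, b1, b2⟩ := GD.beta k1
    refine ⟨β, b1, .inl fun x y e => Subtype.ext ?_⟩
    rw [hα, b2, b2, GD.fin hα k2, gc_one, e]
  rw [Units.val_one, mul_one] at ha
  have hn : Odd n := Nat.not_even_iff_odd.1 fun hn => by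
    obtain ⟨i, hi⟩ := LMS.sym_odd (hn.add_odd (by decide : Odd 3))
      (Matrix.SpecialLinearGroup.toGL (pmL Fin.revPerm : XX n F)) LMS.NFb.w_sym
    obtain ⟨j, hj⟩ := LMS.sym_odd (hn.add_odd (by decide : Odd 3))
      (Matrix.SpecialLinearGroup.toGL (pmL Fin.revPerm : XX n F) * g) h2
    exact ha ⟨fun k => absurd (k i) hi, fun k => absurd (k j) hj⟩
  have w0 : ∀ i, 𝐰 i i = 0 := fun i => (B33.w_apply i i).trans (if_neg fun e => by
    have e1 := congrArg Fin.val e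
    obtain ⟨r, hr⟩ := hn
    rw [Fin.val_rev] at e1
    have := i.2
    omega)
  have n0L : (0 : I) ≠ iL := Fin.last_pos.ne
  have wz : 𝐰 * (xe 0 iL (1 : F) : XX n F).1 = 𝐰 + single iL iL 1 := by
    rw [LMS.xe_val n0L, mul_add, mul_one, add_right_inj]
    ext i j
    by_cases hj : j = iL
    · subst hj
      rw [mul_single_apply_same, mul_one, B33.w_apply, single_apply, Fin.rev_zero]
      exact if_congr ⟨fun e => ⟨e.symm, rfl⟩, fun e => e.1.symm⟩ rfl rfl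
    · rw [mul_single_apply_of_ne _ _ _ _ _ hj, single_apply_of_col_ne _ _ (Ne.symm hj)]
  obtain ⟨C, k1, k2⟩ := GD.key g (Matrix.SpecialLinearGroup.toGL (xe 0 iL (1 : F) : XX n F)) h1 h2
    (by
      change (xe 0 iL (1 : F) : XX n F).1 * (fr σ (xe 0 iL (1 : F) : XX n F)).1 = 1
      rw [LMS.fr_xe, map_one, ← Matrix.SpecialLinearGroup.coe_mul, LMS.xe_sq]; rfl)
    (by
      change (𝐰 * (xe 0 iL (1 : F) : XX n F).1)ᵀ = 𝐰 * (xe 0 iL (1 : F) : XX n F).1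
      rw [wz, transpose_add, LMS.NFb.w_sym, transpose_single])
    ⟨fun k => absurd (k iL) (by
      change (𝐰 * (xe 0 iL (1 : F) : XX n F).1) iL iL ≠ 0
      rw [wz, Matrix.add_apply, w0, single_apply_same, zero_add]; exact one_ne_zero),
      fun k => absurd ⟨fun _ => k, fun _ => w0⟩ ha⟩
  obtain ⟨β, b1, b2⟩ := GD.beta k1
  refine ⟨β, b1, .inr ⟨hn, fun x y e => Subtype.ext ?_⟩⟩
  rw [hα, b2, b2, GD.fin hα k2, gc_sl, LMS.xe_inv, Subgroup.coe_mul, Subgroup.coe_mul, zz_val, e]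
  rfl

theorem fr_mem (x : X) : fr σ x.1 ∈ XU n F := by
  have := congrArg (·.map (σ : RingAut F)) (B33.mem_XU_mat.1 x.2)
  simp only [LMS.NFa.map_mul', GD.wσ, transpose_map] at this
  exact B33.mem_XU_mat.2 this

namespace GD

theorem nfU {α : X →* X} (o : Ou α) : ∃ β : X →* X, Function.Injective β ∧
    ∀ x y : X, y.1 = fr σ x.1 → y ∈ UU n F → α (β x) = β y := by
  obtain ⟨β, b, h | ⟨-, h⟩⟩ := nfO o
  · exact ⟨β, b.bij.1, fun x y e _ => h x y e⟩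
  · refine ⟨β, b.bij.1, fun x y e m => ?_⟩
    rw [h x y e, ← RR_cen (mem_ZZ.2 ⟨1, rfl⟩) m, mul_assoc]
    have : (zz (1 : K0 F) : X) * zz 1 = 1 := Subtype.ext (by
      rw [Subgroup.coe_mul, zz_val, LMS.xe_sq]; rfl)
    rw [this, mul_one]

/-- the elements with entries in the fixed field -/
def Fx (n : ℕ) (F : Type u) [Field F] [CharP F 2] [Hs F] : Subgroup (XU n F) :=
  ((fr σ).comp (XU n F).subtype).eqLocus (XU n F).subtype

theorem fr_sr {i j : I} (h : Sh i j) (a : F) : (sr i j (σ a) : X).1 = fr σ (sr i j a : X).1 := by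
  rw [sr_val h, sr_val h, map_mul, LMS.fr_xe, LMS.fr_xe]

theorem srU {i j : I} (h : Sh i j) (l : i < j) (a : F) : (sr i j a : X) ∈ UU n F := by
  change (sr i j a : X).1 ∈ LMS.UU n F
  rw [sr_val h]
  exact mul_mem (subset_closure ⟨_, _, _, l, rfl⟩) (subset_closure ⟨_, _, _, Fin.rev_lt_rev.2 l, rfl⟩)

theorem srF {i j : I} (h : Sh i j) (l : i < j) : (sr i j 1 : X) ∈ Fx n F ⊓ UU n F :=
  ⟨show fr σ (sr i j 1 : X).1 = (sr i j 1 : X).1 by rw [← fr_sr h, map_one], srU h l 1⟩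

end GD

theorem gd_out {α : X →* X} (o : Ou α) : Gd α := by
  obtain ⟨β, bi, hβ⟩ := GD.nfU o
  have h3 : 3 ≤ n := Ok.h3 F
  obtain ⟨c, hc⟩ : ∃ c : I, (c : ℕ) = 2 := ⟨⟨2, by omega⟩, rfl⟩
  obtain ⟨r, hr⟩ : ∃ r : I, (r : ℕ) = n + 1 := ⟨⟨n + 1, by omega⟩, rfl⟩
  have v0 : ((0 : I) : ℕ) = 0 := rfl
  have s1 : Sh (0 : I) c := by simp only [Sh, ne_eq, Fin.ext_iff, Fin.val_rev]; omega
  have s2 : Sh c r := by simp only [Sh, ne_eq, Fin.ext_iff, Fin.val_rev]; omega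
  have s3 : Sh (0 : I) r := by simp only [Sh, ne_eq, Fin.ext_iff, Fin.val_rev]; omega
  have l3 : (0 : I) < r := by rw [Fin.lt_def]; omega
  have z : (sr 0 r 0 : X) = 1 := by
    have := sr_mul (F := F) s3 0 0
    rwa [add_zero, mul_eq_left] at this
  have sq : ∀ a : F, (sr 0 r a : X) * sr 0 r a = 1 := fun a => by rw [sr_mul s3, CharTwo.add_self_eq_zero, z]
  obtain ⟨ω, hω⟩ := ex_om (F := F)
  refine ⟨(GD.Fx n F ⊓ UU n F).map β, (isP_UU.to_inf_right).map β, ?_, β (sr 0 r 1), ?_,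
    by rw [← map_mul, sq, map_one], fun e => ?_, β (sr 0 r ω), ?_⟩
  · rintro _ ⟨p, hp, rfl⟩
    exact hβ p p (show fr σ p.1 = p.1 from hp.1).symm hp.2
  · rw [← Subgroup.map_commutator]
    refine mem_map_of_mem β ?_
    have := commutator_mem_commutator (GD.srF (F := F) s1 (by rw [Fin.lt_def]; omega))
      (GD.srF (F := F) s2 (by rw [Fin.lt_def]; omega))
    rwa [sr_c1 s1 s2 s3, mul_one] at this
  · have e1 := congrArg Subtype.val (bi (e.trans (map_one β).symm))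
    rw [sr_val s3] at e1
    exact one_ne_zero (LMS.xe2_cen s3.1 s3.rev.1 (Or.inr s3.2.1) (by rw [e1]; exact one_mem _)).1
  · rw [hβ _ _ (GD.fr_sr s3 ω) (GD.srU s3 l3 _), ← map_inv, ← map_mul, inv_eq_of_mul_eq_one_right (sq _),
      sr_mul s3, hω]

theorem hf {α : X →* X} (o : Ou α) : ∃ B : Subgroup X, El B ∧ (∀ b ∈ B, α b = b) ∧
    𝐪 ^ (kk n * kk n + kk n) ≤ Nat.card B ^ 2 := by
  obtain ⟨β, bi, hβ⟩ := GD.nfU o
  refine ⟨(JD n F (kk n) ⊓ GD.Fx n F).map β, ((el_JD _).mono inf_le_left).map β, ?_, ?_⟩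
  · rintro _ ⟨p, hp, rfl⟩
    exact hβ p p (show fr σ p.1 = p.1 from hp.2).symm (JD_le _ hp.1)
  rw [card_map_of_injective bi]
  haveI : Fintype (K0 F) := Fintype.ofFinite _
  haveI : LMS.Ok n (K0 F) := ⟨fun k => absurd (Ok.h3 (n := n) F) (by omega)⟩
  let f : XX n (K0 F) →* XX n F := Matrix.SpecialLinearGroup.map (K0 F).subtype
  have fσ : ∀ x, fr σ (f x) = f x := fun x => Subtype.ext (Matrix.ext fun i j => (x.1 i j).2)
  have ft : ∀ x, tw (f x) = f (tw x) := fun x => Subtype.ext (Matrix.ext fun i j => by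
    rw [LMS.HF.tw_val, ← map_inv]
    exact congrArg Subtype.val (LMS.HF.tw_val x i j).symm)
  let j : ↥(LMS.JJ n (K0 F) (kk n) ⊓ (tw (n := n) (F := K0 F)).eqLocus (MonoidHom.id _)) →
      ↥(JD n F (kk n) ⊓ GD.Fx n F) := fun x =>
    ⟨⟨f x.1, show tw (fr σ (f x.1)) = f x.1 by rw [fσ, ft, show tw x.1 = x.1 from x.2.2]⟩,
      LMS.mem_JJ.2 fun a b k => by
        change ((x.1.1 a b : K0 F) : F) = _
        rw [LMS.mem_JJ.1 x.2.1 a b k, one_apply, one_apply]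
        split_ifs <;> rfl, fσ x.1⟩
  refine (LMS.HF.cnt (n := n) (F := K0 F)).trans (Nat.pow_le_pow_left
    (Nat.card_le_card_of_injective j fun x y e => Subtype.ext (Subtype.ext (Matrix.ext fun a b =>
      Subtype.ext ?_))) 2)
  exact congrFun (congrFun (congrArg (fun z => z.1.1.1) e) a) b

end UMS
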