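import Cfsg.Agent.Lib.UMS.GEN
import Cfsg.Agent.Lib.UMS.WIT
import Cfsg.Agent.Lib.UMS.B2

set_option autoImplicit false
set_option linter.unusedSectionVars false

namespace UMS

open Subgroup H69 Cfsg Matrix U4S
open LMS (XX GX iL kk MM au tw Sg)
open scoped MatrixGroups commutatorElement

universe u
variable {G : Type*} [Group G] [Finite G] {F : Type u} [Field F] [CharP F 2] [Fintype F] [Hs F] {n : ℕ} [Ok n F]
  {ι ψ χ : XU n F →* G} {t : G} {E : Subgroup G}

local notation "X" => XU n F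
local notation "V" => VV n F
local notation "𝐪" => Nat.card (K0 F)
local notation "I" => Fin (n + 3)
local notation "Mx" => Matrix (Fin (n + 3)) (Fin (n + 3)) F

namespace GEN0

theorem two (K : Type*) [Field K] [CharP K 2] : (2 : K) = 0 := CharTwo.two_eq_zero

theorem ee_apply (i k : I) : (ee i : V) k = if k = i then 1 else 0 := by
  simp [ee, Pi.single_apply]

theorem ee_iso {i : I} (h : i ≠ i.rev) : bt (ee i : V) (ee i) = 0 := (is_ee h).1

theorem ac_sr {i j : I} (h : Sh i j) (a : F) (y : V) (k : I) :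
    ac (sr i j a : X) y k = y k + (if k = i then y j * a else 0) + (if k = j.rev then σ a * y i.rev else 0) := by
  have o : Ot (ee i : V) (ee j.rev) := ot_ee h
  rw [sr, ac_sh (by rw [bt_smul_left, bt_smul_right, o.1]; simp) o.2.1 (by rw [bt_smul_left, o.2.2.1]; simp),
    bt_smul_right, bt_ee, bt_ee, Fin.rev_rev]
  simp only [Pi.add_apply, Pi.smul_apply, smul_eq_mul, ee_apply]
  split_ifs <;> ring

theorem sr_mem {i j : I} (h : Sh i j) (a : F) :
    (sr i j a : X) ∈ closure {y : X | ∃ i j a, Sh i j ∧ y = sr i j a} := subset_closure ⟨i, j, a, h, rfl⟩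

theorem rev0 : (0 : I).rev = iL := Fin.rev_zero _
theorem revL : (iL : I).rev = 0 := Fin.rev_last _
theorem L0 : (iL : I) ≠ 0 := by
  intro h
  have := congrArg Fin.val h
  simp [iL] at this

theorem redA {v : V} (h : v iL ≠ 0) (s : Finset I) : ∃ x ∈ closure {y : X | ∃ i j a, Sh i j ∧ y = sr i j a},
    ac x v iL = v iL ∧ ∀ j ∈ s, j ≠ 0 → j ≠ iL → j ≠ j.rev → ac x v j = 0 := by
  induction s using Finset.induction_on with
  | empty => exact ⟨1, one_mem _, by rw [ac_one], by simp⟩
  | insert j s _ ih =>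
    obtain ⟨x, hx, h1, h2⟩ := ih
    by_cases hj : j ≠ 0 ∧ j ≠ iL ∧ j ≠ j.rev
    · have sh : Sh j iL := ⟨hj.2.1, fun e => hj.1 (by rw [← Fin.rev_rev j, ← e, revL]), hj.2.2,
        by rw [revL]; exact L0⟩
      refine ⟨sr j iL (ac x v j / v iL) * x, mul_mem (sr_mem sh _) hx, ?_, ?_⟩
      · rw [ac_mul, ac_sr sh, if_neg hj.2.1.symm, revL, if_neg L0, h1]; ring
      · intro k hk k0 kL kr
        rw [ac_mul, ac_sr sh, revL, if_neg k0]
        by_cases e : k = j
        · rw [if_pos e, h1, e, mul_div_cancel₀ _ h]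
          linear_combination (ac x v j) * two F
        · rw [if_neg e, h2 k ((Finset.mem_insert.1 hk).resolve_left e) k0 kL kr]; ring
    · refine ⟨x, hx, h1, fun k hk k0 kL kr => ?_⟩
      rcases Finset.mem_insert.1 hk with rfl | hk
      · exact absurd ⟨k0, kL, kr⟩ hj
      · exact h2 k hk k0 kL kr

theorem red' (v : V) : ∃ x ∈ closure {y : X | ∃ i j a, Sh i j ∧ y = sr i j a},
    ∀ j : I, j ≠ 0 → j ≠ iL → j ≠ j.rev → ac x v j = 0 := by
  by_cases h : v iL = 0
  · by_cases k : ∃ j : I, j ≠ 0 ∧ j ≠ iL ∧ j ≠ j.rev ∧ v j ≠ 0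
    · obtain ⟨j, j0, jL, jr, hv⟩ := k
      have sh : Sh iL j := ⟨jL.symm, by rw [revL]; exact j0, by rw [revL]; exact L0, jr⟩
      have e : ac (sr iL j 1 : X) v iL ≠ 0 := by
        rw [ac_sr sh, if_pos rfl, if_neg (fun e => j0 (by rw [← Fin.rev_rev j, ← e, revL])), h]
        simpa using hv
      obtain ⟨x, hx, -, h2⟩ := redA e Finset.univ
      exact ⟨x * sr iL j 1, mul_mem hx (sr_mem sh _), fun k k0 kL kr => by
        rw [ac_mul]; exact h2 k (Finset.mem_univ _) k0 kL kr⟩
    · refine ⟨1, one_mem _, fun j j0 jL jr => ?_⟩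
      rw [ac_one]
      by_contra e
      exact k ⟨j, j0, jL, jr, e⟩
  · obtain ⟨x, hx, -, h2⟩ := redA h Finset.univ
    exact ⟨x, hx, fun k k0 kL kr => h2 k (Finset.mem_univ _) k0 kL kr⟩

theorem comm {u v w : V} (hu : bt u u = 0) (hv : bt v v = 0) (hw : bt w w = 0) (h : bt u v = 0) (h' : bt u w = 0)
    {c : K0 F} (hc : bt v w + bt w v = c) : (sh u v * sh u w * (sh u v * sh u w) : X) = tc u c := by
  have k : bt v u = 0 := by rw [bt_symm, h, map_zero]
  have k' : bt w u = 0 := by rw [bt_symm, h', map_zero]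
  refine ac_ext fun y => ?_
  simp only [ac_mul, ac_sh hu hv h, ac_sh hu hw h', ac_tc hu, bt_add_left, bt_smul_left, hu, hv, hw, h, h', k, k',
    ← hc]
  funext i
  simp only [Pi.add_apply, Pi.smul_apply, smul_eq_mul]
  linear_combination ((bt y v + bt y w + bt y u * bt w v) * u i + bt y u * (v i + w i)) * two F

theorem ex_j (h3 : 3 ≤ n) {i : I} (h : i ≠ i.rev) : ∃ j : I, Sh i j ∧ Sh i j.rev := by
  have hi := i.2
  by_cases e : i.1 = 0 ∨ i.1 = n + 2
  · refine ⟨⟨1, by omega⟩, ⟨?_, ?_, h, ?_⟩, ⟨?_, ?_, h, ?_⟩⟩ <;>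
      (intro k; have := congrArg Fin.val k; simp only [Fin.val_rev] at this; omega)
  · refine ⟨⟨0, by omega⟩, ⟨?_, ?_, h, ?_⟩, ⟨?_, ?_, h, ?_⟩⟩ <;>
      (intro k; have := congrArg Fin.val k; simp only [Fin.val_rev] at this; omega)

theorem mid {x : X} (hx : x ∈ closure {y : X | ∃ i j a, Sh i j ∧ y = sr i j a}) {k : I} (hk : k = k.rev) (v : V) :
    ac x v k = v k := by
  induction hx using closure_induction generalizing v with
  | mem y hy =>
    obtain ⟨i, j, a, sh, rfl⟩ := hy
    rw [ac_sr sh, if_neg (fun e => sh.2.2.1 (by rw [← e]; exact hk)),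
      if_neg (fun e => sh.2.2.2 (by rw [← e, hk, e, Fin.rev_rev]))]
    ring
  | one => rw [ac_one]
  | mul x y _ _ h1 h2 => rw [ac_mul, h1, h2]
  | inv x _ h1 => rw [← h1 (ac x⁻¹ v), ← ac_mul, mul_inv_cancel, ac_one]

end GEN0

open GEN0

theorem red {v : V} (h : Is v) : ∃ x ∈ closure {y : X | ∃ i j a, Sh i j ∧ y = sr i j a},
    ∀ j : I, j ≠ 0 → j ≠ iL → j ≠ j.rev → ac x v j = 0 := (fun _ => red' v) h

theorem tce_mem {i : I} (h : i ≠ i.rev) (c : K0 F) :
    (tc (ee i) c : X) ∈ closure {y : X | ∃ i j a, Sh i j ∧ y = sr i j a} := by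
  obtain ⟨j, h1, h2⟩ := ex_j (Ok.h3 F) h
  obtain ⟨b, hb⟩ := tr_surj c
  have o1 : Ot (ee i : V) (ee j.rev) := ot_ee h1
  have o2 : Ot (ee i : V) (ee j.rev.rev) := ot_ee h2
  have e1 : (sr i j 1 : X) = sh (ee i) (ee j.rev) := by rw [sr, one_smul]
  have e2 : (sr i j.rev (σ b) : X) = sh (ee i) (b • ee j.rev.rev) := by rw [sr, sh_smul, sg_sg]
  rw [← comm (v := ee j.rev) (w := b • ee j.rev.rev) o1.1 o1.2.1
    (by rw [bt_smul_left, bt_smul_right, o2.2.1]; simp) o1.2.2.1 (by rw [bt_smul_right, o2.2.2.1]; simp)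
    (by rw [bt_smul_left, bt_smul_right, bt_ee, bt_ee, ← hb]; simp [ee_apply, add_comm]), ← e1, ← e2]
  exact mul_mem (mul_mem (sr_mem h1 _) (sr_mem h2 _)) (mul_mem (sr_mem h1 _) (sr_mem h2 _))

namespace GEN0

theorem tc_mem {v : V} (hv : bt v v = 0) (hm : ∀ j : I, j = j.rev → v j = 0) (c : K0 F) :
    (tc v c : X) ∈ closure {y : X | ∃ i j a, Sh i j ∧ y = sr i j a} := by
  obtain ⟨x, hx, h⟩ := red' v
  have r0 : (0 : I) ≠ (0 : I).rev := by rw [rev0]; exact L0.symm
  have rL : (iL : I) ≠ (iL : I).rev := by rw [revL]; exact L0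
  have e : ac x v = ac x v 0 • ee 0 + ac x v iL • ee iL := by
    funext k
    simp only [Pi.add_apply, Pi.smul_apply, smul_eq_mul, ee_apply]
    by_cases k0 : k = 0
    · rw [if_pos k0, if_neg (by rw [k0]; exact L0.symm), k0]; ring
    · by_cases kL : k = iL
      · rw [if_neg k0, if_pos kL, kL]; ring
      · rw [if_neg k0, if_neg kL]
        by_cases kr : k = k.rev
        · rw [mid hx kr, hm k kr]; ring
        · rw [h k k0 kL kr]; ring
  have iso : bt (ac x v) (ac x v) = 0 := by rw [bt_ac, hv]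
  suffices k : (tc (ac x v) c : X) ∈ closure {y : X | ∃ i j a, Sh i j ∧ y = sr i j a} by
    rw [← tc_cj hv] at k
    have := mul_mem (mul_mem (inv_mem hx) k) hx
    rwa [show x⁻¹ * (x * tc v c * x⁻¹) * x = tc v c by group] at this
  rw [e] at iso ⊢
  generalize ac x v 0 = a at iso ⊢
  generalize ac x v iL = b at iso ⊢
  by_cases hb : b = 0
  · rw [hb, zero_smul, add_zero, tc_smul]
    exact tce_mem r0 _
  · have hb' : σ b ≠ 0 := (map_ne_zero _).2 hb
    simp only [bt_add_left, bt_add_right, bt_smul_left, bt_smul_right, bt_ee, ee_apply, rev0, revL,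
      Pi.add_apply, Pi.smul_apply, smul_eq_mul, if_true, if_neg (L0 (n := n)), if_neg (L0 (n := n)).symm] at iso
    have hd : a / b ∈ K0 F := by
      rw [mem_K0, map_div₀, div_eq_div_iff hb' hb]
      linear_combination iso - (a * σ b) * two F
    have e2 : a • (ee 0 : V) + b • ee iL = b • ac (tc (ee 0) ⟨a / b, hd⟩) (ee iL) := by
      rw [ac_tc (ee_iso r0), bt_ee, rev0, ee_apply, if_pos rfl, mul_one, smul_add, smul_smul,
        mul_div_cancel₀ _ hb, add_comm]
    rw [e2, tc_smul, ← tc_cj (ee_iso rL)]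
    exact mul_mem (mul_mem (tce_mem r0 _) (tce_mem rL _)) (inv_mem (tce_mem r0 _))

end GEN0

theorem gen0 {x : X} (h : ac x mv = mv) : x ∈ closure {y : X | ∃ i j a, Sh i j ∧ y = sr i j a} := by
  have h3 : 3 ≤ n := Ok.h3 F
  have k := gen (Finset.univ.filter fun i : I => i ≠ i.rev) (by
      intro i hi
      simp only [Finset.mem_filter, Finset.mem_univ, true_and, Fin.rev_rev] at hi ⊢
      exact hi.symm) (by
      have : ({⟨0, by omega⟩, ⟨1, by omega⟩, ⟨n + 1, by omega⟩, ⟨n + 2, by omega⟩} : Finset I) ⊆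
          Finset.univ.filter fun i : I => i ≠ i.rev := by
        intro i hi
        simp only [Finset.mem_insert, Finset.mem_singleton] at hi
        simp only [Finset.mem_filter, Finset.mem_univ, true_and]
        intro e
        have := congrArg Fin.val e
        rcases hi with rfl | rfl | rfl | rfl <;> simp only [Fin.val_rev] at this <;> omega
      refine le_trans ?_ (Finset.card_le_card this)
      rw [Finset.card_insert_of_notMem, Finset.card_insert_of_notMem, Finset.card_pair]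
      all_goals simp [Fin.ext_iff]
      all_goals omega) (x := x) (by
      intro j hj
      simp only [Finset.mem_filter, Finset.mem_univ, true_and, not_not] at hj
      have : (ee j : V) = mv := by
        funext k
        rw [ee_apply, mv]
        refine if_congr ⟨fun e => e ▸ hj, fun e => Fin.ext ?_⟩ rfl rfl
        have h1 := congrArg Fin.val e
        have h2 := congrArg Fin.val hj
        have := k.2
        have := j.2
        simp only [Fin.val_rev] at h1 h2
        omega
      rw [this, h])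
  refine (closure_le _).2 ?_ k
  rintro _ ⟨v, c, hv, hm, rfl⟩
  exact tc_mem hv (fun j hj => hm j (by simpa using hj)) c

theorem gen_sh : closure {y : X | ∃ u v, Ot u v ∧ y = sh u v} = ⊤ := by
  haveI : (closure {y : X | ∃ u v, Ot u v ∧ y = sh u v}).Normal := ⟨fun x hx g => by
    induction hx using closure_induction with
    | mem y hy =>
      obtain ⟨u, v, o, rfl⟩ := hy
      exact subset_closure ⟨_, _, o.ac g, sh_cj o.1 o.2.1 o.2.2.1 g⟩
    | one => simpa using one_mem _
    | mul x y _ _ h1 h2 =>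
      rw [show g * (x * y) * g⁻¹ = g * x * g⁻¹ * (g * y * g⁻¹) by group]; exact mul_mem h1 h2
    | inv x _ h1 =>
      rw [show g * x⁻¹ * g⁻¹ = (g * x * g⁻¹)⁻¹ by group]; exact inv_mem h1⟩
  refine (normal_X _).resolve_left fun k => ?_
  have le : closure {y : X | ∃ i j a, Sh i j ∧ y = sr i j a} ≤ closure {y : X | ∃ u v, Ot u v ∧ y = sh u v} := by
    rw [closure_le]
    rintro _ ⟨i, j, a, sh, rfl⟩
    by_cases ha : a = 0
    · have e := sr_mul (F := F) sh a a
      rw [ha, add_zero, mul_eq_left] at e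
      rw [ha, e]; exact one_mem _
    · have o := (ot_ee (F := F) sh).smul ha one_ne_zero
      rw [one_smul] at o
      exact subset_closure ⟨_, _, o, rfl⟩
  have r0 : (0 : I) ≠ (0 : I).rev := by rw [rev0]; exact L0.symm
  exact one_ne_zero (tc_cen (is_ee r0) (k (le (tce_mem r0 1))))

end UMS
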