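import Cfsg.Agent.Lib.UMS.GEN0
import Cfsg.Agent.Lib.UMS.B1b
import Cfsg.Agent.Lib.UMS.SB63

/-! The local homomorphism on the special linear group of the complement of the middle vector. -/

set_option autoImplicit false
set_option linter.unusedSectionVars false

namespace UMS
namespace H63

open Subgroup H69 Cfsg Matrix U4S
open LMS (XX GX iL kk MM au tw Sg)
open scoped MatrixGroups commutatorElement

universe u
variable {G : Type*} [Group G] [Finite G] {F : Type u} [Field F] [CharP F 2] [Fintype F] [Hs F] {n : ℕ} [Ok n F]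

theorem bt_mv (u : VV n F) : bt u mv = ∑ j, if j = j.rev then u j else 0 := by
  refine Finset.sum_congr rfl fun j _ => ?_
  simp only [mv, Fin.rev_rev]
  by_cases h : j = j.rev
  · rw [if_pos h.symm, if_pos h, map_one, mul_one]
  · rw [if_neg (Ne.symm h), if_neg h, map_zero, mul_zero]

theorem bt_mid (u : VV n F) {c : Fin (n + 3)} (hc : c = c.rev) : bt u mv = u c := by
  rw [bt_mv, Finset.sum_eq_single c, if_pos hc]
  · intro b _ hb
    refine if_neg fun k => hb ?_
    simp only [Fin.ext_iff, Fin.val_rev] at *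
    omega
  · simp

theorem mv_mid {c : Fin (n + 3)} (hc : c = c.rev) : (mv : VV n F) = ee c := by
  ext j
  simp only [mv, ee, Pi.single_apply]
  refine if_congr ?_ rfl rfl
  simp only [Fin.ext_iff, Fin.val_rev] at *
  omega

theorem hn_iff {x : XX n F} : HN mv x ↔ ∀ c : Fin (n + 3), c = c.rev → ∀ j,
    x.1 j c = (1 : Matrix _ _ F) j c ∧ x.1 c j = (1 : Matrix _ _ F) c j := by
  constructor
  · intro h c hc j
    have h1 := congrFun h.1 j
    have h2 := h.2 (ee j)
    rw [bt_mid _ hc, bt_mid _ hc] at h2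
    rw [mv_mid hc] at h1
    simp only [ee, mulVec_single_one, Pi.single_apply, col_apply] at h1 h2
    exact ⟨by rw [h1, one_apply], by rw [h2, one_apply]⟩
  · intro h
    by_cases e : ∃ c : Fin (n + 3), c = c.rev
    · obtain ⟨c, hc⟩ := e
      refine ⟨?_, fun u => ?_⟩
      · rw [mv_mid hc]
        ext j
        simp only [ee, mulVec_single_one, Pi.single_apply, col_apply]
        rw [(h c hc j).1, one_apply]
      · rw [bt_mid _ hc, bt_mid _ hc]
        simp only [mulVec, dotProduct, (h c hc _).2, one_apply]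
        simp
    · have z : (mv : VV n F) = 0 := by
        ext j
        exact if_neg fun k => e ⟨j, k⟩
      rw [z]
      exact ⟨mulVec_zero _, fun u => by simp [bt]⟩

theorem hn_one : HN mv (1 : XX n F) := hn_iff.2 fun _ _ _ => ⟨rfl, rfl⟩

theorem hn_mul {v : VV n F} {x y : XX n F} (hx : HN v x) (hy : HN v y) : HN v (x * y) :=
  ⟨by rw [Matrix.SpecialLinearGroup.coe_mul, ← mulVec_mulVec, hy.1, hx.1],
    fun u => by rw [Matrix.SpecialLinearGroup.coe_mul, ← mulVec_mulVec, hx.2, hy.2]⟩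

theorem hn_ac {v : VV n F} {x : XU n F} : HN v x.1 ↔ ac x v = v :=
  ⟨fun h => h.1, fun h => ⟨h, fun u => by
    have := bt_ac x u v
    rwa [h] at this⟩⟩

theorem hn_xe {i j : Fin (n + 3)} (r : R0 i j) (a : F) : HN mv (xe i j a : XX n F) := hn_iff.2 fun c hc k => by
  have h1 : j ≠ c := fun e => r.2.2 (e ▸ hc)
  have h2 : i ≠ c := fun e => r.2.1 (e ▸ hc)
  rw [xe_val r.1]
  simp [Matrix.single_apply, h1, h2]

theorem ex_f (y : Fin (n + 3) → Fin (n + 3) → F → G) (h : Sb R0 y) : ∃ f : XX n F → G,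
    (∀ x x', HN mv x → HN mv x' → f (x * x') = f x * f x') ∧ ∀ i j, R0 i j → ∀ a, f (xe i j a) = y i j a := by
  classical
  let p : Fin (n + 3) → Prop := fun i => i ≠ i.rev
  let e := Fintype.equivFin {i // p i}
  let s : Fin (Fintype.card {i // p i}) → Fin (n + 3) := fun a => (e.symm a).1
  have si : ∀ {a b}, a ≠ b → s a ≠ s b := fun ab k => ab (e.symm.injective (Subtype.ext k))
  have sr : ∀ {a b}, a ≠ b → R0 (s a) (s b) := fun {a b} ab => ⟨si ab, (e.symm a).2, (e.symm b).2⟩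
  have h3 := Ok.h3 (n := n) (F := F)
  have hN : 3 ≤ Fintype.card {i // p i} := by
    have := Fintype.card_le_of_injective (fun a : Fin 3 => (⟨⟨a.1, by omega⟩, by
      simp only [p, ne_eq, Fin.ext_iff, Fin.val_rev]; omega⟩ : {i // p i})) fun a b k => by
        simpa [Fin.ext_iff] using k
    simpa using this
  obtain ⟨ψ, hψ⟩ := H63.St.SL.exists_hom hN (K := F) (Γ := G)
    ⟨fun a b => y (s a) (s b), fun ab => h.add _ _ (sr ab),
      fun ab kl h1 h2 => h.c0 _ _ _ _ (sr ab) (sr kl) (si h1) (si h2),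
      fun h1 h2 h3 => h.c1 _ _ _ (sr h1) (sr h2) (sr h3)⟩
  let ρ : XX n F → Matrix _ _ F := fun x => x.1.submatrix s s
  have hd : ∀ x, HN mv x → (ρ x).det = 1 := fun x hx => by
    have k := twoBlockTriangular_det x.1 p fun i hi j hj => by
      rw [(hn_iff.1 hx i (not_not.1 hi) j).2, one_apply_ne (fun k : i = j => hi (k ▸ hj))]
    have k2 : (toSquareBlockProp x.1 fun i => ¬ p i) = 1 := by
      ext a b
      rw [toSquareBlockProp_def, of_apply, (hn_iff.1 hx a.1 (not_not.1 a.2) b.1).2, one_apply, one_apply]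
      exact if_congr Subtype.ext_iff.symm rfl rfl
    rw [k2, det_one, mul_one, x.2, ← det_submatrix_equiv_self e.symm] at k
    exact k.symm
  have hm : ∀ x x', HN mv x → ρ (x * x') = ρ x * ρ x' := fun x x' hx => by
    ext a b
    simp only [ρ, submatrix_apply, Matrix.SpecialLinearGroup.coe_mul, Matrix.mul_apply]
    rw [← Fintype.sum_subtype_add_sum_subtype p, Finset.sum_eq_zero (s := Finset.univ (α := {i // ¬ p i})), add_zero]
    · exact (Equiv.sum_comp e.symm fun j => x.1 (s a) j.1 * x'.1 j.1 (s b)).symm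
    · intro j _
      rw [(hn_iff.1 hx j.1 (not_not.1 j.2) _).1, one_apply_ne (fun k : s a = j.1 => j.2 (k ▸ (e.symm a).2)), zero_mul]
  refine ⟨fun x => if k : (ρ x).det = 1 then ψ ⟨ρ x, k⟩ else 1, fun x x' hx hx' => ?_, fun i j r a => ?_⟩
  · simp only [dif_pos (hd _ hx), dif_pos (hd _ hx'), dif_pos (hd _ (hn_mul hx hx'))]
    exact (congrArg ψ (Subtype.ext (hm _ _ hx))).trans (map_mul ψ ⟨_, hd _ hx⟩ ⟨_, hd _ hx'⟩)
  · simp only [dif_pos (hd _ (hn_xe r a))]
    have ab : e ⟨i, r.2.1⟩ ≠ e ⟨j, r.2.2⟩ := fun k => r.1 (congrArg Subtype.val (e.injective k))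
    have := hψ _ _ ab a
    simp only [s, Equiv.symm_apply_apply] at this
    rw [← this]
    refine congrArg ψ (Subtype.ext ?_)
    change ρ _ = (xe _ _ a).1
    rw [xe_val ab]
    ext c d
    simp only [ρ, submatrix_apply, xe_val r.1, Matrix.add_apply, one_apply, Matrix.single_apply]
    congr 1
    · exact if_congr ⟨fun k => by_contra fun k' => si k' k, fun k => by rw [k]⟩ rfl rfl
    · refine if_congr (and_congr ?_ ?_) rfl rfl <;>
        simp only [s, ← Equiv.eq_symm_apply, Subtype.ext_iff]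

variable {ι : XU n F →* G} {t : G} {W : VV n F → G} {α : K0 F} {r : F}

theorem ys_x (h : Stb ι t W α) {i j : Fin (n + 3)} (s : Sh i j) (a : F) : YS ι W i j a 0 = ι (sr i j a) := by
  have := (h.xs _ (is_ee s.rev.2.2.1)).2.2.1
  rw [YS, SS, zero_smul, zero_add, h.zero, mul_one, this, mul_one]

theorem lo_mv (h : Stb ι t W α) (hr : r * r + r = α) (hs : σ r = r + 1) : ∃ f, Lo ι W r mv f ∧
    ∀ i j, Sh i j → ∀ a, f (xe i j a) = YS ι W i j (r * a) a := by
  have h3 := Ok.h3 (n := n) (F := F)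
  have t2 : (2 : F) = 0 := CharTwo.two_eq_zero
  obtain ⟨y, hy, e1, -⟩ := ext h3 (sb h3 h hr hs)
  obtain ⟨f, fm, fx⟩ := ex_f y hy
  have r0 : ∀ {i j : Fin (n + 3)}, Sh i j → R0 i j := fun s => ⟨s.1, s.2.2.1, s.2.2.2⟩
  have fx' : ∀ i j, Sh i j → ∀ a, f (xe i j a) = YS ι W i j (r * a) a := fun i j s a => by
    rw [fx i j (r0 s), e1 i j s]
  have f1 : f 1 = 1 := by
    have := fm 1 1 hn_one hn_one
    rwa [mul_one, left_eq_mul] at this
  have res : ∀ x : XU n F, HN mv x.1 → f x.1 = ι x := fun x hx => by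
    have k := gen0 (hn_ac.1 hx)
    clear hx
    suffices HN mv x.1 ∧ f x.1 = ι x from this.2
    induction k using closure_induction with
    | mem x hx =>
      obtain ⟨i, j, a, s, rfl⟩ := hx
      rw [sr_val s]
      refine ⟨hn_mul (hn_xe (r0 s) _) (hn_xe (r0 s.rev) _), ?_⟩
      rw [fm _ _ (hn_xe (r0 s) _) (hn_xe (r0 s.rev) _), fx' _ _ s, fx' _ _ s.rev, h.sym _ _ s.rev, Fin.rev_rev,
        Fin.rev_rev, h.yadd _ _ s, map_mul, Hs.sg.2, hs, CharTwo.add_self_eq_zero, ← ys_x h s]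
      congr 1
      linear_combination (r * a) * t2
    | one => exact ⟨hn_one, f1.trans (map_one ι).symm⟩
    | mul x y _ _ hx hy => exact ⟨hn_mul hx.1 hy.1, by rw [map_mul, ← hx.2, ← hy.2]; exact fm _ _ hx.1 hy.1⟩
    | inv x _ hx =>
      have k : HN mv (x⁻¹).1 := hn_ac.2 (by
        conv_lhs => rw [← hn_ac.1 hx.1, ← ac_mul, inv_mul_cancel, ac_one])
      refine ⟨k, ?_⟩
      rw [map_inv, ← hx.2, eq_inv_iff_mul_eq_one, ← fm _ _ k hx.1, ← f1]
      exact congrArg f (by rw [← Subgroup.coe_mul, inv_mul_cancel]; rfl)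
  refine ⟨f, ⟨fm, res, fun a b o ha hb => ?_⟩, fx'⟩
  obtain ⟨x, x0, x1, x2⟩ := wit2m o ha hb
  have s : Sh (0 : Fin (n + 3)) (Fin.rev 1) := by
    have : ((1 : Fin (n + 3)) : ℕ) = 1 := rfl
    simp only [Sh, ne_eq, Fin.ext_iff, Fin.val_rev, Fin.val_zero, this]
    omega
  have o1 : Ot (ee 0 : VV n F) (ee 1) := by simpa using ot_ee (F := F) s
  have k : HN mv (x⁻¹).1 := hn_ac.2 (by conv_lhs => rw [← x0, ← ac_mul, inv_mul_cancel, ac_one])
  have e : (mx (1 + hm a b) : XX n F) = x.1 * xe 0 (Fin.rev 1) 1 * (x⁻¹).1 := Subtype.ext (by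
    rw [mx_hm o.2.2.1, Matrix.SpecialLinearGroup.coe_mul, Matrix.SpecialLinearGroup.coe_mul, xe_val s.1, ← hm_ee,
      mul_add, add_mul, cj_hm, x1, x2, mul_one, ← Matrix.SpecialLinearGroup.coe_mul, ← Subgroup.coe_mul,
      mul_inv_cancel]
    rfl)
  rw [e, fm _ _ (hn_mul (hn_ac.2 x0) (hn_xe (r0 s) _)) k, fm _ _ (hn_ac.2 x0) (hn_xe (r0 s) _), res _ (hn_ac.2 x0),
    res _ k, fx' _ _ s, map_inv, ← x1, ← x2, ← h.xeqv x _ _ r o1, YS, XR, sr, mul_one, one_smul, Fin.rev_rev]

end H63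
end UMS
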