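import Cfsg.Agent.Lib.UMS.GEN0
import Cfsg.Agent.Lib.UMS.WIT
import Cfsg.Agent.Lib.UMS.HY
import Cfsg.Agent.Lib.UMS.B33
import Cfsg.Agent.Lib.UMS.LO63

/-! Gluing of the local homomorphisms in odd degree. -/

set_option autoImplicit false
set_option linter.unusedSectionVars false

namespace UMS.H96

open Subgroup H69 Cfsg Matrix U4S
open LMS (XX GX iL kk MM au tw Sg)
open scoped MatrixGroups commutatorElement

universe u
variable {G : Type*} [Group G] [Finite G] {F : Type u} [Field F] [CharP F 2] [Fintype F] [Hs F] {n : ℕ} [Ok n F]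
  {ι : XU n F →* G} {W : VV n F → G} {r : F}

local notation "X" => XU n F
local notation "V" => VV n F
local notation "I" => Fin (n + 3)
local notation "Mx" => Matrix (Fin (n + 3)) (Fin (n + 3)) F

/-- transvections -/
noncomputable def T (a b : V) : XX n F := mx (1 + hm a b)

theorem T_val {a b : V} (h : bt a b = 0) : (T a b).1 = 1 + hm a b := mx_hm h

theorem T_l {a a' b : V} (h : bt a b = 0) (h' : bt a' b = 0) : T (a + a') b = T a b * T a' b := by
  refine Subtype.ext ?_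
  rw [Matrix.SpecialLinearGroup.coe_mul, T_val h, T_val h', T_val (by rw [bt_add_left, h, h', add_zero]),
    hm_add_left, add_mul, mul_add, mul_add, hm_mul, h', zero_smul]
  simp only [one_mul, mul_one, add_zero]; abel

theorem T_r {a b b' : V} (h : bt a b = 0) (h' : bt a b' = 0) : T a (b + b') = T a b * T a b' := by
  refine Subtype.ext ?_
  rw [Matrix.SpecialLinearGroup.coe_mul, T_val h, T_val h', T_val (by rw [bt_add_right, h, h', add_zero]),
    hm_add_right, add_mul, mul_add, mul_add, hm_mul, h, zero_smul]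
  simp only [one_mul, mul_one, add_zero]; abel

theorem T_0l (b : V) : T 0 b = 1 := by
  refine Subtype.ext ?_
  have := hm_smul_left (0 : F) b b
  rw [zero_smul, zero_smul] at this
  rw [T_val (H76.bt_zero_l b), this, add_zero]; rfl

theorem T_0r (b : V) : T b 0 = 1 := by
  refine Subtype.ext ?_
  have := hm_smul_right (0 : F) b b
  rw [zero_smul, map_zero, zero_smul] at this
  rw [T_val (H76.bt_zero_r b), this, add_zero]; rfl

theorem T_sm (c : F) (a b : V) : T (c • a) b = T a (σ c • b) := by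
  unfold T; rw [hm_smul_left, hm_smul_right, sg_sg]

theorem bee {i j : I} (h : i ≠ j) : bt (ee i : V) (ee j.rev) = 0 := by
  rw [H76.bt_ee, Fin.rev_rev, if_neg h]

theorem T_xe {i j : I} (h : i ≠ j) (c : F) : T (c • ee i : V) (ee j.rev) = xe i j c := by
  refine Subtype.ext ?_
  rw [T_val (by rw [bt_smul_left, bee h, mul_zero]), LMS.xe_val h, hm_smul_left, hm_ee, Fin.rev_rev, smul_single,
    smul_eq_mul, mul_one]

theorem T_cm {a b : V} {p : I} (h : bt a b = 0) (ha : bt a (ee p.rev) = 0) (hb : bt (ee p) b = 0) :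
    T a b = T a (ee p.rev) * T (ee p) b * (T a (ee p.rev) * T (ee p) b) := by
  refine Subtype.ext ?_
  have e : bt (ee p : V) (ee p.rev) = 1 := by rw [H76.bt_ee, Fin.rev_rev, if_pos rfl]
  simp only [Matrix.SpecialLinearGroup.coe_mul, T_val h, T_val ha, T_val hb, add_mul, mul_add, one_mul, mul_one, hm_mul,
    h, ha, hb, e, zero_smul, one_smul, add_zero]
  have m1 := H12.mm (hm a (ee p.rev))
  have m2 := H12.mm (hm (ee p) b)
  have m3 := H12.mm (hm a b)
  ext i j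
  have n1 := congrFun (congrFun m1 i) j
  have n2 := congrFun (congrFun m2 i) j
  have n3 := congrFun (congrFun m3 i) j
  simp only [Matrix.add_apply, Matrix.zero_apply] at n1 n2 n3 ⊢
  linear_combination -n1 - n2 - n3

theorem hn_T {a b v : V} (h : bt a b = 0) (ha : bt a v = 0) (hb : bt b v = 0) : HN v (T a b) := by
  have hb' : bt v b = 0 := by rw [bt_symm, hb, map_zero]
  refine ⟨?_, fun u => ?_⟩
  · rw [T_val h, add_mulVec, one_mulVec, hm_vec, hb', zero_smul, add_zero]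
  · rw [T_val h, add_mulVec, one_mulVec, hm_vec, bt_add_left, bt_smul_left, ha, mul_zero, add_zero]

theorem hn_mul {v : V} {x y : XX n F} (hx : HN v x) (hy : HN v y) : HN v (x * y) := by
  refine ⟨?_, fun u => ?_⟩
  · rw [Matrix.SpecialLinearGroup.coe_mul, ← mulVec_mulVec, hy.1, hx.1]
  · rw [Matrix.SpecialLinearGroup.coe_mul, ← mulVec_mulVec, hx.2, hy.2]

theorem hn_one (v : V) : HN v 1 := ⟨one_mulVec v, fun u => by rw [Matrix.SpecialLinearGroup.coe_one, one_mulVec]⟩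

theorem lo_one {v : V} {f : XX n F → G} (h : Lo ι W r v f) : f 1 = 1 :=
  (h.res 1 (hn_one v)).trans (map_one ι)

theorem li2 {a b y : V} (ha : a ≠ 0) (h1 : bt a y = 0) (h2 : bt b y ≠ 0) : LinearIndependent F ![a, b] := by
  refine LinearIndependent.pair_iff.2 fun s t e => ?_
  have := congrArg (fun u => bt u y) e
  simp only [bt_add_left, bt_smul_left, h1, mul_zero, zero_add, H76.bt_zero_l] at this
  have ht := (mul_eq_zero.1 this).resolve_right h2
  rw [ht, zero_smul, add_zero] at e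
  exact ⟨(smul_eq_zero.1 e).resolve_right ha, ht⟩

/-- agreement on transvections with one non-isotropic vector -/
theorem agm {v v' a b s : V} {f f' : XX n F → G} (h : Lo ι W r v f) (h' : Lo ι W r v' f') (aa : bt a a = 0)
    (bb : bt b b = 1) (ss : bt s s = 1) (ab : bt a b = 0) (as : bt a s = 0) (sb : bt s b = 0)
    (av : bt a v = 0) (bv : bt b v = 0) (sv : bt s v = 0) (av' : bt a v' = 0) (bv' : bt b v' = 0) (sv' : bt s v' = 0) :
    f (T a b) = f' (T a b) ∧ f (T b a) = f' (T b a) := by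
  by_cases a0 : a = 0
  · rw [a0, T_0l, T_0r, lo_one h, lo_one h']; exact ⟨rfl, rfl⟩
  obtain ⟨d, d1, d2, -⟩ := (ex_n1 : ∃ a : F, nm a = 1 ∧ a ≠ 1 ∧ a * a ≠ 1)
  have two : (2 : F) = 0 := CharTwo.two_eq_zero
  have dd : d * σ d = 1 := congrArg Subtype.val d1
  have d0 : d ≠ 0 := left_ne_zero_of_mul_eq_one dd
  have d3 : d + 1 ≠ 0 := fun e => d2 (by linear_combination e - two)
  have bs : bt b s = 0 := by rw [bt_symm, sb, map_zero]
  have key : ∀ x y : F, x ≠ 0 → y * σ y = 1 → Ot a (x • (b + y • s)) ∧ bt (x • (b + y • s)) v = 0 ∧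
      bt (x • (b + y • s)) v' = 0 := fun x y hx hy => by
    refine ⟨⟨aa, ?_, ?_, li2 (y := b) a0 ab ?_⟩, ?_, ?_⟩
    · simp only [bt_add_left, bt_add_right, bt_smul_left, bt_smul_right, bb, ss, bs, sb]
      linear_combination x * σ x * hy + x * σ x * two
    · simp only [bt_add_right, bt_smul_right, ab, as, mul_zero, add_zero]
    · simp only [bt_add_left, bt_smul_left, bb, sb, mul_zero, add_zero, mul_one]; exact hx
    · simp only [bt_add_left, bt_smul_left, bv, sv, mul_zero, add_zero]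
    · simp only [bt_add_left, bt_smul_left, bv', sv', mul_zero, add_zero]
  obtain ⟨o1, p1, q1⟩ := key (d * (d + 1)⁻¹) 1 (mul_ne_zero d0 (inv_ne_zero d3)) (by rw [map_one, one_mul])
  obtain ⟨o2, p2, q2⟩ := key (d + 1)⁻¹ d (inv_ne_zero d3) dd
  have e : b = (d * (d + 1)⁻¹) • (b + (1 : F) • s) + (d + 1)⁻¹ • (b + d • s) := by
    have i1 := mul_inv_cancel₀ d3
    ext j
    simp only [Pi.add_apply, Pi.smul_apply, smul_eq_mul]
    linear_combination -b j * i1 - d * (d + 1)⁻¹ * s j * two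
  generalize (d * (d + 1)⁻¹) • (b + (1 : F) • s) = b1 at *
  generalize (d + 1)⁻¹ • (b + d • s) = b2 at *
  have o1' := o1.symm
  have o2' := o2.symm
  constructor
  · rw [e, T_r o1.2.2.1 o2.2.2.1, h.mul _ _ (hn_T o1.2.2.1 av p1) (hn_T o2.2.2.1 av p2),
      h'.mul _ _ (hn_T o1.2.2.1 av' q1) (hn_T o2.2.2.1 av' q2)]
    unfold T
    rw [h.xr _ _ o1 av p1, h.xr _ _ o2 av p2, h'.xr _ _ o1 av' q1, h'.xr _ _ o2 av' q2]
  · rw [e, T_l o1'.2.2.1 o2'.2.2.1, h.mul _ _ (hn_T o1'.2.2.1 p1 av) (hn_T o2'.2.2.1 p2 av),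
      h'.mul _ _ (hn_T o1'.2.2.1 q1 av') (hn_T o2'.2.2.1 q2 av')]
    unfold T
    rw [h.xr _ _ o1' p1 av, h.xr _ _ o2' p2 av, h'.xr _ _ o1' q1 av', h'.xr _ _ o2' q2 av']

/-- different classes -/
def Av (k i : I) : Prop := i ≠ k ∧ i ≠ k.rev

theorem Av.rev {k i : I} (h : Av k i) : Av k i.rev :=
  ⟨fun e => h.2 (by rw [← e, Fin.rev_rev]), fun e => h.1 (Fin.rev_injective e)⟩

theorem Av.symm {k i : I} (h : Av k i) : Av i k := ⟨h.1.symm, h.rev.1.symm⟩

theorem ex_av (hn : 4 ≤ n) (i j l : I) : ∃ k, Av k i ∧ Av k j ∧ Av k l := by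
  by_contra c
  have h0 := fun e => c ⟨⟨0, by clear e; omega⟩, e⟩
  have h1 := fun e => c ⟨⟨1, by clear e; omega⟩, e⟩
  have h2 := fun e => c ⟨⟨2, by clear e; omega⟩, e⟩
  have h3 := fun e => c ⟨⟨3, by clear e; omega⟩, e⟩
  simp only [Av, ne_eq, Fin.ext_iff, Fin.val_rev, imp_false] at h0 h1 h2 h3
  omega

/-- vectors in one class -/
def w (x : F) (k : I) : V := fun j => if j = k ∨ j = k.rev then (if j ≤ j.rev then 1 else x) else 0

theorem w_av (x : F) {k j : I} (h : Av k j) : (w x k : V) j = 0 := if_neg (not_or.2 h)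

theorem w_rev (x : F) (k : I) : (w x k.rev : V) = w x k := by
  funext j; simp only [w, Fin.rev_rev, or_comm]

theorem w_lt (x : F) {k : I} (h : k < k.rev) : (w x k : V) = ee k + x • ee k.rev := by
  funext j
  simp only [w, ee, Pi.add_apply, Pi.smul_apply, Pi.single_apply, smul_eq_mul]
  by_cases e : j = k
  · subst e; simp [h.le, h.ne]
  · by_cases e' : j = k.rev
    · subst e'; simp [e, h.not_ge]
    · simp [e, e']

theorem w_mid (x : F) {k : I} (h : k = k.rev) : (w x k : V) = ee k := by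
  funext j
  simp only [w, ee, Pi.single_apply, ← h, or_self]
  by_cases e : j = k
  · subst e; simp [h.le]
  · simp [e]

theorem bw (x y : F) {k : I} (h : k ≠ k.rev) : bt (w x k : V) (w y k) = x + σ y := by
  have key : ∀ k : I, k < k.rev → bt (w x k : V) (w y k) = x + σ y := fun k h => by
    simp only [w_lt _ h, bt_add_left, bt_add_right, bt_smul_left, bt_smul_right, H76.bt_ee, Fin.rev_rev, if_pos,
      if_neg h.ne, if_neg h.ne']
    ring
  rcases lt_or_gt_of_ne h with e | e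
  · exact key k e
  · rw [← w_rev x, ← w_rev y]; exact key _ (by rwa [Fin.rev_rev])

theorem be (x : F) {k i : I} (h : Av k i) : bt (ee i) (w x k : V) = 0 := by rw [ee_bt, w_av x h.rev, map_zero]

theorem bww (x y : F) {k l : I} (h : Av k l) : bt (w x l : V) (w y k) = 0 := by
  refine Finset.sum_eq_zero fun j _ => ?_
  by_cases e : Av k j
  · rw [w_av y e.rev, map_zero, mul_zero]
  · rw [w_av x, zero_mul]
    rcases not_and_or.1 e with e | e <;> rw [not_not.1 e]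
    exacts [h.symm, h.symm.rev]

theorem hn_xe (x : F) {k i j : I} (hi : Av k i) (hj : Av k j) (c : F) : HN (w x k : V) (xe i j c) := by
  by_cases e : i = j
  · rw [e, LMS.xe_self]; exact hn_one _
  rw [← T_xe e]
  exact hn_T (by rw [bt_smul_left, bee e, mul_zero]) (by rw [bt_smul_left, be x hi, mul_zero]) (be x hj.rev)

section fam
variable {ω : F} {g : VV n F → XX n F → G}

theorem ag_sh (L : ∀ k, Lo ι W r (w ω k) (g (w ω k))) {i j k k' : I} (h : Sh i j) (hi : Av k i) (hj : Av k j)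
    (hi' : Av k' i) (hj' : Av k' j) (c : F) : g (w ω k) (xe i j c) = g (w ω k') (xe i j c) := by
  by_cases c0 : c = 0
  · rw [c0, LMS.xe_zero, lo_one (L k), lo_one (L k')]
  have o : Ot (c • ee i : V) (ee j.rev) := by simpa using (ot_ee h).smul c0 one_ne_zero
  rw [← T_xe h.1]
  unfold T
  rw [(L k).xr _ _ o (by rw [bt_smul_left, be ω hi, mul_zero]) (be ω hj.rev),
    (L k').xr _ _ o (by rw [bt_smul_left, be ω hi', mul_zero]) (be ω hj'.rev)]

theorem lo_c1 (L : ∀ k, Lo ι W r (w ω k) (g (w ω k))) {i j l k : I} (h1 : i ≠ j) (h2 : j ≠ l) (h3 : i ≠ l)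
    (hi : Av k i) (hj : Av k j) (hl : Av k l) (a b : F) : g (w ω k) (xe i l (a * b)) =
    g (w ω k) (xe i j a) * g (w ω k) (xe j l b) * g (w ω k) (xe i j a) * g (w ω k) (xe j l b) := by
  have p := hn_xe ω hi hj a
  have q := hn_xe ω hj hl b
  rw [← LMS.xe_c1 h1 h2 h3, (L k).mul _ _ (hn_mul (hn_mul p q) p) q, (L k).mul _ _ (hn_mul p q) p, (L k).mul _ _ p q]

theorem mid_uq {i j : I} (hi : i = i.rev) (hj : j = j.rev) : i = j := by
  simp only [Fin.ext_iff, Fin.val_rev] at hi hj ⊢; omega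

theorem ag (hn : 4 ≤ n) {μ : I} (hμ : μ = μ.rev) (hω : ω + σ ω = 1) (L : ∀ k, Lo ι W r (w ω k) (g (w ω k)))
    {i j k k' : I} (h : i ≠ j) (hi : Av k i) (hj : Av k j) (hi' : Av k' i) (hj' : Av k' j) (c : F) :
    g (w ω k) (xe i j c) = g (w ω k') (xe i j c) := by
  have two : (2 : F) = 0 := CharTwo.two_eq_zero
  have mid : ∀ i j : I, i ≠ j → j = j.rev → Av k i → Av k j → Av k' i → Av k' j → ∀ c : F,
      g (w ω k) (T (c • ee i) (ee j)) = g (w ω k') (T (c • ee i) (ee j)) ∧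
      g (w ω k) (T (ee j) (c • ee i)) = g (w ω k') (T (ee j) (c • ee i)) := fun i j h e hi hj hi' hj' c => by
    by_cases kk : Av k k'
    · have k1 : k ≠ k.rev := fun q => hj.1 (mid_uq e q)
      have i1 : i ≠ i.rev := fun q => h (mid_uq q e)
      refine agm (s := w (σ ω) k) (L k) (L k') ?_ ?_ ?_ ?_ ?_ ?_ ?_ (be ω hj) ?_ ?_ (be ω hj') (bww _ _ kk.symm)
      · rw [bt_smul_left, bt_smul_right, H76.bt_ee, if_neg i1, mul_zero, mul_zero]
      · rw [H76.bt_ee, if_pos e]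
      · rw [bw _ _ k1, sg_sg, add_comm, hω]
      · rw [bt_smul_left, H76.bt_ee, ← e, if_neg h, mul_zero]
      · rw [bt_smul_left, be _ hi, mul_zero]
      · rw [bt_symm, be _ hj, map_zero]
      · rw [bt_smul_left, be _ hi, mul_zero]
      · rw [bw _ _ k1]; linear_combination σ ω * two
      · rw [bt_smul_left, be _ hi', mul_zero]
    · rcases not_and_or.1 kk with q | q <;> rw [not_not.1 q]
      · exact ⟨rfl, rfl⟩
      · rw [w_rev]; exact ⟨rfl, rfl⟩
  by_cases e1 : j = j.rev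
  · rw [← T_xe h, ← e1]; exact (mid i j h e1 hi hj hi' hj' c).1
  by_cases e2 : i = i.rev
  · rw [← T_xe h, T_sm]
    exact (mid j.rev i (fun q => h (by rw [e2, ← q, Fin.rev_rev])) e2 hj.rev hi hj'.rev hi' _).2
  by_cases e3 : j = i.rev
  · have aμ : Av μ i := ⟨fun q => e2 (q ▸ hμ), fun q => e2 (by rw [← hμ] at q; exact q ▸ hμ)⟩
    have key : ∀ k, Av k i → g (w ω k) (xe i j c) = g (w ω μ) (xe i j c) := fun k hi => by
      obtain ⟨p, p1, p2, p3⟩ := ex_av hn i k μ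
      have pp : p ≠ p.rev := fun q => p3.1 (mid_uq hμ q)
      have s1 : Sh i p := ⟨p1.1, p1.symm.2, e2, pp⟩
      have s2 : Sh p j := ⟨e3 ▸ p1.rev.1.symm, e3 ▸ p1.rev.2, pp, e1⟩
      have hj : Av k j := e3 ▸ hi.rev
      have jμ : Av μ j := e3 ▸ aμ.rev
      rw [← mul_one c, lo_c1 L s1.1 s2.1 h hi p2.symm hj, lo_c1 L s1.1 s2.1 h aμ p3.symm jμ,
        ag_sh L s1 hi p2.symm aμ p3.symm, ag_sh L s2 p2.symm hj p3.symm jμ]
    rw [key k hi, key k' hi']
  exact ag_sh L ⟨h, e3, e2, e1⟩ hi hj hi' hj' c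

theorem ex_psi (hn : 4 ≤ n) {μ : I} (hμ : μ = μ.rev) (hω : ω + σ ω = 1) (L : ∀ k, Lo ι W r (w ω k) (g (w ω k))) :
    ∃ ψ : XX n F →* G, ∀ i j k, Av k i → Av k j → ∀ c, ψ (xe i j c) = g (w ω k) (xe i j c) := by
  choose κ κ1 κ2 κ3 using ex_av hn
  let y : I → I → F → G := fun i j c => g (w ω (κ i j j)) (xe i j c)
  have hy : ∀ {i j k}, i ≠ j → Av k i → Av k j → ∀ c, y i j c = g (w ω k) (xe i j c) := fun h hi hj c =>
    ag hn hμ hω L h (κ1 _ _ _) (κ2 _ _ _) hi hj c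
  have add : ∀ {i j : I}, i ≠ j → ∀ a b, y i j a * y i j b = y i j (a + b) := fun {i j} _ a b => by
    rw [← (L _).mul _ _ (hn_xe ω (κ1 i j j) (κ2 i j j) a) (hn_xe ω (κ1 i j j) (κ2 i j j) b), LMS.xe_mul]
  have inv : ∀ {i j : I}, i ≠ j → ∀ a, (y i j a)⁻¹ = y i j a := fun {i j} h a => by
    refine inv_eq_of_mul_eq_one_left ?_
    rw [add h, CharTwo.add_self_eq_zero]
    change g _ _ = 1
    rw [LMS.xe_zero, lo_one (L _)]
  have c1 : ∀ {i j l : I}, i ≠ j → j ≠ l → i ≠ l → ∀ t u, ⁅y i j t, y j l u⁆ = y i l (t * u) :=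
    fun {i j l} h1 h2 h3 t u => by
      rw [commutatorElement_def, inv h1, inv h2, hy h1 (κ1 i j l) (κ2 i j l), hy h2 (κ2 i j l) (κ3 i j l),
        hy h3 (κ1 i j l) (κ3 i j l), lo_c1 L h1 h2 h3 (κ1 i j l) (κ2 i j l) (κ3 i j l)]
  have c0' : ∀ {i j k l m : I}, i ≠ j → k ≠ l → i ≠ l → j ≠ k → Av m i → Av m j → Av m k → Av m l → ∀ t u,
      Commute (y i j t) (y k l u) := fun {i j k l m} h1 h2 h3 h4 a1 a2 a3 a4 t u => by
    rw [Commute, SemiconjBy, hy h1 a1 a2, hy h2 a3 a4, ← (L _).mul _ _ (hn_xe ω a1 a2 t) (hn_xe ω a3 a4 u),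
      ← (L _).mul _ _ (hn_xe ω a3 a4 u) (hn_xe ω a1 a2 t), LMS.xe_c0 h3 h4]
  have c0 : ∀ {i j k l : I}, i ≠ j → k ≠ l → i ≠ l → j ≠ k → ∀ t u, Commute (y i j t) (y k l u) :=
    fun {i j k l} h1 h2 h3 h4 t u => by
      have tr : ∀ p, (p = i.rev ∨ p = j.rev) → p ≠ i → p ≠ j → p ≠ k → p ≠ l → Commute (y i j t) (y k l u) :=
        fun p hp p1 p2 p3 p4 => by
          have a : ∀ m, Av m i → Av m j → Av m p := fun m a b => hp.elim (· ▸ a.rev) (· ▸ b.rev)
          have q1 := c0' h1 p3.symm p1.symm h4 (κ1 i j k) (κ2 i j k) (κ3 i j k) (a _ (κ1 i j k) (κ2 i j k)) t u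
          have q2 := c0' h1 p4 h3 p2.symm (κ1 i j l) (κ2 i j l) (a _ (κ1 i j l) (κ2 i j l)) (κ3 i j l) t 1
          rw [← mul_one u, ← c1 p3.symm p4 h2, commutatorElement_def]
          exact ((q1.mul_right q2).mul_right q1.inv_right).mul_right q2.inv_right
      by_cases e1 : i.rev = j
      · exact c0' h1 h2 h3 h4 (κ1 i k l) (e1 ▸ (κ1 i k l).rev) (κ2 i k l) (κ3 i k l) t u
      by_cases e2 : i.rev = k
      · exact c0' h1 h2 h3 h4 (κ1 i j l) (κ2 i j l) (e2 ▸ (κ1 i j l).rev) (κ3 i j l) t u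
      by_cases e3 : i.rev = l
      · exact c0' h1 h2 h3 h4 (κ1 i j k) (κ2 i j k) (κ3 i j k) (e3 ▸ (κ1 i j k).rev) t u
      by_cases e4 : j.rev = k
      · exact c0' h1 h2 h3 h4 (κ1 i j l) (κ2 i j l) (e4 ▸ (κ2 i j l).rev) (κ3 i j l) t u
      by_cases e5 : j.rev = l
      · exact c0' h1 h2 h3 h4 (κ1 i j k) (κ2 i j k) (κ3 i j k) (e5 ▸ (κ2 i j k).rev) t u
      by_cases e6 : i.rev = i
      · exact tr j.rev (.inr rfl) (fun q => e1 (by rw [← q, Fin.rev_rev])) (fun q => h1 (mid_uq e6.symm q.symm)) e4 e5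
      · exact tr i.rev (.inl rfl) e6 e1 e2 e3
  obtain ⟨ψ, hψ⟩ := H63.St.SL.exists_hom (K := F) (Nat.le_add_left 3 n) ⟨y, add, c0, c1⟩
  refine ⟨ψ, fun i j k hi hj c => ?_⟩
  by_cases e : i = j
  · rw [e, LMS.xe_self, map_one, lo_one (L k)]
  · exact (hψ i j e c).trans (hy e hi hj c)

theorem ag_T (L : ∀ k, Lo ι W r (w ω k) (g (w ω k))) {ψ : XX n F →* G}
    (hψ : ∀ i j k, Av k i → Av k j → ∀ c, ψ (xe i j c) = g (w ω k) (xe i j c)) {k p : I} (hp : Av k p) {a b : V}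
    (h : bt a b = 0) (ha : ∀ j, a j ≠ 0 → Av k j ∧ j ≠ p) (hb : ∀ j, b j ≠ 0 → Av k j ∧ j ≠ p.rev) :
    HN (w ω k) (T a b) ∧ ψ (T a b) = g (w ω k) (T a b) := by
  let A : XX n F → Prop := fun x => HN (w ω k) x ∧ ψ x = g (w ω k) x
  have A1 : A 1 := ⟨hn_one _, by rw [map_one, lo_one (L k)]⟩
  have Am : ∀ {x y}, A x → A y → A (x * y) := fun hx hy =>
    ⟨hn_mul hx.1 hy.1, by rw [map_mul, hx.2, hy.2, (L k).mul _ _ hx.1 hy.1]⟩
  have sg : ∀ (u : V) (j : I), Pi.single j (u j) = u j • (ee j : V) := fun u j => by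
    rw [ee, ← Pi.single_smul, smul_eq_mul, mul_one]
  have h1 : bt a (ee p.rev) = 0 ∧ A (T a (ee p.rev)) := by
    rw [← Finset.univ_sum_single a]
    refine Finset.sum_induction _ (fun u : V => bt u (ee p.rev) = 0 ∧ A (T u (ee p.rev))) (fun u u' e e' => ?_)
      ⟨H76.bt_zero_l _, by rw [T_0l]; exact A1⟩ fun j _ => ?_
    · exact ⟨by rw [bt_add_left, e.1, e'.1, add_zero], by rw [T_l e.1 e'.1]; exact Am e.2 e'.2⟩
    · rw [sg]
      by_cases e : a j = 0
      · rw [e, zero_smul, T_0l]; exact ⟨H76.bt_zero_l _, A1⟩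
      · rw [T_xe (ha j e).2, bt_smul_left, bee (ha j e).2, mul_zero]
        exact ⟨rfl, hn_xe ω (ha j e).1 hp _, hψ _ _ _ (ha j e).1 hp _⟩
  have h2 : bt (ee p) b = 0 ∧ A (T (ee p) b) := by
    rw [← Finset.univ_sum_single b]
    refine Finset.sum_induction _ (fun u : V => bt (ee p) u = 0 ∧ A (T (ee p) u)) (fun u u' e e' => ?_)
      ⟨H76.bt_zero_r _, by rw [T_0r]; exact A1⟩ fun j _ => ?_
    · exact ⟨by rw [bt_add_right, e.1, e'.1, add_zero], by rw [T_r e.1 e'.1]; exact Am e.2 e'.2⟩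
    · rw [sg]
      by_cases e : b j = 0
      · rw [e, zero_smul, T_0r]; exact ⟨H76.bt_zero_r _, A1⟩
      · have q : p ≠ j.rev := fun q => (hb j e).2 (by rw [q, Fin.rev_rev])
        have q1 := T_xe q (σ (b j))
        have q2 := (bee q : bt (ee p : V) _ = 0)
        rw [T_sm, sg_sg] at q1
        rw [Fin.rev_rev] at q1 q2
        rw [q1, bt_smul_right, q2, mul_zero]
        exact ⟨rfl, hn_xe ω hp (hb j e).1.rev _, hψ _ _ _ hp (hb j e).1.rev _⟩
  rw [T_cm h h1.1 h2.1]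
  exact Am (Am h1.2 h2.2) (Am h1.2 h2.2)

end fam

theorem T_cj (x : X) {a b : V} (h : bt a b = 0) : x.1 * T a b * x.1⁻¹ = T (ac x a) (ac x b) := by
  refine Subtype.ext ?_
  rw [T_val (by rw [bt_ac, h]), Matrix.SpecialLinearGroup.coe_mul, Matrix.SpecialLinearGroup.coe_mul, T_val h,
    ← cj_hm, mul_add, add_mul]
  exact congrArg (· + _) (H12.cj_one x)

/-- gluing -/
theorem glue (hn : Even n)
    (hx : ∀ x u v, Ot u v → ι x * XR ι W r u v * (ι x)⁻¹ = XR ι W r (ac x u) (ac x v))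
    (L : ∀ v, bt v v = 1 → ∃ f, Lo ι W r v f) : ∃ ψ : XX n F →* G, Lo ι W r 0 ψ := by
  classical
  have h3 := Ok.h3 (n := n) (F := F)
  obtain ⟨e, he⟩ := hn
  have h4 : 4 ≤ n := by omega
  let μ : I := ⟨e + 1, by omega⟩
  have hμ : μ = μ.rev := by simp only [μ, Fin.ext_iff, Fin.val_rev]; omega
  obtain ⟨ω, hω⟩ := (ex_om : ∃ ω : F, ω + σ ω = 1)
  let g : V → XX n F → G := fun v => if h : bt v v = 1 then (L v h).choose else 1
  have hg : ∀ k, Lo ι W r (w ω k) (g (w ω k)) := fun k => by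
    have h : bt (w ω k : V) (w ω k) = 1 := by
      by_cases q : k = k.rev
      · rw [w_mid _ q, H76.bt_ee, if_pos q]
      · rw [bw _ _ q, hω]
    simp only [g, dif_pos h]
    exact (L _ h).choose_spec
  obtain ⟨ψ, hψ⟩ := ex_psi h4 hμ hω hg
  have aμ : ∀ i : I, i ≠ i.rev → Av μ i := fun i e2 =>
    ⟨fun q => e2 (q ▸ hμ), fun q => e2 (by rw [← hμ] at q; exact q ▸ hμ)⟩
  let H : Subgroup X := (ψ.comp (XU n F).subtype).eqLocus ι
  have hs : closure {y : X | ∃ i j a, Sh i j ∧ y = sr i j a} ≤ H := by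
    refine (closure_le _).2 ?_
    rintro _ ⟨i, j, a, s, rfl⟩
    have a1 := aμ i s.2.2.1
    have a2 := aμ j s.2.2.2
    have p := hn_xe ω a1 a2 a
    have q := hn_xe ω a2.rev a1.rev (σ a)
    change ψ (sr i j a : X).1 = ι _
    rw [← (hg μ).res _ (by rw [sr_val s]; exact hn_mul p q), sr_val s, map_mul, (hg μ).mul _ _ p q,
      hψ _ _ _ a1 a2, hψ _ _ _ a2.rev a1.rev]
  have res : ∀ x : X, ψ x.1 = ι x := by
    have : H = ⊤ := B33.top_tc fun v hv c => by
      obtain ⟨x, x1, x2⟩ := red hv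
      have hv' := (hv.ac x).1
      have k : tc (ac x v) c ∈ H := by
        have e1 : (tc (ac x v) c).1 = T ((c : F) • ac x v) (ac x v) :=
          Subtype.ext (by rw [tc_val hv', T_val (by rw [bt_smul_left, hv', mul_zero]), hm_smul_left])
        have sp : ∀ j, ac x v j ≠ 0 → Av (⟨1, by omega⟩ : I) j ∧ Av (⟨2, by omega⟩ : I) j := fun j hj => by
          have : j = 0 ∨ j = iL ∨ j = j.rev := by
            by_contra q
            rw [not_or, not_or] at q
            exact hj (x2 j q.1 q.2.1 q.2.2)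
          simp only [Av, ne_eq, Fin.ext_iff, Fin.val_rev, Fin.val_zero, Fin.val_last] at this ⊢
          omega
        have := ag_T hg hψ (k := ⟨1, by omega⟩) (p := ⟨2, by omega⟩) (a := (c : F) • ac x v) (b := ac x v)
          (by simp only [Av, ne_eq, Fin.ext_iff, Fin.val_rev]; omega) (by rw [bt_smul_left, hv', mul_zero])
          (fun j hj => by
            have := sp j (right_ne_zero_of_mul hj)
            exact ⟨this.1, this.2.1⟩) fun j hj => ⟨(sp j hj).1, (sp j hj).2.2⟩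
        change ψ (tc (ac x v) c).1 = ι _
        rw [← (hg _).res _ (e1 ▸ this.1), e1, this.2]
      rw [← tc_cj hv.1] at k
      have := mul_mem (mul_mem (inv_mem (hs x1)) k) (hs x1)
      simpa [mul_assoc] using this
    exact fun x => (this ▸ mem_top x : x ∈ H)
  refine ⟨ψ, fun x y _ _ => map_mul ψ x y, fun x _ => res x, fun a b o _ _ => ?_⟩
  obtain ⟨x, rfl, rfl⟩ := wit2 o
  have s : Sh (0 : I) (1 : I).rev := by
    have e1 : ((1 : I) : ℕ) = 1 := rfl
    simp only [Sh, ne_eq, Fin.ext_iff, Fin.val_rev, Fin.val_zero, e1]; omega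
  have o1 : Ot (ee 0 : V) (ee 1) := by simpa using (ot_ee s : Ot (ee 0 : V) _)
  have a1 := aμ _ s.2.2.1
  have a2 := aμ _ s.2.2.2
  have e1 := T_xe s.1 (1 : F)
  rw [one_smul, Fin.rev_rev] at e1
  have e2 : ψ (T (ee 0 : V) (ee 1)) = XR ι W r (ee 0) (ee 1) := by
    rw [← (hg μ).xr _ _ o1 (be ω a1) (by simpa using be ω a2.rev)]
    change _ = g _ (T _ _)
    rw [e1, hψ _ _ _ a1 a2]
  change ψ (T _ _) = _
  rw [← T_cj x o1.2.2.1, map_mul, map_mul, map_inv, res, e2, hx _ _ _ o1]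

theorem hn_cj (x : X) {v : V} {y : XX n F} (h : HN (ac x v) y) : HN v (x.1⁻¹ * y * x.1) := by
  have e : ∀ u, (x.1⁻¹ * y * x.1).1 *ᵥ u = ac x⁻¹ (y.1 *ᵥ ac x u) := fun u => by
    rw [Matrix.SpecialLinearGroup.coe_mul, Matrix.SpecialLinearGroup.coe_mul, ← mulVec_mulVec, ← mulVec_mulVec]
    rfl
  refine ⟨by rw [e, h.1, H12.ac_inv], fun u => ?_⟩
  rw [e, ← bt_ac x, H12.ac_inv', h.2, bt_ac]

/-- transport of a local homomorphism -/
theorem lo_tr (hx : ∀ x u v, Ot u v → ι x * XR ι W r u v * (ι x)⁻¹ = XR ι W r (ac x u) (ac x v)) {v : V}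
    {f : XX n F → G} (h : Lo ι W r v f) (x : X) :
    Lo ι W r (ac x v) fun y => ι x * f (x.1⁻¹ * y * x.1) * (ι x)⁻¹ := by
  refine ⟨fun y z hy hz => ?_, fun y hy => ?_, fun a b o ha hb => ?_⟩
  · rw [show x.1⁻¹ * (y * z) * x.1 = x.1⁻¹ * y * x.1 * (x.1⁻¹ * z * x.1) by group,
      h.mul _ _ (hn_cj x hy) (hn_cj x hz)]
    group
  · have := h.res (x⁻¹ * y * x) (hn_cj x hy)
    change f (x.1⁻¹ * y.1 * x.1) = _ at this
    rw [this, map_mul, map_mul, map_inv]; group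
  · have e := T_cj x⁻¹ o.2.2.1
    rw [show (x⁻¹).1⁻¹ = x.1 from inv_inv x.1] at e
    change ι x * f ((x⁻¹).1 * T a b * x.1) * _ = _
    rw [e]
    unfold T
    rw [h.xr _ _ (o.ac x⁻¹) (by rw [← bt_ac x, H12.ac_inv', ha]) (by rw [← bt_ac x, H12.ac_inv', hb]),
      hx _ _ _ (o.ac x⁻¹), H12.ac_inv', H12.ac_inv']

/-- the homomorphism on the special linear group -/
theorem psi {t : G} {α : K0 F} (h : Stb ι t W α) (hr : r * r + r = α) (hs : σ r = r + 1) :
    ∃ ψ : XX n F →* G, (∀ x : X, ψ x.1 = ι x) ∧ ∀ a b, Ot a b → ψ (mx (1 + hm a b)) = XR ι W r a b := by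
  obtain ⟨f, hf, -⟩ := H63.lo_mv h hr hs
  have key : ∃ ψ : XX n F →* G, Lo ι W r 0 ψ := by
    rcases Nat.even_or_odd n with ⟨e, he⟩ | ⟨e, he⟩
    · refine glue ⟨e, he⟩ (fun x u v o => h.xeqv x u v r o) fun v hv => ?_
      have hμ : (⟨e + 1, by omega⟩ : I) = (⟨e + 1, by omega⟩ : I).rev := by
        simp only [Fin.ext_iff, Fin.val_rev]; omega
      obtain ⟨x, rfl⟩ := witn (u := mv) (by rw [H63.mv_mid hμ, H76.bt_ee, if_pos hμ]) hv
      exact ⟨_, lo_tr (fun x u v o => h.xeqv x u v r o) hf x⟩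
    · have e0 : (mv : V) = 0 := by
        funext i
        exact if_neg (by simp only [Fin.ext_iff, Fin.val_rev]; omega)
      rw [e0] at hf
      have a : ∀ x : XX n F, HN (0 : V) x := fun x =>
        ⟨mulVec_zero _, fun u => by rw [H76.bt_zero_r, H76.bt_zero_r]⟩
      exact ⟨MonoidHom.mk' f fun x y => hf.mul x y (a x) (a y), hf⟩
  obtain ⟨ψ, k⟩ := key
  exact ⟨ψ, fun x => k.res x ⟨mulVec_zero _, fun u => by rw [H76.bt_zero_r, H76.bt_zero_r]⟩,
    fun a b o => k.xr a b o (H76.bt_zero_r _) (H76.bt_zero_r _)⟩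

end UMS.H96
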