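import Cfsg.Agent.Lib.UMS.RKH
import Cfsg.Agent.Lib.UMS.RKS2
import Cfsg.Agent.Lib.UMS.AU
import Cfsg.Agent.Lib.LMS.NFb
import Cfsg.Agent.Lib.LMS.RKB
import Cfsg.Agent.Lib.UMS.Au77
import Cfsg.Agent.Lib.UMS.B33

set_option autoImplicit false
set_option linter.unusedSectionVars false

namespace UMS

open Subgroup H69 Cfsg Matrix U4S
open LMS (XX GX iL kk MM au tw Sg)
open scoped MatrixGroups commutatorElement

universe u
variable {G : Type*} [Group G] [Finite G] {F : Type u} [Field F] [CharP F 2] [Fintype F] [Hs F] {n : ℕ} [Ok n F]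
  {ι ψ χ : XU n F →* G} {t : G} {E : Subgroup G}

local notation "X" => XU n F
local notation "V" => VV n F
local notation "𝐪" => Nat.card (K0 F)
local notation "I" => Fin (n + 3)
local notation "Mx" => Matrix (Fin (n + 3)) (Fin (n + 3)) F

namespace RKB

open UMS.H12 (ad ad_add ad_smul ad_one bt_ad)

theorem inv_eq {W : Subgroup X} (h : El W) {x : X} (hx : x ∈ W) : x⁻¹ = x :=
  inv_eq_of_mul_eq_one_right (h x hx)

theorem alg {W : Subgroup X} (h : El W) : ∃ A : Submodule F Mx, (∀ a ∈ A, ∀ b ∈ A, a * b ∈ A) ∧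
    (∀ a ∈ A, ∀ b ∈ A, a * b = b * a) ∧ (∀ a ∈ A, a * a = 0) ∧ (∀ x ∈ W, x.1.1 - 1 ∈ A) ∧
    ∀ B : Submodule F Mx, (∀ x ∈ W, x.1.1 - 1 ∈ B) → A ≤ B := by
  obtain ⟨A, h1, h2, h3, h4, h5⟩ := LMS.RKB.alg (W := W.map (XU n F).subtype) (by
    rintro _ ⟨x, hx, rfl⟩
    exact congrArg Subtype.val (h x hx))
  exact ⟨A, h1, h2, h3, fun x hx => h4 _ ⟨x, hx, rfl⟩, fun B hB => h5 B (by
    rintro _ ⟨x, hx, rfl⟩
    exact hB x hx)⟩

theorem sa {W : Subgroup X} (h : El W) {x : X} (hx : x ∈ W) : ad (x.1.1 - 1) = x.1.1 - 1 := by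
  rw [sub_eq_add_neg, neg_eq_of_add_eq_zero_left (H12.mm (1 : Mx)), ad_add, ad_one, ← H12.inv_val, inv_eq h hx]

theorem le2 {W : Subgroup X} (h : El W) {A : Submodule F Mx} (hA : ∀ x ∈ W, x.1.1 - 1 ∈ A) :
    Nat.card W ≤ 𝐪 ^ Module.finrank F A := by
  obtain ⟨ω, hω⟩ := H12.ex_tr (F := F)
  refine (Nat.pow_le_pow_iff_left two_ne_zero).1 ?_
  rw [← pow_mul, mul_comm, pow_mul, ← card_F, ← LMS.RKB.card_A, sq, ← Nat.card_prod]
  refine Nat.card_le_card_of_injective (fun x : W × W => (⟨(x.1.1.1.1 - 1) + ω • (x.2.1.1.1 - 1),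
    add_mem (hA _ x.1.2) (A.smul_mem _ (hA _ x.2.2))⟩ : A)) fun x y e => ?_
  have e1 : (x.1.1.1.1 - 1) + ω • (x.2.1.1.1 - 1) = (y.1.1.1.1 - 1) + ω • (y.2.1.1.1 - 1) := congrArg Subtype.val e
  have e2 := congrArg ad e1
  rw [ad_add, ad_add, ad_smul, ad_smul, sa h x.1.2, sa h x.2.2, sa h y.1.2, sa h y.2.2] at e2
  have e3 : x.2.1.1.1 - 1 = y.2.1.1.1 - 1 := by
    have := congrArg₂ (· + ·) e1 e2
    rwa [add_add_add_comm, H12.mm, ← add_smul, hω, one_smul, add_add_add_comm, H12.mm,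
      ← add_smul, hω, one_smul, zero_add, zero_add] at this
  rw [e3, add_left_inj] at e1
  exact Prod.ext (Subtype.ext (H12.xext (sub_left_injective e1))) (Subtype.ext (H12.xext (sub_left_injective e3)))

theorem q1 : 1 < 𝐪 := Finite.one_lt_card

theorem sm (M : Mx) : M.map σ = (pmL Fin.revPerm : XX n F).1 * (ad M)ᵀ * (pmL Fin.revPerm : XX n F).1 := by
  ext i j
  rw [pmL_val]
  simp [Equiv.Perm.permMatrix, PEquiv.toMatrix_toPEquiv_mul, PEquiv.mul_toMatrix_toPEquiv, H12.ad_apply]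
  exact congrArg _ (Fin.rev_rev j).symm

theorem sym {α : X →* X} (o : Ou α) : ∃ g : GX n F, g.1ᵀ = g.1 ∧ ∀ x, (α x).1.1 * g.1 = g.1 * (x⁻¹).1.1ᵀ := by
  obtain ⟨⟨g0, hg⟩, h2⟩ := o
  have ww : (pmL Fin.revPerm : XX n F).1 * (pmL Fin.revPerm : XX n F).1 = 1 := congrArg Subtype.val B33.ww
  obtain ⟨g, k⟩ : ∃ g : GX n F, ∀ x, (α x).1.1 * g.1 = g.1 * (x⁻¹).1.1ᵀ := by
    refine ⟨g0 * ⟨_, _, ww, ww⟩, fun x => ?_⟩
    rw [hg, LMS.au_false, gc_val, fr_val, sm, H12.inv_val, Units.val_mul, mul_assoc, ← mul_assoc (g0⁻¹).1,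
      Units.inv_mul, one_mul, mul_assoc, mul_assoc, mul_assoc, ww, mul_one, mul_assoc]
  refine ⟨g, ?_, k⟩
  obtain ⟨c, hc⟩ := H77.scal (A := g.1ᵀ * (g⁻¹).1) fun x => by
    have k1 := k (α x)
    have k2 := congrArg transpose (k x⁻¹)
    rw [h2, ← map_inv] at k1
    rw [inv_inv, transpose_mul, transpose_mul, transpose_transpose] at k2
    calc _ = g.1ᵀ * ((g⁻¹).1 * (x.1.1 * g.1)) * (g⁻¹).1 := by
          simp only [mul_assoc, Units.mul_inv, mul_one]
      _ = _ := by rw [k1, ← mul_assoc (g⁻¹).1, Units.inv_mul, one_mul, k2, mul_assoc]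
  have e1 : g.1ᵀ = c • g.1 := by
    rw [← mul_one g.1ᵀ, ← g.inv_mul, ← mul_assoc, hc, smul_mul_assoc, one_mul]
  have e2 : g.1 = (c * c) • g.1 := by
    have := congrArg transpose e1
    rwa [transpose_transpose, transpose_smul, e1, smul_smul] at this
  have e3 := congrArg (fun M : Mx => (M * (g⁻¹).1) 0 0) e2
  simp only [smul_mul_assoc, Units.mul_inv, Matrix.smul_apply, one_apply_eq, smul_eq_mul, mul_one] at e3
  have e4 : c = 1 := by
    have : (c + 1) ^ 2 = 0 := by rw [CharTwo.add_sq, sq, ← e3, one_pow, CharTwo.add_self_eq_zero]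
    exact CharTwo.add_eq_zero.1 (pow_eq_zero_iff two_ne_zero |>.1 this)
  rw [e1, e4, one_smul]

end RKB

theorem rk0 {W : Subgroup X} (h : El W) : Nat.card W ≤ 𝐪 ^ kk n ^ 2 ∧ (𝐪 ^ kk n ^ 2 ≤ Nat.card W → IsJ W) := by
  obtain ⟨A, hm, hc, hs, hA, hmin⟩ := RKB.alg h
  let B : Submodule F Mx :=
    { carrier := {a | H12.ad a ∈ A}
      zero_mem' := by
        have : H12.ad (0 : Mx) = 0 := by ext i j; simp [H12.ad_apply]
        simp only [Set.mem_ofPred_eq, this, zero_mem]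
      add_mem' := fun {a b} ha hb => by
        simp only [Set.mem_ofPred_eq] at *
        rw [H12.ad_add]; exact add_mem ha hb
      smul_mem' := fun c a ha => by
        simp only [Set.mem_ofPred_eq] at *
        rw [H12.ad_smul]; exact A.smul_mem _ ha }
  have hB : A ≤ B := hmin B fun x hx => by
    change H12.ad _ ∈ A
    rw [RKB.sa h hx]; exact hA x hx
  obtain ⟨h1, h2⟩ := rkH A hm hc hs fun a ha => ⟨_, hB ha, H12.bt_ad a⟩
  refine ⟨(RKB.le2 h hA).trans (Nat.pow_le_pow_right RKB.q1.le h1), fun k => ?_⟩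
  obtain ⟨J, hJ, hx⟩ := h2 ((Nat.pow_le_pow_iff_right RKB.q1).1 (k.trans (RKB.le2 h hA)))
  have e : W = J := Subgroup.eq_of_le_of_card_ge (fun x k => (hx x).2 (hA x k)) (hJ.card.le.trans k)
  rw [e]
  exact hJ

theorem rk_ou {W : Subgroup X} (h : El W) {α : X →* X} (o : Ou α) (f : ∀ x ∈ W, α x = x) :
    Nat.card W * 𝐪 ^ 2 ≤ 𝐪 ^ kk n ^ 2 := by
  obtain ⟨A, hm, hc, hs, hA, hmin⟩ := RKB.alg h
  obtain ⟨g, hg, k⟩ := RKB.sym o
  let B : Submodule F Mx :=
    { carrier := {a | g.1 * aᵀ = a * g.1}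
      zero_mem' := by simp
      add_mem' := fun {a b} ha hb => by
        simp only [Set.mem_ofPred_eq] at *
        rw [transpose_add, mul_add, add_mul, ha, hb]
      smul_mem' := fun c a ha => by
        simp only [Set.mem_ofPred_eq] at *
        rw [transpose_smul, mul_smul_comm, smul_mul_assoc, ha] }
  have hB : A ≤ B := hmin B fun x hx => by
    change g.1 * _ᵀ = _ * g.1
    have := k x
    rw [f x hx, RKB.inv_eq h hx] at this
    rw [transpose_sub, mul_sub, sub_mul, this, transpose_one, mul_one, one_mul]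
  refine le_trans ?_ (Nat.pow_le_pow_right RKB.q1.le (rkS2 A hm hc hs hg fun a ha => hB ha))
  rw [pow_add]
  exact Nat.mul_le_mul_right _ (RKB.le2 h hA)

end UMS
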