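import Cfsg.Agent.Lib.UMS.B2b
import Cfsg.Agent.Lib.UMS.H12b
import Cfsg.Agent.Lib.LMS.RKA
import Cfsg.Agent.Lib.Inv2.Basic

set_option autoImplicit false
set_option linter.unusedSectionVars false

namespace UMS

open Subgroup H69 Cfsg Matrix U4S
open LMS (XX GX iL kk MM au tw Sg)
open scoped MatrixGroups commutatorElement

universe u
variable {G : Type*} [Group G] [Finite G] {F : Type u} [Field F] [CharP F 2] [Fintype F] [Hs F] {n : ℕ} [Ok n F]
  {ι ψ χ : XU n F →* G} {t : G} {E : Subgroup G}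

local notation "X" => XU n F
local notation "V" => VV n F
local notation "𝐪" => Nat.card (K0 F)
local notation "I" => Fin (n + 3)
local notation "Mx" => Matrix (Fin (n + 3)) (Fin (n + 3)) F

namespace RKH

open Module

/-- evaluation at a vector -/
def ev (v : V) : Mx →ₗ[F] V where
  toFun a := a *ᵥ v
  map_add' a b := add_mulVec a b v
  map_smul' c a := smul_mulVec c a v

theorem bnd (B : Submodule F Mx) {ρ e : ℕ} (v : Fin ρ → V) (inj : ∀ a ∈ B, (∀ i, a *ᵥ v i = 0) → a = 0)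
    (S : Fin ρ → Submodule F V) (hS : ∀ a ∈ B, ∀ i, a *ᵥ v i ∈ S i) (he : ∀ i, finrank F (S i) ≤ e) :
    finrank F B ≤ ρ * e := by
  let T : B →ₗ[F] (∀ i, S i) := LinearMap.pi fun i =>
    ((ev (v i)).comp B.subtype).codRestrict (S i) fun a => hS a.1 a.2 i
  have hT : Function.Injective T := by
    rw [injective_iff_map_eq_zero]
    exact fun a h => Subtype.ext (inj a.1 a.2 fun i => congrArg Subtype.val (congrFun h i))
  refine (LinearMap.finrank_le_finrank_of_injective hT).trans ?_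
  rw [Module.finrank_pi_fintype]
  simpa using Finset.sum_le_card_nsmul Finset.univ (fun i => finrank F (S i)) e fun i _ => he i

theorem fam (R : Submodule F V) : ∃ v : Fin (finrank F R) → V,
    ∀ P : Submodule F V, H12.pp R ≤ P → (∀ i, v i ∈ P) → ∀ x, x ∈ P := by
  obtain ⟨C, hC⟩ := (H12.pp R).exists_isCompl
  have e1 := Submodule.finrank_add_eq_of_isCompl hC
  have e2 := H12.rk_pp R
  rw [Module.finrank_fin_fun] at e1
  let b := Module.finBasisOfFinrankEq F C (show finrank F C = finrank F R by omega)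
  refine ⟨fun i => b i, fun P h1 h2 x => ?_⟩
  have h3 : C ≤ P := fun y hy => by
    have := congrArg Subtype.val (b.sum_repr ⟨y, hy⟩)
    rw [Submodule.coe_sum] at this
    change y ∈ P
    rw [show y = _ from this.symm]
    exact P.sum_mem fun i _ => P.smul_mem _ (h2 i)
  exact sup_le h1 h3 (hC.sup_eq_top ▸ Submodule.mem_top)

theorem par (A : Submodule F Mx) (hc : ∀ a ∈ A, ∀ b ∈ A, a * b = b * a) (hs : ∀ a ∈ A, a * a = 0)
    (ha : ∀ a ∈ A, ∃ b ∈ A, ∀ u v : V, bt (a *ᵥ u) v = bt u (b *ᵥ v)) {K : Submodule F V}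
    (hK : ∀ x ∈ K, ∀ a ∈ A, a *ᵥ x = 0) (le : K ≤ H12.pp K) {v : V} (hv : A.map (ev v) = H12.pp K) :
    Even (n + 3) := by
  let B : LinearMap.BilinForm F A := LinearMap.mk₂ F (fun a b => bt ((a.1 * b.1) *ᵥ v) v)
    (fun a b c => by rw [Submodule.coe_add, add_mul, add_mulVec, H12.bt_add_l])
    (fun c a b => by rw [Submodule.coe_smul, smul_mul_assoc, smul_mulVec, H12.bt_smul_l, smul_eq_mul])
    (fun a b c => by rw [Submodule.coe_add, mul_add, add_mulVec, H12.bt_add_l])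
    (fun c a b => by rw [Submodule.coe_smul, mul_smul_comm, smul_mulVec, H12.bt_smul_l, smul_eq_mul])
  have hB : ∀ a b : A, B a b = bt (a.1 *ᵥ (b.1 *ᵥ v)) v := fun a b => by rw [mulVec_mulVec]; rfl
  have sy : ∀ a b : A, B a b = B b a := fun a b => by
    change bt ((a.1 * b.1) *ᵥ v) v = bt ((b.1 * a.1) *ᵥ v) v
    rw [hc _ a.2 _ b.2]
  let T : A →ₗ[F] (V ⧸ K) := K.mkQ.comp ((ev v).comp A.subtype)
  have hT : ∀ a : A, a ∈ LinearMap.ker T ↔ a.1 *ᵥ v ∈ K := fun a => Submodule.Quotient.mk_eq_zero K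
  obtain ⟨C, hC⟩ := (LinearMap.ker T).exists_isCompl
  have nd : ∀ c : C, (∀ c' : C, B c c' = 0) → c = 0 := fun c h => by
    have h1 : ∀ b : A, B c b = 0 := fun b => by
      obtain ⟨y, hy, z, hz, rfl⟩ := Submodule.mem_sup.1 (hC.sup_eq_top ▸ Submodule.mem_top : b ∈ LinearMap.ker T ⊔ C)
      rw [map_add, h ⟨z, hz⟩, add_zero, hB, hK _ ((hT y).1 hy) _ c.1.2, H12.bt_zero_l]
    have h2 : c.1.1 *ᵥ v ∈ H12.pp (H12.pp K) := fun x hx => by
      rw [← hv] at hx
      obtain ⟨a, haA, rfl⟩ := hx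
      obtain ⟨b, hb, e⟩ := ha a haA
      refine H12.bt_sw ?_
      change bt (a *ᵥ v) _ = 0
      rw [e]
      refine H12.bt_sw ?_
      rw [← hB ⟨b, hb⟩ c.1, sy, h1]
    rw [H12.pp_pp] at h2
    exact Subtype.ext (Submodule.disjoint_def.1 hC.disjoint _ ((hT _).2 h2) c.2)
  have ev1 := H66.even_finrank_of_alt (B.restrict C)
    (And.intro (fun c h => nd c h) fun c h => nd c fun c' => (sy _ _).trans (h c'))
    fun c => by
      change bt ((c.1.1 * c.1.1) *ᵥ v) v = 0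
      rw [hs _ c.1.2, zero_mulVec, H12.bt_zero_l]
  have e1 := Submodule.finrank_add_eq_of_isCompl hC
  have e2 := T.finrank_range_add_finrank_ker
  have e3 := (K.mkQ.comp (H12.pp K).subtype).finrank_range_add_finrank_ker
  have e4 : LinearMap.range T = LinearMap.range (K.mkQ.comp (H12.pp K).subtype) := by
    rw [LinearMap.range_comp, LinearMap.range_comp, LinearMap.range_comp, Submodule.range_subtype,
      Submodule.range_subtype, hv]
  rw [LinearMap.ker_comp, Submodule.ker_mkQ, (Submodule.comapSubtypeEquivOfLe le).finrank_eq, ← e4] at e3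
  have e5 := H12.rk_pp K
  obtain ⟨j, hj⟩ := ev1
  exact ⟨j + finrank F K, by omega⟩

theorem mxl {R : Submodule F V} (h : ∀ x ∈ R, bt x x = 0) (k : finrank F R = kk n) {u : V} (hu : u ∈ H12.pp R)
    (h0 : bt u u = 0) : u ∈ R := by
  have e1 := H12.ti_rk (W := R ⊔ Submodule.span F {u}) fun x hx => by
    obtain ⟨y, hy, z, hz, rfl⟩ := Submodule.mem_sup.1 hx
    obtain ⟨c, rfl⟩ := Submodule.mem_span_singleton.1 hz
    rw [H12.bt_add_l, H12.bt_add_r, H12.bt_add_r, h y hy, H12.bt_smul_l, H12.bt_smul_l, H12.bt_smul_r,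
      H12.bt_smul_r, h0, H12.mem_pp.1 hu y hy, H12.bt_sw (H12.mem_pp.1 hu y hy)]
    simp
  have e2 : R = R ⊔ Submodule.span F {u} :=
    Submodule.eq_of_le_of_finrank_le le_sup_left (by rw [k]; unfold kk; omega)
  rw [e2]
  exact Submodule.mem_sup_right (Submodule.mem_span_singleton_self u)

end RKH

open RKH Module in
theorem rkH (A : Submodule F Mx) (hm : ∀ a ∈ A, ∀ b ∈ A, a * b ∈ A) (hc : ∀ a ∈ A, ∀ b ∈ A, a * b = b * a)
    (hs : ∀ a ∈ A, a * a = 0) (ha : ∀ a ∈ A, ∃ b ∈ A, ∀ u v : V, bt (a *ᵥ u) v = bt u (b *ᵥ v)) :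
    Module.finrank F A ≤ kk n ^ 2 ∧
      (kk n ^ 2 ≤ Module.finrank F A → ∃ J : Subgroup X, IsJ J ∧ ∀ x, x ∈ J ↔ x.1.1 - 1 ∈ A) := by
  obtain ⟨K, hK⟩ : ∃ K : Submodule F V, ∀ x, x ∈ K ↔ ∀ a ∈ A, a *ᵥ x = 0 := ⟨LMS.RKA.cK A, fun _ => Iff.rfl⟩
  have aW : ∀ a ∈ A, ∀ v : V, a *ᵥ v ∈ H12.pp K := fun a h v => H12.mem_pp.2 fun x hx => by
    obtain ⟨b, hb, e⟩ := ha a h
    rw [e, (hK x).1 hx b hb, H12.bt_zero_r]
  obtain ⟨R, hR⟩ : ∃ R, R = K ⊓ H12.pp K := ⟨_, rfl⟩
  have RK : R ≤ K := hR ▸ inf_le_left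
  have RW : R ≤ H12.pp K := hR ▸ inf_le_right
  have WR : H12.pp K ≤ H12.pp R := fun y hy x hx => hy x (RK hx)
  have iso : ∀ x ∈ R, bt x x = 0 := fun x hx => RW hx x (RK hx)
  obtain ⟨v, hv⟩ := fam R
  have inj : ∀ a ∈ A, (∀ i, a *ᵥ v i = 0) → a = 0 := fun a h h0 => by
    obtain ⟨b, hb, e⟩ := ha a h
    by_cases b0 : b = 0
    · ext i j
      have := H12.bt_nd' (x := a *ᵥ ee j) fun y => by rw [e, b0, zero_mulVec, H12.bt_zero_r]
      simpa [ee] using congrFun this i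
    obtain ⟨w, hw, hf⟩ := LMS.RKA.exists_fixed A hc hs hb b0
    have uR : b *ᵥ w ∈ R := hR ▸ ⟨(hK _).2 hf, aW b hb w⟩
    refine absurd (H12.bt_nd fun y => ?_) hw
    exact hv (LinearMap.ker (H12.BB (b *ᵥ w))) (fun y hy => hy _ uR)
      (fun i => by rw [LinearMap.mem_ker, H12.BB_apply, ← e, h0, H12.bt_zero_l]) y
  have r1 := H12.ti_rk iso
  have r2 := H12.rk_pp K
  have r3 := Submodule.finrank_mono RK
  have hk : n + 3 = 2 * kk n ∨ n + 3 = 2 * kk n + 1 := by unfold kk; omega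
  have sub : ∀ x : V, A.map (ev x) ≤ H12.pp K := by
    rintro x _ ⟨a, h, rfl⟩
    exact aW a h x
  have b1 := bnd A v inj (fun i => A.map (ev (v i))) (fun a h i => ⟨a, h, rfl⟩) (e := 2 * kk n - finrank F R)
    fun i => by
      have r4 := Submodule.finrank_mono (sub (v i))
      by_contra lt
      have e1 : R = K := Submodule.eq_of_le_of_finrank_le RK (by omega)
      obtain ⟨j, hj⟩ := par A hc hs ha (fun x hx => (hK x).1 hx) (e1 ▸ RW)
        (Submodule.eq_of_le_of_finrank_le (sub (v i)) (by omega))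
      omega
  obtain ⟨s, es⟩ : ∃ s, kk n = finrank F R + s := ⟨kk n - finrank F R, by omega⟩
  rw [show 2 * kk n - finrank F R = finrank F R + 2 * s by omega] at b1
  have sq : kk n ^ 2 = finrank F R * (finrank F R + 2 * s) + s * s := by rw [es]; ring
  refine ⟨by omega, fun h => ?_⟩
  have s0 : s = 0 := by
    have : s * s = 0 := by omega
    exact mul_self_eq_zero.1 this
  have rk : finrank F R = kk n := by omega
  have sa : ∀ a ∈ A, (∀ u x : V, bt (a *ᵥ u) x = bt u (a *ᵥ x)) → ∀ x : V, a *ᵥ x ∈ R := fun a h e x =>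
    mxl iso rk (WR (aW a h x)) (by rw [e, mulVec_mulVec, hs a h, zero_mulVec, H12.bt_zero_r])
  have aR : ∀ a ∈ A, ∀ x : V, a *ᵥ x ∈ R := fun a h x => by
    obtain ⟨b, hb, e⟩ := ha a h
    obtain ⟨ω, hω⟩ := H12.ex_tr (F := F)
    have e' : ∀ u x : V, bt (b *ᵥ u) x = bt u (a *ᵥ x) := fun u x => by
      rw [H12.bt_symm, ← e, ← H12.bt_symm]
    have q1 := sa _ (A.add_mem h hb) (fun u x => by
      rw [add_mulVec, add_mulVec, H12.bt_add_l, H12.bt_add_r, e, e', add_comm]) x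
    have q2 := sa _ (A.add_mem (A.smul_mem ω h) (A.smul_mem (σ ω) hb)) (fun u x => by
      rw [add_mulVec, add_mulVec, smul_mulVec, smul_mulVec, smul_mulVec, smul_mulVec, H12.bt_add_l, H12.bt_add_r,
        H12.bt_smul_l, H12.bt_smul_l, H12.bt_smul_r, H12.bt_smul_r, H12.ss, e, e', add_comm]) x
    have q3 : a = ω • a + σ ω • b + σ ω • (a + b) := by
      rw [smul_add, add_add_add_comm, ← add_smul, hω, one_smul, H12.mm, add_zero]
    rw [q3, add_mulVec, smul_mulVec]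
    exact R.add_mem q2 (R.smul_mem _ q1)
  let H : Submodule F Mx :=
    { carrier := {c | (∀ x : V, c *ᵥ x ∈ R) ∧ ∀ x ∈ H12.pp R, c *ᵥ x = 0}
      add_mem' := fun h1 h2 => ⟨fun x => by rw [add_mulVec]; exact R.add_mem (h1.1 x) (h2.1 x),
        fun x hx => by rw [add_mulVec, h1.2 x hx, h2.2 x hx, add_zero]⟩
      zero_mem' := ⟨fun x => by rw [zero_mulVec]; exact R.zero_mem, fun x _ => zero_mulVec x⟩
      smul_mem' := fun c a h1 => ⟨fun x => by rw [smul_mulVec]; exact R.smul_mem c (h1.1 x),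
        fun x hx => by rw [smul_mulVec, h1.2 x hx, smul_zero]⟩ }
  have AH : A ≤ H := fun a h => ⟨aR a h, fun x hx => H12.bt_nd' fun y => by
    obtain ⟨b, hb, e⟩ := ha a h
    rw [e]; exact hx _ (aR b hb y)⟩
  have b2 := bnd H v (fun a h h0 => by
      ext i j
      have : a *ᵥ ee j = 0 := hv (LinearMap.ker (mulVecLin a)) h.2 h0 _
      simpa [ee] using congrFun this i) (fun _ => R) (fun a h i => h.1 _) fun _ => le_rfl
  have eA : A = H := Submodule.eq_of_le_of_finrank_le AH (by rw [rk, ← pow_two] at b2; omega)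
  obtain ⟨J, hJ, mJ⟩ := isJ_of (W := R) (fun u hu x hx => RW hu x (RK hx)) rk
  refine ⟨J, hJ, fun x => ?_⟩
  have e : ∀ y : V, (x.1.1 - 1) *ᵥ y = ac x y - y := fun y => by rw [sub_mulVec, one_mulVec]; rfl
  rw [mJ, eA]
  exact ⟨fun h => ⟨fun y => e y ▸ h.1 y, fun y hy => by rw [e, h.2 y hy, sub_self]⟩,
    fun h => ⟨fun y => e y ▸ h.1 y, fun y hy => sub_eq_zero.1 (e y ▸ h.2 y hy)⟩⟩

end UMS
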