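import Cfsg.Agent.Lib.UMS.HY
import Cfsg.Agent.Lib.UMS.B33
import Cfsg.Agent.Lib.LMS.B4
import Cfsg.Agent.S2164

/-! Ranks and classes of involutions in the special unitary group. -/

set_option autoImplicit false
set_option linter.unusedSectionVars false

namespace UMS.H70

open Subgroup H69 Cfsg Matrix U4S
open LMS (XX GX iL kk MM au tw Sg)
open scoped MatrixGroups commutatorElement
open H12

universe u
variable {F : Type u} [Field F] [CharP F 2] [Fintype F] [Hs F] {n : ℕ} [Ok n F]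

local notation "X" => XU n F
local notation "I" => Fin (n + 3)
local notation "Mx" => Matrix (Fin (n + 3)) (Fin (n + 3)) F

theorem rk_au {α : X →* X} {φ : RingAut F} (h : Au α φ) (x : X) : rk (α x) = rk x := by
  obtain ⟨g, hg⟩ := h
  unfold rk
  rw [hg, LMS.rk_au]

theorem rk_cj (y x : X) : rk (y * x * y⁻¹) = rk x := LMS.rk_cj y.1 x.1

theorem rk_zero {x : X} : rk x = 0 ↔ x = 1 :=
  LMS.rk_zero.trans ⟨fun h => Subtype.ext h, fun h => congrArg Subtype.val h⟩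

theorem rk_sq {x : X} (h : rk x ≤ 1) : x * x = 1 := Subtype.ext (LMS.rk_sq h)

theorem rk_le {x : X} (h : x * x = 1) : rk x ≤ kk n := LMS.rk_le (congrArg Subtype.val h)

theorem hm_ne {u v : VV n F} (hu : u ≠ 0) (hv : v ≠ 0) : hm u v ≠ 0 := fun h => by
  obtain ⟨i, hi⟩ := Function.ne_iff.1 hu
  obtain ⟨j, hj⟩ := Function.ne_iff.1 hv
  have := congrFun (congrFun h i) j.rev
  simp only [hm, vecMulVec_apply, Fin.rev_rev, Matrix.zero_apply, mul_eq_zero, EmbeddingLike.map_eq_zero_iff] at this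
  exact this.elim hi hj

theorem tc_ne {v : VV n F} (hv : Is v) {c : K0 F} (hc : c ≠ 0) : tc v c ≠ 1 := fun h => by
  have h1 := tc_val hv.1 c
  rw [h, one_val, left_eq_add, smul_eq_zero] at h1
  exact h1.elim (fun k => hc (Subtype.ext k)) (hm_ne hv.2 hv.2)

theorem rk_tc_le {v : VV n F} (hv : bt v v = 0) (c : K0 F) : rk (tc v c) ≤ 1 := by
  unfold rk LMS.rk
  rw [tc_val hv, add_sub_cancel_left, ← hm_smul_l]
  exact rank_vecMulVec_le _ _

theorem rk_tc {v : VV n F} (hv : Is v) {c : K0 F} (hc : c ≠ 0) : rk (tc v c) = 1 := by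
  have h1 := rk_tc_le hv.1 c
  have h2 : rk (tc v c) ≠ 0 := fun k => tc_ne hv hc (rk_zero.1 k)
  omega

theorem is_e0 : Is (ee 0 : VV n F) := by
  refine ⟨?_, fun h => ?_⟩
  · rw [bt_ee_r]
    exact Pi.single_eq_of_ne (by simp [Fin.ext_iff]) _
  · have := congrFun h 0
    simp [ee] at this

theorem rk_zz {c : K0 F} (hc : c ≠ 0) : rk (zz c : X) = 1 := rk_tc is_e0 hc

theorem inv_cj {x y : X} (hx : x * x = 1) (hy : y * y = 1) (h : rk x = rk y) : ∃ z, z * x * z⁻¹ = y := by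
  by_cases x1 : x = 1
  · have : y = 1 := rk_zero.1 (h.symm.trans (rk_zero.2 x1))
    exact ⟨1, by rw [x1, this]; group⟩
  have y1 : y ≠ 1 := fun k => x1 (rk_zero.1 (h.trans (rk_zero.2 k)))
  obtain ⟨q, i, C, e, -, -, -, h4⟩ := B33.bridge (F := F) (n := n)
  have o : ∀ x : X, x * x = 1 → x ≠ 1 → orderOf (e x) = 2 := fun x a b => by
    rw [MulEquiv.orderOf_eq]
    exact orderOf_eq_prime (by rw [pow_two, a]) b
  have r : ∀ x : X, LMS.rk (e x).1 = rk x := fun x => by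
    unfold rk
    rw [h4 x, LMS.B4.rk_gc]
  have k := (Cfsg.Agent.S2164.result i.1 (by omega) (e x) (e y) (o x hx x1) (o y hy y1)).2.2
    ((r x).trans (h.trans (r y).symm))
  obtain ⟨z, hz⟩ := isConj_iff.1 k
  refine ⟨e.symm z, e.injective ?_⟩
  rw [map_mul, map_mul, map_inv, e.apply_symm_apply, hz]

theorem xr_mem {r : ℕ} (h : r ≤ kk n) : (LMS.B4.xr h : XX n F) ∈ XU n F := by
  have a : ad (LMS.B4.NN n F r) = LMS.B4.NN n F r := by
    ext i j
    rw [ad_apply, LMS.B4.NN_apply, LMS.B4.NN_apply, Fin.rev_rev, apply_ite σ, map_one, map_zero]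
    exact if_congr ⟨fun k => ⟨k.1.symm, k.1 ▸ k.2⟩, fun k => ⟨k.1.symm, k.1 ▸ k.2⟩⟩ rfl rfl
  have s : (LMS.B4.xr h : XX n F) * LMS.B4.xr h = 1 := by
    rw [LMS.B4.sq_iff, LMS.B4.xr_sub, LMS.B4.NN_sq h]
  rw [mem_XU]
  change ad (1 + LMS.B4.NN n F r) * _ = 1
  rw [ad_add, ad_one, a]
  exact congrArg Subtype.val s

theorem ex_rk {r : ℕ} (h : r ≤ kk n) : ∃ x ∈ JD n F (kk n), rk x = r :=
  ⟨⟨_, xr_mem h⟩, LMS.B4.xr_J h, LMS.B4.xr_rk h⟩

theorem inv_J {x : X} (h : x * x = 1) : ∃ z, z * x * z⁻¹ ∈ JD n F (kk n) := by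
  have s : (⟨_, xr_mem (rk_le h)⟩ : X) * ⟨_, xr_mem (rk_le h)⟩ = 1 := by
    refine Subtype.ext ?_
    change (LMS.B4.xr (rk_le h) : XX n F) * LMS.B4.xr (rk_le h) = 1
    rw [LMS.B4.sq_iff, LMS.B4.xr_sub, LMS.B4.NN_sq (rk_le h)]
  obtain ⟨z, hz⟩ := inv_cj h s (LMS.B4.xr_rk (rk_le h)).symm
  exact ⟨z, hz ▸ LMS.B4.xr_J (rk_le h)⟩

/-- elements of rank at most one are transvections -/
theorem le_one {x : X} (h : rk x ≤ 1) : ∃ v c, Is v ∧ x = tc v c := by
  by_cases x1 : x = 1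
  · exact ⟨ee 0, 0, is_e0, by rw [x1, tc_zero is_e0.1]⟩
  have h1 : rk x = 1 := by
    have : rk x ≠ 0 := fun k => x1 (rk_zero.1 k)
    omega
  obtain ⟨z, hz⟩ := inv_cj (tc_sq (is_e0 (n := n) (F := F)).1 1) (rk_sq h) ((rk_tc is_e0 one_ne_zero).trans h1.symm)
  refine ⟨ac z (ee 0), 1, ⟨by rw [bt_ac, is_e0.1], fun k => is_e0.2 (ac_inj z (k.trans (ac_zero z).symm))⟩, ?_⟩
  rw [← hz, cj_tc z is_e0.1]

theorem ex_dual {u v : VV n F} (h : LinearIndependent F ![u, v]) : ∃ y, bt y u = 0 ∧ bt y v = 1 := by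
  rw [LinearIndependent.pair_iff] at h
  have nd : ∀ w : VV n F, w ≠ 0 → ∃ y, bt y w = 1 := fun w hw => by
    obtain ⟨a, ha⟩ : ∃ a, bt a w ≠ 0 := by
      by_contra k
      push Not at k
      exact hw (H76.bt_nd' k)
    exact ⟨(bt a w)⁻¹ • a, by rw [bt_smul_l, inv_mul_cancel₀ ha]⟩
  obtain ⟨a, ha⟩ := nd u fun k => one_ne_zero (h 1 0 (by rw [k, smul_zero, zero_smul, add_zero])).1
  obtain ⟨b, hb⟩ := nd (σ (bt a v) • u + v) fun k => one_ne_zero (h (σ (bt a v)) 1 (by rw [one_smul, k])).2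
  refine ⟨b + bt b u • a, ?_, ?_⟩
  · rw [bt_add_l, bt_smul_l, ha, mul_one, CharTwo.add_self_eq_zero]
  · rw [bt_add_r, bt_smul_r, ss] at hb
    rw [bt_add_l, bt_smul_l, ← hb]
    ring

theorem rank_pair {K V : Type*} [Field K] [AddCommGroup V] [Module K V] {u v : V} (h : LinearIndependent K ![u, v])
    (W : Submodule K V) (h1 : u ∈ W) (h2 : v ∈ W) (h3 : ∀ w ∈ W, ∃ a b : K, w = a • u + b • v) :
    Module.finrank K W = 2 := by
  have k : W = Submodule.span K (Set.range ![u, v]) := by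
    rw [Matrix.range_cons_cons_empty]
    refine le_antisymm (fun w hw => ?_) ?_
    · obtain ⟨a, b, e⟩ := h3 w hw
      exact Submodule.mem_span_pair.2 ⟨a, b, e.symm⟩
    · rw [Submodule.span_le, Set.insert_subset_iff, Set.singleton_subset_iff]
      exact ⟨h1, h2⟩
  rw [k, finrank_span_eq_card h, Fintype.card_fin]

theorem rank_of {K m : Type*} [Field K] [Fintype m] [DecidableEq m] {u v : m → K} (h : LinearIndependent K ![u, v])
    (M : Matrix m m K) {a b : m → K} (h1 : M *ᵥ a = u) (h2 : M *ᵥ b = v)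
    (h3 : ∀ y, ∃ a b : K, M *ᵥ y = a • u + b • v) : M.rank = 2 :=
  rank_pair h (LinearMap.range M.mulVecLin) ⟨a, h1⟩ ⟨b, h2⟩ fun _ ⟨y, hy⟩ => hy ▸ h3 y

theorem rank_two {u v : VV n F} (h : LinearIndependent F ![u, v]) : (hm u v + hm v u).rank = 2 := by
  obtain ⟨a, a1, a2⟩ := ex_dual h
  have h' : LinearIndependent F ![v, u] := LinearIndependent.pair_symm_iff.1 h
  obtain ⟨b, b1, b2⟩ := ex_dual h'
  have m : ∀ y, (hm u v + hm v u) *ᵥ y = bt y v • u + bt y u • v := fun y => by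
    rw [add_mulVec, hm_mulVec, hm_mulVec]
  refine rank_of h _ (a := a) (b := b) ?_ ?_ fun y => ⟨_, _, m y⟩
  · rw [m, a1, a2, one_smul, zero_smul, add_zero]
  · rw [m, b1, b2, one_smul, zero_smul, zero_add]

theorem rk_sh {u v : VV n F} (h : Ot u v) : rk (sh u v) = 2 := by
  have e : (sh u v).1.1 - 1 = hm u v + hm v u := by rw [sh_val h.1 h.2.1 h.2.2.1, add_assoc, add_sub_cancel_left]
  unfold rk LMS.rk
  rw [e, rank_two h.2.2.2]

end UMS.H70
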