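import Cfsg.Agent.Lib.UMS.S670
import Cfsg.Agent.Lib.UMS.B3b
import Cfsg.Agent.Lib.UMS.Defs2

set_option autoImplicit false
set_option linter.unusedSectionVars false

namespace UMS.H41

open Subgroup H69 Cfsg Matrix U4S S670
open LMS (XX GX iL kk MM au tw Sg)
open scoped MatrixGroups commutatorElement

universe u
variable {G : Type*} [Group G] [Finite G] {F : Type u} [Field F] [CharP F 2] [Fintype F] [Hs F] {n : ℕ} [Ok n F]
  {ι : XU n F →* G} {g : G}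

local notation "X" => XU n F
local notation "V" => VV n F
local notation "𝐪" => Nat.card (K0 F)
local notation "I" => Fin (n + 3)
local notation "Q" => QQ n F
local notation "P0" => PP n F

/-- the middle part -/
def pr (v : V) : V := fun j => if j = 0 ∨ j = iL then 0 else v j

theorem pr_mi {v : V} (h : Mi v) : pr v = v := by
  ext j
  rw [pr]
  split_ifs with k
  · rcases k with rfl | rfl
    exacts [h.1.symm, h.2.symm]
  · rfl

theorem mi_pr (v : V) : Mi (pr v) := ⟨if_pos (Or.inl rfl), if_pos (Or.inr rfl)⟩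

theorem pr_smul (a : F) (v : V) : pr (a • v) = a • pr v := by
  ext j
  simp only [pr, Pi.smul_apply]
  split_ifs <;> simp

theorem mi_add {u v : V} (h : Mi u) (k : Mi v) : Mi (u + v) :=
  ⟨by rw [Pi.add_apply, h.1, k.1, add_zero], by rw [Pi.add_apply, h.2, k.2, add_zero]⟩

theorem cvj {p x : X} (hp : p ∈ P0) (hx : x ∈ Q) : cv (p * x * p⁻¹) = pr (ac p (cv x)) := by
  ext j
  rw [pr]
  split_ifs with k
  · exact if_pos k
  · exact cv_cj hp hx fun e => k (Or.inl e)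

theorem p2Q {x : X} (h : x ∈ Q) : P2 x := by
  obtain ⟨k, e⟩ := isP_QQ (⟨x, h⟩ : Q)
  exact ⟨k, congrArg Subtype.val e⟩

/-- an additive map of the middle vectors that commutes with `P` is a scalar -/
theorem scal {θ : V → V} (ad : ∀ u v, Mi u → Mi v → θ (u + v) = θ u + θ v) (mi : ∀ w, Mi w → Mi (θ w))
    (eq : ∀ p ∈ P0, ∀ w, Mi w → θ (pr (ac p w)) = pr (ac p (θ w))) : ∃ l : F, ∀ w, Mi w → θ w = l • w := by
  obtain ⟨a1, a2, a3, a4, a5, b1, b2, b3, b4, b5⟩ := B3b.i1 n F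
  have key : ∀ u v, Mi u → Mi v → bt v v = 0 → θ (bt u v • v) = bt (θ u) v • v := fun u v hu hv h => by
    have e := eq _ (B3b.tc_PP h hv.2 1) u hu
    rw [ac_tc h, ac_tc h, pr_mi (mi_add hu (mi_smul hv _)), pr_mi (mi_add (mi u hu) (mi_smul hv _)),
      ad _ _ hu (mi_smul hv _), add_right_inj] at e
    simpa using e
  have m : ∀ {j : I}, j ≠ 0 → j ≠ iL → Mi (ee j : V) := fun h k => by simpa using B3b.mi_ee h k (1 : F)
  have c1 : (2 : I).rev ≠ 0 := fun e => b2 (by rw [← B3b.r0, ← e, Fin.rev_rev])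
  have c2 : (2 : I).rev ≠ iL := fun e => b1 (by rw [← B3b.rL, ← e, Fin.rev_rev])
  have b21 : bt (ee 2 : V) (ee 1) = 0 := by rw [H12.bt_ee, if_neg fun e => b5 (by rw [e, Fin.rev_rev])]
  obtain ⟨l, hl⟩ : ∃ l : F, θ (ee 2) = l • ee 2 := ⟨_, by
    have := key _ _ (m c1 c2) (m b1 b2) (is_ee b3).1
    rwa [H12.bt_ee, if_pos rfl, one_smul] at this⟩
  have h1 : ∀ a : F, θ (a • ee 1) = l • a • ee 1 := fun a => by
    have e1 := key (a • ee (Fin.rev 1)) _ (mi_smul (m a4 a5) a) (m a1 a2) (is_ee a3).1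
    rw [H12.bt_smul_l, H12.bt_ee, if_pos rfl, mul_one] at e1
    have e2 := key _ (a • ee 1 + ee 2) (m c1 c2) (mi_add (mi_smul (m a1 a2) a) (m b1 b2)) (by
      simp only [H12.bt_add_l, H12.bt_add_r, H12.bt_smul_l, H12.bt_smul_r, (is_ee a3).1, (is_ee b3).1, b21,
        H12.bt_sw b21, mul_zero, add_zero])
    rw [H12.bt_add_r, H12.bt_smul_r, H12.bt_ee, H12.bt_ee, if_neg (Fin.rev_injective.ne b4), if_pos rfl, mul_zero,
      zero_add, one_smul, ad _ _ (mi_smul (m a1 a2) a) (m b1 b2), e1, hl] at e2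
    have e3 := congrFun e2 1
    have e4 := congrFun e2 2
    simp only [Pi.add_apply, Pi.smul_apply, B3b.ee_ap, if_pos, if_neg b4, if_neg b4.symm, smul_eq_mul, mul_one,
      mul_zero, add_zero, zero_add] at e3 e4
    rw [e1, e3, ← e4, smul_smul]
  refine ⟨l, fun w hw => (B3b.span (P := fun v => Mi v ∧ θ v = l • v) (fun u v hu hv =>
    ⟨mi_add hu.1 hv.1, by rw [ad _ _ hu.1 hv.1, hu.2, hv.2, smul_add]⟩) (fun v hv h => ⟨hv, ?_⟩) hw).2⟩
  by_cases z : v = 0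
  · simpa [z] using h1 0
  obtain ⟨j, hj⟩ := Function.ne_iff.1 z
  obtain ⟨p, hp, rfl⟩ := B3b.tr h hv.2 (j := j) (fun e => hj (e ▸ hv.1)) hj
  have := eq p hp _ (m a1 a2)
  rwa [pr_mi hv, ← one_smul F (ee 1 : V), h1, one_smul, ac_smul, pr_smul, pr_mi hv] at this

theorem two (h2 : 𝐪 = 2) (c : K0 F) : c = 0 ∨ c = 1 := by
  obtain ⟨b, -, hb⟩ := (Nat.card_eq_two_iff' (0 : K0 F)).1 h2
  exact or_iff_not_imp_left.2 fun a0 => (hb c a0).trans (hb 1 one_ne_zero).symm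

/-- the action on `Q / Z` -/
theorem exδ (e : Em ι) (z : Nz ι g) : ∃ δ : V → V, (∀ w, Mi w → Mi (δ w)) ∧
    (∀ v w, Mi v → Mi w → δ (v + w) = δ v + δ w) ∧ (∀ v w, Mi v → Mi w → Tr (δ v) (δ w) = Tr v w) ∧
    (∀ x ∈ Q, ∃ x' ∈ Q, g * ι x * g⁻¹ = ι x' ∧ cv x' = δ (cv x)) ∧ (∀ w, Mi w → ∃ v, Mi v ∧ δ v = w) ∧
    ∀ p ∈ P0, ∀ p' ∈ P0, g * ι p * g⁻¹ = ι p' → ∀ w, Mi w → δ (pr (ac p w)) = pr (ac p' (δ w)) := by
  choose! γ γ1 γ2 using fun x hx => exQ (ι := ι) z.nQ (x := x) hx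
  choose! s s1 s2 using fun w hw => cv_surj (n := n) (F := F) (w := w) hw
  have act : ∀ x ∈ Q, ∀ x' ∈ Q, g * ι x * g⁻¹ = ι x' → cv x' = cv (γ (s (cv x))) := fun x hx x' hx' k => by
    obtain ⟨c, hc⟩ := Q_eq hx (s1 _ (cv_mi x)) (s2 _ (cv_mi x))
    have : γ (s (cv x)) = x' * zz c := e.inj2 (p2Q (γ1 _ (s1 _ (cv_mi x)))) (p2Q (mul_mem hx' (B3.zzQ c))) (by
      rw [← γ2 _ (s1 _ (cv_mi x)), hc, map_mul, map_mul, ← k]
      calc _ = g * ι x * g⁻¹ * (g * ι (zz c)) * g⁻¹ := by group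
        _ = _ := by rw [z.cZ _ (mem_ZZ.2 ⟨c, rfl⟩)]; group)
    rw [this, cv_mul hx' (B3.zzQ c), B3.cv_zz, add_zero]
  refine ⟨fun w => cv (γ (s w)), fun w _ => cv_mi _, fun v w hv hw => ?_, fun v w hv hw => ?_,
    fun x hx => ⟨γ x, γ1 x hx, γ2 x hx, act x hx _ (γ1 x hx) (γ2 x hx)⟩, fun w hw => ?_,
    fun p hp p' hp' k w hw => ?_⟩
  · have := act _ (mul_mem (s1 v hv) (s1 w hw)) _ (mul_mem (γ1 _ (s1 v hv)) (γ1 _ (s1 w hw))) (by
      rw [map_mul, map_mul, ← γ2 _ (s1 v hv), ← γ2 _ (s1 w hw)]; group)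
    rw [cv_mul (s1 v hv) (s1 w hw), cv_mul (γ1 _ (s1 v hv)) (γ1 _ (s1 w hw)), s2 v hv, s2 w hw] at this
    exact this.symm
  · have := form (s1 v hv) (s1 w hw) (γ1 _ (s1 v hv)) (γ1 _ (s1 w hw)) (γ2 _ (s1 v hv)) (γ2 _ (s1 w hw))
    rw [z.cZ _ (mem_ZZ.2 ⟨_, rfl⟩), mul_inv_cancel_right] at this
    have := z_inj e this
    rw [Bf, Bf, s2 v hv, s2 w hw] at this
    exact this.symm
  · obtain ⟨y, hy, k⟩ := exQ (ι := ι) (inv_mem z.nQ) (s1 w hw)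
    exact ⟨cv y, cv_mi y, (act y hy _ (s1 w hw) (by rw [← k]; group)).symm.trans (s2 w hw)⟩
  · have := act _ ((mem_normalizer_iff.1 (PP_nQ hp) _).1 (s1 w hw)) _
      ((mem_normalizer_iff.1 (PP_nQ hp') _).1 (γ1 _ (s1 w hw))) (by
        simp only [map_mul, map_inv]; rw [← γ2 _ (s1 w hw), ← k]; group)
    rw [cvj hp (s1 w hw), cvj hp' (γ1 _ (s1 w hw)), s2 w hw] at this
    exact this.symm

theorem exDl' (e : Em ι) (h2 : 𝐪 = 2) (z : Nz ι g) : ∃ δ φ, Dl ι g δ φ ∧ (∀ w, Mi w → ∃ v, Mi v ∧ δ v = w) ∧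
    ∀ p ∈ P0, ∀ p' ∈ P0, g * ι p * g⁻¹ = ι p' → ∀ w, Mi w → δ (pr (ac p w)) = pr (ac p' (δ w)) := by
  obtain ⟨δ, mi, ad, tr, act, sj, eq⟩ := exδ e z
  have inj : ∀ v w, Mi v → Mi w → δ v = δ w → v = w := fun v w hv hw k =>
    Tr_nd hv hw fun u hu => by rw [← tr v u hv hu, k, tr w u hw hu]
  obtain ⟨ω, hω⟩ := ex_om (F := F)
  have sq : σ ω = ω * ω := by rw [sg_pow, h2, sq]
  choose! η η1 η2 using sj
  have η3 : ∀ v, Mi v → η (δ v) = v := fun v hv => inj _ _ (η1 _ (mi v hv)) hv (η2 _ (mi v hv))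
  obtain ⟨l, hl⟩ := scal (θ := fun w => δ (ω • η w)) (fun u v hu hv => by
      rw [← η2 u hu, ← η2 v hv, ← ad _ _ (η1 u hu) (η1 v hv), η3 _ (mi_add (η1 u hu) (η1 v hv)), η3 _ (η1 u hu),
        η3 _ (η1 v hv), smul_add, ad _ _ (mi_smul (η1 u hu) _) (mi_smul (η1 v hv) _)])
    (fun w hw => mi _ (mi_smul (η1 w hw) _)) fun p' hp' w hw => by
      obtain ⟨p, hp, k⟩ := (mem_normalizer_iff.1 (inv_mem z.nP) _).1 (mem_map_of_mem ι hp')
      have k' : g * ι p * g⁻¹ = ι p' := by rw [k]; group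
      rw [← eq p hp p' hp' k' _ (mi_smul (η1 w hw) _), ac_smul, pr_smul]
      nth_rewrite 1 [← η2 w hw]
      rw [← eq p hp p' hp' k' _ (η1 w hw), η3 _ (mi_pr _)]
  have h1 : ∀ w, Mi w → δ (ω • w) = l • δ w := fun w hw => by
    have := hl _ (mi w hw)
    rwa [η3 w hw] at this
  have d0 : δ 0 = 0 := by simpa using ad 0 0 ⟨rfl, rfl⟩ ⟨rfl, rfl⟩
  have w1 : ω * ω = ω + 1 := by rw [← sq, ← hω, ← add_assoc, CharTwo.add_self_eq_zero, zero_add]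
  have l1 : l * l = l + 1 := by
    obtain ⟨a1, a2, -⟩ := B3b.i1 n F
    have m : Mi (ee 1 : V) := by simpa using B3b.mi_ee a1 a2 (1 : F)
    refine smul_left_injective F (fun k => H12.ee_ne 1 (inj _ _ m ⟨rfl, rfl⟩ (k.trans d0.symm))) ?_
    change (l * l) • δ _ = (l + 1) • δ _
    rw [← smul_smul, ← h1 _ m, ← h1 _ (mi_smul m _), smul_smul, w1, add_smul, one_smul, ad _ _ (mi_smul m _) m,
      h1 _ m, add_smul, one_smul]
  obtain ⟨φ, ph, hφ⟩ : ∃ φ : RingAut F, (φ = 1 ∨ φ = σ) ∧ φ ω = l := by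
    have : (l - ω) * (l - σ ω) = 0 := by
      linear_combination l1 - l * hω + ω * sq + (ω + 1) * w1 + (ω + 1) * CharTwo.two_eq_zero (R := F)
    rcases mul_eq_zero.1 this with k | k
    · exact ⟨1, Or.inl rfl, (sub_eq_zero.1 k).symm⟩
    · exact ⟨σ, Or.inr rfl, (sub_eq_zero.1 k).symm⟩
  have tφ : ∀ b : F, φ b + σ (φ b) = b + σ b := fun b => by
    rcases ph with rfl | rfl
    · rfl
    · rw [sg_sg, add_comm]
  have sm : ∀ (a : F) w, Mi w → δ (a • w) = φ a • δ w := fun a w hw => by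
    obtain ⟨x, y, rfl⟩ := dec_om hω a
    rcases two h2 x with rfl | rfl <;> rcases two h2 y with rfl | rfl <;>
      simp [d0, hφ, add_smul, h1 w hw, ad _ _ hw (mi_smul hw _)]
  refine ⟨δ, φ, ⟨ph, mi, ad, sm, fun v w hv hw => ?_, act⟩, fun w hw => ⟨_, η1 w hw, η2 w hw⟩, eq⟩
  have t1 : bt (δ v) (δ w) + σ (bt (δ v) (δ w)) = _ := congrArg Subtype.val (tr v w hv hw)
  have t2 : bt (δ (ω • v)) (δ w) + σ (bt (δ (ω • v)) (δ w)) = bt (ω • v) w + σ (bt (ω • v) w) :=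
    congrArg Subtype.val (tr _ w (mi_smul hv ω) hw)
  have t3 := tφ ω
  change _ = bt v w + σ (bt v w) at t1
  rw [← tφ (bt v w)] at t1
  rw [← tφ (bt (ω • v) w), sm _ _ hv, H12.bt_smul_l, H12.bt_smul_l] at t2
  simp only [map_mul] at t2
  rw [hω] at t3
  linear_combination t2 - σ (φ ω) * t1 - (bt (δ v) (δ w) - φ (bt v w)) * t3 +
    σ (φ ω) * (bt (δ v) (δ w) - φ (bt v w)) * CharTwo.two_eq_zero (R := F)

theorem exDl (e : Em ι) (h2 : 𝐪 = 2) (z : Nz ι g) : ∃ δ φ, Dl ι g δ φ :=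
  let ⟨δ, φ, h, _⟩ := exDl' e h2 z
  ⟨δ, φ, h⟩

theorem eqns_S6A : True := by
  have := @pr.eq_1.{0}
  trivial

end UMS.H41
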