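import Cfsg.Agent.Lib.UMS.SWP
import Cfsg.Agent.Lib.UMS.FV
import Cfsg.Agent.Lib.UMS.Defs2
import Cfsg.Agent.Lib.UMS.B3b
import Cfsg.Agent.Lib.UMS.B6

set_option autoImplicit false
set_option linter.unusedSectionVars false

namespace UMS

open Subgroup H69 Cfsg Matrix U4S
open LMS (XX GX iL kk MM au tw Sg)
open scoped MatrixGroups commutatorElement

universe u
variable {G : Type*} [Group G] [Finite G] {F : Type u} [Field F] [CharP F 2] [Fintype F] [Hs F] {n : ℕ} [Ok n F]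
  {ι ψ χ : XU n F →* G} {t : G} {E : Subgroup G}

local notation "X" => XU n F
local notation "V" => VV n F
local notation "𝐪" => Nat.card (K0 F)
local notation "I" => Fin (n + 3)
local notation "Mx" => Matrix (Fin (n + 3)) (Fin (n + 3)) F

namespace S6S

theorem p2 {H : Type*} [Group H] [Finite H] {x : H} (h : x * x = 1) : P2 x := P2.of_sq h

theorem nm1 (h4 : Nat.card F = 4) {b : F} (hb : b ≠ 0) : nm b = 1 := by
  have q : 𝐪 = 2 := by
    have := card_F (F := F)
    rw [h4] at this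
    exact (Nat.pow_left_injective (n := 2) (by norm_num) (by simpa using this : (2 : ℕ) ^ 2 = 𝐪 ^ 2)).symm
  apply Subtype.ext
  change b * σ b = 1
  have k := FiniteField.pow_card_sub_one_eq_one b hb
  rw [← Nat.card_eq_fintype_card, h4] at k
  rw [sg_pow, q, ← k]; ring

theorem ex_mid {w : V} (h : Mi w) (k : w ≠ 0) : ∃ y : V, Mi y ∧ bt w y ≠ 0 := by
  obtain ⟨j, hj⟩ := Function.ne_iff.1 k
  have j0 : j ≠ 0 := fun e => hj (e ▸ h.1)
  have jL : j ≠ iL := fun e => hj (e ▸ h.2)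
  refine ⟨(1 : F) • ee j.rev, B3b.mi_ee ?_ ?_ 1, ?_⟩
  · intro e; apply jL; rw [← B3.r0, ← e, Fin.rev_rev]
  · intro e; apply j0; rw [← B3.rL, ← e, Fin.rev_rev]
  · rw [one_smul, bt_ee, Fin.rev_rev]; exact hj

theorem btl {u v : V} (hu : u iL = 0) (hv : v iL = 0) (a b : F) : bt (u + a • ee 0) (v + b • ee 0) = bt u v := by
  rw [bt_add_left, bt_add_right, bt_add_right, bt_smul_left, bt_smul_left, bt_smul_right, bt_smul_right,
    B3b.b0 hv, B3b.b0' hu, B3.b00]
  ring

theorem lL {u : V} (hu : u iL = 0) (a : F) : (u + a • (ee 0 : V)) iL = 0 := by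
  rw [Pi.add_apply, Pi.smul_apply, hu, B3.e0L, smul_zero, add_zero]

theorem uq {w : V} (h : Mi w) (k : w ≠ 0) (i : bt w w = 0) {a a' : F}
    (e : tc (w + a • ee 0) (1 : K0 F) = tc (w + a' • ee 0) 1) : a = a' := by
  obtain ⟨y, hy, hb⟩ := ex_mid h k
  have hb' : bt y w ≠ 0 := by rw [bt_symm]; exact (map_ne_zero _).2 hb
  have b (c : F) : bt y (w + c • ee 0) = bt y w := by
    have := btl hy.2 h.2 0 c
    rwa [zero_smul, add_zero] at this
  have := congrArg (fun x => ac x y 0) e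
  simp only [ac_tc ((btl h.2 h.2 _ _).trans i), b, Pi.add_apply, Pi.smul_apply, B3.e00, h.1, smul_eq_mul,
    OneMemClass.coe_one, one_mul, mul_one, zero_add, add_right_inj] at this
  exact mul_left_cancel₀ hb' this

theorem mi_add {u v : V} (hu : Mi u) (hv : Mi v) : Mi (u + v) :=
  ⟨by rw [Pi.add_apply, hu.1, hv.1, add_zero], by rw [Pi.add_apply, hu.2, hv.2, add_zero]⟩

theorem mi_smul {u : V} (hu : Mi u) (a : F) : Mi (a • u) :=
  ⟨by rw [Pi.smul_apply, hu.1, smul_zero], by rw [Pi.smul_apply, hu.2, smul_zero]⟩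

theorem zc {w : V} (h : w iL = 0) (i : bt w w = 0) :
    Commute (tc w (1 : K0 F)) (zz (1 : K0 F)) := PP_cen (B3b.tc_PP i h 1) 1

end S6S

open S6S in
theorem s6s (e : Em ι) (h4 : Nat.card F = 4) {g : G} {δ : V → V} {φ : RingAut F} (d : Dl ι g δ φ)
    (z : Cn ι (ZZ n F) g)
    (h : ∀ v, Is v → Mi v → ∃ a : F, g * ι (tc v 1) * g⁻¹ = ι (tc (δ v + a • ee 0) 1 * zz (1 : K0 F))) : False := by
  classical
  have pp (a : F) : φ (φ a) = a := by
    rcases d.ph with k | k <;> rw [k]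
    · rfl
    · exact sg_sg a
  have ps (a : F) : σ (φ a) = φ (σ a) := by
    rcases d.ph with k | k <;> rw [k]
    rfl
  choose! A hA using h
  have iso {v : V} (hv : Is v) (m : Mi v) : bt (δ v) (δ v) = 0 := by rw [d.iso v v m m, hv.1, map_zero]
  have iso' {v : V} (hv : Is v) (m : Mi v) (a : F) : bt (δ v + a • ee 0) (δ v + a • ee 0) = 0 :=
    (btl (d.mi v m).2 (d.mi v m).2 _ _).trans (iso hv m)
  have ne {v : V} (hv : Is v) (m : Mi v) : δ v ≠ 0 := fun k => by
    obtain ⟨y, hy, hb⟩ := ex_mid m hv.2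
    have := d.iso v y m hy
    rw [k, B3.bz] at this
    exact hb ((map_eq_zero φ).1 this.symm)
  have un {v : V} (hv : Is v) (m : Mi v) {a : F}
      (k : g * ι (tc v 1) * g⁻¹ = ι (tc (δ v + a • ee 0) 1 * zz (1 : K0 F))) : A v = a := by
    rw [hA v hv m, map_mul, map_mul, mul_left_inj] at k
    exact uq (d.mi v m) (ne hv m) (iso hv m)
      (e.inj2 (p2 (tc_sq (iso' hv m _) 1)) (p2 (tc_sq (iso' hv m _) 1)) k)
  have h1 (b : F) (v : V) (hv : Is v) (m : Mi v) (hb : b ≠ 0) : A (b • v) = φ b * A v := by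
    apply un (hv.smul hb) (mi_smul m b)
    rw [tc_smul, nm1 h4 hb, mul_one, hA v hv m, d.smul b v m, mul_smul, ← smul_add, tc_smul,
      nm1 h4 ((map_ne_zero φ).2 hb), mul_one]
  have h2 (u v : V) (hu : Is u) (mu : Mi u) (hv : Is v) (mv : Mi v) :
      A (v + bt v u • u) = A v + φ (bt v u) * A u := by
    have e1 : v + bt v u • u = ac (tc u (1 : K0 F)) v := by
      rw [ac_tc hu.1, OneMemClass.coe_one, one_mul]
    apply un (e1 ▸ hv.ac _) (mi_add mv (mi_smul mu _))
    have e2 : δ (v + bt v u • u) + (A v + φ (bt v u) * A u) • ee 0 =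
        ac (tc (δ u + A u • ee 0) (1 : K0 F)) (δ v + A v • ee 0) := by
      rw [ac_tc (iso' hu mu _), OneMemClass.coe_one, one_mul, btl (d.mi v mv).2 (d.mi u mu).2, d.iso v u mv mu,
        d.add _ _ mv (mi_smul mu _), d.smul _ _ mu, add_smul, mul_smul, smul_add]
      abel
    rw [e2, ← tc_cj (iso' hv mv _), e1, ← tc_cj hv.1]
    have c1 := zc (lL (d.mi u mu).2 (A u)) (iso' hu mu _)
    have c2 := zc (lL (d.mi v mv).2 (A v)) (iso' hv mv _)
    have e3 : g * ι (tc u 1 * tc v 1 * (tc u 1)⁻¹) * g⁻¹ =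
        (g * ι (tc u 1) * g⁻¹) * (g * ι (tc v 1) * g⁻¹) * (g * ι (tc u 1) * g⁻¹)⁻¹ := by
      rw [map_mul, map_mul, map_inv]; group
    rw [e3, hA u hu mu, hA v hv mv, ← map_inv, ← map_mul, ← map_mul]
    congr 1
    generalize tc (δ u + A u • ee 0) (1 : K0 F) = U at c1 ⊢
    generalize tc (δ v + A v • ee 0) (1 : K0 F) = W at c2 ⊢
    generalize (zz (1 : K0 F) : X) = Z at c1 c2 ⊢
    calc U * Z * (W * Z) * (U * Z)⁻¹ = U * (Z * W) * U⁻¹ := by group
      _ = U * W * (Z * U⁻¹) := by rw [← c2.eq]; group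
      _ = U * W * U⁻¹ * Z := by rw [← c1.inv_left.eq]; group
  obtain ⟨u, v, mu, mv, o, k⟩ := swp (n := n) h4 (fun v => φ (A v))
    (fun b v hv m hb => by rw [h1 b v hv m hb, map_mul, pp])
    (fun u v hu mu hv mv => by rw [h2 u v hu mu hv mv, map_add, map_mul, pp])
  have hu : Is u := by simpa using o.is (a := 1) (b := 0) (Or.inl one_ne_zero)
  have hv : Is v := by simpa using o.is (a := 0) (b := 1) (Or.inr one_ne_zero)
  have k' (b : F) : g * ι (tc (u + b • v) 1) * g⁻¹ =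
      ι (tc ((δ u + A u • ee 0) + φ b • (δ v + A v • ee 0)) 1 * zz (1 : K0 F)) := by
    have i : Is (u + b • v) := by simpa using o.is (a := 1) (b := b) (Or.inl one_ne_zero)
    have a : A (u + b • v) = A u + φ b * A v := by
      have := congrArg φ (k b)
      rwa [pp, map_add, map_mul, pp, pp] at this
    rw [hA _ i (mi_add mu (mi_smul mv b)), a, d.add _ _ mu (mi_smul mv _), d.smul _ _ mv, add_smul, mul_smul,
      smul_add]
    congr 3
    abel
  obtain ⟨ω, hω⟩ := ex_om (F := F)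
  have hω' : φ ω + σ (φ ω) = 1 := by rw [ps, ← map_add, hω, map_one]
  have uv : bt (δ u + A u • ee 0) (δ v + A v • ee 0) = 0 := by
    rw [btl (d.mi u mu).2 (d.mi v mv).2, d.iso u v mu mv, o.2.2.1, map_zero]
  have f1 := five hu.1 hv.1 o.2.2.1 hω (1 : K0 F)
  have f2 := five (iso' hu mu (A u)) (iso' hv mv (A v)) uv hω' (1 : K0 F)
  have k1 := k' 1
  have k2 := k' ω
  have k3 := k' (1 + ω)
  rw [map_one, one_smul, one_smul] at k1
  rw [map_add, map_one] at k3
  have uL := lL (d.mi u mu).2 (A u)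
  have vL := lL (d.mi v mv).2 (A v)
  have iu := iso' hu mu (A u)
  have iv := iso' hv mv (A v)
  have ku := hA u hu mu
  have kv := hA v hv mv
  generalize δ u + A u • ee 0 = u' at *
  generalize δ v + A v • ee 0 = v' at *
  have cb (b : F) : Commute (tc (u' + b • v') (1 : K0 F)) (zz (1 : K0 F)) := by
    apply zc
    · rw [Pi.add_apply, Pi.smul_apply, uL, vL, smul_zero, add_zero]
    · rw [bt_add_left, bt_add_right, bt_add_right, bt_smul_left, bt_smul_left, bt_smul_right, bt_smul_right,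
        bt_symm u' v', iu, iv, uv]
      simp
  have c2 := zc vL iv
  have c3 := cb 1
  rw [one_smul] at c3
  have c4 := cb (φ ω)
  have c5 := cb (1 + φ ω)
  have zq : (zz (1 : K0 F) : X) * zz 1 = 1 := tc_sq B3.b00 1
  have e4 : g * ι (tc u 1 * tc v 1 * tc (u + v) 1 * tc (u + ω • v) 1 * tc (u + (1 + ω) • v) 1) * g⁻¹ =
      (g * ι (tc u 1) * g⁻¹) * (g * ι (tc v 1) * g⁻¹) * (g * ι (tc (u + v) 1) * g⁻¹) *
        (g * ι (tc (u + ω • v) 1) * g⁻¹) * (g * ι (tc (u + (1 + ω) • v) 1) * g⁻¹) := by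
    simp only [map_mul]; group
  rw [f1, ku, kv, k1, k2, k3, ← map_mul, ← map_mul, ← map_mul, ← map_mul, map_one, mul_one, mul_inv_cancel] at e4
  have e5 : tc u' (1 : K0 F) * zz 1 * (tc v' 1 * zz 1) * (tc (u' + v') 1 * zz 1) * (tc (u' + φ ω • v') 1 * zz 1) *
      (tc (u' + (1 + φ ω) • v') 1 * zz 1) = (zz (1 : K0 F) : X) := by
    generalize tc u' (1 : K0 F) = a at *
    generalize tc v' (1 : K0 F) = b at *
    generalize tc (u' + v') (1 : K0 F) = c at *
    generalize tc (u' + φ ω • v') (1 : K0 F) = p at *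
    generalize tc (u' + (1 + φ ω) • v') (1 : K0 F) = q at *
    generalize (zz (1 : K0 F) : X) = Z at *
    have s (x : X) (c : Commute x Z) : Z * (x * Z) = x := by rw [← mul_assoc, ← c.eq, mul_assoc, zq, mul_one]
    calc a * Z * (b * Z) * (c * Z) * (p * Z) * (q * Z)
        = a * (Z * (b * Z)) * c * (Z * (p * Z)) * q * Z := by simp only [mul_assoc]
      _ = Z := by rw [s b c2, s p c4, f2, one_mul]
  rw [e5, ← map_one ι] at e4
  have e6 := e.inj2 (p2 (one_mul 1)) (p2 zq) e4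
  have e7 : (zz (1 : K0 F) : X) = zz 0 := e6.symm.trans (tc_zero _).symm
  exact one_ne_zero (tc_inj (is_ee (by rw [B3.r0]; exact B3.n0L)) e7)

end UMS
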