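import Cfsg.Agent.Lib.UMS.FV
import Cfsg.Agent.Lib.UMS.Defs2
import Cfsg.Agent.Lib.UMS.B3b
import Cfsg.Agent.Lib.UMS.B6

set_option autoImplicit false
set_option linter.unusedSectionVars false

namespace UMS.S62

open Subgroup H69 Cfsg Matrix U4S
open LMS (XX GX iL kk MM au tw Sg)
open scoped MatrixGroups commutatorElement

universe u
variable {G : Type*} [Group G] [Finite G] {F : Type u} [Field F] [CharP F 2] [Fintype F] [Hs F] {n : ℕ} [Ok n F]
  {ι ψ χ : XU n F →* G} {t : G} {E : Subgroup G}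

local notation "X" => XU n F
local notation "V" => VV n F
local notation "𝐪" => Nat.card (K0 F)
local notation "I" => Fin (n + 3)

theorem eig {u v : V} (hu : Is u) (hv : bt v v = 0) (h : (tc u 1 : X) = tc v 1) : ∃ μ : F, u = μ • v := by
  obtain ⟨y, hy⟩ : ∃ y, bt y u ≠ 0 := by
    by_contra k
    push Not at k
    exact hu.2 (bt_nd k)
  have := congrArg (fun x => ac x y) h
  simp only [ac_tc hu.1, ac_tc hv, OneMemClass.coe_one, one_mul, add_right_inj] at this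
  exact ⟨(bt y u)⁻¹ * bt y v, by rw [mul_smul, ← this, smul_smul, inv_mul_cancel₀ hy, one_smul]⟩

theorem injP (e : Em ι) {x y : X} (hx : x ∈ PP n F) (hy : y ∈ PP n F) (h : ι x = ι y) : x = y :=
  mul_inv_eq_one.1 (PP_cc (mul_mem hx (inv_mem hy)) (e (by
    rw [MonoidHom.mem_ker, map_mul, map_inv, h, mul_inv_cancel])))

theorem dne {g : G} {δ : V → V} {φ : RingAut F} (d : Dl ι g δ φ) {w : V} (hw : w ≠ 0) (hm : Mi w) :
    ∃ j, j ≠ 0 ∧ δ w j ≠ 0 := by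
  obtain ⟨j, hj⟩ := Function.ne_iff.1 hw
  have j0 : j ≠ 0 := fun k => hj (k ▸ hm.1)
  have jL : j ≠ iL := fun k => hj (k ▸ hm.2)
  have m : Mi ((1 : F) • ee j.rev : V) := B3b.mi_ee
    (fun k => jL (by rw [← B3b.r0, ← k, Fin.rev_rev])) (fun k => j0 (by rw [← B3b.rL, ← k, Fin.rev_rev])) 1
  have h1 := d.iso _ _ hm m
  rw [one_smul, bt_ee, Fin.rev_rev] at h1
  by_contra k
  push Not at k
  have : δ w = 0 := funext fun i => by
    by_cases i0 : i = 0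
    · rw [i0]; exact (d.mi _ hm).1
    · exact k i i0
  rw [this, B3.bz] at h1
  exact hj (by simpa using h1.symm)

theorem iso0 {w : V} (hw : bt w w = 0) (hm : w iL = 0) (a : F) : bt (w + a • ee 0) (w + a • ee 0) = 0 := by
  simp only [bt_add_left, bt_add_right, bt_smul_left, bt_smul_right, hw, B3b.b0 hm, B3b.b0' hm, B3b.b00,
    mul_zero, add_zero]

theorem s6s0 (e : Em ι) (hn : 4 ≤ n) {g : G} {δ : V → V} {φ : RingAut F} (d : Dl ι g δ φ)
    (nP : ∀ p ∈ PP n F, ∃ p' ∈ PP n F, g * ι p * g⁻¹ = ι p')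
    (h : ∀ v, Is v → Mi v → ∃ a : F, g * ι (tc v 1) * g⁻¹ = ι (tc (δ v + a • ee 0) 1 * zz (1 : K0 F))) :
    False := by
  obtain ⟨l, l1, ln, -⟩ := ex_n1 (F := F)
  have l0 : l ≠ 0 := fun k => by
    rw [nm_zero.2 k] at l1
    exact zero_ne_one l1
  obtain ⟨dd, hd, d0, d1, d2⟩ := exD3 (n := n) one_ne_zero l0 l0 (Or.inl hn)
  have DP : dgu dd ∈ PP n F := mem_PP.2 (by rw [ac_dgu hd, d0, one_smul])
  obtain ⟨D, PD, hD⟩ := nP _ DP
  have zz2 : (zz 1 : X) * zz 1 = 1 := tc_sq B3b.b00 1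
  have zP : (zz 1 : X) ∈ PP n F := QQ_le (B3.zzQ 1)
  have key : ∀ w, Is w → Mi w → ac (dgu dd) w = l • w → ∃ v, bt v v = 0 ∧ v iL = 0 ∧ ac D v = φ l • v ∧
      g * ι (tc w 1) * g⁻¹ = ι (tc v 1 * zz 1) := fun w hw hm hl => by
    obtain ⟨a, ha⟩ := h w hw hm
    obtain ⟨j, j0, hj⟩ := dne d hw.2 hm
    have i0 : bt (δ w) (δ w) = 0 := by rw [d.iso _ _ hm hm, hw.1, map_zero]
    have i1 := iso0 i0 (d.mi _ hm).2 a
    have ej : (ee 0 : V) j = 0 := by rw [B3b.ee_ap, if_neg j0]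
    have vL : (δ w + a • ee 0 : V) iL = 0 := by simp [(d.mi _ hm).2, B3.e0L]
    have vj : (δ w + a • ee 0 : V) j = δ w j := by simp [ej]
    refine ⟨_, i1, vL, ?_, ha⟩
    have TP := B3b.tc_PP i1 vL 1
    have c1 : dgu dd * tc w 1 = tc w 1 * dgu dd := by
      rw [← mul_inv_eq_iff_eq_mul, tc_cj hw.1, hl, tc_smul, l1, one_mul]
    have c2 := e.comm2 (x := tc (δ w + a • ee 0) 1 * zz 1) (y := D) (P2.of_sq (by
      rw [mul_assoc, ← mul_assoc (zz 1), ← PP_cen TP, mul_assoc, zz2, mul_one, tc_sq i1])) (by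
      rw [← ha, ← hD]
      calc _ = g * ι (tc w 1 * dgu dd) * g⁻¹ := by rw [map_mul]; group
        _ = _ := by rw [← c1, map_mul]; group)
    have c3 : tc (ac D (δ w + a • ee 0)) 1 = tc (δ w + a • ee 0) 1 := by
      rw [← tc_cj i1, mul_inv_eq_iff_eq_mul]
      rw [mul_assoc, ← PP_cen PD, ← mul_assoc, ← mul_assoc] at c2
      exact (mul_right_cancel c2).symm
    obtain ⟨μ, hμ⟩ := eig (Is.ac ⟨i1, fun k => hj (by rw [← vj, k]; rfl)⟩ D) i1 c3
    obtain ⟨x, hx, cx⟩ := cv_surj hm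
    obtain ⟨x', hx', e1, e2⟩ := d.act x hx
    have yQ := (mem_normalizer_iff.1 (PP_nQ DP) x).1 hx
    obtain ⟨y', hy', e3, e4⟩ := d.act _ yQ
    have e5 : cv (dgu dd * x * (dgu dd)⁻¹) = l • w := funext fun i => by
      by_cases i0 : i = 0
      · rw [i0, (cv_mi _).1]; simp [hm.1]
      · rw [cv_cj DP hx i0, cx, hl]
    have e6 : y' = D * x' * D⁻¹ := injP e (QQ_le hy') (mul_mem (mul_mem PD (QQ_le hx')) (inv_mem PD)) (by
      rw [← e3]
      simp only [map_mul, map_inv, ← hD, ← e1]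
      group)
    have e7 := congrFun e4 j
    rw [e6, cv_cj PD hx' j0, e2, cx, e5, d.smul _ _ hm] at e7
    have e8 := congrFun hμ j
    rw [ac_add, ac_smul, mem_PP.1 PD, Pi.add_apply, e7] at e8
    simp only [Pi.smul_apply, smul_eq_mul, ej, mul_zero, add_zero, vj] at e8
    rw [hμ, mul_right_cancel₀ hj e8]
  obtain ⟨a1, a2, a5, -, -, a3, a4, a6, a7, a8⟩ := B3b.i1 n F
  have o : Ot (ee 1 : V) (ee 2) := by
    have := ot_ee (n := n) (F := F) (i := 1) (j := (2 : I).rev)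
      ⟨a8.symm, fun k => a7 (Fin.rev_inj.1 k), a5, by rw [Fin.rev_rev]; exact a6.symm⟩
    rwa [Fin.rev_rev] at this
  have k1 : ac (dgu dd) (ee 1) = l • ee 1 := by rw [ac_dgu hd, d1]
  have k2 : ac (dgu dd) (ee 2) = l • ee 2 := by rw [ac_dgu hd, d2]
  have m1 : Mi (ee 1 : V) := by simpa using B3b.mi_ee (F := F) a1 a2 1
  have m2 : Mi (ee 2 : V) := by simpa using B3b.mi_ee (F := F) a3 a4 1
  have k3 : ∀ b : F, ∃ v, bt v v = 0 ∧ v iL = 0 ∧ ac D v = φ l • v ∧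
      g * ι (tc (ee 1 + b • ee 2) 1) * g⁻¹ = ι (tc v 1 * zz 1) := fun b => key _
    (by simpa using o.is (a := 1) (b := b) (Or.inl one_ne_zero))
    ⟨by simp [m1.1, m2.1], by simp [m1.2, m2.2]⟩ (by rw [ac_add, ac_smul, k1, k2, smul_add, smul_comm])
  obtain ⟨ω, hω⟩ := ex_om (F := F)
  have f := five o.1 o.2.1 o.2.2.1 hω 1
  obtain ⟨v1, p1, q1, r1, s1⟩ := key _ (by simpa using o.is (a := 1) (b := 0) (Or.inl one_ne_zero)) m1 k1
  obtain ⟨v2, p2, q2, r2, s2⟩ := key _ (by simpa using o.is (a := 0) (b := 1) (Or.inr one_ne_zero)) m2 k2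
  obtain ⟨v3, p3, q3, r3, s3⟩ := k3 1
  obtain ⟨v4, p4, q4, r4, s4⟩ := k3 ω
  obtain ⟨v5, p5, q5, r5, s5⟩ := k3 (1 + ω)
  rw [one_smul] at s3
  have T := fun {v : V} (p : bt v v = 0) (q : v iL = 0) => B3b.tc_PP p q 1
  have f1 : (tc v1 1 * zz 1) * (tc v2 1 * zz 1) * (tc v3 1 * zz 1) * (tc v4 1 * zz 1) * (tc v5 1 * zz 1) = (1 : X) := by
    refine injP e (mul_mem (mul_mem (mul_mem (mul_mem (mul_mem (T p1 q1) zP) (mul_mem (T p2 q2) zP))
      (mul_mem (T p3 q3) zP)) (mul_mem (T p4 q4) zP)) (mul_mem (T p5 q5) zP)) (one_mem _) ?_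
    rw [map_mul, map_mul, map_mul, map_mul, ← s1, ← s2, ← s3, ← s4, ← s5]
    have := congrArg (fun x => g * ι x * g⁻¹) f
    simp only [map_mul, map_one, mul_one, mul_inv_cancel] at this
    rw [map_one, ← this]
    group
  have c : ∀ {v : V}, bt v v = 0 → v iL = 0 → ∀ y : X, zz 1 * (tc v 1 * y) = tc v 1 * (zz 1 * y) :=
    fun p q y => by rw [← mul_assoc, ← PP_cen (T p q), mul_assoc]
  have z3 : ∀ y : X, zz 1 * (zz 1 * y) = y := fun y => by rw [← mul_assoc, zz2, one_mul]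
  simp only [mul_assoc, c p2 q2, c p3 q3, c p4 q4, c p5 q5, z3] at f1
  let R : X → Prop := fun x => ∀ y, ac D (ac x y + y) = φ l • (ac x y + y)
  have R1 : ∀ {v : V}, bt v v = 0 → ac D v = φ l • v → R (tc v 1) := fun {v} p r y => by
    rw [ac_tc p, add_right_comm, B3b.two, zero_add, ac_smul, r, smul_comm]
  have R2 : ∀ {x y : X}, R x → R y → R (x * y) := fun {x y} a b u => by
    have : ac (x * y) u + u = (ac x (ac y u) + ac y u) + (ac y u + u) := by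
      rw [ac_mul, add_assoc, ← add_assoc (ac y u), B3b.two, zero_add]
    rw [this, ac_add, a, b, ← smul_add]
  have f2 : tc v1 1 * (tc v2 1 * (tc v3 1 * (tc v4 1 * tc v5 1))) = (zz 1 : X) := by
    rw [← mul_inv_eq_one, inv_eq_of_mul_eq_one_right zz2]
    simpa only [mul_assoc] using f1
  have R3 := (f2 ▸ R2 (R1 p1 r1) (R2 (R1 p2 r2) (R2 (R1 p3 r3) (R2 (R1 p4 r4) (R1 p5 r5)))) : R (zz 1)) (ee iL)
  rw [B3.ac_zz, add_right_comm, B3b.two, zero_add, ac_smul, mem_PP.1 PD] at R3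
  have := congrFun R3 0
  simp only [Pi.smul_apply, smul_eq_mul, B3.e00, B3.eLL, OneMemClass.coe_one, mul_one] at this
  exact ln (φ.injective (by rw [← this, map_one]))

theorem s6s (e : Em ι) (h4 : Nat.card F = 4) {g : G} (k : Nz ι g) {δ : V → V} {φ : RingAut F} (d : Dl ι g δ φ)
    (h : ∀ v, Is v → Mi v → ∃ a : F, g * ι (tc v 1) * g⁻¹ = ι (tc (δ v + a • ee 0) 1 * zz (1 : K0 F))) :
    False := by
  have hn : 4 ≤ n := by
    have h3 := Ok.h3 (n := n) (F := F)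
    have h5 := Ok.h (n := n) (F := F)
    omega
  exact s6s0 e hn d (fun p hp => by
    obtain ⟨p', a, b⟩ := (mem_normalizer_iff.1 k.nP _).1 (mem_map_of_mem ι hp)
    exact ⟨p', a, b.symm⟩) h

theorem k01 (h4 : Nat.card F = 4) (c : K0 F) : c = 0 ∨ c = 1 := by
  have h2 : 𝐪 = 2 := by
    have := card_F (F := F)
    rw [h4] at this
    exact (Nat.pow_left_injective two_ne_zero (show 2 ^ 2 = _ from this)).symm
  obtain ⟨b, -, hb⟩ := (Nat.card_eq_two_iff' (0 : K0 F)).1 h2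
  exact or_iff_not_imp_left.2 fun a0 => (hb c a0).trans (hb 1 one_ne_zero).symm

theorem s6s' (e : Em ι) (h4 : Nat.card F = 4) {g : G} {δ : V → V} {φ : RingAut F} (d : Dl ι g δ φ)
    (h : ∀ v, Is v → Mi v → ∃ a : F, g * ι (tc v 1) * g⁻¹ = ι (tc (δ v + a • ee 0) 1 * zz (1 : K0 F))) :
    False := by
  have hn : 4 ≤ n := by
    have h3 := Ok.h3 (n := n) (F := F)
    have h5 := Ok.h (n := n) (F := F)
    omega
  let R : X → Prop := fun p => ∃ p' ∈ PP n F, g * ι p * g⁻¹ = ι p'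
  have R1 : ∀ x ∈ QQ n F, R x := fun x hx => by
    obtain ⟨x', a, b, -⟩ := d.act x hx
    exact ⟨x', QQ_le a, b⟩
  have R2 : ∀ {x y : X}, R x → R y → R (x * y) := fun ⟨x', a, b⟩ ⟨y', c, k⟩ =>
    ⟨x' * y', mul_mem a c, by rw [map_mul, map_mul, ← b, ← k]; group⟩
  have R3 : ∀ {x : X}, R x → R x⁻¹ := fun ⟨x', a, b⟩ =>
    ⟨x'⁻¹, inv_mem a, by rw [map_inv, map_inv, ← b]; group⟩
  refine s6s0 e hn d (fun p hp => ?_) h
  rw [← PP_gen] at hp
  induction hp using closure_induction with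
  | one => exact R1 1 (one_mem _)
  | mul x y _ _ a b => exact R2 a b
  | inv x _ a => exact R3 a
  | mem x hx =>
    obtain ⟨v, c, hv, vL, rfl⟩ := hx
    rcases k01 h4 c with rfl | rfl
    · rw [tc_zero]; exact R1 1 (one_mem _)
    obtain ⟨w, hm, hw⟩ : ∃ w : V, Mi w ∧ v = w + v 0 • ee 0 :=
      ⟨v + v 0 • ee 0, ⟨by simp [B3.e00, B3.two], by simp [vL, B3.e0L]⟩, by rw [add_assoc, B3b.two, add_zero]⟩
    have w0 : bt w w = 0 := by
      have := iso0 hv.1 vL (v 0)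
      rwa [show v + v 0 • ee 0 = w by nth_rewrite 1 [hw]; rw [add_assoc, B3b.two, add_zero]] at this
    by_cases k : w = 0
    · rw [hw, k, zero_add, tc_smul]
      exact R1 _ (B3.zzQ _)
    obtain ⟨j, hj⟩ := Function.ne_iff.1 k
    have j0 : j ≠ 0 := fun k => hj (k ▸ hm.1)
    have jL : j ≠ iL := fun k => hj (k ▸ hm.2)
    obtain ⟨x, hx, cx⟩ := cv_surj (B3b.mi_ee (j := j.rev)
      (fun k => jL (by rw [← B3b.r0, ← k, Fin.rev_rev])) (fun k => j0 (by rw [← B3b.rL, ← k, Fin.rev_rev]))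
      (σ (v 0 * (w j)⁻¹)))
    have e1 : ac x w = v := by
      rw [ac_QQ hx hm.2, cx, bt_smul_right, sg_sg, bt_ee, Fin.rev_rev, inv_mul_cancel_right₀ hj, ← hw]
    rw [← e1, ← tc_cj w0]
    obtain ⟨a, ha⟩ := h w ⟨w0, k⟩ hm
    have i0 : bt (δ w) (δ w) = 0 := by rw [d.iso _ _ hm hm, w0, map_zero]
    exact R2 (R2 (R1 x hx) ⟨_, mul_mem (B3b.tc_PP (iso0 i0 (d.mi _ hm).2 a)
      (by simp [(d.mi _ hm).2, B3.e0L]) 1) (QQ_le (B3.zzQ 1)), ha⟩) (R3 (R1 x hx))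

end UMS.S62
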