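import Cfsg.Agent.Lib.UMS.B6
import Cfsg.Agent.Lib.UMS.B2
import Cfsg.Agent.Lib.UMS.B3b

set_option autoImplicit false
set_option linter.unusedSectionVars false

namespace UMS

open Subgroup H69 Cfsg Matrix U4S
open LMS (XX GX iL kk MM au tw Sg)
open scoped MatrixGroups commutatorElement

universe u
variable {G : Type*} [Group G] [Finite G] {F : Type u} [Field F] [CharP F 2] [Fintype F] [Hs F] {n : ℕ} [Ok n F]
  {ι ψ χ : XU n F →* G} {t : G} {E : Subgroup G}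

local notation "X" => XU n F
local notation "V" => VV n F
local notation "𝐪" => Nat.card (K0 F)
local notation "I" => Fin (n + 3)
local notation "Mx" => Matrix (Fin (n + 3)) (Fin (n + 3)) F

namespace SAM

local notation "PT " a:max => (tc (ee 1 + a • ee 0 : VV n F) 1 : XU n F)

theorem two (a : F) : a + a = 0 := CharTwo.add_self_eq_zero a

theorem q2 (h4 : Nat.card F = 4) : 𝐪 = 2 := by
  have h := card_F (F := F)
  rw [h4] at h
  have : 𝐪 ^ 2 = 2 ^ 2 := by omega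
  exact Nat.pow_left_injective (by norm_num) this

theorem k01 (h4 : Nat.card F = 4) (c : K0 F) : c = 0 ∨ c = 1 := by
  have h : σ (c : F) = c := c.2
  rw [sg_pow, q2 h4] at h
  rcases eq_or_ne (c : F) 0 with e | e
  · exact Or.inl (Subtype.ext e)
  · refine Or.inr (Subtype.ext ?_)
    rw [sq] at h
    exact mul_left_cancel₀ e (h.trans (mul_one _).symm)

theorem nm1 (h4 : Nat.card F = 4) {a : F} (ha : a ≠ 0) : nm a = 1 :=
  (k01 h4 _).resolve_left fun e => ha (nm_zero.1 e)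

theorem cub (h4 : Nat.card F = 4) {a : F} (h0 : a ≠ 0) (h1 : a ≠ 1) : a * a + a + 1 = 0 := by
  have h : a * σ a = 1 := congrArg Subtype.val (nm1 h4 h0)
  rw [sg_pow, q2 h4] at h
  have : (a - 1) * (a * a + a + 1) = 0 := by linear_combination h
  exact (mul_eq_zero.1 this).resolve_left (sub_ne_zero.2 h1)

theorem f4 (h4 : Nat.card F = 4) {x y : F} (x0 : x ≠ 0) (x1 : x ≠ 1) (y0 : y ≠ 0) (y1 : y ≠ 1) (h : x ≠ y) :
    y = x⁻¹ := by
  have a := cub h4 x0 x1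
  have b := cub h4 y0 y1
  have : (x - y) * (x + y + 1) = 0 := by linear_combination a - b
  have c := (mul_eq_zero.1 this).resolve_left (sub_ne_zero.2 h)
  refine eq_inv_of_mul_eq_one_right ?_
  linear_combination x * c - a - two (1 : F) + two (1 : F) + 0 * two x

theorem b00 : bt (ee 0 : V) (ee 0) = 0 := WIT.ot01.1
theorem b11 : bt (ee 1 : V) (ee 1) = 0 := WIT.ot01.2.1
theorem b01 : bt (ee 0 : V) (ee 1) = 0 := WIT.ot01.2.2.1
theorem b10 : bt (ee 1 : V) (ee 0) = 0 := by rw [bt_symm, b01, map_zero]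

theorem pl (a b c d : F) : bt (a • ee 1 + b • ee 0 : V) (c • ee 1 + d • ee 0) = 0 := by
  simp only [bt_add_left, bt_add_right, bt_smul_left, bt_smul_right, b00, b11, b01, b10, mul_zero, add_zero]

theorem iso (a : F) : bt (ee 1 + a • ee 0 : V) (ee 1 + a • ee 0) = 0 := by
  simpa using pl (n := n) 1 a 1 a

theorem ex_x {s : F} (hs : s ≠ 0) (μ : F) : ∃ x : X, ac x (ee 0) = s • ee 0 ∧ ac x (ee 1) = ee 1 + μ • ee 0 := by
  refine wit2 ⟨?_, iso μ, ?_, ?_⟩
  · simpa using pl (n := n) 0 s 0 s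
  · simpa using pl (n := n) 0 s 1 μ
  · rw [LinearIndependent.pair_iff]
    intro p r e
    obtain ⟨h1, h2⟩ := LinearIndependent.pair_iff.1 (WIT.ot01 (n := n) (F := F)).2.2.2 (p * s + r * μ) r
      (by rw [← e]; module)
    rw [h2, zero_mul, add_zero] at h1
    exact ⟨(mul_eq_zero.1 h1).resolve_right hs, h2⟩

theorem cjP {x : X} {s μ : F} (h0 : ac x (ee 0) = s • ee 0) (h1 : ac x (ee 1) = ee 1 + μ • ee 0) (a : F) :
    x * PT a * x⁻¹ = PT (μ + a * s) := by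
  rw [tc_cj (iso a), ac_add, ac_smul, h0, h1]
  congr 1
  module

theorem cjZ (h4 : Nat.card F = 4) {x : X} {s : F} (hs : s ≠ 0) (h0 : ac x (ee 0) = s • ee 0) :
    x * zz 1 * x⁻¹ = zz 1 := by
  unfold zz
  rw [tc_cj b00, h0, tc_smul, nm1 h4 hs, mul_one]

theorem dec (a : F) : PT a = tc (ee 0) (nm a * 1) * tc (ee 1) 1 * sh (a • ee 0) (ee 1) := by
  have i0 : bt (a • ee 0 : V) (a • ee 0) = 0 := by simpa using pl (n := n) 0 a 0 a
  have i1 : bt (a • ee 0 : V) (ee 1) = 0 := by simpa using pl (n := n) 0 a 1 0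
  have i2 : bt (a • ee 0 : V) (ee 1 + a • ee 0) = 0 := by simpa using pl (n := n) 0 a 1 a
  have i3 : bt (ee 1 : V) (ee 1 + a • ee 0) = 0 := by simpa using pl (n := n) 1 0 1 a
  rw [sh_tc i0 b11 i1, ← tc_smul, add_comm (a • ee 0 : V)]
  have c1 := tc_comm i0 (iso a) i2 1 1
  have c2 := tc_comm b11 (iso a) i3 1 1
  have c3 := tc_comm i0 b11 i1 1 1
  have s1 := tc_sq i0 1
  have s2 := tc_sq (b11 (n := n) (F := F)) 1
  generalize tc (a • ee 0 : V) 1 = A at *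
  generalize tc (ee 1 + a • ee 0 : V) 1 = C at *
  generalize tc (ee 1 : V) 1 = B at *
  calc C = C * (A * (A * (B * B))) := by rw [s2, mul_one, s1, mul_one]
    _ = C * (A * (B * A * B)) := by rw [← c3]; simp only [mul_assoc]
    _ = A * C * B * (A * B) := by rw [c1]; simp only [mul_assoc]
    _ = A * (B * C) * (A * B) := by rw [c2]; simp only [mul_assoc]
    _ = _ := by simp only [mul_assoc]

theorem inj (e : Em ι) {a b : F} (h : ι (PT a) = ι (PT b)) : a = b := by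
  have p : ∀ c : F, P2 (PT c) := fun c => ⟨1, by rw [pow_one, sq]; exact tc_sq (iso c) 1⟩
  have := e.inj2 (p a) (p b) h
  rw [dec, dec] at this
  exact (herm_inj WIT.ot01 this).2.2

variable (ι) in
/-- centralises the five transvections -/
def Fx (y : G) : Prop := Commute y (ι (zz 1)) ∧ ∀ a : F, Commute y (ι (PT a))

theorem eqns : True := by
  have := @Fx.eq_1.{0, 0}
  trivial

theorem Fx.mul {y y' : G} (h : Fx ι y) (k : Fx ι y') : Fx ι (y * y') :=
  ⟨h.1.mul_left k.1, fun a => (h.2 a).mul_left (k.2 a)⟩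

theorem Fx.cn (h4 : Nat.card F = 4) {y : G} (h : Fx ι y) : Cn ι (JD n F 2) y := by
  have z : ∀ c, Commute y (ι (tc (ee 0) c)) := fun c => by
    rcases k01 h4 c with rfl | rfl
    · rw [tc_zero, map_one]; exact Commute.one_right _
    · exact h.1
  have o : ∀ c, Commute y (ι (tc (ee 1) c)) := fun c => by
    rcases k01 h4 c with rfl | rfl
    · rw [tc_zero, map_one]; exact Commute.one_right _
    · simpa using h.2 0
  intro x hx
  obtain ⟨a, b, c, rfl⟩ := mem_JD2.1 hx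
  have e : (sh (c • ee 0) (ee 1) : X) = (tc (ee 0) (nm c * 1) * tc (ee 1) 1)⁻¹ * PT c := by
    rw [dec]; group
  rw [e]
  simp only [map_mul, map_inv]
  exact (((z a).mul_right (o b)).mul_right (((z _).mul_right (o _)).inv_right.mul_right (h.2 c))).eq

theorem cmcj {y a b : G} (h : Commute y b) : Commute (a * y * a⁻¹) (a * b * a⁻¹) := by
  have := h.eq
  change _ = _
  calc a * y * a⁻¹ * (a * b * a⁻¹) = a * (y * b) * a⁻¹ := by group
    _ = a * (b * y) * a⁻¹ := by rw [this]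
    _ = _ := by group

theorem shift (h : C1 ι t) (h4 : Nat.card F = 4) {y : G} (f : Fx ι y) (e : y * t * y⁻¹ = t * ι (zz 1 * PT (0 : F)))
    (a : F) : ∃ y', Fx ι y' ∧ y' * t * y'⁻¹ = t * ι (zz 1 * PT a) := by
  obtain ⟨x, h0, h1⟩ := ex_x (n := n) (one_ne_zero (α := F)) a
  have z := cjZ h4 one_ne_zero h0
  refine ⟨ι x * y * (ι x)⁻¹, ⟨?_, fun b => ?_⟩, ?_⟩
  · rw [← z, map_mul, map_mul, map_inv]; exact cmcj f.1
  · have := cjP h0 h1 (a + b)
    rw [mul_one, ← add_assoc, two, zero_add] at this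
    rw [← this, map_mul, map_mul, map_inv]; exact cmcj (f.2 _)
  · have p := cjP h0 h1 0
    rw [zero_mul, add_zero] at p
    have c := h.tc x
    have c' : (ι x)⁻¹ * t * ι x = t := by rw [mul_assoc, c]; group
    calc ι x * y * (ι x)⁻¹ * t * (ι x * y * (ι x)⁻¹)⁻¹ = ι x * (y * ((ι x)⁻¹ * t * ι x) * y⁻¹) * (ι x)⁻¹ := by group
      _ = ι x * t * ι (zz 1 * PT (0 : F)) * (ι x)⁻¹ := by rw [c', e]; group
      _ = t * ι (x * zz 1 * x⁻¹ * (x * PT (0 : F) * x⁻¹)) := by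
        rw [← c]; simp only [map_mul, map_inv]; group
      _ = _ := by rw [z, p]

theorem comb {y y' : G} {a b : F} (f : Fx ι y) (e : y * t * y⁻¹ = t * ι (zz 1 * PT a))
    (e' : y' * t * y'⁻¹ = t * ι (zz 1 * PT b)) : y * y' * t * (y * y')⁻¹ = t * ι (PT a * PT b) := by
  have c : Commute y (ι (zz 1 * PT b)) := by rw [map_mul]; exact f.1.mul_right (f.2 b)
  have i : bt (ee 0 : V) (ee 1 + a • ee 0) = 0 := by simpa using pl (n := n) 0 1 1 a
  have c1 : (zz 1 : X) * PT a = PT a * zz 1 := tc_comm b00 (iso a) i 1 1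
  have s : (zz 1 : X) * zz 1 = 1 := tc_sq b00 1
  calc y * y' * t * (y * y')⁻¹ = y * (y' * t * y'⁻¹) * y⁻¹ := by group
    _ = y * t * y⁻¹ * (y * ι (zz 1 * PT b) * y⁻¹) := by rw [e']; group
    _ = t * ι (zz 1 * PT a * (zz 1 * PT b)) := by rw [e, c.eq, map_mul ι (zz 1 * PT a)]; group
    _ = _ := by rw [c1, mul_assoc (PT a), ← mul_assoc (zz 1), s, one_mul]

theorem fin (h : C1 ι t) (h4 : Nat.card F = 4) {y : G} (f : Fx ι y) (e : y * t * y⁻¹ = t * ι (zz 1 * PT (0 : F))) :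
    ∃ y, Fx ι y ∧ y * t * y⁻¹ = t * ι (zz 1) := by
  obtain ⟨ω, hω⟩ := ex_om (F := F)
  obtain ⟨y1, f1, e1⟩ := shift h h4 f e ω
  obtain ⟨y2, f2, e2⟩ := shift h h4 f e 1
  obtain ⟨y3, f3, e3⟩ := shift h h4 f e (ω + 1)
  have k := B3b.four (n := n) (c := 1) b00 b11 b01 hω
  have a := comb f1 e1 e2
  have b := comb f3 e3 e
  have c : Commute (y1 * y2) (ι (PT (ω + 1) * PT (0 : F))) := by
    rw [map_mul]; exact ((f1.mul f2).2 _).mul_right ((f1.mul f2).2 _)
  refine ⟨y1 * y2 * (y3 * y), (f1.mul f2).mul (f3.mul f), ?_⟩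
  calc y1 * y2 * (y3 * y) * t * (y1 * y2 * (y3 * y))⁻¹ = y1 * y2 * (y3 * y * t * (y3 * y)⁻¹) * (y1 * y2)⁻¹ := by group
    _ = y1 * y2 * t * (y1 * y2)⁻¹ * (y1 * y2 * ι (PT (ω + 1) * PT (0 : F)) * (y1 * y2)⁻¹) := by rw [b]; group
    _ = t * ι (PT ω * PT (1 : F) * (PT (ω + 1) * PT (0 : F))) := by
      rw [a, c.eq, map_mul ι (PT ω * PT (1 : F))]; group
    _ = _ := by
      unfold zz
      rw [← k, one_smul, zero_smul, add_zero, add_comm (ee 1 : V), add_comm (ee 1 : V), add_comm (ee 1 : V)]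

theorem nrm (h : C1 ι t) (h4 : Nat.card F = 4) {g : G} (e : g * t * g⁻¹ = t * ι (zz 1))
    (z : g * ι (zz 1) * g⁻¹ = ι (zz 1)) (p : F → F) (k : ∀ a : F, g * ι (PT a) * g⁻¹ = ι (PT (p a)))
    (p0 : p 0 = 0) (p1 : p 1 = 1) : ∃ y, Fx ι y ∧ y * t * y⁻¹ = t * ι (zz 1 * PT (0 : F)) := by
  have pi : ∀ a b, p a = p b → a = b := fun a b r => by
    have := k a
    rw [r, ← k b] at this
    exact inj h.em (by simpa using this)
  have pv : ∀ a, a ≠ 0 → p a ≠ 0 ∧ p a⁻¹ = (p a)⁻¹ := fun a ha => by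
    have n0 : p a ≠ 0 := fun r => ha (pi _ _ (r.trans p0.symm))
    refine ⟨n0, ?_⟩
    rcases eq_or_ne a 1 with rfl | h1
    · rw [inv_one, p1, inv_one]
    · refine f4 h4 n0 (fun r => h1 (pi _ _ (r.trans p1.symm))) (fun r => inv_ne_zero ha (pi _ _ (r.trans p0.symm)))
        (fun r => h1 (inv_eq_one.1 (pi _ _ (r.trans p1.symm)))) fun r => ?_
      have r' := pi _ _ r
      have c := cub h4 ha h1
      have : a * a = 1 := by nth_rewrite 2 [r']; exact mul_inv_cancel₀ ha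
      exact ha (by linear_combination c - this - two (1 : F))
  obtain ⟨b, h0, h1⟩ := wit2 (WIT.ot01 (n := n) (F := F)).symm
  have bz : ι b * ι (zz 1) * (ι b)⁻¹ = ι (PT (0 : F)) := by
    rw [← map_inv, ← map_mul, ← map_mul]; unfold zz; rw [tc_cj b00, h0, zero_smul, add_zero]
  have b0 : ι b * ι (PT (0 : F)) * (ι b)⁻¹ = ι (zz 1) := by
    rw [← map_inv, ← map_mul, ← map_mul]; unfold zz; rw [zero_smul, add_zero, tc_cj b11, h1]
  have ba : ∀ a : F, a ≠ 0 → ι b * ι (PT a) * (ι b)⁻¹ = ι (PT a⁻¹) := fun a ha => by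
    rw [← map_inv, ← map_mul, ← map_mul, tc_cj (iso a), ac_add, ac_smul, h0, h1]
    have : (ee 0 + a • ee 1 : V) = a • (ee 1 + a⁻¹ • ee 0) := by
      rw [smul_add, smul_smul, mul_inv_cancel₀ ha, one_smul, add_comm]
    rw [this, tc_smul, nm1 h4 ha, mul_one]
  have k0 := k 0
  rw [p0] at k0
  have key : ∀ s : G, g * (ι b * s * (ι b)⁻¹) * g⁻¹ = ι b * (g * s * g⁻¹) * (ι b)⁻¹ →
      Commute ((ι b * g)⁻¹ * (g * ι b)) s := fun s r => by
    change _ = _
    calc (ι b * g)⁻¹ * (g * ι b) * s = (ι b * g)⁻¹ * (g * (ι b * s * (ι b)⁻¹) * g⁻¹) * (g * ι b) := by group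
      _ = _ := by rw [r]; group
  refine ⟨(ι b * g)⁻¹ * (g * ι b), ⟨key _ (by rw [bz, k0, z, bz]), fun a => key _ ?_⟩, ?_⟩
  · rcases eq_or_ne a 0 with rfl | ha
    · rw [b0, z, k0, b0]
    · rw [ba a ha, k, k, ba _ (pv a ha).1, (pv a ha).2]
  · have c := h.tc b
    have c1 : ι b * t * (ι b)⁻¹ = t := by rw [← c]; group
    have s : ι (zz 1) * ι (zz 1) = 1 := by rw [← map_mul]; unfold zz; rw [tc_sq b00, map_one]
    have u : ι b * g * (t * ι (zz 1 * PT (0 : F))) * (ι b * g)⁻¹ = t * ι (zz 1) := by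
      calc _ = ι b * (g * t * g⁻¹ * (g * ι (zz 1) * g⁻¹) * (g * ι (PT (0 : F)) * g⁻¹)) * (ι b)⁻¹ := by
            rw [map_mul]; group
        _ = ι b * t * (ι b)⁻¹ * (ι b * ι (PT (0 : F)) * (ι b)⁻¹) := by
            rw [e, z, k0, mul_assoc t, s]; group
        _ = _ := by rw [c1, b0]
    calc _ = (ι b * g)⁻¹ * (g * (ι b * t * (ι b)⁻¹) * g⁻¹) * (ι b * g) := by group
      _ = (ι b * g)⁻¹ * (t * ι (zz 1)) * (ι b * g) := by rw [c1, e]
      _ = _ := by rw [← u]; group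

end SAM

open SAM

theorem sam (h : C1 ι t) (h4 : Nat.card F = 4) {g : G} (e : g * t * g⁻¹ = t * ι (zz 1)) (z : Cn ι (ZZ n F) g)
    (k : ∀ a : F, ∃ a' : F, g * ι (tc (ee 1 + a • ee 0) 1) * g⁻¹ = ι (tc (ee 1 + a' • ee 0) 1)) :
    ∃ y, Cn ι (JD n F 2) y ∧ y * t * y⁻¹ = t * ι (zz 1) := by
  choose p k using k
  have z1 : g * ι (zz 1) * g⁻¹ = ι (zz 1) := by rw [z _ (mem_ZZ.2 ⟨1, rfl⟩)]; group
  have hs : p 1 - p 0 ≠ 0 := fun r => by
    have := k 1
    rw [sub_eq_zero.1 r, ← k 0] at this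
    exact one_ne_zero (inj (a := 1) (b := 0) h.em (by simpa only [mul_left_inj, mul_right_inj] using this))
  obtain ⟨x, h0, h1⟩ := ex_x (n := n) hs (p 0)
  have xz : (ι x)⁻¹ * ι (zz 1) * ι x = ι (zz 1) := by
    nth_rewrite 1 [← cjZ h4 hs h0]; simp only [map_mul, map_inv]; group
  have c := h.tc x
  have c' : (ι x)⁻¹ * t * ι x = t := by rw [mul_assoc, c]; group
  obtain ⟨y, f, ey⟩ := nrm h h4 (g := (ι x)⁻¹ * g) (by
      calc _ = (ι x)⁻¹ * (g * t * g⁻¹) * ι x := by group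
        _ = (ι x)⁻¹ * t * ι x * ((ι x)⁻¹ * ι (zz 1) * ι x) := by rw [e]; group
        _ = _ := by rw [c', xz])
    (by
      calc _ = (ι x)⁻¹ * (g * ι (zz 1) * g⁻¹) * ι x := by group
        _ = _ := by rw [z1, xz])
    (fun a => (p a - p 0) / (p 1 - p 0)) (fun a => by
      have r := cjP h0 h1 ((p a - p 0) / (p 1 - p 0))
      rw [div_mul_cancel₀ _ hs, add_sub_cancel] at r
      calc _ = (ι x)⁻¹ * (g * ι (tc (ee 1 + a • ee 0) 1) * g⁻¹) * ι x := by group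
        _ = _ := by rw [k, ← r]; simp only [map_mul, map_inv]; group)
    (by simp) (div_self hs)
  obtain ⟨y, f, ey⟩ := fin h h4 f ey
  exact ⟨y, f.cn h4, ey⟩

end UMS
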