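import Cfsg.Agent.Lib.UMS.B2b
import Cfsg.Agent.Lib.UMS.H12b

set_option autoImplicit false
set_option linter.unusedSectionVars false

namespace UMS.H41

open Subgroup H69 Cfsg Matrix U4S
open LMS (XX GX iL kk MM au tw Sg)
open scoped MatrixGroups commutatorElement

universe u
variable {F : Type u} [Field F] [CharP F 2] [Fintype F] [Hs F] {n : ℕ} [Ok n F]

local notation "X" => XU n F
local notation "V" => VV n F

theorem ex_dual {W : Submodule F V} {w : V} (h : w ∉ W) : ∃ y, (∀ u ∈ W, bt y u = 0) ∧ bt w y ≠ 0 := by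
  rw [← H12.pp_pp W, H12.mem_pp] at h
  push Not at h
  obtain ⟨y, h1, h2⟩ := h
  exact ⟨y, H12.mem_pp.1 h1, h2⟩

theorem spl3 {J J1 J2 : Subgroup X} (hJ : IsJ J) (h1 : IsJ J1) (h2 : IsJ J2) (h : J ≤ (J ⊓ J1) ⊔ (J ⊓ J2)) :
    J1 = J ∨ J2 = J := by
  have hc := hJ.el
  obtain ⟨W, i0, r0, m0⟩ := hJ.sub
  obtain ⟨W1, -, r1, m1⟩ := h1.sub
  obtain ⟨W2, -, r2, m2⟩ := h2.sub
  by_contra k
  rw [not_or] at k
  have a1 : ¬ W ≤ W1 := fun e => k.1 (by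
    obtain rfl := Submodule.eq_of_le_of_finrank_eq e (r0.trans r1.symm)
    exact Subgroup.ext fun x => (m1 x).trans (m0 x).symm)
  have a2 : ¬ W ≤ W2 := fun e => k.2 (by
    obtain rfl := Submodule.eq_of_le_of_finrank_eq e (r0.trans r2.symm)
    exact Subgroup.ext fun x => (m2 x).trans (m0 x).symm)
  obtain ⟨w, hw, n1, n2⟩ : ∃ w ∈ W, w ∉ W1 ∧ w ∉ W2 := by
    obtain ⟨w1, p1, q1⟩ := SetLike.not_le_iff_exists.1 a1
    obtain ⟨w2, p2, q2⟩ := SetLike.not_le_iff_exists.1 a2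
    by_cases c1 : w1 ∈ W2
    · by_cases c2 : w2 ∈ W1
      · exact ⟨w1 + w2, add_mem p1 p2, fun e => q1 ((W1.add_mem_iff_left c2).1 e),
          fun e => q2 ((W2.add_mem_iff_right c1).1 e)⟩
      · exact ⟨w2, p2, c2, q2⟩
    · exact ⟨w1, p1, q1, c1⟩
  obtain ⟨y1, b1, d1⟩ := ex_dual n1
  obtain ⟨y2, b2, d2⟩ := ex_dual n2
  have hT : tc w 1 ∈ J := (m0 _).2 ⟨fun v => by
    rw [H12.ac_tc (i0 w hw w hw), add_sub_cancel_left]; exact W.smul_mem _ hw, fun v hv => by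
    rw [H12.ac_tc (i0 w hw w hw), hv w hw, mul_zero, zero_smul, add_zero]⟩
  obtain ⟨a, ha, b, hb, e⟩ := (mem_sup_of_le_normalizer_right (le_normalizer_of_le_centralizer
    fun a ha => mem_centralizer_iff.2 fun b hb => hc.comm (mem_inf.1 hb).1 (mem_inf.1 ha).1)).1 (h hT)
  have e1 : bt (ac (a * b) y2) y1 = bt y2 y1 := by
    rw [H12.ac_mul, ((m2 b).1 hb.2).2 y2 b2, ← H12.bt_ac a y2 y1, ((m1 a).1 ha.2).2 y1 b1]
  rw [← e, H12.ac_tc (i0 w hw w hw), H12.bt_add_l, add_eq_left, H12.bt_smul_l, OneMemClass.coe_one, one_mul,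
    mul_eq_zero] at e1
  exact e1.elim (fun z => d2 (H12.bt_sw z)) d1

end UMS.H41
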