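import Cfsg.Agent.Lib.UMS.GEN0
import Cfsg.Agent.Lib.UMS.WIT

/-! Steinberg relations for the components of the doubled short root groups. -/

set_option autoImplicit false
set_option linter.unusedSectionVars false

namespace UMS.H56

open Subgroup H69 Cfsg Matrix U4S
open LMS (XX GX iL kk MM au tw Sg)
open scoped MatrixGroups commutatorElement

universe u
variable {G : Type*} [Group G] [Finite G] {F : Type u} [Field F] [CharP F 2] [Fintype F] [Hs F] {n : ℕ} [Ok n F]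
  {ι : XU n F →* G} {t : G}

local notation "X" => XU n F
local notation "V" => VV n F
local notation "I" => Fin (n + 3)
local notation "Mx" => Matrix (Fin (n + 3)) (Fin (n + 3)) F

theorem jac {x u v : G} (h1 : Commute x v) (h2 : Commute ⁅x, u⁆ ⁅u, v⁆) (h3 : Commute ⁅u, v⁆ v) :
    ⁅x, ⁅u, v⁆⁆ = ⁅⁅x, u⁆, v⁆ := by
  have e1 : x * ⁅u, v⁆ * x⁻¹ = ⁅x, u⁆ * ⁅u, v⁆ * v * ⁅x, u⁆⁻¹ * v⁻¹ := by
    have k : x * v * x⁻¹ = v := by rw [h1.eq, mul_inv_cancel_right]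
    calc _ = x * u * x⁻¹ * (x * v * x⁻¹) * (x * u * x⁻¹)⁻¹ * (x * v * x⁻¹)⁻¹ := by
          simp only [commutatorElement_def]; group
      _ = _ := by rw [k]; simp only [commutatorElement_def]; group
  have e2 : Commute ⁅u, v⁆ ⁅⁅x, u⁆, v⁆ := by
    rw [commutatorElement_def ⁅x, u⁆]
    exact ((h2.symm.mul_right h3).mul_right h2.symm.inv_right).mul_right h3.inv_right
  calc _ = ⁅x, u⁆ * ⁅u, v⁆ * v * ⁅x, u⁆⁻¹ * v⁻¹ * ⁅u, v⁆⁻¹ := by rw [commutatorElement_def x ⁅u, v⁆, e1]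
    _ = ⁅u, v⁆ * ⁅⁅x, u⁆, v⁆ * ⁅u, v⁆⁻¹ := by rw [h2.eq, commutatorElement_def ⁅x, u⁆]; group
    _ = _ := by rw [e2.eq, mul_inv_cancel_right]

theorem cmc {x u v : G} (h1 : Commute x u) (h2 : Commute x v) : Commute x ⁅u, v⁆ := by
  rw [commutatorElement_def]
  exact ((h1.mul_right h2).mul_right h1.inv_right).mul_right h2.inv_right

theorem ex4 (h3 : 3 ≤ n) (a b c d : I) : ∃ p : I, p ≠ p.rev ∧ p ≠ a ∧ p ≠ b ∧ p ≠ c ∧ p ≠ d := by
  by_contra! k
  have k0 := k ⟨0, by omega⟩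
  have k1 := k ⟨1, by omega⟩
  have k2 := k ⟨2, by omega⟩
  have k3 := k ⟨n + 2, by omega⟩
  have k4 := k ⟨n + 1, by omega⟩
  simp only [ne_eq, Fin.ext_iff, Fin.val_rev] at k0 k1 k2 k3 k4
  omega

theorem rv {i j : I} (h : i ≠ j.rev) : j ≠ i.rev := fun e => h (by rw [e, Fin.rev_rev])
theorem rv' {i j : I} (h : i ≠ j) : i.rev ≠ j.rev := fun e => h (Fin.rev_injective e)
theorem nmr {i : I} (h : i ≠ i.rev) : i.rev ≠ i.rev.rev := rv' h

theorem sb_ext (h3 : 3 ≤ n) {y : I → I → F → G} (h : Sb Sh y) :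
    ∃ y1 : I → I → F → G, Sb (fun i j => i ≠ j ∧ i ≠ i.rev ∧ j ≠ j.rev) y1 ∧ ∀ i j, Sh i j → ∀ a, y1 i j a = y i j a := by
  have c0 : ∀ {i j k l : I}, Sh i j → Sh k l → i ≠ l → j ≠ k → ∀ a b, Commute (y i j a) (y k l b) :=
    fun a b c d => h.c0 _ _ _ _ a b c d
  have s2 : ∀ {i l : I}, Sh i l → Sh l i.rev := fun s => ⟨s.2.1, rv' s.1, s.2.2.2, nmr s.2.2.1⟩
  have cb : ∀ {i p k l : I}, Sh i p → Sh k l → i ≠ l → k ≠ i.rev → p ≠ k → p ≠ l → ∀ a b c,
      Commute (y k l c) ⁅y i p a, y p i.rev b⁆ := fun s s' h1 h2 h4 h5 a b c =>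
    cmc (c0 s s' h1 h4 _ _).symm (c0 (s2 s) s' h5 h2.symm _ _).symm
  have a0 : ∀ {i l m : I}, Sh i l → Sh i m → Sh l m → ∀ a b,
      ⁅y i l a, y l i.rev b⁆ = ⁅y i m (a * b), y m i.rev 1⁆ := fun {i l m} s s' s'' a b => by
    have e1 := h.c1 _ _ _ s'' (s2 s') (s2 s) b 1
    have e2 := h.c1 _ _ _ s s'' s' a b
    rw [mul_one] at e1
    rw [← e1, ← e2]
    refine jac (c0 s (s2 s') s.2.2.1 s''.1 _ _) ?_ ?_
    · rw [e1, e2]; exact c0 s' (s2 s) s.2.2.1 s''.1.symm _ _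
    · rw [e1]; exact c0 (s2 s) (s2 s') s.2.1 s'.2.1.symm _ _
  have a1 : ∀ {i l m : I}, Sh i l → Sh i m → ∀ a b,
      ⁅y i l a, y l i.rev b⁆ = ⁅y i m (a * b), y m i.rev 1⁆ := fun {i l m} s s' a b => by
    by_cases k : Sh l m
    · exact a0 s s' k a b
    obtain ⟨p, p0, p1, p2, p3, p4⟩ := ex4 h3 i i.rev l l.rev
    have sp : Sh i p := ⟨p1.symm, p2, s.2.2.1, p0⟩
    have mp : Sh m p := by
      by_cases e : l = m
      · exact e ▸ ⟨p3.symm, p4, s.2.2.2, p0⟩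
      · have e' : m = l.rev := by_contra fun e' => k ⟨e, e', s.2.2.2, s'.2.2.2⟩
        exact ⟨e' ▸ p4.symm, by rw [e', Fin.rev_rev]; exact p3, s'.2.2.2, p0⟩
    rw [a0 s sp ⟨p3.symm, p4, s.2.2.2, p0⟩, a0 s' sp mp, mul_one]
  have exl : ∀ i : I, ∃ l, i ≠ i.rev → Sh i l := fun i => by
    obtain ⟨p, p0, p1, p2, -, -⟩ := ex4 h3 i i.rev i i
    exact ⟨p, fun k => ⟨p1.symm, p2, k, p0⟩⟩
  choose L hL using exl
  obtain ⟨z, hz⟩ : ∃ z : I → F → G, ∀ {i p : I}, Sh i p → ∀ a b, ⁅y i p a, y p i.rev b⁆ = z i (a * b) :=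
    ⟨fun i a => ⁅y i (L i) a, y (L i) i.rev 1⁆, fun s a b => a1 s (hL _ s.2.2.1) a b⟩
  have zc : ∀ {i k l : I}, i ≠ i.rev → Sh k l → i ≠ l → k ≠ i.rev → ∀ a c, Commute (y k l c) (z i a) :=
    fun {i k l} hi s h1 h2 a c => by
      obtain ⟨p, p0, p1, p2, p3, p4⟩ := ex4 h3 i i.rev k l
      have sp : Sh i p := ⟨p1.symm, p2, hi, p0⟩
      rw [← mul_one a, ← hz sp]
      exact cb sp s h1 h2 p3 p4 _ _ _
  have sh : ∀ {i j : I}, i ≠ j ∧ i ≠ i.rev ∧ j ≠ j.rev → j ≠ i.rev → Sh i j := fun r k => ⟨r.1, k, r.2.1, r.2.2⟩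
  refine ⟨fun i j a => if j = i.rev then z i a else y i j a, ⟨fun i j r a b => ?_, fun i j k l r r' h1 h2 a b => ?_,
    fun i j l r r' r'' a b => ?_⟩, fun i j s a => if_neg s.2.1⟩
  · split_ifs with e
    · have s := hL i r.2.1
      have e1 := hz s (b + a) 1
      have e2 := hz s a 1
      have e3 := hz s b 1
      have c := zc r.2.1 s s.1 r.2.1 a b
      rw [mul_one] at e1 e2 e3
      rw [add_comm a, ← e1, ← h.add _ _ s, ← e3]
      calc _ = y i (L i) b * z i a * (y i (L i) b)⁻¹ * ⁅y i (L i) b, y (L i) i.rev 1⁆ := by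
            rw [c.eq, mul_inv_cancel_right]
        _ = _ := by rw [← e2]; simp only [commutatorElement_def]; group
    · exact h.add _ _ (sh r e) a b
  · split_ifs with e e' e'
    · subst e e'
      obtain ⟨p, p0, p1, p2, p3, p4⟩ := ex4 h3 i i.rev k k.rev
      have sp : Sh k p := ⟨p3.symm, p4, r'.2.1, p0⟩
      rw [← mul_one b, ← hz sp]
      exact cmc (zc r.2.1 sp p1.symm h2.symm _ _).symm (zc r.2.1 (s2 sp) h1 p2 _ _).symm
    · exact (zc r.2.1 (sh r' e') h1 (e ▸ h2.symm) _ _).symm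
    · exact zc r'.2.1 (sh r e) h2.symm (e' ▸ h1) _ _
    · exact c0 (sh r e) (sh r' e') h1 h2 _ _
  · by_cases e : j = i.rev
    · subst e
      have e1 : l ≠ i.rev.rev := by rw [Fin.rev_rev]; exact r''.1.symm
      rw [if_pos rfl, if_neg e1, if_neg r'.1.symm]
      obtain ⟨p, p0, p1, p2, p3, p4⟩ := ex4 h3 i i.rev l l.rev
      have sp : Sh i p := ⟨p1.symm, p2, r.2.1, p0⟩
      have pl : Sh p l := ⟨p3, rv p4, p0, r'.2.2⟩
      have sl := sh r' e1
      have il := sh r'' r'.1.symm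
      have k1 := hz sp a 1
      have k2 := h.c1 _ _ _ (s2 sp) sl pl 1 b
      rw [mul_one] at k1
      rw [one_mul] at k2
      rw [← k1, ← jac (c0 sp sl r''.1 p2 _ _), k2, h.c1 _ _ _ sp pl il]
      · rw [k1, k2]; exact (zc r.2.1 pl r''.1 p2 _ _).symm
      · rw [k2]; exact c0 pl sl p3 r'.1.symm _ _
    rw [if_neg e]
    by_cases e' : l = j.rev
    · subst e'
      have e1 : j.rev ≠ i.rev := rv' r.1.symm
      rw [if_pos rfl, if_neg e1]
      obtain ⟨p, p0, p1, p2, p3, p4⟩ := ex4 h3 i i.rev j j.rev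
      have sp : Sh j p := ⟨p3.symm, p4, r.2.2, p0⟩
      have ip : Sh i p := ⟨p1.symm, p2, r.2.1, p0⟩
      have ij := sh r e
      have k1 := hz sp b 1
      have k2 := h.c1 _ _ _ ij sp ip a b
      rw [mul_one] at k1
      rw [← k1, jac (c0 ij (s2 sp) r''.1 p3.symm _ _), k2, h.c1 _ _ _ ip (s2 sp) (sh r'' e1), mul_one]
      · rw [k1, k2]; exact zc r.2.2 ip p3.symm r''.1 _ _
      · rw [k1]; exact (zc r.2.2 (s2 sp) r.2.2 p4 _ _).symm
    rw [if_neg e']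
    split_ifs with e''
    · subst e''
      exact hz (sh r e) a b
    · exact h.c1 _ _ _ (sh r e) (sh r' e') (sh r'' e'') a b

theorem xr_ys (W : V → G) (r : F) (i j : I) (a : F) : XR ι W r (a • ee i) (ee j.rev) = YS ι W i j (r * a) a := by
  rw [XR, YS, sr, smul_smul]

theorem sb_sh {W : V → G} {α : K0 F} (k : Stb ι t W α) {r : F} (h1 : r * r + r = α) (h2 : σ r = r + 1) :
    Sb Sh (fun (i j : I) (a : F) => XR ι W r (a • ee i) (ee j.rev)) := by
  have h3 := Ok.h3 (n := n) (F := F)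
  have t2 : (2 : F) = 0 := CharTwo.two_eq_zero
  simp only [xr_ys]
  have y0 : ∀ i j, Sh i j → YS ι W i j 0 0 = 1 := fun i j s => by
    have := k.yadd i j s 0 0 0 0
    rw [add_zero] at this
    exact mul_eq_left.1 this
  have c1 : ∀ i j l, Sh i j → Sh j l → Sh i l → ∀ a b,
      ⁅YS ι W i j (r * a) a, YS ι W j l (r * b) b⁆ = YS ι W i l (r * (a * b)) (a * b) := fun i j l s s' s'' a b => by
    rw [k.c1 i j l s s' s'']
    congr 1
    · rw [← h1]; linear_combination (r * r * a * b) * t2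
    · linear_combination (r * a * b) * t2
  have A : ∀ {i j l : I}, Sh i j → Sh i.rev l → Sh j.rev l → ∀ a b,
      Commute (YS ι W i j (r * a) a) (YS ι W i.rev l (r * b) b) := fun {i j l} s s' s'' a b => by
    rw [k.sym i j s, ← commutatorElement_eq_one_iff_commute, k.c1 _ _ _ s.rev s' s'', ← y0 _ _ s'', map_mul, h2]
    congr 1
    · rw [← h1]; linear_combination ((r * r + r) * σ a * b) * t2
    · linear_combination ((r + 1) * σ a * b) * t2
  have B : ∀ {i j p : I}, Sh i j → Sh p j.rev → Sh i p.rev → ∀ a b,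
      Commute (YS ι W i j (r * a) a) (YS ι W p j.rev (r * b) b) := fun {i j p} s s' s'' a b => by
    have e := k.sym p j.rev s' (r * b) b
    have s3 := s'.rev
    rw [Fin.rev_rev] at e s3
    rw [e, ← commutatorElement_eq_one_iff_commute, k.c1 _ _ _ s s3 s'', ← y0 _ _ s'', map_mul, h2]
    congr 1
    · rw [← h1]; linear_combination ((r * r + r) * a * σ b) * t2
    · linear_combination ((r + 1) * a * σ b) * t2
  have C : ∀ {i j p l : I}, Sh i j → Sh p l → i ≠ l → j ≠ p → p ≠ i → p ≠ i.rev → ∀ a b,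
      Commute (YS ι W i j (r * a) a) (YS ι W p l (r * b) b) := fun {i j p l} s s' e1 e2 e3 e4 a b => by
    by_cases e : l = j.rev
    · subst e
      exact B s s' ⟨rv e4, rv' e3, s.2.2.1, nmr s'.2.2.1⟩ a b
    · exact k.c0 i j p l s s' e1 e2 e4 e _ _ _ _
  have D : ∀ {i j l : I}, Sh i j → Sh i.rev l → i ≠ l → ∀ a b,
      Commute (YS ι W i j (r * a) a) (YS ι W i.rev l (r * b) b) := fun {i j l} s s' e1 a b => by
    by_cases e : Sh j.rev l
    · exact A s s' e a b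
    obtain ⟨p, p0, p1, p2, p3, p4⟩ := ex4 h3 i i.rev j j.rev
    have e' : l = j ∨ l = j.rev := by
      by_contra! e'
      exact e ⟨e'.2.symm, by rw [Fin.rev_rev]; exact e'.1, nmr s.2.2.2, s'.2.2.2⟩
    have ip : Sh i.rev p := ⟨p2.symm, by rw [Fin.rev_rev]; exact p1, s'.2.2.1, p0⟩
    have pl : Sh p l := by
      rcases e' with rfl | rfl
      exacts [⟨p3, rv p4, p0, s'.2.2.2⟩, ⟨p4, rv' p3.symm, p0, s'.2.2.2⟩]
    rw [← mul_one b, ← c1 _ _ _ ip pl s']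
    exact cmc (A s ip ⟨p4.symm, by rw [Fin.rev_rev]; exact p3, nmr s.2.2.2, p0⟩ _ _) (C s pl e1 p3.symm p1 p2 _ _)
  refine ⟨fun i j s a b => by rw [k.yadd i j s, mul_add], fun i j p l s s' e1 e2 a b => ?_, c1⟩
  by_cases e : p = i.rev
  · subst e
    exact D s s' e1 a b
  by_cases e' : p = i
  · subst e'
    by_cases e'' : l = j.rev
    · subst e''
      obtain ⟨m, p0, p1, p2, p3, p4⟩ := ex4 h3 p p.rev j j.rev
      have pm : Sh p m := ⟨p1.symm, p2, s.2.2.1, p0⟩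
      have mj : Sh m j.rev := ⟨p4, rv' p3.symm, p0, s'.2.2.2⟩
      rw [← mul_one b, ← c1 _ _ _ pm mj s']
      exact cmc (k.c0 _ _ _ _ s pm p1.symm e2 e p4 _ _ _ _) (C s mj e1 p3.symm p1 p2 _ _)
    · exact k.c0 _ _ _ _ s s' e1 e2 e e'' _ _ _ _
  · exact C s s' e1 e2 e' e a b

end UMS.H56
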